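import Cfsg.Agent.Gun.Jt

/-!
# Cyclic summands, centralizers of endomorphisms (S4537 project)
-/

set_option autoImplicit false
set_option linter.unusedSectionVars false
set_option linter.unusedVariables false
set_option linter.style.haveILetI false

namespace Cfsg.Gun

open Module Finset Function Gln Polynomial

universe u

variable {F : Type u} [Field F] [Finite F] {V W V₁ V₂ : Type*} [AddCommGroup V] [Module F V] [Finite V]
  [AddCommGroup W] [Module F W] [Finite W] [AddCommGroup V₁] [Module F V₁] [Finite V₁]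
  [AddCommGroup V₂] [Module F V₂] [Finite V₂] {f g : F[X]} {e : ℕ} {x : End F V}

section loc

variable (hf : Irreducible f)
include hf

theorem isUnit_mk_pow {q : F[X]} (hq : ¬ f ∣ q) (n : ℕ) : IsUnit (AdjoinRoot.mk (f ^ n) q) := by
  obtain ⟨a, b, h⟩ := (hf.coprime_iff_not_dvd.2 hq).pow_left (m := n)
  refine IsUnit.of_mul_eq_one_right (AdjoinRoot.mk _ b) ?_
  rw [← map_mul, eq_sub_of_add_eq' h, map_sub, map_mul, AdjoinRoot.mk_self, mul_zero, sub_zero, map_one]

theorem loc_soc_ne : AdjoinRoot.mk (f ^ (e + 1)) (f ^ e) ≠ 0 := fun h => by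
  have := (pow_dvd_pow_iff hf.ne_zero hf.not_isUnit).1 (AdjoinRoot.mk_eq_zero.1 h)
  omega

theorem loc_exists_mul {a : AdjoinRoot (f ^ (e + 1))} (ha : a ≠ 0) :
    ∃ b, b * a = AdjoinRoot.mk _ (f ^ e) := by
  obtain ⟨p, rfl⟩ := AdjoinRoot.mk_surjective a
  obtain ⟨j, q, hq, rfl⟩ := WfDvdMonoid.max_power_factor (a₀ := p) (by rintro rfl; simp at ha) hf
  obtain ⟨i, rfl⟩ : ∃ i, e = j + i := Nat.exists_eq_add_of_le (by
    by_contra h
    exact ha (AdjoinRoot.mk_eq_zero.2 ((pow_dvd_pow f (by omega)).mul_right q)))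
  obtain ⟨u, hu⟩ := (isUnit_mk_pow hf hq (j + i + 1)).exists_left_inv
  refine ⟨u * AdjoinRoot.mk _ (f ^ i), ?_⟩
  rw [map_mul, pow_add f j i, map_mul]
  linear_combination (AdjoinRoot.mk _ (f ^ j) * AdjoinRoot.mk _ (f ^ i)) * hu

theorem loc_isUnit_iff {a : AdjoinRoot (f ^ (e + 1))} :
    IsUnit a ↔ AdjoinRoot.mk _ (f ^ e) * a ≠ 0 := by
  refine ⟨fun h => mt h.mul_left_eq_zero.1 (loc_soc_ne hf), fun h => ?_⟩
  obtain ⟨p, rfl⟩ := AdjoinRoot.mk_surjective a
  refine isUnit_mk_pow hf ?_ _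
  rintro ⟨r, rfl⟩
  exact h (by rw [← map_mul, ← mul_assoc, ← pow_succ, map_mul, AdjoinRoot.mk_self, zero_mul])

theorem loc_exists_eq {a : AdjoinRoot (f ^ (e + 1))} (h : AdjoinRoot.mk _ f * a = 0) :
    ∃ b, a = b * AdjoinRoot.mk _ (f ^ e) := by
  obtain ⟨p, rfl⟩ := AdjoinRoot.mk_surjective a
  rw [← map_mul, AdjoinRoot.mk_eq_zero, pow_succ', mul_dvd_mul_iff_left hf.ne_zero] at h
  obtain ⟨r, rfl⟩ := h
  exact ⟨AdjoinRoot.mk _ r, by rw [map_mul, mul_comm]⟩

end loc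

/-- The action of `F[X]/(g)`. -/
noncomputable def act (x : End F V) (hx : aeval x g = 0) : AdjoinRoot g →ₐ[F] End F V :=
  Ideal.Quotient.liftₐ (Ideal.span {g}) (aeval x) fun a ha => by
    obtain ⟨b, rfl⟩ := Ideal.mem_span_singleton'.1 ha
    rw [map_mul, hx, mul_zero]

theorem act_mk (hx : aeval x g = 0) (p : F[X]) : act x hx (AdjoinRoot.mk g p) = aeval x p := rfl

theorem act_root (hx : aeval x g = 0) : act x hx (AdjoinRoot.root g) = x := aeval_X x

theorem itw_aeval {y : End F W} {φ : W →ₗ[F] V} (h : ∀ w, φ (y w) = x (φ w)) (p : F[X]) (w : W) :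
    φ (aeval y p w) = aeval x p (φ w) := by
  induction p using Polynomial.induction_on generalizing w with
  | C a => simp
  | add p q hp hq => simp [hp, hq]
  | monomial n a ih => rw [pow_succ, ← mul_assoc, map_mul, map_mul (aeval x), aeval_X, aeval_X,
      End.mul_apply, End.mul_apply, ih, h]

theorem commute_act (hx : aeval x g = 0) {y : End F V} (h : y * x = x * y) (a : AdjoinRoot g) :
    y * act x hx a = act x hx a * y := by
  obtain ⟨p, rfl⟩ := AdjoinRoot.mk_surjective a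
  exact LinearMap.ext (itw_aeval (fun w => congrArg (· w) h) p)

theorem aeval_cyc' (g p : F[X]) (a : AdjoinRoot g) : aeval (cyc g) p a = AdjoinRoot.mk g p * a := by
  have : cyc g = Algebra.lmul F (AdjoinRoot g) (AdjoinRoot.root g) := rfl
  rw [this, aeval_algHom_apply, AdjoinRoot.aeval_eq]
  rfl

/-- The cyclic submodule generated by `v`. -/
noncomputable def evv (hx : aeval x g = 0) (v : V) : AdjoinRoot g →ₗ[F] V :=
  LinearMap.applyₗ v ∘ₗ (act x hx).toLinearMap

theorem evv_apply (hx : aeval x g = 0) (v : V) (a : AdjoinRoot g) : evv hx v a = act x hx a v := rfl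

theorem evv_mul (hx : aeval x g = 0) (v : V) (a b : AdjoinRoot g) :
    evv hx v (a * b) = act x hx a (evv hx v b) := by
  rw [evv_apply, map_mul]; rfl

theorem evv_one (hx : aeval x g = 0) (v : V) : evv hx v 1 = v := by
  rw [evv_apply, map_one]; rfl

theorem evv_cyc (hx : aeval x g = 0) (v : V) (a : AdjoinRoot g) :
    evv hx v (cyc g a) = x (evv hx v a) :=
  (evv_mul hx v _ a).trans (by rw [act_root])

theorem evv_injective (hf : Irreducible f) (hx : aeval x (f ^ (e + 1)) = 0) {v : V}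
    (hv : aeval x (f ^ e) v ≠ 0) : Injective (evv hx v) :=
  (injective_iff_map_eq_zero _).2 fun a ha => by
    by_contra h
    obtain ⟨b, hb⟩ := loc_exists_mul hf h
    exact hv (by rw [← act_mk hx, ← evv_apply, ← hb, evv_mul, ha, map_zero])

/-- Functionals give all intertwiners into the dual of the cyclic module. -/
noncomputable def psi (hx : aeval x g = 0) (l : Dual F V) : V →ₗ[F] Dual F (AdjoinRoot g) :=
  ((act x hx).toLinearMap.compr₂ l).flip

theorem psi_apply (hx : aeval x g = 0) (l : Dual F V) (v : V) (a : AdjoinRoot g) :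
    psi hx l v a = l (act x hx a v) := rfl

theorem psi_itw (hx : aeval x g = 0) (l : Dual F V) (v : V) :
    psi hx l (x v) = (cyc g).dualMap (psi hx l v) := LinearMap.ext fun a => by
  change l (act x hx a (x v)) = l (act x hx (AdjoinRoot.root g * a) v)
  rw [mul_comm, map_mul, act_root, End.mul_apply]

theorem card_itw_congr {x' : End F V₁} (h : Sim x x') (y : End F W) :
    Nat.card (itw x y) = Nat.card (itw x' y) := by
  obtain ⟨φ, hφ⟩ := h
  refine Nat.card_congr ⟨fun A => ⟨φ ∘ₗ A.1, LinearMap.ext fun w => ?_⟩,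
    fun A => ⟨φ.symm ∘ₗ A.1, LinearMap.ext fun w => φ.injective ?_⟩, fun A => Subtype.ext (by ext; simp),
    fun A => Subtype.ext (by ext; simp)⟩
  · exact (hφ _).symm.trans (congrArg φ (congrArg (· w) A.2))
  · simpa [hφ] using congrArg (· w) A.2

theorem card_itw_cyc [Finite (AdjoinRoot g)] (hx : aeval x g = 0) :
    Nat.card (itw (cyc g) x) = Nat.card V := by
  rw [card_itw_congr (sim_dualMap (cyc g)), Module.natCard_eq_pow_finrank (K := F) (V := V),
    ← Subspace.dual_finrank_eq, ← Module.natCard_eq_pow_finrank]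
  refine Nat.card_congr ⟨fun A => A.1.flip 1, fun l => ⟨psi hx l,
    LinearMap.ext fun v => (psi_itw hx l v).symm⟩, fun A => Subtype.ext ?_, fun l => ?_⟩
  · ext v a
    obtain ⟨p, rfl⟩ := AdjoinRoot.mk_surjective a
    change A.1 (aeval x p v) 1 = _
    rw [itw_aeval (x := (cyc g).dualMap) (fun w => (congrArg (· w) A.2).symm)]
    have : ∀ φ : Dual F (AdjoinRoot g), ∀ b, aeval (cyc g).dualMap p φ b = φ (AdjoinRoot.mk g p * b) := by
      induction p using Polynomial.induction_on with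
      | C a => intro φ b; simp [← Algebra.smul_def, ← AdjoinRoot.algebraMap_eq]
      | add p q hp hq => intro φ b; simp [hp, hq, add_mul]
      | monomial n a ih =>
        intro φ b
        rw [pow_succ, ← mul_assoc, map_mul, aeval_X, End.mul_apply, ih, map_mul _ (C a * X ^ n),
          mul_comm _ (AdjoinRoot.mk g X), mul_assoc]
        rfl
    rw [this, mul_one]
  · ext v
    change l (act x hx 1 v) = l v
    rw [map_one, End.one_apply]

theorem exists_split_of_isCompl [Finite (AdjoinRoot g)] (hx : aeval x g = 0) {v : V}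
    (hv : Injective (evv hx v)) {S : Submodule F V} (hS : S ≤ S.comap x)
    (h : IsCompl (LinearMap.range (evv hx v)) S) :
    ∃ φ : (AdjoinRoot g × S) ≃ₗ[F] V, (∀ u, φ u = evv hx v u.1 + u.2) ∧
      ∀ u, φ ((cyc g).prodMap (Inv.sub ⟨S, hS⟩) u) = x (φ u) := by
  let φ := ((LinearEquiv.ofInjective _ hv).prodCongr (LinearEquiv.refl F S)).trans
    (Submodule.prodEquivOfIsCompl _ _ h)
  have hφ : ∀ u, φ u = evv hx v u.1 + u.2 := fun u => rfl
  exact ⟨φ, hφ, fun u => by rw [hφ, hφ, map_add, ← evv_cyc]; rfl⟩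

/-- An element of maximal order generates a direct summand. -/
theorem exists_split (hf : Irreducible f) [Finite (AdjoinRoot (f ^ (e + 1)))]
    (hx : aeval x (f ^ (e + 1)) = 0) {v : V} (hv : aeval x (f ^ e) v ≠ 0) :
    ∃ (S : Submodule F V) (y : End F S) (φ : (AdjoinRoot (f ^ (e + 1)) × S) ≃ₗ[F] V),
      φ (1, 0) = v ∧ ∀ u, φ ((cyc _).prodMap y u) = x (φ u) := by
  obtain ⟨l, hl⟩ := not_forall.1 (mt (Module.forall_dual_apply_eq_zero_iff F _).1 hv)
  obtain ⟨φ, h1, h2⟩ := exists_split_of_isCompl hx (evv_injective hf hx hv)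
    (S := LinearMap.ker (psi hx l)) (fun w hw => by
      rw [Submodule.mem_comap, LinearMap.mem_ker, psi_itw, LinearMap.mem_ker.1 hw, map_zero])
    ((Submodule.isCompl_iff_disjoint _ _ (by
      have := (psi hx l).finrank_range_add_finrank_ker
      have := (LinearMap.range (psi hx l)).finrank_le
      rw [Subspace.dual_finrank_eq] at this
      rw [LinearMap.finrank_range_of_inj (evv_injective hf hx hv)]
      omega)).2 (Submodule.disjoint_def.2 (by
        rintro _ ⟨a, rfl⟩ ha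
        by_contra h
        obtain ⟨b, hb⟩ := loc_exists_mul hf (a := a) (by rintro rfl; simp at h)
        refine hl ?_
        rw [← act_mk hx, ← evv_apply, ← hb, evv_mul]
        exact congrArg (· b) (LinearMap.mem_ker.1 ha))))
  exact ⟨_, _, φ, by rw [h1, evv_one]; simp, h2⟩

/-- The automorphisms commuting with `x`. -/
def CG (x : End F V) : Subgroup (GLV F V) where
  carrier := {u | (u : End F V) * x = x * u}
  one_mem' := by simp
  mul_mem' {a b} ha hb := Commute.mul_left ha hb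
  inv_mem' {a} ha := Commute.units_inv_left ha

theorem mem_CG {u : GLV F V} : u ∈ CG x ↔ (u : End F V) * x = x * u := Iff.rfl

theorem CG_coe (g : GLV F V) : CG (g : End F V) = Subgroup.centralizer {g} := Subgroup.ext fun u => by
  rw [Subgroup.mem_centralizer_singleton_iff, mem_CG, Units.ext_iff, Units.val_mul, Units.val_mul]

theorem card_CG_le {y : End F W} (h : Sim x y) : Nat.card (CG x) ≤ Nat.card (CG y) := by
  obtain ⟨φ, hφ⟩ := h
  refine Nat.card_le_card_of_injective (fun u => ⟨Units.map (φ.conjRingEquiv : End F V →* End F W) u.1,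
    LinearMap.ext fun w => ?_⟩) fun u u' h => Subtype.ext (Units.ext (φ.conjRingEquiv.injective
      (congrArg (fun z : CG y => z.1.1) h)))
  obtain ⟨w, rfl⟩ := φ.surjective w
  simpa [LinearEquiv.conjRingEquiv_apply_apply, ← hφ] using congrArg (· w) u.2

theorem card_CG_congr {y : End F W} (h : Sim x y) : Nat.card (CG x) = Nat.card (CG y) :=
  le_antisymm (card_CG_le h) (card_CG_le h.symm)

theorem card_fix_left (x₁ : End F V₁) (x : End F V) :
    Nat.card {u : CG (x₁.prodMap x : End F (V₁ × V)) // ∀ a, u.1.1 (a, 0) = (a, 0)} =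
      Nat.card (itw x₁ x) * Nat.card (CG x) := by
  rw [← Nat.card_prod]
  symm
  refine Nat.card_congr (Equiv.ofBijective (fun z => ⟨⟨⟨ext 1 z.2.1.1 z.1.1,
    ext 1 (z.2.1⁻¹).1 (-(z.1.1 ∘ₗ (z.2.1⁻¹).1)), LinearMap.ext fun u => ?_, LinearMap.ext fun u => ?_⟩,
    LinearMap.ext fun u => ?_⟩, fun a => ?_⟩) ⟨fun z z' h => ?_, fun u => ?_⟩)
  · rw [End.mul_apply]
    simp [show z.2.1.1 ((z.2.1)⁻¹.1 u.2) = u.2 from congrArg (· u.2) z.2.1.mul_inv]
  · rw [End.mul_apply]
    simp [show (z.2.1)⁻¹.1 (z.2.1.1 u.2) = u.2 from congrArg (· u.2) z.2.1.inv_mul]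
  · have h1 : x₁ (z.1.1 u.2) = z.1.1 (x u.2) := congrArg (· u.2) z.1.2
    have h2 : z.2.1.1 (x u.2) = x (z.2.1.1 u.2) := congrArg (· u.2) z.2.2
    simp [h1, h2]
  · simp
  · have h1 : ∀ w, ext 1 z.2.1.1 z.1.1 (0, w) = ext 1 z'.2.1.1 z'.1.1 (0, w) := fun w =>
      congrArg (fun u => u.1.1.1 (0, w)) h
    exact Prod.ext (Subtype.ext (LinearMap.ext fun w => by simpa using congrArg Prod.fst (h1 w)))
      (Subtype.ext (Units.ext (LinearMap.ext fun w => congrArg Prod.snd (h1 w))))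
  · have hc : ∀ w, u.1.1.1 (x₁.prodMap x w) = x₁.prodMap x (u.1.1.1 w) := fun w => congrArg (· w) u.1.2
    have h2 : ∀ a w, u.1.1.1 (a, w) = (a, 0) + u.1.1.1 (0, w) := fun a w => by
      rw [← u.2 a, ← map_add]; simp
    have h3 : ∀ w, u.1.1.1 (0, x w) = x₁.prodMap x (u.1.1.1 (0, w)) := fun w => by rw [← hc]; simp
    obtain ⟨z, hz⟩ : IsUnit (LinearMap.snd F _ V ∘ₗ u.1.1.1 ∘ₗ LinearMap.inr F _ V : End F V) :=
      (End.isUnit_iff _).2 (Finite.surjective_iff_bijective.1 fun w => by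
        obtain ⟨⟨a, w'⟩, h⟩ := ((End.isUnit_iff _).1 u.1.1.isUnit).2 (0, w)
        exact ⟨w', by simpa using congrArg Prod.snd ((h2 a w').symm.trans h)⟩)
    refine ⟨(⟨LinearMap.fst F _ V ∘ₗ u.1.1.1 ∘ₗ LinearMap.inr F _ V,
      LinearMap.ext fun w => (congrArg Prod.fst (h3 w)).symm⟩, ⟨z, LinearMap.ext fun w => ?_⟩),
      Subtype.ext (Subtype.ext (Units.ext (LinearMap.ext fun w => ?_)))⟩
    · rw [hz]; exact congrArg Prod.snd (h3 w)
    · change (w.1 + (u.1.1.1 (0, w.2)).1, z.1 w.2) = u.1.1.1 (w.1, w.2)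
      rw [hz, h2 w.1]
      exact Prod.ext rfl (zero_add _).symm

theorem card_CG_step (hf : Irreducible f) [Finite (AdjoinRoot (f ^ (e + 1)))]
    (hx : aeval x (f ^ (e + 1)) = 0) :
    Nat.card (CG ((cyc (f ^ (e + 1))).prodMap x : End F (_ × V))) =
      Nat.card {v // aeval ((cyc (f ^ (e + 1))).prodMap x : End F (_ × V)) (f ^ e) v ≠ 0} *
        (Nat.card V * Nat.card (CG x)) := by
  rw [← card_itw_cyc hx, ← card_fix_left]
  set y : End F (_ × V) := (cyc (f ^ (e + 1))).prodMap x with hy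
  have hy0 : aeval y (f ^ (e + 1)) = 0 := by
    rw [hy, aeval_prodMap, hx]
    ext <;> simp [aeval_cyc', -map_pow]
  rw [← (MulAction.stabilizer (CG y) ((1, 0) : AdjoinRoot (f ^ (e + 1)) × V)).card_mul_index,
    MulAction.index_stabilizer, mul_comm]
  congr 1
  · refine congrArg Set.ncard (Set.ext fun v => ⟨?_, fun hv => ?_⟩ : _ = {v | aeval y (f ^ e) v ≠ 0})
    · rintro ⟨u, rfl⟩ h
      have h1 := itw_aeval (x := y) (y := y) (φ := u.1.1) (fun w => congrArg (· w) u.2) (f ^ e) (1, 0)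
      have h2 := ((End.isUnit_iff _).1 u.1.isUnit).1 ((h1.trans h).trans (map_zero _).symm)
      rw [hy, aeval_prodMap] at h2
      exact loc_soc_ne hf (by simpa [aeval_cyc', -map_pow] using congrArg Prod.fst h2)
    · obtain ⟨S, z, φ, h1, h2⟩ := exists_split hf hy0 hv
      obtain ⟨ψ, hψ⟩ := (Sim.cancel ⟨φ, h2⟩ (Sim.refl _)).symm
      refine ⟨⟨LinearMap.GeneralLinearGroup.ofLinearEquiv
        (((LinearEquiv.refl F _).prodCongr ψ).trans φ), LinearMap.ext fun u => ?_⟩, ?_⟩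
      · change φ (cyc _ u.1, ψ (x u.2)) = y (φ (u.1, ψ u.2))
        rw [← h2, hψ]
        rfl
      · change φ (1, ψ 0) = v
        rw [map_zero, h1]
  · refine Nat.card_congr (Equiv.subtypeEquivRight fun u => ⟨fun h a => ?_, fun h => h 1⟩)
    obtain ⟨p, rfl⟩ := AdjoinRoot.mk_surjective a
    have h2 : aeval y p (1, 0) = (AdjoinRoot.mk _ p, 0) := by simp [hy, aeval_prodMap, aeval_cyc']
    rw [← h2, itw_aeval (x := y) (y := y) (φ := u.1.1) fun w => congrArg (· w) u.2,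
      show u.1.1 (1, 0) = (1, 0) from h]

variable {k : Type*} [Field k] [Algebra F k] [IsAlgClosed k] [Algebra.IsAlgebraic F k]

variable (k) in
theorem isUnit_aeval_iff (x : End F V) (p : F[X]) :
    IsUnit (aeval x p) ↔ ∀ t ∈ ev k (cls x), aeval t p ≠ 0 := by
  rw [isUnit_iff_ev (k := k), ev_aeval, Multiset.mem_map]
  exact ⟨fun h t ht e => h ⟨t, ht, e⟩, fun h ⟨t, ht, e⟩ => h t ht e⟩

theorem itw_eq_zero {y : End F W} (h : ∀ t ∈ ev k (cls x), t ∉ ev k (cls y)) {φ : W →ₗ[F] V}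
    (hφ : ∀ w, φ (y w) = x (φ w)) : φ = 0 := LinearMap.ext fun w =>
  ((End.isUnit_iff _).1 ((isUnit_aeval_iff k x y.charpoly).2 fun t ht e =>
    h t ht ((mem_ev k).2 (by rwa [cp_cls])))).1 (by
      rw [← itw_aeval hφ, LinearMap.aeval_self_charpoly]; simp)

/-- Maps commuting with a sum of endomorphisms with disjoint spectra are block diagonal. -/
theorem exists_blkHom_eq (φ : (V₁ × V₂) ≃ₗ[F] V) {x₁ : End F V₁} {x₂ : End F V₂}
    (hφ : ∀ u, φ (x₁.prodMap x₂ u) = x (φ u)) (h : ∀ t ∈ ev k (cls x₁), t ∉ ev k (cls x₂))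
    {g : GLV F V} (hg : g ∈ CG x) : ∃ g₁ ∈ CG x₁, ∃ g₂ ∈ CG x₂, blkHom φ (g₁, g₂) = g := by
  let t : End F (V₁ × V₂) := φ.symm.conj (g : End F V)
  have ht : ∀ u, φ (t u) = (g : End F V) (φ u) := fun u => by simp [t, LinearEquiv.conj_apply]
  have hc : ∀ u, t (x₁.prodMap x₂ u) = x₁.prodMap x₂ (t u) := fun u => φ.injective (by
    rw [ht, hφ, hφ, ht]; exact congrArg (· (φ u)) hg)
  have h1 : ∀ w, (t (0, w)).1 = 0 := fun w => congrArg (· w) (itw_eq_zero h
    (φ := LinearMap.fst F V₁ V₂ ∘ₗ t ∘ₗ LinearMap.inr F V₁ V₂) fun w => by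
      simpa using congrArg Prod.fst (hc (0, w)))
  have h2 : ∀ w, (t (w, 0)).2 = 0 := fun w => congrArg (· w) (itw_eq_zero (fun t h' h'' => h t h'' h')
    (φ := LinearMap.snd F V₁ V₂ ∘ₗ t ∘ₗ LinearMap.inl F V₁ V₂) fun w => by
      simpa using congrArg Prod.snd (hc (w, 0)))
  have hi : Injective t := fun u u' e => φ.injective (((End.isUnit_iff _).1 g.isUnit).1 (by
    rw [← ht, ← ht, e]))
  obtain ⟨g₁, h₁⟩ : IsUnit (LinearMap.fst F V₁ V₂ ∘ₗ t ∘ₗ LinearMap.inl F V₁ V₂ : End F V₁) :=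
    (End.isUnit_iff _).2 (Finite.injective_iff_bijective.1 fun u u' e =>
      congrArg Prod.fst (hi (a₁ := (u, 0)) (a₂ := (u', 0)) (Prod.ext e ((h2 u).trans (h2 u').symm))))
  obtain ⟨g₂, h₂⟩ : IsUnit (LinearMap.snd F V₁ V₂ ∘ₗ t ∘ₗ LinearMap.inr F V₁ V₂ : End F V₂) :=
    (End.isUnit_iff _).2 (Finite.injective_iff_bijective.1 fun u u' e =>
      congrArg Prod.snd (hi (a₁ := (0, u)) (a₂ := (0, u')) (Prod.ext ((h1 u).trans (h1 u').symm) e)))
  refine ⟨g₁, LinearMap.ext fun w => ?_, g₂, LinearMap.ext fun w => ?_,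
    Units.ext (LinearMap.ext fun v => ?_)⟩
  · rw [h₁]; simpa using congrArg Prod.fst (hc (w, 0))
  · rw [h₂]; simpa using congrArg Prod.snd (hc (0, w))
  · obtain ⟨⟨a, b⟩, rfl⟩ := φ.surjective v
    rw [blkHom_apply, ← ht, h₁, h₂, show (a, b) = (a, 0) + (0, b) by simp, map_add]
    exact congrArg φ (Prod.ext (by simp [h1]) (by simp [h2]))

theorem blkHom_mem_CG (φ : (V₁ × V₂) ≃ₗ[F] V) {x₁ : End F V₁} {x₂ : End F V₂}
    (hφ : ∀ u, φ (x₁.prodMap x₂ u) = x (φ u)) {g₁ : GLV F V₁} {g₂ : GLV F V₂} (h₁ : g₁ ∈ CG x₁)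
    (h₂ : g₂ ∈ CG x₂) : blkHom φ (g₁, g₂) ∈ CG x := LinearMap.ext fun v => by
  obtain ⟨⟨a, b⟩, rfl⟩ := φ.surjective v
  rw [End.mul_apply, End.mul_apply, ← hφ, blkHom_apply φ g₁ g₂ a b, ← hφ]
  exact (blkHom_apply _ _ _ _ _).trans (congrArg φ (Prod.ext (congrArg (· a) h₁) (congrArg (· b) h₂)))

theorem card_CG_prod {x₁ : End F V₁} {x₂ : End F V₂} (hx : cls x = cls x₁ + cls x₂)
    (h : ∀ t ∈ ev k (cls x₁), t ∉ ev k (cls x₂)) :
    Nat.card (CG x) = Nat.card (CG x₁) * Nat.card (CG x₂) := by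
  rw [← cls_prodMap, eq_comm, cls_eq_iff] at hx
  obtain ⟨φ, hφ⟩ := hx
  rw [← Nat.card_prod]
  refine (Nat.card_congr (Equiv.ofBijective (fun z => ⟨blkHom φ (z.1.1, z.2.1),
    blkHom_mem_CG φ hφ z.1.2 z.2.2⟩) ⟨fun z z' e => ?_, fun g => ?_⟩)).symm
  · have := blkHom_injective φ (congrArg Subtype.val e)
    exact Prod.ext (Subtype.ext (congrArg Prod.fst this)) (Subtype.ext (congrArg Prod.snd this))
  · obtain ⟨g₁, h₁, g₂, h₂, e⟩ := exists_blkHom_eq φ hφ h g.2
    exact ⟨(⟨g₁, h₁⟩, ⟨g₂, h₂⟩), Subtype.ext e⟩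

end Cfsg.Gun

set_option linter.all false in
theorem Cfsg.Rz.Gun_AutA_0 : True := by
  have := @_root_.Cfsg.Gun.act.congr_simp.{0, 0}
  have := @_root_.Cfsg.Gun.act.eq_def.{0, 0}
  have := @_root_.Cfsg.Gun.act.eq_1.{0, 0}
  have := @_root_.Cfsg.Gun.act.fun_cases
  have := @_root_.Cfsg.Gun.evv.eq_def.{0, 0}
  have := @_root_.Cfsg.Gun.evv.eq_1.{0, 0}
  have := @_root_.Cfsg.Gun.evv.fun_cases
  have := @_root_.Cfsg.Gun.psi.congr_simp.{0, 0}
  have := @_root_.Cfsg.Gun.psi.eq_def.{0, 0}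
  have := @_root_.Cfsg.Gun.psi.eq_1.{0, 0}
  have := @_root_.Cfsg.Gun.psi.fun_cases
  have := @_root_.Cfsg.Gun.CG.eq_def.{0, 0}
  have := @_root_.Cfsg.Gun.CG.eq_1.{0, 0}
  have := @_root_.Cfsg.Gun.CG.fun_cases
  trivial
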