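import Cfsg.Agent.Gun.UV
import Cfsg.Agent.Gun.AutA

/-!
# Centralizer orders in `GL(V)` (S4537 project)

For a module `M` over `F[X]` killed by a power of the irreducible `f` (`Q = |F| ^ deg f`) of type `l` with largest part `e` of
multiplicity `m`: `ac l Q = Q ^ (2 |l| - m - e) (Q ^ m - 1) ac (l.erase e) Q`; count the vectors outside `ker f^(e-1) + f M`..
(an element of maximal order generates a direct summand; `Aut M` is transitive on pairs (generator, complement)).
In general `C(x)` is the product over the conjugacy classes of eigenvalues (`itw` between coprime parts is `0`).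
-/

set_option autoImplicit false
set_option linter.unusedSectionVars false
set_option linter.unusedVariables false
set_option linter.style.haveILetI false

namespace Cfsg.Gun

open Module Finset Function Gln Subgroup

universe u

variable {F : Type u} [Field F] [Finite F] {V : Type*} [AddCommGroup V] [Module F V] [Finite V]
  {k : Type u} [Field k] [Algebra F k] [IsAlgClosed k] [Algebra.IsAlgebraic F k] {Q : ℤ} {R N : ℕ}
  [NeZero R]

theorem mm_singleton_of_forall {j : ℕ} {l : Multiset ℕ} (h : ∀ i ∈ l, i ≤ j) : mm {j} l = l.sum := by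
  rw [mm_singleton, Multiset.map_congr rfl fun i hi => min_eq_right (h i hi), Multiset.map_id']

theorem mm_singleton_add_count {e : ℕ} {l : Multiset ℕ} (h : ∀ i ∈ l, i ≤ e + 1) :
    mm {e} l + l.count (e + 1) = l.sum := by
  induction l using Multiset.induction_on with
  | empty => simp
  | cons a l ih =>
    have h1 := ih fun i hi => h i (Multiset.mem_cons_of_mem hi)
    have h2 := h a (Multiset.mem_cons_self _ _)
    rw [mm_singleton] at h1 ⊢
    rw [Multiset.map_cons, Multiset.sum_cons, Multiset.sum_cons, Multiset.count_cons]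
    split_ifs <;> omega

theorem ac_cons {j : ℕ} {l : Multiset ℕ} (h : ∀ i ∈ l, i ≤ j) (t : ℂ) :
    ac (j ::ₘ l) t = t ^ (j + 2 * l.sum) * (1 - t⁻¹ ^ (l.count j + 1)) * ac l t := by
  have h1 : mm (j ::ₘ l) (j ::ₘ l) = j + 2 * l.sum + mm l l := by
    rw [← Multiset.singleton_add, mm_add_left, mm_add_right, mm_add_right, mm_comm l {j},
      mm_singleton_of_forall h, mm_singleton_of_forall (by simp), Multiset.sum_singleton]
    ring
  have h2 : ∏ i ∈ l.toFinset, ∏ a ∈ range (l.count i), (1 - t⁻¹ ^ (a + 1)) =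
      ∏ i ∈ insert j l.toFinset, ∏ a ∈ range (l.count i), (1 - t⁻¹ ^ (a + 1)) :=
    (prod_insert_of_eq_one_if_notMem fun hj => by
      rw [Multiset.count_eq_zero.2 (mt Multiset.mem_toFinset.2 hj), prod_range_zero]).symm
  rw [ac, ac, h1, h2, Multiset.toFinset_cons, ← mul_prod_erase _ _ (mem_insert_self j _),
    ← mul_prod_erase _ _ (mem_insert_self j _), Multiset.count_cons_self, prod_range_succ,
    prod_congr (s₁ := erase _ j) rfl fun i hi => by
      rw [Multiset.count_cons_of_ne (ne_of_mem_erase hi)], pow_add]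
  ring

theorem dim_primary {s : k} {c : Iso F} (h : ∀ t ∈ ev k c, IsConjRoot F s t) :
    c.dim = fdeg F s * (jt s c).sum := by
  obtain ⟨j, hj⟩ := exists_eq_pow _ c.cp rfl (cp_monic c) h
  have h1 := finrank_ker_jt s c.rep j
  rw [← hj, cls_rep, show c.cp = c.rep.charpoly from rfl, LinearMap.aeval_self_charpoly,
    LinearMap.ker_zero, finrank_top, Module.finrank_fin_fun] at h1
  have h2 := kd_le (minpoly F s ^ (jt s c).sum) c
  rw [kd_jt, mm_singleton_of_le le_rfl] at h2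
  exact le_antisymm (h1.le.trans (Nat.mul_le_mul_left _ (mm_singleton_le _ _))) h2

theorem aeval_primary {s : k} {x : End F V} (h : ∀ t ∈ ev k (cls x), IsConjRoot F s t) {j : ℕ}
    (hj : ∀ i ∈ jt s (cls x), i ≤ j) : Polynomial.aeval x (minpoly F s ^ j) = 0 :=
  LinearMap.ker_eq_top.1 (Submodule.eq_top_of_finrank_eq (by
    rw [finrank_ker_jt, mm_singleton_of_forall hj, ← dim_primary h, dim_cls]))

theorem exists_max_jt {s : k} {c : Iso F} (h : ∀ t ∈ ev k c, IsConjRoot F s t) (h0 : c.dim ≠ 0) :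
    ∃ e, e + 1 ∈ jt s c ∧ ∀ i ∈ jt s c, i ≤ e + 1 := by
  obtain ⟨j, h1, h2⟩ := (jt s c).toFinset.exists_max_image id (Multiset.toFinset_nonempty.2 fun e =>
    h0 (by rw [dim_primary h, e]; simp))
  obtain ⟨e, rfl⟩ := Nat.exists_eq_succ_of_ne_zero (jt_pos s c j (Multiset.mem_toFinset.1 h1)).ne'
  exact ⟨e, Multiset.mem_toFinset.1 h1, fun i hi => h2 i (Multiset.mem_toFinset.2 hi)⟩

theorem card_ne_zero_add (y : End F V) :
    Nat.card {v // y v ≠ 0} + Nat.card F ^ finrank F (LinearMap.ker y) = Nat.card F ^ finrank F V := by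
  classical
  rw [← Module.natCard_eq_pow_finrank, ← Module.natCard_eq_pow_finrank, add_comm, ← Nat.card_sum]
  exact Nat.card_congr (Equiv.sumCompl fun v => y v = 0)

theorem jt_cy_add (s : k) (e : ℕ) (d : Iso F) : jt s (cy F s (e + 1) + d) = (e + 1) ::ₘ jt s d := by
  rw [jt_add, jt_cy _ _ e.succ_pos, if_pos IsConjRoot.refl, Multiset.singleton_add]

/-- The centralizer order of a class. -/
noncomputable def cg (c : Iso F) : ℕ := Nat.card (CG c.rep)

theorem card_CG_eq_cg (x : End F V) : Nat.card (CG x) = cg (cls x) := (card_CG_congr (sim_rep x)).symm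

theorem cg_zero : cg (0 : Iso F) = 1 := Nat.card_unique

theorem card_CG_primary {s : k} (x : End F V) (h : ∀ t ∈ ev k (cls x), IsConjRoot F s t) :
    (Nat.card (CG x) : ℂ) = ac (jt s (cls x)) ((Nat.card F : ℂ) ^ fdeg F s) := by
  rw [card_CG_eq_cg]
  generalize cls x = c at h
  induction hn : c.dim using Nat.strong_induction_on generalizing c with
  | _ n ih =>
  by_cases h0 : c.dim = 0
  · rw [dim_eq_zero.1 h0, jt_zero, ac_zero, cg_zero, Nat.cast_one]
  obtain ⟨e, h1, h2⟩ := exists_max_jt h h0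
  obtain ⟨d, rfl⟩ := exists_eq_cy_add h1
  haveI := finite_adjoinRoot (F := F) s (e + 1)
  have hd : ∀ t ∈ ev k d, IsConjRoot F s t := fun t ht => h t (by rw [ev_add]; simp [ht])
  have h3 : cls ((cyc (minpoly F s ^ (e + 1))).prodMap d.rep : End F (_ × _)) = cy F s (e + 1) + d := by
    rw [cls_prodMap, cls_rep]; rfl
  rw [jt_cy_add] at h2
  have h4 : ∀ i ∈ jt s d, i ≤ e + 1 := fun i hi => h2 i (Multiset.mem_cons_of_mem hi)
  have h5 := card_ne_zero_add (Polynomial.aeval ((cyc (minpoly F s ^ (e + 1))).prodMap d.rep :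
    End F (_ × _)) (minpoly F s ^ e))
  have h6 := mm_singleton_add_count h2
  rw [finrank_ker_jt, ← dim_cls (_ : End F (_ × _)), h3, dim_primary h, jt_cy_add, ← h6, pow_mul,
    pow_mul] at h5
  rw [← h3, ← card_CG_eq_cg, card_CG_step (minpoly_irreducible s)
    (aeval_primary (by rwa [cls_rep]) (by rwa [cls_rep])), Nat.cast_mul, Nat.cast_mul, h3, ← cg,
    ih d.dim (by
      rw [← hn, dim_add, dim_cy]
      exact Nat.lt_add_of_pos_left (Nat.mul_pos (fdeg_pos (F := F) s) e.succ_pos))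
    d hd rfl, jt_cy_add, ac_cons h4, show Nat.card (Fin d.dim → F) = (Nat.card F ^ fdeg F s) ^ (jt s d).sum by
      rw [← pow_mul, ← dim_primary hd, Nat.card_fun, Nat.card_fin], ← mul_assoc]
  have h7 := congrArg (Nat.cast : ℕ → ℂ) h5
  rw [Multiset.count_cons_self, Multiset.sum_cons] at h6
  rw [Multiset.count_cons_self] at h7
  push_cast at h7 ⊢
  have h8 : (Nat.card F : ℂ) ^ fdeg F s ≠ 0 := pow_ne_zero _ (Nat.cast_ne_zero.2 Nat.card_pos.ne')
  generalize (Nat.card F : ℂ) ^ fdeg F s = t at *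
  rw [eq_sub_of_add_eq h7, show e + 1 + 2 * (jt s d).sum = mm {e} ((e + 1) ::ₘ jt s d) +
    (Multiset.count (e + 1) (jt s d) + 1) + (jt s d).sum by omega, inv_pow, pow_add t _ (jt s d).sum,
    pow_add t (mm _ _)]
  have h9 := pow_ne_zero (Multiset.count (e + 1) (jt s d) + 1) h8
  field_simp

/-- The primary case. -/
theorem card_cent_primary {s : k} (g : GLV F V)
    (h : ∀ t ∈ ev k (cls (g : End F V)), IsConjRoot F s t) :
    (Nat.card (centralizer {g}) : ℂ) =
      ac (jt s (cls (g : End F V))) ((Nat.card F : ℂ) ^ fdeg F s) := by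
  rw [← CG_coe, card_CG_primary _ h]

theorem card_cent_unip (g : GLV F V) (h : ∀ t ∈ ev k (cls (g : End F V)), t = 1) :
    (Nat.card (centralizer {g}) : ℂ) = ac (jt (1 : k) (cls (g : End F V))) (Nat.card F) := by
  rw [card_cent_primary (s := (1 : k)) g fun t ht => isConjRoot_one.2 (h t ht), fdeg_one, pow_one]

theorem acg_add {c c' : Ty k Q R} (h : ∀ o, c o = 0 ∨ c' o = 0) : acg (c + c') = acg c * acg c' := by
  rw [acg, acg, acg, tsz_add, pow_add, mul_mul_mul_comm, ← prod_mul_distrib]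
  refine congrArg _ (prod_congr rfl fun o _ => ?_)
  rcases h o with h | h <;> simp [h]

theorem acg_single (o : EO k Q R) (l : Multiset ℕ) : acg (Pi.single o l) =
    (Q.sign : ℂ) ^ (o.deg * l.sum) * ac l ((Q : ℂ) ^ o.deg) := by
  rw [acg, tsz_single, prod_eq_single o (fun b _ hb => by simp [hb]) (by simp)]
  simp

/-- The eigenvalues in the orbit of `s`. -/
def oSet (Q : ℤ) (s : Mu k R) : Set k := mv '' {y | eo Q y = eo Q s}

theorem mv_mem_oSet {s y : Mu k R} : mv y ∈ oSet Q s ↔ eo Q y = eo Q s :=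
  mv_injective.mem_set_image

theorem conjCl_oSet (hP : ParZ k Q R N) (hQ : ∃ i, (Nat.card F : ℤ) = Q ^ i) (s : Mu k R) :
    ConjCl F (oSet Q s) := by
  rintro _ ⟨y, hy, rfl⟩ t h
  obtain ⟨i, hi⟩ := hQ
  obtain ⟨j, rfl⟩ := isConjRoot_iff.1 h
  rw [← zpow_natCast, Nat.cast_pow, hi, ← pow_mul, ← mv_zpow', mv_mem_oSet, eo_zpow hP]
  exact hy

theorem tyF_eq_single {s : Mu k R} {c : Iso F} (h : ∀ t ∈ ev k c, t ∈ oSet Q s) :
    tyF k Q R c = Pi.single (eo Q s) (tyF k Q R c (eo Q s)) := funext fun o => by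
  by_cases ho : o = eo Q s
  · rw [ho, Pi.single_eq_same]
  · rw [Pi.single_eq_of_ne ho]
    exact jt_eq_zero_iff.2 fun h' => ho ((Orb.mk_rep o).symm.trans (mv_mem_oSet.1 (h _ h')))

theorem acg_tyF_add {s : Mu k R} {c d : Iso F} (h : ∀ t ∈ ev k c, t ∈ oSet Q s)
    (h' : ∀ t ∈ ev k d, t ∉ oSet Q s) :
    acg (tyF k Q R (c + d)) = acg (tyF k Q R c) * acg (tyF k Q R d) := by
  rw [tyF_add, acg_add fun o => ?_]
  by_cases ho : o = eo Q s
  · exact .inr (jt_eq_zero_iff.2 fun e => h' _ e (mv_mem_oSet.2 ((Orb.mk_rep o).trans ho)))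
  · exact .inl (by rw [tyF_eq_single h, Pi.single_eq_of_ne ho])

theorem exists_split_oSet (hP : ParZ k Q R N) (hQ : ∃ i, (Nat.card F : ℤ) = Q ^ i) {c : Iso F}
    (h : InMu k R c) (h0 : c.dim ≠ 0) : ∃ (s : Mu k R) (c₁ c₂ : Iso F), c = c₁ + c₂ ∧ mv s ∈ ev k c₁ ∧
      c₂.dim < c.dim ∧ (∀ t ∈ ev k c₁, t ∈ oSet Q s) ∧ ∀ t ∈ ev k c₂, t ∉ oSet Q s := by
  obtain ⟨t, ht⟩ := Multiset.card_pos_iff_exists_mem.1 ((card_ev k c).symm ▸ Nat.pos_of_ne_zero h0)
  obtain ⟨s, rfl⟩ := exists_mv_eq (h t ht)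
  obtain ⟨c₁, c₂, rfl, h₁, h₂⟩ := exists_add_eq (conjCl_oSet hP hQ s) c
  rw [ev_add, Multiset.mem_add, or_iff_left fun e => h₂ _ e (mv_mem_oSet.2 rfl)] at ht
  have := card_ev k c₁ ▸ Multiset.card_pos_iff_exists_mem.2 ⟨_, ht⟩
  exact ⟨s, c₁, c₂, rfl, ht, by rw [dim_add]; omega, h₁, h₂⟩

theorem InMu.left {c d : Iso F} (h : InMu k R (c + d)) : InMu k R c := fun t ht =>
  h t (by rw [ev_add]; simp [ht])

theorem InMu.right {c d : Iso F} (h : InMu k R (c + d)) : InMu k R d := fun t ht =>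
  h t (by rw [ev_add]; simp [ht])

theorem fdeg_dvd_iff (hP : ParZ k Q R N) {i : ℕ} (hQ : (Nat.card F : ℤ) = Q ^ i) (s : Mu k R) (n : ℕ) :
    fdeg F (mv s) ∣ n ↔ (eo Q s).deg ∣ i * n := by
  rw [← pow_eq_one_iff_fdeg_dvd, deg_mu_dvd_iff hP, ← tn_pow, ← hQ, tn_natCast _ Nat.card_pos]

theorem card_CG_eq (hP : ParZ k Q R N) (hQ : Q = Nat.card F) (x : End F V) (h : InMu k R (cls x)) :
    (Nat.card (CG x) : ℂ) = acg (tyF k Q R (cls x)) := by
  have hQ' : (Nat.card F : ℤ) = Q ^ 1 := by rw [hQ, pow_one]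
  rw [card_CG_eq_cg]
  generalize cls x = c at h
  induction hn : c.dim using Nat.strong_induction_on generalizing c with
  | _ n ih =>
  by_cases h0 : c.dim = 0
  · rw [dim_eq_zero.1 h0, cg_zero, show tyF k Q R (0 : Iso F) = 0 from funext fun _ => jt_zero _]
    simp [acg]
  obtain ⟨s, c₁, c₂, rfl, -, h1, h₁, h₂⟩ := exists_split_oSet hP ⟨1, hQ'⟩ h h0
  have h3 : fdeg F (mv s) = (eo Q s).deg := Nat.dvd_antisymm
    ((fdeg_dvd_iff hP hQ' s _).2 (by simp)) (by simpa using (fdeg_dvd_iff hP hQ' s _).1 dvd_rfl)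
  rw [cg, card_CG_prod (k := k) (x₁ := c₁.rep) (x₂ := c₂.rep) (by simp)
    (by simpa using fun t h h' => h₂ t h' (h₁ t h)), Nat.cast_mul, ← cg.eq_1 c₂, ih _ (hn ▸ h1) c₂ h.right rfl,
    acg_tyF_add h₁ h₂, card_CG_primary (s := mv s), tyF_eq_single h₁, acg_single, cls_rep, h3,
    tyF_eo hP (hQ ▸ stab_card c₁), hQ, Int.sign_natCast_of_ne_zero Nat.card_pos.ne']
  · simp
  · rw [cls_rep]
    intro t ht
    obtain ⟨y, hy, rfl⟩ := h₁ t ht
    obtain ⟨i, rfl⟩ := (mk_mu_eq_iff hP).1 hy.symm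
    rw [mv_zpow', hQ, ← Nat.cast_pow, zpow_natCast]
    exact isConjRoot_pow _ i

theorem card_cent_GL (hP : ParZ k Q R N) (hQ : Q = Nat.card F) (g : GLV F V)
    (h : InMu k R (cls (g : End F V))) :
    (Nat.card (centralizer {g}) : ℂ) = acg (tyF k Q R (cls (g : End F V))) := by
  rw [← CG_coe, card_CG_eq hP hQ _ h]

end Cfsg.Gun

set_option linter.all false in
theorem Cfsg.Rz.Gun_Aut_0 : True := by
  have := @_root_.Cfsg.Gun.cg.congr_simp.{0}
  have := @_root_.Cfsg.Gun.cg.eq_def.{0}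
  have := @_root_.Cfsg.Gun.cg.fun_cases
  have := @_root_.Cfsg.Gun.oSet.congr_simp.{0}
  have := @_root_.Cfsg.Gun.oSet.eq_def.{0}
  have := @_root_.Cfsg.Gun.oSet.eq_1.{0}
  have := @_root_.Cfsg.Gun.oSet.fun_cases
  trivial
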