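import Cfsg.Agent.Gun.UV
import Cfsg.Agent.Gun.AutA

/-!
# Determinants on centralizers in `GL(V)` (S4537 project)

`exists_dt_eq_pow`: `ν = aeval x P` (`P` squarefree, the minimal polynomial divides a power) is nilpotent with
`Dvb r ν` (kernel dimensions by `kd_pow_of_separable`), then `Dvb.dR_ker` with `T` = the `r`-th powers.
`exists_comm_dt`: `cls x = cy F t j + c'`; on `AdjoinRoot (f ^ j)` multiplication by `b` has determinant
`N(b mod f) ^ j`.  `comm_of_card_le_one`: `cls x = cls (cyc g)` by `ext_jt`.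
-/

set_option autoImplicit false
set_option linter.unusedSectionVars false
set_option linter.unusedVariables false
set_option linter.style.haveILetI false

namespace Cfsg.Gun

open Module Finset Function Gln Subgroup Polynomial

universe u

variable {F : Type u} [Field F] [Finite F] {V V₁ V₂ : Type*} [AddCommGroup V] [Module F V] [Finite V]
  [AddCommGroup V₁] [Module F V₁] [Finite V₁] [AddCommGroup V₂] [Module F V₂] [Finite V₂]
  (k : Type u) [Field k] [Algebra F k] [IsAlgClosed k] [Algebra.IsAlgebraic F k]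

theorem dvb_of_finrank {r : ℕ} {ν : End F V} (h : ∀ i, ¬ r ∣ i + 1 →
    finrank F (LinearMap.ker (ν ^ (i + 2))) + finrank F (LinearMap.ker (ν ^ i)) =
      2 * finrank F (LinearMap.ker (ν ^ (i + 1)))) : Dvb r ν := by
  have h1 : ∀ i, finrank F ((LinearMap.ker (ν ^ (i + 1))).map (ν ^ i)) +
      finrank F (LinearMap.ker (ν ^ i)) = finrank F (LinearMap.ker (ν ^ (i + 1))) := by
    intro i
    have h2 := LinearMap.finrank_range_add_finrank_ker
      ((ν ^ i) ∘ₗ (LinearMap.ker (ν ^ (i + 1))).subtype)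
    rw [LinearMap.range_comp, Submodule.range_subtype, LinearMap.ker_comp,
      (Submodule.comapSubtypeEquivOfLe fun v hv => ?_).finrank_eq] at h2
    · exact h2
    · rw [LinearMap.mem_ker, pow_succ', Module.End.mul_apply, LinearMap.mem_ker.1 hv, map_zero]
  intro i hi v hv
  have h2 : (LinearMap.ker (ν ^ (i + 1 + 1))).map (ν ^ (i + 1)) =
      (LinearMap.ker (ν ^ (i + 1))).map (ν ^ i) := by
    refine Submodule.eq_of_le_of_finrank_eq ?_ ?_
    · rintro _ ⟨w, hw, rfl⟩
      refine ⟨ν w, ?_, by rw [pow_succ, Module.End.mul_apply]⟩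
      have : (ν ^ (i + 1 + 1)) w = 0 := hw
      rwa [pow_succ, Module.End.mul_apply] at this
    · have h3 := h i hi
      have h4 := h1 i
      have h5 : _ = finrank F (LinearMap.ker (ν ^ (i + 2))) := h1 (i + 1)
      omega
  obtain ⟨w, -, hw⟩ : (ν ^ i) v ∈ (LinearMap.ker (ν ^ (i + 1 + 1))).map (ν ^ (i + 1)) :=
    h2 ▸ ⟨v, hv, rfl⟩
  exact ⟨w, hw⟩

theorem mm_second_diff {i : ℕ} {l : Multiset ℕ} (h : i + 1 ∉ l) :
    mm {i + 2} l + mm {i} l = 2 * mm {i + 1} l := by
  simp only [mm_singleton]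
  rw [← Multiset.sum_map_add, ← Multiset.sum_map_mul_left]
  refine congrArg _ (Multiset.map_congr rfl fun j hj => ?_)
  have : j ≠ i + 1 := fun e => h (e ▸ hj)
  omega

theorem exists_dt_eq_pow {x g : GLV F V} {r : ℕ} (hr : 0 < r)
    (h : ∀ t : k, ∀ j ∈ jt t (cls (x : End F V)), r ∣ j) (hg : Commute g x) :
    ∃ c : Fˣ, dt g = c ^ r := by
  obtain ⟨P, n, hP, -, hn⟩ := exists_squarefree_dvd_pow_of_ne_zero (x : End F V).charpoly_monic.ne_zero
  have h1 : Dvb r (aeval (x : End F V) P) := dvb_of_finrank fun i hi => by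
    have h0 : ∀ j, finrank F (LinearMap.ker (aeval (x : End F V) P ^ j)) = _ := fun j => by
      rw [← map_pow, ← kd_cls,
        kd_pow_of_separable (k := k) (PerfectField.separable_iff_squarefree.2 hP)]
    rw [h0, h0, h0, ← Multiset.sum_map_add, ← Multiset.sum_map_mul_left]
    exact congrArg _ (Multiset.map_congr rfl fun t _ => mm_second_diff fun e => hi (h t _ e))
  have h2 : aeval (x : End F V) P ^ (r * n) = 0 := by
    obtain ⟨c, hc⟩ := hn
    refine pow_eq_zero_of_le (Nat.le_mul_of_pos_left n hr) ?_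
    rw [← map_pow, hc, map_mul, LinearMap.aeval_self_charpoly, zero_mul]
  have h3 : Commute (g : End F V) (aeval (x : End F V) P) :=
    LinearMap.ext fun v => itw_aeval (φ := (g : End F V))
      (fun w => LinearMap.congr_fun (congrArg Units.val hg.eq) w) P v
  have h4 := h1.dR_ker h3.eq ((Module.End.isUnit_iff _).1 g.isUnit).1 (MonoidHom.mrange (powMonoidHom r))
    (fun t _ => ⟨t, rfl⟩) n
  rw [h2, LinearMap.ker_zero, dR_top] at h4
  obtain ⟨c, hc⟩ := h4
  have hc' : c ^ r = (dt g : F) := hc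
  refine ⟨Units.mk0 c fun e => (dt g).ne_zero ?_, Units.ext hc'.symm⟩
  rw [← hc', e, zero_pow hr.ne']

include k in
theorem det_aeval_cyc_pow {f : F[X]} (hf : f.Monic) (j : ℕ) [Finite (AdjoinRoot f)]
    [Finite (AdjoinRoot (f ^ j))] (p : F[X]) :
    LinearMap.det (aeval (cyc (f ^ j)) p) = Algebra.norm F (AdjoinRoot.mk f p) ^ j := by
  have h1 : aeval (cyc f) p = Algebra.lmul F _ (AdjoinRoot.mk f p) :=
    LinearMap.ext fun a => aeval_cyc' f p a
  apply (algebraMap F k).injective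
  rw [Algebra.norm_apply, ← h1, map_pow, ← prod_ev, ← prod_ev, ev_aeval, ev_aeval, ev, ev, cp_cyc hf,
    cp_cyc (hf.pow j), aroots_pow, Multiset.map_nsmul, Multiset.prod_nsmul]

theorem exists_comm_dt (x : GLV F V) {t : k} {j : ℕ} (h : j ∈ jt t (cls (x : End F V))) (c : Fˣ) :
    ∃ g, Commute g x ∧ dt g = c ^ j := by
  obtain ⟨d, hd⟩ := exists_eq_cy_add h
  haveI := finite_adjoinRoot (F := F) t j
  haveI := (minpoly_monic (F := F) t).finite_adjoinRoot
  haveI : Finite (AdjoinRoot (minpoly F t)) := Module.finite_of_finite F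
  haveI := Fact.mk (minpoly_irreducible (F := F) t)
  obtain ⟨b, hb⟩ := FiniteField.norm_surjective F (AdjoinRoot (minpoly F t)) c
  obtain ⟨p, rfl⟩ := AdjoinRoot.mk_surjective b
  rw [cy, ← cls_rep d, ← cls_prodMap, eq_comm, cls_eq_iff] at hd
  obtain ⟨e, he⟩ := hd
  have h1 : LinearMap.det (e.conj ((aeval (cyc (minpoly F t ^ j)) p).prodMap 1)) = (c : F) ^ j := by
    rw [← (sim_conj e _).det_eq, LinearMap.det_prodMap, map_one, mul_one,
      det_aeval_cyc_pow k (minpoly_monic t), hb]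
  obtain ⟨g, hg⟩ := exists_unit_of_det (h1 ▸ pow_ne_zero j c.ne_zero)
  refine ⟨g, Units.ext (LinearMap.ext fun v => ?_), Units.ext ((congrArg LinearMap.det hg).trans h1)⟩
  obtain ⟨u, rfl⟩ := e.surjective v
  simp only [Units.val_mul, hg, Module.End.mul_apply, LinearEquiv.conj_apply_apply, ← he,
    LinearEquiv.symm_apply_apply, LinearMap.prodMap_apply, Module.End.one_apply]
  rw [itw_aeval (φ := cyc (minpoly F t ^ j)) fun w => rfl]

theorem card_jt_cyc {g : F[X]} (hg : g.Monic) [Finite (AdjoinRoot g)] (t : k) :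
    (jt t (cls (cyc g))).card ≤ 1 := by
  have h1 := finrank_ker_jt t (cyc g) 1
  rw [pow_one, (jt_pos t _).mm_one] at h1
  refine Nat.le_of_mul_le_mul_left ?_ (fdeg_pos (F := F) t)
  rw [← h1, mul_one]
  by_cases h : minpoly F t ∣ g
  · exact (finrank_ker_cyc (a := 1) (b := 0) hg (minpoly_monic t) h dvd_rfl (by ring)).le
  · obtain ⟨a, b, hab⟩ := (minpoly_irreducible t).coprime_iff_not_dvd.2 h
    rw [finrank_ker_cyc hg monic_one (one_dvd _) (one_dvd _) hab.symm, natDegree_one]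
    exact Nat.zero_le _

theorem Pos.eq_of_card_le_one {l m : Multiset ℕ} (hl : Pos l) (hm : Pos m) (h : l.card ≤ 1)
    (h' : m.card ≤ 1) (e : l.sum = m.sum) : l = m := by
  rcases Nat.le_one_iff_eq_zero_or_eq_one.1 h with h | h
  · obtain rfl := Multiset.card_eq_zero.1 h
    exact (hm.eq_zero e.symm).symm
  rcases Nat.le_one_iff_eq_zero_or_eq_one.1 h' with h' | h'
  · obtain rfl := Multiset.card_eq_zero.1 h'
    exact hl.eq_zero e
  obtain ⟨a, rfl⟩ := Multiset.card_eq_one.1 h
  obtain ⟨b, rfl⟩ := Multiset.card_eq_one.1 h'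
  simpa using e

theorem comm_of_card_le_one {x : End F V} (h : ∀ t : k, (jt t (cls x)).card ≤ 1) (a b : End F V)
    (ha : Commute a x) (hb : Commute b x) : Commute a b := by
  haveI := x.charpoly_monic.finite_adjoinRoot
  haveI : Finite (AdjoinRoot x.charpoly) := Module.finite_of_finite F
  obtain ⟨e, he⟩ : Sim (cyc x.charpoly) x := cls_eq_iff.1 (ext_jt k fun t =>
    (jt_pos t _).eq_of_card_le_one (jt_pos t _) (card_jt_cyc k x.charpoly_monic t) (h t)
      (by rw [sum_jt, sum_jt, ev, ev, cp_cyc x.charpoly_monic, cp_cls]))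
  have h1 : ∀ p, e (AdjoinRoot.mk _ p) = aeval x p (e 1) := fun p => by
    have := itw_aeval (φ := e.toLinearMap) he p 1
    rwa [aeval_cyc', mul_one] at this
  have h2 : ∀ a : End F V, Commute a x → ∃ p, a = aeval x p := fun a ha => by
    obtain ⟨u, hu⟩ := e.surjective (a (e 1))
    obtain ⟨p, rfl⟩ := AdjoinRoot.mk_surjective u
    refine ⟨p, LinearMap.ext fun v => ?_⟩
    obtain ⟨w, rfl⟩ := e.surjective v
    obtain ⟨r, rfl⟩ := AdjoinRoot.mk_surjective w
    rw [h1, itw_aeval (φ := a) (LinearMap.congr_fun ha.eq), ← hu, h1, ← Module.End.mul_apply,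
      ← Module.End.mul_apply, ← map_mul, ← map_mul, mul_comm]
  obtain ⟨p, rfl⟩ := h2 a ha
  obtain ⟨r, rfl⟩ := h2 b hb
  exact (Commute.all p r).map _

theorem mem_range_blkHom (e : (V₁ × V₂) ≃ₗ[F] V) {x : GLV F V₁} {y : GLV F V₂}
    (h : ∀ t : k, jt t (cls (x : End F V₁)) = 0 ∨ jt t (cls (y : End F V₂)) = 0) {g : GLV F V}
    (hg : Commute g (blkHom e (x, y))) : g ∈ (blkHom e).range := by
  obtain ⟨g₁, -, g₂, -, rfl⟩ := exists_blkHom_eq (k := k) e (x := (blkHom e (x, y) : End F V))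
    (fun u => (blkHom_apply e x y u.1 u.2).symm)
    (fun t h1 h2 => (h t).elim (jt_eq_zero_iff.1 · h1) (jt_eq_zero_iff.1 · h2))
    (mem_CG.2 (congrArg Units.val hg.eq))
  exact ⟨_, rfl⟩

end Cfsg.Gun
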