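import Cfsg.Agent.Gun.Irr
import Cfsg.Agent.Gln.Cut
import Cfsg.Agent.Blk.Contrib

/-!
# Classes of labels, the basic set of `p'`-labels (S4537 project; port of the Gln file)

`ε = cut p`.  Call `(φ, j)` (`0 < j`) neutral if `¬ IsReg φ ∨ ee φ ∣ j`; for non-neutral `(φ, j)`,
`ε (pc φ j) = pc φ j` (`cut_P_of_not_dvd`); for neutral ones `ε (pc φ j)` is an average of neutral `pc φ' j'` with
`pp φ' = pp φ`, `deg φ' * j' = deg φ * j` (`cut_P`, `P_eq_pc`; if `¬ IsReg φ` then `deg (pp φ) * ee (pp φ) ∣ deg φ`).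
`cut_chi_mem`: let `W ρ m` be the span of the `chi b` (`Good b`) with residues `ρ` and masses `m`; neutral `pc` and their
adjoints `∂` move `W ρ m` to `W ρ (m ± ..)` (`pc_mul_chi`, `der_pc_chi`, `rs_add_single`).  `𝒩 = ∑_{neutral i, dim ≤ n} pc i * ∂ i`
acts on `mon μ` by the scalar `∑_{i ∈ μ neutral} i.2 ≤ N` (`adj_monomial`).  For `f ∈ W`, `f₀ = ∏_{t=1}^N (1 - 𝒩/t) f ∈ W` is
a combination of monomials without neutral factor, so `ε f₀ = f₀`, and `f - f₀ = 𝒩 g` with `g ∈ W`, so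
`ε (f - f₀) = ∑ ε (pc i) * ε (∂ i g) ∈ W` by induction on the dimension.
`vanish_of_wt`: all neutral `∂` kill `chi a` (`wt_sub_single`), so `𝒩 (chi a) = 0`, `ε (chi a) = chi a`.
`linearIndependent_basic`: the `ε (mon μ)`, `μ` over regular colours, are independent (`bf_monomial` with
`adj_cut_P_mul`), so `ε` is injective on their span, which contains the orthonormal `chi a`, `RegLab a`.
`span_basic`: `span_mon`, `cut_P_pPrimePart`, `P_eq_pc`, `mon_mem_span`.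
`mass_dvd`: `Mass a φ₀ = ∑_{c : Lab, Orb.mk (pPrimePart c) = φ₀} sz (a (mk c))` (`Per.sum_orb'`)
`= deg φ₀ * ∑_{c, pPrimePart c = φ₀.rep} sz (a (mk c))`, and `zpowers y` acts freely on the last index set preserving the
summand (`IsLab.tw`, `IsLab.eq_iff`).
-/

set_option autoImplicit false
set_option linter.unusedSectionVars false
set_option linter.unusedVariables false
set_option linter.style.haveILetI false

namespace Cfsg.Gun

open Finset Function Gln Cfsg.Sym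

universe u

variable {k : Type u} [Field k] [IsAlgClosed k] {Q : ℤ} {R N n : ℕ} [NeZero R] {G : Type u} [Group G]
  [Finite G] (p : ℕ)

/-- `p'`-colours. -/
def IsReg (φ : Col k Q R) : Prop := IsPRegular p φ.rep

/-- The `p'`-part of a colour. -/
noncomputable def pp (φ : Col k Q R) : Col k Q R := Orb.mk _ (pPrimePart p φ.rep)

/-- The order of `q ^ deg φ` modulo `p`. -/
noncomputable def ee (φ : Col k Q R) : ℕ := orderOf ((Q : ZMod p) ^ φ.deg)

/-- The dimension carried by the colours with `p'`-part `φ₀`. -/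
noncomputable def Mass (a : Col k Q R → Fin N → ℕ) (φ₀ : Col k Q R) : ℕ :=
  ∑ φ with pp p φ = φ₀, φ.deg * sz (a φ)

/-- Same masses and cores. -/
def SameCls (a b : Col k Q R → Fin N → ℕ) : Prop :=
  ∀ φ, IsReg p φ → Mass p a φ = Mass p b φ ∧ rs (ee p φ) (ms (a φ)) = rs (ee p φ) (ms (b φ))

/-- Labels concentrated on `p'`-colours. -/
def RegLab (a : Col k Q R → Fin N → ℕ) : Prop := ∀ φ, ¬ IsReg p φ → sz (a φ) = 0

/-- The weight at a colour. -/
noncomputable def wtc (a : Col k Q R → Fin N → ℕ) (φ : Col k Q R) : ℕ := wt (ee p φ) (ms (a φ))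

variable (N) in
/-- The basic set. -/
def basic (r : Rz k Q R n G) : Set (IrrCharacter G) :=
  {χ | ∃ a : Col k Q R → Fin N → ℕ, IsLab r χ a ∧ RegLab p a}

variable {p} {M : Ideal AlgInt} {a b c : Col k Q R → Fin N → ℕ} {φ : Col k Q R}
  {r : Rz k Q R n G} {χ ψ : IrrCharacter G}

theorem SameCls.refl (a : Col k Q R → Fin N → ℕ) : SameCls p a a := fun _ _ => ⟨rfl, rfl⟩

theorem SameCls.symm (h : SameCls p a b) : SameCls p b a :=
  fun φ hφ => ⟨(h φ hφ).1.symm, (h φ hφ).2.symm⟩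

theorem SameCls.trans (h : SameCls p a b) (h' : SameCls p b c) : SameCls p a c :=
  fun φ hφ => ⟨(h φ hφ).1.trans (h' φ hφ).1, (h φ hφ).2.trans (h' φ hφ).2⟩

theorem RegLab.dnl (h : RegLab p a) (φ : Col k Q R) (i : Fin N) (j : ℕ) :
    RegLab p (dnl a φ i j) := by
  intro ψ hψ
  have h1 := h ψ hψ
  by_cases e : ψ = φ
  · subst e
    have h2 : ∑ l, (a ψ - Pi.single i j : Fin N → ℕ) l ≤ ∑ l, a ψ l :=
      sum_le_sum fun l _ => Nat.sub_le _ _
    simp only [Gun.dnl, update_self, sz] at h1 ⊢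
    omega
  · rwa [Gun.dnl, update_of_ne e]

theorem sum_eq_of_sz (ha : Good a) (φ : Col k Q R) : ∑ i, a φ i = tri N + sz (a φ) :=
  (Nat.add_sub_cancel' (tri_le (ha φ))).symm

theorem sz_upl (hc : Good c) (φ : Col k Q R) (l : Fin N) (j : ℕ) (ψ : Col k Q R) :
    sz (upl c φ l j ψ) = sz (c ψ) + if ψ = φ then j else 0 := by
  split_ifs with e
  · subst e
    have := tri_le (hc ψ)
    simp only [upl, update_self, sz, Pi.add_apply, sum_add_distrib, sum_pi_single', mem_univ,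
      if_true]
    omega
  · rw [upl, update_of_ne e, add_zero]

theorem upl_dnl {l : Fin N} {j : ℕ} (h : j ≤ b φ l) : upl (dnl b φ l j) φ l j = b := by
  rw [upl, dnl, update_idem, update_self, sub_single_add h, update_eq_self]

theorem le_mdeg {μ : Multiset (Col k Q R × ℕ)} {i : Col k Q R × ℕ} (h : i ∈ μ) :
    i.1.deg * i.2 ≤ mdeg μ :=
  Multiset.le_sum_of_mem (Multiset.mem_map_of_mem (fun i : Col k Q R × ℕ => i.1.deg * i.2) h)

theorem IsLab.exists_sign (h : IsLab r χ a) : ∃ s : ℂ, s ≠ 0 ∧ χ.1 = s • r.res (chi a) := by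
  rcases h.2.2 with e | e
  · exact ⟨1, one_ne_zero, by rw [e, one_smul]⟩
  · exact ⟨-1, by norm_num, by rw [e, neg_one_smul, neg_neg]⟩

theorem IsLab.exists_sign' (h : IsLab r χ a) : ∃ s : ℂ, r.res (chi a) = s • χ.1 := by
  rcases h.2.2 with e | e
  · exact ⟨1, by rw [e, one_smul]⟩
  · exact ⟨-1, by rw [e, neg_one_smul]⟩

private theorem pPrimePart_mul (x y : Lab k R) :
    pPrimePart p (x * y) = pPrimePart p x * pPrimePart p y :=
  pPrimePart_mul_of_commute p (Commute.all (S := Lab k R) x y)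

variable (k Q R N p) in
/-- The neutral indices. -/
private noncomputable def NS : Finset (Col k Q R × ℕ) :=
  (univ ×ˢ Icc 1 N).filter fun i => i.1.deg * i.2 ≤ N ∧ p ∣ tn Q (i.1.deg * i.2)

private noncomputable def pd (i : Col k Q R × ℕ) : Lam k Q R →ₗ[ℂ] Lam k Q R :=
  der (cj (pc i.1 i.2))

variable (k Q R N p) in
/-- The number operator of the neutral indices. -/
private noncomputable def nop : Lam k Q R →ₗ[ℂ] Lam k Q R :=
  ∑ i ∈ NS k Q R N p, LinearMap.mulLeft ℂ (pc i.1 i.2) ∘ₗ pd i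

private theorem nop_apply (f : Lam k Q R) :
    nop k Q R N p f = ∑ i ∈ NS k Q R N p, pc i.1 i.2 * pd i f := by
  simp [nop]

variable (N p) in
private noncomputable def lam (μ : Multiset (Col k Q R × ℕ)) : ℕ :=
  ∑ i ∈ NS k Q R N p, μ.count i * i.2

variable (k Q R N p) in
private noncomputable def SM (n s : ℕ) : Submodule ℂ (Lam k Q R) := Submodule.span ℂ
  (mon '' {μ : Multiset (Col k Q R × ℕ) | (∀ i ∈ μ, 0 < i.2) ∧ mdeg μ = n ∧ lam N p μ ≤ s})

variable (p) in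
private noncomputable def Wc (a : Col k Q R → Fin N → ℕ) : Submodule ℂ (Lam k Q R) :=
  Submodule.span ℂ (chi '' {b | Good b ∧ size b = size a ∧ SameCls p a b})

variable (p) in
private noncomputable def Uc (φ₁ : Col k Q R) (d : ℕ) : Submodule ℂ (Lam k Q R) := Submodule.span ℂ
  ((fun i : Col k Q R × ℕ => pc i.1 i.2) '' {i | 0 < i.2 ∧ pp p i.1 = φ₁ ∧ i.1.deg * i.2 = d})

variable (p) in
private def Up (c b : Col k Q R → Fin N → ℕ) (φ₁ : Col k Q R) (d : ℕ) : Prop :=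
  size c + d = size b ∧ ∀ φ₀, IsReg p φ₀ → Mass p c φ₀ + (if φ₁ = φ₀ then d else 0) = Mass p b φ₀ ∧
    rs (ee p φ₀) (ms (c φ₀)) = rs (ee p φ₀) (ms (b φ₀))

private theorem Wc_le (h : size b = size a) (h' : SameCls p a b) : Wc p b ≤ Wc p a :=
  Submodule.span_mono (Set.image_mono fun c hc => ⟨hc.1, hc.2.1.trans h, h'.trans hc.2.2⟩)

variable (hP : ParZ k Q R N) (hp : p.Prime) (hpQ : ¬ (p : ℤ) ∣ Q)
include hP hp hpQ

omit hP hp hpQ in
theorem pPrimePart_iterate (i : ℕ) (x : Lab k R) :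
    pPrimePart p ((frz Q)^[i] x) = (frz Q)^[i] (pPrimePart p x) := by
  obtain ⟨m, hm⟩ : ∃ m : ℕ, ∀ y : Lab k R, y ^ Q ^ i = y ^ m :=
    ⟨(Q ^ i % R).toNat, fun y => (zpow_eq_zpow_emod' _ (Lab.pow_eq_one y)).trans <|
      (congrArg (y ^ ·) (Int.toNat_of_nonneg
        (Int.emod_nonneg _ (Nat.cast_ne_zero.2 (NeZero.ne R)))).symm).trans (zpow_natCast _ _)⟩
  rw [frz_iterate, frz_iterate, hm, hm, pPrimePart_pow]

theorem ee_pos (φ : Col k Q R) : 0 < ee p φ := by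
  haveI := Fact.mk hp
  refine orderOf_pos_iff.2 (isOfFinOrder_iff_pow_eq_one.2 ⟨p - 1, by have := hp.two_le; omega, ?_⟩)
  exact ZMod.pow_card_sub_one_eq_one (pow_ne_zero _ fun h =>
    hpQ ((ZMod.intCast_zmod_eq_zero_iff_dvd _ _).1 h))

theorem ee_dvd_iff (φ : Col k Q R) (j : ℕ) : ee p φ ∣ j ↔ p ∣ tn Q (φ.deg * j) := by
  rw [ee, orderOf_dvd_iff_pow_eq_one, ← pow_mul, dvd_tn_iff, ← ZMod.intCast_zmod_eq_zero_iff_dvd,
    Int.cast_sub, Int.cast_pow, Int.cast_one, sub_eq_zero]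

theorem ee_smul (y : fixq k Q R) (φ : Col k Q R) : ee p (y • φ) = ee p φ := by
  rw [ee, ee, deg_smul hP]

theorem isReg_mk {x : Lab k R} : IsReg p (Orb.mk _ x : Col k Q R) ↔ IsPRegular p x := by
  haveI := Fact.mk hp
  obtain ⟨i, hi⟩ := (per_lab hP).mk_eq_iff.1 (Orb.mk_rep (Orb.mk (frz Q) x))
  obtain ⟨j, hj⟩ := (per_lab hP).mk_eq_iff.1 (Orb.mk_rep (Orb.mk (frz Q) x)).symm
  rw [IsReg, ← pPrimePart_eq_self_iff, ← pPrimePart_eq_self_iff]
  exact ⟨fun h => by rw [hi, pPrimePart_iterate, h], fun h => by rw [hj, pPrimePart_iterate, h]⟩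

theorem isReg_smul {y : fixq k Q R} (hy : IsPRegular p y) : IsReg p (y • φ) ↔ IsReg p φ := by
  haveI := Fact.mk hp
  have hy' : IsPRegular p y.1 := isPRegular_coe_iff.2 hy
  rw [← Orb.mk_rep φ, smul_mk, isReg_mk hP hp hpQ, isReg_mk hP hp hpQ]
  refine ⟨fun h => ?_, fun h => h.mul_of_commute hy' (mul_comm φ.rep y.1)⟩
  have := h.mul_of_commute (isPRegular_inv_iff.2 hy') (mul_comm (φ.rep * y.1) y.1⁻¹)
  rwa [mul_inv_cancel_right φ.rep] at this

theorem pp_mk (x : Lab k R) : pp p (Orb.mk _ x : Col k Q R) = Orb.mk _ (pPrimePart p x) := by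
  obtain ⟨j, hj⟩ := (per_lab hP).mk_eq_iff.1 (Orb.mk_rep (Orb.mk (frz Q) x)).symm
  rw [pp, hj, pPrimePart_iterate, Orb.mk_iterate]

theorem pp_eq_self_iff : pp p φ = φ ↔ IsReg p φ := by
  haveI := Fact.mk hp
  constructor
  · intro h
    rw [← h]
    exact (isReg_mk hP hp hpQ).2 (isPRegular_pPrimePart p _)
  · intro h
    rw [pp, pPrimePart_eq_self_iff.2 h, Orb.mk_rep]

theorem isReg_pp (φ : Col k Q R) : IsReg p (pp p φ) :=
  haveI := Fact.mk hp
  (isReg_mk hP hp hpQ).2 (isPRegular_pPrimePart p _)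

theorem RegLab.mass (h : RegLab p a) (hφ : IsReg p φ) : Mass p a φ = φ.deg * sz (a φ) := by
  have h1 := (pp_eq_self_iff hP hp hpQ).2 hφ
  rw [Mass]
  refine sum_eq_single φ (fun ψ hψ e => ?_) fun h' => absurd (by simpa using h1) h'
  rw [h ψ fun h' => e (((pp_eq_self_iff hP hp hpQ).2 h').symm.trans (mem_filter.1 hψ).2), mul_zero]

theorem RegLab.wtc_eq_zero (h : RegLab p a) (ha : Good a) (hφ : ¬ IsReg p φ) : wtc p a φ = 0 :=
  wt_eq_zero_of_sum (ee_pos hP hp hpQ φ) (ha φ) (by rw [sum_eq_of_sz ha, h φ hφ, add_zero])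

/-- For `p'`-labels the class is given by sizes and residues at all colours. -/
theorem RegLab.sameCls_iff (h : RegLab p a) (h' : RegLab p b) (ha : Good a) (hb : Good b) :
    SameCls p a b ↔ ∀ φ, sz (a φ) = sz (b φ) ∧ rs (ee p φ) (ms (a φ)) = rs (ee p φ) (ms (b φ)) := by
  refine ⟨fun H φ => ?_, fun H φ hφ => ⟨?_, (H φ).2⟩⟩
  · by_cases hφ : IsReg p φ
    · refine ⟨Nat.eq_of_mul_eq_mul_left (deg_pos hP φ) ?_, (H φ hφ).2⟩
      rw [← h.mass hP hp hpQ hφ, ← h'.mass hP hp hpQ hφ, (H φ hφ).1]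
    · rw [h φ hφ, h' φ hφ, ms_eq_of_sum_eq_tri (ha φ) (by rw [sum_eq_of_sz ha, h φ hφ, add_zero]),
        ms_eq_of_sum_eq_tri (hb φ) (by rw [sum_eq_of_sz hb, h' φ hφ, add_zero])]
      exact ⟨rfl, rfl⟩
  · rw [h.mass hP hp hpQ hφ, h'.mass hP hp hpQ hφ, (H φ).1]

private theorem mem_NS {i : Col k Q R × ℕ} : i ∈ NS k Q R N p ↔
    0 < i.2 ∧ i.1.deg * i.2 ≤ N ∧ p ∣ tn Q (i.1.deg * i.2) := by
  simp only [NS, mem_filter, mem_product, mem_univ, true_and, mem_Icc]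
  exact ⟨fun h => ⟨h.1.1, h.2⟩, fun h =>
    ⟨⟨h.1, (Nat.le_mul_of_pos_left _ (deg_pos hP i.1)).trans h.2.1⟩, h.2⟩⟩

private theorem nop_mon {μ : Multiset (Col k Q R × ℕ)} (hμ : ∀ i ∈ μ, 0 < i.2) (hN : mdeg μ ≤ N) :
    nop k Q R N p (mon μ) = (lam N p μ : ℂ) • mon μ := by
  rw [nop_apply, lam, Nat.cast_sum, sum_smul]
  refine sum_congr rfl fun i hi => ?_
  obtain ⟨h1, h2, -⟩ := (mem_NS hP hp hpQ).1 hi
  have h3 : pd i _ = _ := der_monomial (g := fun i : Col k Q R × ℕ => pc i.1 i.2)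
    (v := cj (pc i.1 i.2)) (i := i) (γ := (i.2 : ℂ)) (μ := μ) (fun j _ => P_mem_lin1 _ _) fun j hj => by
      have h4 := der_pc_mul hP h1 (hμ j hj) h2 ((le_mdeg hj).trans hN) 1
      rw [der_mul (u := pc j.1 j.2) (P_mem_lin1 _ _), add_right_inj, smul_left_inj one_ne_zero] at h4
      rw [h4]
      exact if_congr (by rw [Prod.ext_iff, eq_comm, eq_comm (a := j.2)]) rfl rfl
  rw [mon, h3, mul_smul_comm, Nat.cast_mul]
  by_cases h : i ∈ μ
  · rw [Multiset.prod_map_erase (f := fun i : Col k Q R × ℕ => pc i.1 i.2) h]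
  · simp [Multiset.count_eq_zero.2 h]

private theorem sub_mem_SM {n s : ℕ} (hn : n ≤ N) {f : Lam k Q R} (hf : f ∈ SM k Q R N p n (s + 1)) :
    f - ((s + 1 : ℕ) : ℂ)⁻¹ • nop k Q R N p f ∈ SM k Q R N p n s := by
  refine (Submodule.map_span_le (LinearMap.id - ((s + 1 : ℕ) : ℂ)⁻¹ • nop k Q R N p) _ _).2 ?_
    (Submodule.mem_map_of_mem hf)
  rintro _ ⟨μ, ⟨h1, h2, h3⟩, rfl⟩
  change mon μ - ((s + 1 : ℕ) : ℂ)⁻¹ • nop k Q R N p (mon μ) ∈ _
  rw [nop_mon hP hp hpQ h1 (h2.trans_le hn), smul_smul]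
  rcases h3.eq_or_lt with h3 | h3
  · rw [h3, inv_mul_cancel₀ (Nat.cast_ne_zero.2 s.succ_ne_zero), one_smul, sub_self]
    exact zero_mem _
  · have : mon μ ∈ SM k Q R N p n s := Submodule.subset_span ⟨μ, ⟨h1, h2, by omega⟩, rfl⟩
    exact sub_mem this (Submodule.smul_mem _ _ this)

private theorem cut_of_SM {n : ℕ} (hn : n ≤ N) {f : Lam k Q R} (hf : f ∈ SM k Q R N p n 0) :
    cut p f = f := by
  refine LinearMap.eqOn_span' (f := (cut p).toLinearMap) (g := LinearMap.id) ?_ hf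
  rintro _ ⟨μ, ⟨h1, h2, h3⟩, rfl⟩
  change cut p (mon μ) = mon μ
  rw [mon, map_multiset_prod, Multiset.map_map]
  refine congrArg _ (Multiset.map_congr rfl fun i hi => ?_)
  have h4 := (le_mdeg hi).trans (h2.trans_le hn)
  refine cut_P_of_not_dvd hP (Nat.mul_pos (deg_pos hP _) (h1 i hi)) h4 hp (rep_pow hP _ _)
    fun h => ?_
  have h5 := sum_eq_zero_iff.1 (Nat.le_zero.1 h3) i ((mem_NS hP hp hpQ).2 ⟨h1 i hi, h4, h⟩)
  exact mul_ne_zero (Multiset.count_ne_zero.2 hi) (h1 i hi).ne' h5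

private theorem chi_mem_SM (a : Col k Q R → Fin N → ℕ) :
    chi a ∈ SM k Q R N p (size a) (size a) := by
  refine Submodule.span_mono (Set.image_mono fun μ hμ => ?_) (chi_mem_span_mon a)
  refine ⟨fun i hi => (hμ.1 i hi).1, hμ.2, ?_⟩
  rw [← hμ.2, mdeg, Finset.sum_multiset_map_count]
  refine (sum_le_sum (g := fun i => μ.count i • (i.1.deg * i.2)) fun i _ =>
    Nat.mul_le_mul_left _ (Nat.le_mul_of_pos_left _ (deg_pos hP i.1))).trans
    (sum_le_sum_of_ne_zero fun i _ h => ?_)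
  rw [Multiset.mem_toFinset, ← Multiset.count_ne_zero]
  exact left_ne_zero_of_mul h

private theorem up_upl (hc : Good c) (l : Fin N) {j : ℕ} (hj : p ∣ tn Q (φ.deg * j)) :
    Up p c (upl c φ l j) (pp p φ) (φ.deg * j) := by
  refine ⟨?_, fun φ₀ h₀ => ⟨?_, ?_⟩⟩
  · simp only [size, sz_upl hc, mul_add, sum_add_distrib, mul_ite, mul_zero, sum_ite_eq',
      mem_univ, if_true]
  · simp only [Mass, sz_upl hc, mul_add, sum_add_distrib, mul_ite, mul_zero, sum_ite_eq',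
      mem_filter, mem_univ, true_and]
  · by_cases e : φ₀ = φ
    · subst e
      rw [upl, update_self, rs_add_single ((ee_dvd_iff hP hp hpQ _ _).2 hj)]
    · rw [upl, update_of_ne e]

private theorem mul_mem_Wc {φ₁ : Col k Q R} {d : ℕ} (hU : Up p c b φ₁ d) (hN : size b ≤ N)
    (hd : p ∣ tn Q d) {u w : Lam k Q R} (hu : u ∈ Uc p φ₁ d) (hw : w ∈ Wc p c) :
    u * w ∈ Wc p b := by
  have h1 := Submodule.mul_mem_mul hu hw
  rw [Uc, Wc, Submodule.span_mul_span] at h1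
  refine Submodule.span_le.2 ?_ h1
  rintro _ ⟨_, ⟨i, ⟨h2, rfl, rfl⟩, rfl⟩, _, ⟨c', ⟨h3, h4, h5⟩, rfl⟩, rfl⟩
  change pc i.1 i.2 * chi c' ∈ Wc p b
  rw [pc_mul_chi hP h2 h3 (by rw [h4, hU.1]; exact hN)]
  refine sum_mem fun l _ => ?_
  by_cases hg : Good (upl c' i.1 l i.2)
  · have h6 := up_upl hP hp hpQ h3 l hd
    refine Submodule.subset_span ⟨_, ⟨hg, by rw [← h6.1, h4, hU.1], fun φ₀ h₀ => ⟨?_, ?_⟩⟩, rfl⟩
    · rw [← (h6.2 φ₀ h₀).1, ← (hU.2 φ₀ h₀).1, (h5 φ₀ h₀).1]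
    · rw [← (h6.2 φ₀ h₀).2, ← (hU.2 φ₀ h₀).2, (h5 φ₀ h₀).2]
  · rw [chi_eq_zero hg]
    exact zero_mem _

private theorem map_nop_mem (ε : Lam k Q R →ₐ[ℂ] Lam k Q R) (hN : size a ≤ N)
    (h₁ : ∀ i ∈ NS k Q R N p, ε (pc i.1 i.2) ∈ Uc p (pp p i.1) (i.1.deg * i.2))
    (h₂ : ∀ c : Col k Q R → Fin N → ℕ, Good c → size c < size a → ε (chi c) ∈ Wc p c)
    {g : Lam k Q R} (hg : g ∈ Wc p a) : ε (nop k Q R N p g) ∈ Wc p a := by
  refine (Submodule.map_span_le (ε.toLinearMap ∘ₗ nop k Q R N p) _ _).2 ?_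
    (Submodule.mem_map_of_mem hg)
  rintro _ ⟨b, ⟨hb, h3, h4⟩, rfl⟩
  refine Wc_le h3 h4 ?_
  change ε (nop k Q R N p (chi b)) ∈ _
  rw [nop_apply, map_sum]
  refine sum_mem fun i hi => ?_
  obtain ⟨h5, h6, h7⟩ := (mem_NS hP hp hpQ).1 hi
  rw [pd, der_pc_chi hP h5 h6 hb (h3.trans_le hN), mul_sum, map_sum]
  refine sum_mem fun l hl => ?_
  by_cases hg : Good (dnl b i.1 l i.2)
  · have h8 := up_upl hP hp hpQ hg l h7
    rw [upl_dnl (mem_filter.1 hl).2] at h8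
    rw [map_mul]
    refine mul_mem_Wc hP hp hpQ h8 (h3.trans_le hN) h7 (h₁ i hi) (h₂ _ hg ?_)
    have := h8.1
    have := Nat.mul_pos (deg_pos hP i.1) h5
    omega
  · rw [chi_eq_zero hg, mul_zero, map_zero]
    exact zero_mem _

private theorem cut_pc_mem {j : ℕ} (hj : 0 < j) (hN : φ.deg * j ≤ N) :
    cut p (pc φ j) ∈ Uc p (pp p φ) (φ.deg * j) := by
  haveI := Fact.mk hp
  have h0 := Nat.mul_pos (deg_pos hP φ) hj
  rw [pc, cut_P hP h0 hN hp (rep_pow hP _ _)]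
  refine Submodule.smul_mem _ _ (sum_mem fun y hy => ?_)
  have h1 := (mem_filter.1 hy).2
  have h2 : (φ.rep * y) ^ (tn Q (φ.deg * j)) = 1 := by
    obtain ⟨c, hc⟩ := Nat.ordProj_dvd (tn Q (φ.deg * j)) p
    rw [mul_pow φ.rep, rep_pow hP, one_mul (y ^ _), hc, pow_mul y, h1, one_pow (M := Lab k R)]
  have h3 := (deg_dvd_iff hP).2 h2
  rw [P_eq_pc hP h0 hN h2]
  refine Submodule.subset_span ⟨(Orb.mk _ (φ.rep * y), _),
    ⟨Nat.div_pos (Nat.le_of_dvd h0 h3) (deg_pos hP _), ?_, Nat.mul_div_cancel' h3⟩, rfl⟩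
  change pp p (Orb.mk _ (φ.rep * y)) = _
  rw [pp_mk hP hp hpQ, pPrimePart_mul,
    (pPrimePart_eq_one_iff (g := y)).2 (isPElt_iff_pow_eq_one.2 ⟨_, h1⟩),
    mul_one (pPrimePart p φ.rep), pp]

theorem cut_chi_mem (ha : Good a) (hN : size a ≤ N) : cut p (chi a) ∈
    Submodule.span ℂ (chi '' {b | Good b ∧ size b = size a ∧ SameCls p a b}) := by
  induction hn : size a using Nat.strong_induction_on generalizing a with | h n ih => ?_
  subst hn
  have key : ∀ s, ∀ f ∈ SM k Q R N p (size a) s, f ∈ Wc p a → cut p f ∈ Wc p a := by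
    intro s
    induction s with
    | zero => exact fun f hf h => by rwa [cut_of_SM hP hp hpQ hN hf]
    | succ s ihs =>
      intro f hf h
      have h1 := map_nop_mem hP hp hpQ (AlgHom.id ℂ _) hN (fun i hi => Submodule.subset_span
        ⟨i, ⟨((mem_NS hP hp hpQ).1 hi).1, rfl, rfl⟩, rfl⟩)
        (fun c hc _ => Submodule.subset_span ⟨c, ⟨hc, rfl, .refl c⟩, rfl⟩) h
      have h2 := map_nop_mem hP hp hpQ (cut p) hN (fun i hi => cut_pc_mem hP hp hpQ
        ((mem_NS hP hp hpQ).1 hi).1 ((mem_NS hP hp hpQ).1 hi).2.1)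
        (fun c hc hlt => ih _ hlt hc (by omega) rfl) h
      have h3 := ihs _ (sub_mem_SM hP hp hpQ hN hf) (sub_mem h (Submodule.smul_mem _ _ h1))
      have h4 := add_mem h3 (Submodule.smul_mem _ ((s + 1 : ℕ) : ℂ)⁻¹ h2)
      rwa [map_sub, map_smul, sub_add_cancel] at h4
  exact key _ _ (chi_mem_SM hP hp hpQ a) (Submodule.subset_span ⟨a, ⟨ha, rfl, .refl a⟩, rfl⟩)

variable (hV : n ≤ N)
include hV

theorem IsLab.sameCls_of_ip (h : IsLab r χ a) (h' : IsLab r ψ b)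
    (e : ip (pRegularPart p χ.1) ψ.1 ≠ 0) : SameCls p a b := by
  classical
  by_contra hn
  obtain ⟨s, -, hs⟩ := h.exists_sign
  rw [hs, pRegularPart_smul, ip_smul_left, ← r.res_cut hP hp hpQ] at e
  refine right_ne_zero_of_mul e (Submodule.span_induction (p := fun f _ => ip (r.res f) ψ.1 = 0) ?_
    (by simp) (fun _ _ _ _ h h' => by rw [map_add, ip_add_left, h, h', add_zero])
    (fun c _ _ h => by rw [map_smul, ip_smul_left, h, mul_zero])
    (cut_chi_mem hP hp hpQ h.1 (h.2.1.trans_le hV)))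
  rintro _ ⟨c, ⟨h1, h2, h3⟩, rfl⟩
  obtain ⟨θ, hθ⟩ := exists_irr hP r hV h1 (h2.trans h.2.1)
  obtain ⟨t, ht⟩ := hθ.exists_sign'
  rw [ht, ip_smul_left, IrrCharacter.ip_eq, if_neg, mul_zero]
  intro e'
  have h4 := (hθ.eq_iff hP hV h').1 e'
  refine hn (h3.trans fun φ _ => ⟨?_, by rw [h4]⟩)
  exact sum_congr rfl fun φ' _ => by rw [sz_eq_of_ms (h4 φ')]

theorem IsLab.sameCls (hM : IsPModular p M) (h : IsLab r χ a) (h' : IsLab r ψ b)
    (e : SameBlock M χ.1 ψ.1) : SameCls p a b := by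
  haveI := Fact.mk hp
  have hB : IsPBlock M (blockOf M χ.1) := ⟨χ, rfl⟩
  obtain ⟨θ, hθ, h0⟩ := exists_blockHeight_eq_zero (p := p) (hB.nonempty hM)
  obtain ⟨c, hc⟩ := exists_isLab hP r hV θ
  exact (hc.sameCls_of_ip hP hp hpQ hV h (hB.ip_pRegularPart_ne_zero hM hθ
    (hM.sameBlock_refl χ) h0)).symm.trans
    (hc.sameCls_of_ip hP hp hpQ hV h' (hB.ip_pRegularPart_ne_zero hM hθ e h0))

theorem IsLab.vanish_of_wt (h : IsLab r χ a) (ha : RegLab p a) (h0 : ∀ φ, wtc p a φ = 0) (g : G)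
    (hg : p ∣ orderOf g) : χ g = 0 := by
  have hN := h.2.1.trans_le hV
  have h1 : nop k Q R N p (chi a) = 0 := by
    rw [nop_apply]
    refine sum_eq_zero fun i hi => ?_
    obtain ⟨h5, h6, h7⟩ := (mem_NS hP hp hpQ).1 hi
    rw [pd, der_pc_chi hP h5 h6 h.1 hN, sum_eq_zero, mul_zero]
    refine fun l hl => chi_eq_zero fun hg => ?_
    obtain ⟨t, ht⟩ := (ee_dvd_iff hP hp hpQ _ _).2 h7
    have h8 := hg i.1
    have h9 := (mem_filter.1 hl).2
    rw [dnl, update_self, ht] at h8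
    rw [ht] at h9
    have h10 := wt_sub_single (ee_pos hP hp hpQ i.1) h9 h8
    have h11 := h0 i.1
    rw [wtc] at h11
    rw [show t = 0 by omega, mul_zero] at ht
    omega
  have key : ∀ s, chi a ∈ SM k Q R N p (size a) s → cut p (chi a) = chi a := by
    intro s
    induction s with
    | zero => exact cut_of_SM hP hp hpQ hN
    | succ s ih =>
      intro hf
      have := sub_mem_SM hP hp hpQ hN hf
      rw [h1, smul_zero, sub_zero] at this
      exact ih this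
  obtain ⟨s, -, hs⟩ := h.exists_sign
  have h2 := congrFun hs g
  rw [← key _ (chi_mem_SM hP hp hpQ a), r.res_cut hP hp hpQ, Pi.smul_apply, pRegularPart_apply,
    if_pos hg, smul_zero] at h2
  exact h2

omit hV in
private theorem li_cut_mon (hn : n ≤ N) : LinearIndependent ℂ
    ((cut p).toLinearMap ∘ fun μ : {μ : Multiset (Col k Q R × ℕ) |
      (∀ i ∈ μ, IsReg p i.1 ∧ 0 < i.2) ∧ mdeg μ = n} => mon μ.1) := by
  let γ : Col k Q R × ℕ → ℂ := fun i => (i.2 : ℂ) / (ordProj[p] (tn Q (i.1.deg * i.2)) : ℕ)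
  let z : Multiset (Col k Q R × ℕ) → ℂ := fun μ =>
    (μ.map γ).prod * ∏ i ∈ μ.toFinset, ((μ.count i).factorial : ℂ)
  have key : ∀ μ ν : {μ : Multiset (Col k Q R × ℕ) |
      (∀ i ∈ μ, IsReg p i.1 ∧ 0 < i.2) ∧ mdeg μ = n}, bf (cut p (mon μ.1))
        (ν.1.map fun i => cj (pc i.1 i.2)).prod = if μ.1 = ν.1 then z μ.1 else 0 := by
    intro μ ν
    have h1 := bf_monomial (s := {i : Col k Q R × ℕ | IsReg p i.1 ∧ 0 < i.2 ∧ i.1.deg * i.2 ≤ N})
      (g := fun i => cut p (pc i.1 i.2)) (g' := fun i => cj (pc i.1 i.2)) (γ := γ)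
      (fun i _ => cut_mem_lin1 p (P_mem_lin1 _ _)) (fun i _ => cj_mem_lin1 (P_mem_lin1 _ _))
      (fun i hi j hj => by
        rw [pc, pc, bf_cut_P hP (Nat.mul_pos (deg_pos hP _) hj.2.1) hj.2.2 hp
          (Nat.mul_pos (deg_pos hP _) hi.2.1) hi.2.2 (rep_pow hP _ _) (rep_pow hP _ _) hj.1 hi.1]
        have h2 := (per_lab hP).card_filter_iterate (a := j.1.rep) (b := i.1.rep)
          (n := j.1.deg * j.2) (by rw [Orb.mk_rep]; exact dvd_mul_right _ _)
        simp only [frz_iterate, Orb.mk_rep] at h2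
        rw [h2]
        by_cases e : i = j
        · subst e
          simp only [if_true, γ, Nat.mul_div_cancel_left _ (deg_pos hP i.1)]
        · rw [if_neg e]
          split_ifs with h3 h4
          · rw [h4] at h3
            exact absurd (Prod.ext h4.symm (Nat.eq_of_mul_eq_mul_left (deg_pos hP _) h3)) e
          · simp
          · rfl)
      (μ := μ.1) (ν := ν.1)
      (fun i hi => ⟨(μ.2.1 i hi).1, (μ.2.1 i hi).2, (le_mdeg hi).trans (μ.2.2.trans_le hn)⟩)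
      (fun i hi => ⟨(ν.2.1 i hi).1, (ν.2.1 i hi).2, (le_mdeg hi).trans (ν.2.2.trans_le hn)⟩)
    rw [mon, map_multiset_prod (cut p), Multiset.map_map]
    exact h1
  refine LinearIndependent.of_pairwise_dual_eq_zero_one _ (fun ν => (z ν.1)⁻¹ •
    bf.flip (ν.1.map fun i => cj (pc i.1 i.2)).prod) (fun ν μ h => ?_) fun μ => ?_
  · change (z ν.1)⁻¹ * bf (cut p (mon μ.1)) _ = 0
    rw [key, if_neg fun h' => h (Subtype.ext h').symm, mul_zero]
  · change (z μ.1)⁻¹ * bf (cut p (mon μ.1)) _ = 1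
    rw [key, if_pos rfl]
    refine inv_mul_cancel₀ (mul_ne_zero (Multiset.prod_ne_zero fun h => ?_)
      (prod_ne_zero_iff.2 fun i _ => Nat.cast_ne_zero.2 (Nat.factorial_ne_zero _)))
    obtain ⟨i, hi, h⟩ := Multiset.mem_map.1 h
    exact div_ne_zero (Nat.cast_ne_zero.2 (μ.2.1 i hi).2.ne')
      (Nat.cast_ne_zero.2 (pow_ne_zero _ hp.ne_zero)) h

theorem linearIndependent_basic (r : Rz k Q R n G) :
    LinearIndependent ℂ fun χ : basic N p r => pRegularPart p (χ.1.1 : G → ℂ) := by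
  let L : (G → ℂ) →ₗ[ℂ] (G → ℂ) :=
    { toFun := pRegularPart p, map_add' := pRegularPart_add, map_smul' := pRegularPart_smul }
  refine (IrrCharacter.linearIndependent.comp (fun χ : basic N p r => χ.1)
    Subtype.val_injective).map (f := L) (Submodule.disjoint_def.2 fun θ hθ h0 => ?_)
  let S := Submodule.span ℂ (Set.range fun μ : {μ : Multiset (Col k Q R × ℕ) |
      (∀ i ∈ μ, IsReg p i.1 ∧ 0 < i.2) ∧ mdeg μ = n} => mon μ.1)
  have h1 : θ ∈ S.map r.res := by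
    refine Submodule.span_le.2 ?_ hθ
    rintro _ ⟨⟨χ, a, ha, ha'⟩, rfl⟩
    obtain ⟨s, -, hs⟩ := ha.exists_sign
    refine ⟨s • chi a, S.smul_mem _ (Submodule.span_mono ?_ (chi_mem_span_mon a)), ?_⟩
    · rintro _ ⟨μ, ⟨h2, h3⟩, rfl⟩
      refine ⟨⟨μ, fun i hi => ⟨by_contra fun h => ?_, (h2 i hi).1⟩, h3.trans ha.2.1⟩, rfl⟩
      have := h2 i hi
      rw [ha' _ h] at this
      omega
    · rw [map_smul]; exact hs.symm
  obtain ⟨f, hf, rfl⟩ := h1
  have h2 : f ∈ hom k Q R n := by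
    refine Submodule.span_le.2 ?_ hf
    rintro _ ⟨μ, rfl⟩
    have := mon_mem_hom μ.1
    rwa [μ.2.2] at this
  have h3 : cut p f = 0 := by
    refine r.eq_of_res_eq hP (cut_mem_hom p h2) (zero_mem _) ?_
    rw [r.res_cut hP hp hpQ, map_zero]
    exact h0
  rw [Submodule.disjoint_def.1 (Submodule.range_ker_disjoint (li_cut_mon hP hp hpQ hV)) f hf h3,
    map_zero]

omit hV in
private theorem exists_cut_mon {μ : Multiset (Col k Q R × ℕ)} (hμ : ∀ i ∈ μ, 0 < i.2)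
    (hN : mdeg μ ≤ N) : ∃ ν : Multiset (Col k Q R × ℕ), (∀ i ∈ ν, IsReg p i.1 ∧ 0 < i.2) ∧
      mdeg ν = mdeg μ ∧ cut p (mon μ) = cut p (mon ν) := by
  have h1 : ∀ i : Col k Q R × ℕ,
      pPrimePart p i.1.rep ^ (tn Q (i.1.deg * i.2)) = 1 := fun i => by
    rw [← pPrimePart_pow, rep_pow hP, pPrimePart_one]
  have h2 : ∀ i : Col k Q R × ℕ, (pp p i.1).deg ∣ i.1.deg * i.2 := fun i =>
    (deg_dvd_iff hP).2 (h1 i)
  refine ⟨μ.map fun i => (pp p i.1, i.1.deg * i.2 / (pp p i.1).deg), fun i hi => ?_, ?_, ?_⟩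
  · obtain ⟨j, hj, rfl⟩ := Multiset.mem_map.1 hi
    exact ⟨isReg_pp hP hp hpQ _, Nat.div_pos (Nat.le_of_dvd
      (Nat.mul_pos (deg_pos hP _) (hμ j hj)) (h2 j)) (deg_pos hP _)⟩
  · rw [mdeg, mdeg, Multiset.map_map]
    exact congrArg _ (Multiset.map_congr rfl fun i _ => Nat.mul_div_cancel' (h2 i))
  · rw [mon, mon, map_multiset_prod, map_multiset_prod, Multiset.map_map, Multiset.map_map,
      Multiset.map_map]
    refine congrArg _ (Multiset.map_congr rfl fun i hi => ?_)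
    have h3 := Nat.mul_pos (deg_pos hP i.1) (hμ i hi)
    have h4 := (le_mdeg hi).trans hN
    exact (cut_P_pPrimePart hP h3 h4 hp (rep_pow hP i.1 i.2)).symm.trans
      (congrArg _ (P_eq_pc hP h3 h4 (h1 i)))

theorem span_basic (r : Rz k Q R n G) (χ : IrrCharacter G) : pRegularPart p χ.1 ∈
    Submodule.span ℂ ((fun χ : IrrCharacter G => pRegularPart p χ.1) '' basic N p r) := by
  obtain ⟨a, ha⟩ := exists_isLab hP r hV χ
  obtain ⟨s, -, hs⟩ := ha.exists_sign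
  rw [hs, pRegularPart_smul, ← r.res_cut hP hp hpQ]
  refine Submodule.smul_mem _ _ ((Submodule.map_span_le (r.res ∘ₗ (cut p).toLinearMap)
    _ _).2 ?_ (Submodule.mem_map_of_mem (chi_mem_span_mon a)))
  rintro _ ⟨μ, ⟨h1, h2⟩, rfl⟩
  have h3 : mdeg μ = n := h2.trans ha.2.1
  obtain ⟨ν, h4, h5, h6⟩ := exists_cut_mon hP hp hpQ (fun i hi => (h1 i hi).1) (h3.trans_le hV)
  change r.res (cut p (mon μ)) ∈ _
  rw [h6]
  refine (Submodule.map_span_le (r.res ∘ₗ (cut p).toLinearMap) _ _).2 ?_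
    (Submodule.mem_map_of_mem (mon_mem_span hP (fun i hi => (h4 i hi).2)
      ((h5.trans h3).trans_le hV)))
  rintro _ ⟨b, ⟨h7, h8, h9⟩, rfl⟩
  obtain ⟨θ, hθ⟩ := exists_irr hP r hV h7 (h8.trans (h5.trans h3))
  obtain ⟨t, ht⟩ := hθ.exists_sign'
  change r.res (cut p (chi b)) ∈ _
  rw [r.res_cut hP hp hpQ, ht, pRegularPart_smul]
  exact Submodule.smul_mem _ _ (Submodule.subset_span ⟨θ, ⟨b, hθ, fun φ hφ =>
    h9 φ fun i hi e => hφ (e ▸ (h4 i hi).1)⟩, rfl⟩)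

theorem exists_mem_basic (r : Rz k Q R n G) (hM : IsPModular p M) {B : Set (IrrCharacter G)}
    (hB : IsPBlock M B) : ∃ χ ∈ B, χ ∈ basic N p r := by
  haveI := Fact.mk hp
  obtain ⟨χ, hχ, h0⟩ := exists_blockHeight_eq_zero (p := p) (hB.nonempty hM)
  by_contra hn
  refine hB.ip_pRegularPart_ne_zero hM hχ hχ h0 (Submodule.span_induction
    (p := fun θ _ => ip θ χ.1 = 0) ?_ (by simp)
    (fun _ _ _ _ h h' => by rw [ip_add_left, h, h', add_zero])
    (fun c _ _ h => by rw [ip_smul_left, h, mul_zero]) (span_basic hP hp hpQ hV r χ))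
  rintro _ ⟨ψ, hψ, rfl⟩
  rw [ip_pRegularPart_symm]
  exact hB.ip_pRegularPart_eq_zero hM hχ fun h => hn ⟨ψ, h, hψ⟩

theorem tw_mem_basic {y : fixq k Q R} (hy : IsPRegular p y) (h : χ ∈ basic N p r)
    (h' : IsTw ((dch hP y).comp r.dt) χ.1 ψ.1) : ψ ∈ basic N p r := by
  obtain ⟨a, ha, ha'⟩ := h
  exact ⟨_, ha.tw hP hV y h', fun φ hφ => ha' _ fun h =>
    hφ ((isReg_smul hP hp hpQ (isPRegular_inv_iff.2 hy)).1 h)⟩

theorem IsLab.mass_dvd (h : IsLab r χ a) {y : fixq k Q R} (hy : IsPElt p y)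
    (h' : IsTw ((dch hP y).comp r.dt) χ.1 χ.1) (hφ : IsReg p φ) : φ.deg * orderOf y ∣ Mass p a φ := by
  haveI := Fact.mk hp
  have hper := per_lab (k := k) hP
  have h1 : ∀ ψ, sz (a (y • ψ)) = sz (a ψ) := fun ψ => by
    rw [sz_eq_of_ms ((h.eq_iff hP hV (h.tw hP hV y h')).1 rfl (y • ψ)), inv_smul_smul]
  let G : Lab k R → ℕ := fun v => ∑ c : Lab k R,
    if pPrimePart p c = v then sz (a (Orb.mk _ c)) else 0
  have hG' : ∀ i v, G ((frz Q)^[i] v) = G v := fun i v => by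
    have hi : Injective ((frz Q)^[i] : Lab k R → Lab k R) := fun x y e =>
      hP.zpow_injective Lab.pow_eq_one i (by simpa only [frz_iterate] using e)
    refine ((Finite.injective_iff_bijective.1 hi).sum_comp _).symm.trans (sum_congr rfl fun c _ => ?_)
    rw [pPrimePart_iterate, Orb.mk_iterate]
    exact if_congr hi.eq_iff rfl rfl
  have h2 : Mass p a φ = φ.deg * G φ.rep := by
    have e1 := hper.sum_orb' fun o => if pp p o = φ then sz (a o) else 0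
    have e2 := hper.sum_orb' fun o => if o = φ then G φ.rep else 0
    simp only [smul_eq_mul, mul_ite, mul_zero, sum_ite_eq', mem_univ, if_true] at e1 e2
    rw [Mass, sum_filter, ← e1, ← e2, ← sum_fiberwise univ (pPrimePart p)]
    refine sum_congr rfl fun v _ => ?_
    rw [sum_congr rfl (g := fun c => if Orb.mk _ v = φ then sz (a (Orb.mk _ c)) else 0)
      fun c hc => by rw [pp_mk hP hp hpQ, (mem_filter.1 hc).2]]
    split_ifs with hv
    · obtain ⟨i, hi⟩ := hper.mk_eq_iff.1 (hv.trans (Orb.mk_rep φ).symm)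
      rw [hi, hG', sum_filter]
    · exact sum_const_zero
  rw [h2, ← Subgroup.orderOf_coe]
  refine Nat.mul_dvd_mul_left _ (orderOf_dvd_sum _ _ fun c => ?_)
  rw [pPrimePart_mul,
    pPrimePart_eq_one_iff.2 (isPElt_coe_iff.2 hy), mul_one (pPrimePart p c), ← smul_mk, h1]

end Cfsg.Gun

set_option linter.all false in
theorem Cfsg.Rz.Gun_Cut_0 : True := by
  have := @_root_.Cfsg.Gun.IsReg.eq_def.{0}
  have := @_root_.Cfsg.Gun.IsReg.eq_1.{0}
  have := @_root_.Cfsg.Gun.IsReg.fun_cases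
  have := @_root_.Cfsg.Gun.RegLab.eq_def.{0}
  have := @_root_.Cfsg.Gun.RegLab.eq_1.{0}
  have := @_root_.Cfsg.Gun.RegLab.fun_cases
  have := @_root_.Cfsg.Gun.ee.eq_def.{0}
  have := @_root_.Cfsg.Gun.ee.fun_cases
  have := @_root_.Cfsg.Gun.pp.eq_def.{0}
  have := @_root_.Cfsg.Gun.pp.fun_cases
  have := @_root_.Cfsg.Gun.basic.eq_def.{0}
  have := @_root_.Cfsg.Gun.basic.eq_1.{0}
  have := @_root_.Cfsg.Gun.basic.fun_cases
  have := @_root_.Cfsg.Gun.wtc.eq_def.{0}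
  have := @_root_.Cfsg.Gun.wtc.eq_1.{0}
  have := @_root_.Cfsg.Gun.wtc.fun_cases
  have := @_root_.Cfsg.Gun.SameCls.eq_def.{0}
  have := @_root_.Cfsg.Gun.SameCls.eq_1.{0}
  have := @_root_.Cfsg.Gun.SameCls.fun_cases
  have := @_root_.Cfsg.Gun.Mass.eq_def.{0}
  have := @_root_.Cfsg.Gun.Mass.fun_cases
  trivial
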