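import Cfsg.Agent.Gln.Pair

/-!
# Signed Frobenius parameters (S4537 project)

`Q : ℤ`, `2 ≤ |Q|` (`Q = -q` for unitary groups, `Q = |K|` for linear groups).  `tn Q n = |Q^n - 1|`.
`prz m x a` is the pairing `a y` where `y ^ (R / m) = x` with the SIGNED quotient `R / m` (`m = Q^n - 1 : ℤ`);
all lemmas reduce to `Gln.pr_*` by `m = ± m.natAbs` (`Int.natAbs_eq`, `zpow_neg`, `pr_inv_left`).
-/

set_option autoImplicit false
set_option linter.unusedSectionVars false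
set_option linter.unusedVariables false
set_option linter.style.haveILetI false

namespace Cfsg.Gun

open Finset Function Gln

universe u

/-- The signed Frobenius map. -/
def frz (Q : ℤ) {A : Type*} [Group A] (a : A) : A := a ^ Q

/-- The order of the torus, `|Q ^ n - 1|`. -/
def tn (Q : ℤ) (n : ℕ) : ℕ := (Q ^ n - 1).natAbs

/-- The parameters: `R = Q ^ L - 1` with `L` divisible by all `n ≤ N`. -/
structure ParZ (k : Type*) [Field k] (Q : ℤ) (R N : ℕ) : Prop where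
  two : 2 ≤ |Q|
  ex : ∃ L, 0 < L ∧ (R : ℤ) + 1 = Q ^ L ∧ ∀ n, 0 < n → n ≤ N → n ∣ L
  cast : (R : k) ≠ 0

variable {Q : ℤ} {R N n : ℕ}

theorem frz_iterate (Q : ℤ) (i : ℕ) {A : Type*} [Group A] (a : A) : (frz Q)^[i] a = a ^ Q ^ i := by
  induction i with
  | zero => simp
  | succ i ih => rw [iterate_succ_apply', ih, frz, ← zpow_mul, pow_succ]

theorem pow_tn_iff {A : Type*} [Group A] (a : A) : a ^ tn Q n = 1 ↔ a ^ (Q ^ n - 1) = 1 := by
  rw [tn, pow_natAbs_eq_one]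

theorem zpow_pow_eq_iff {A : Type*} [Group A] (a : A) : a ^ Q ^ n = a ↔ a ^ tn Q n = 1 := by
  rw [pow_tn_iff, zpow_sub_one, mul_inv_eq_one]

theorem tn_zero (Q : ℤ) : tn Q 0 = 0 := by
  simp [tn]

theorem two_le_pow (h : 2 ≤ |Q|) (h0 : 0 < n) : 2 ≤ |Q ^ n| := by
  rw [abs_pow]
  exact h.trans (le_self_pow₀ (by omega) h0.ne')

theorem tn_pos (h : 2 ≤ |Q|) (h0 : 0 < n) : 0 < tn Q n := by
  refine Int.natAbs_pos.2 fun e => ?_
  have := two_le_pow h h0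
  rw [sub_eq_zero.1 e] at this
  simp at this

theorem tn_pow (Q : ℤ) (c m : ℕ) : tn (Q ^ c) m = tn Q (c * m) := by
  rw [tn, tn, pow_mul]

theorem tn_dvd (Q : ℤ) {m n : ℕ} (h : m ∣ n) : tn Q m ∣ tn Q n := by
  obtain ⟨c, rfl⟩ := h
  have := sub_dvd_pow_sub_pow (Q ^ m) 1 c
  rw [one_pow, ← pow_mul] at this
  exact Int.natAbs_dvd_natAbs.2 this

theorem dvd_tn_iff {d : ℕ} : d ∣ tn Q n ↔ (d : ℤ) ∣ Q ^ n - 1 := by
  rw [tn, Int.natCast_dvd]

theorem cast_tn (h : 2 ≤ |Q|) (n : ℕ) :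
    (tn Q n : ℂ) = (Q.sign : ℂ) ^ n * ((Q : ℂ) ^ n - 1) := by
  have h1 : (tn Q n : ℤ) = Q.sign ^ n * (Q ^ n - 1) := by
    have h2 : Q.sign ^ n * Q ^ n = |Q| ^ n := by rw [← mul_pow, Int.sign_mul_self_eq_abs]
    have h3 : Q.sign ^ n = 1 ∨ Q.sign ^ n = -1 := by
      rcases Int.sign_trichotomy Q with e | e | e
      · simp [e]
      · simp [Int.sign_eq_zero_iff_zero.1 e] at h
      · rw [e]; exact neg_one_pow_eq_or ℤ n
    have h4 : 1 ≤ |Q| ^ n := one_le_pow₀ (by omega)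
    rw [tn, Int.natCast_natAbs]
    rcases h3 with e | e <;> rw [e] at h2 ⊢
    · rw [abs_of_nonneg (by omega), one_mul]
    · rw [abs_of_nonpos (by omega), neg_one_mul]
  exact_mod_cast congrArg (Int.cast : ℤ → ℂ) h1

theorem sign_sq (h : 2 ≤ |Q|) : (Q.sign : ℂ) ^ 2 = 1 := by
  rcases Int.sign_trichotomy Q with e | e | e
  · simp [e]
  · simp [Int.sign_eq_zero_iff_zero.1 e] at h
  · simp [e]

theorem tn_natCast (q : ℕ) (hq : 0 < q) (n : ℕ) : tn (q : ℤ) n = q ^ n - 1 := by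
  rw [tn, ← Nat.cast_pow, ← Nat.cast_one (R := ℤ), ← Nat.cast_sub (Nat.one_le_pow _ _ hq),
    Int.natAbs_natCast]


theorem pow_sub_one_ne (h : 2 ≤ |Q|) (h0 : 0 < n) : (Q : ℂ) ^ n - 1 ≠ 0 := by
  have := Int.natAbs_pos.1 (tn_pos h h0)
  exact_mod_cast this

section Par

variable {k : Type*} [Field k]

/-- `L = 2 * N!`. -/
theorem exists_parZ (h : 2 ≤ |Q|) (h0 : (Q : k) = 0) (N : ℕ) : ∃ R, 0 < R ∧ ParZ k Q R N := by
  have h1 : 2 ≤ Q ^ (2 * N.factorial) := by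
    have := two_le_pow h (n := 2 * N.factorial) (by positivity)
    rwa [abs_of_nonneg (Even.pow_nonneg (even_two_mul _) _)] at this
  obtain ⟨R, hR⟩ := Int.eq_ofNat_of_zero_le (a := Q ^ (2 * N.factorial) - 1) (by omega)
  refine ⟨R, by omega, h, ⟨2 * N.factorial, by positivity, by omega,
    fun n h0 hn => (Nat.dvd_factorial h0 hn).mul_left 2⟩, ?_⟩
  have := congrArg (Int.cast : ℤ → k) hR
  push_cast at this
  rw [← this, h0, zero_pow (by positivity)]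
  simp

theorem ParZ.ne_zero (h : ParZ k Q R N) : R ≠ 0 := by
  rintro rfl
  exact h.cast Nat.cast_zero

theorem ParZ.exists_tn (h : ParZ k Q R N) :
    ∃ L, 0 < L ∧ R = tn Q L ∧ ∀ n, 0 < n → n ≤ N → n ∣ L := by
  obtain ⟨L, hL, h1, h2⟩ := h.ex
  exact ⟨L, hL, by rw [tn, ← h1, add_sub_cancel_right, Int.natAbs_natCast], h2⟩

theorem ParZ.dvd (h : ParZ k Q R N) (h0 : 0 < n) (hn : n ≤ N) : tn Q n ∣ R := by
  obtain ⟨L, -, rfl, h2⟩ := h.exists_tn
  exact tn_dvd Q (h2 n h0 hn)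

theorem ParZ.dvd_one (h : ParZ k Q R N) : tn Q 1 ∣ R := by
  obtain ⟨L, -, rfl, -⟩ := h.exists_tn
  exact tn_dvd Q (one_dvd L)

theorem ParZ.coprime (h : ParZ k Q R N) : Q.natAbs.Coprime R := by
  obtain ⟨L, hL, h1, -⟩ := h.ex
  rw [← Nat.coprime_pow_left_iff hL, ← Int.natAbs_pow, ← h1, ← Nat.cast_add_one, Int.natAbs_natCast]
  simp

theorem ParZ.pow {c m : ℕ} (h : ParZ k Q R N) (hc : 0 < c) (hm : 0 < m) (hN : c * m ≤ N) :
    ParZ k (Q ^ c) R m := by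
  obtain ⟨hq, ⟨L, hL, h1, h2⟩, h3⟩ := h
  obtain ⟨L', rfl⟩ := h2 c hc ((Nat.le_mul_of_pos_right c hm).trans hN)
  refine ⟨two_le_pow hq hc, ⟨L', Nat.pos_of_mul_pos_left hL, by rw [h1, pow_mul],
    fun n h0 hn => Nat.dvd_of_mul_dvd_mul_left hc (h2 _ (Nat.mul_pos hc h0) ?_)⟩, h3⟩
  exact (Nat.mul_le_mul_left c hn).trans hN

theorem ParZ.mono {N' : ℕ} (h : ParZ k Q R N) (hN : N' ≤ N) : ParZ k Q R N' := by
  obtain ⟨hq, ⟨L, hL, h1, h2⟩, h3⟩ := h
  exact ⟨hq, ⟨L, hL, h1, fun n h0 hn => h2 n h0 (hn.trans hN)⟩, h3⟩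

theorem ParZ.per (h : ParZ k Q R N) {A : Type*} [Group A] (hA : ∀ a : A, a ^ R = 1) :
    Per (frz Q : A → A) := by
  obtain ⟨L, hL, h1, -⟩ := h.ex
  exact ⟨L, hL, fun a => by rw [frz_iterate, ← h1, zpow_add_one, zpow_natCast, hA, one_mul]⟩

theorem ParZ.zpow_injective (h : ParZ k Q R N) {A : Type*} [Group A] (hA : ∀ a : A, a ^ R = 1)
    (i : ℕ) : Injective fun a : A => a ^ Q ^ i := by
  obtain ⟨L, hL, h1⟩ := h.per hA
  have : Injective (frz Q : A → A) :=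
    Injective.of_comp (f := (frz Q)^[L - 1]) (by
      rw [← iterate_succ, Nat.succ_eq_add_one, Nat.sub_add_cancel hL, funext h1]
      exact injective_id)
  simpa only [funext (frz_iterate Q i)] using this.iterate i

theorem ParZ.par {q : ℕ} (h : ParZ k (q : ℤ) R N) : Par q R N := by
  obtain ⟨hq, ⟨L, hL, h1, h2⟩, -⟩ := h
  rw [Nat.abs_cast] at hq
  exact ⟨by omega, L, hL, by exact_mod_cast h1, h2⟩

theorem ParZ.par_sq {q : ℕ} (h : ParZ k (-(q : ℤ)) R (2 * N)) : Par (q ^ 2) R N := by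
  obtain ⟨hq, ⟨L, hL, h1, h2⟩, h3⟩ := h
  rw [abs_neg, Nat.abs_cast] at hq
  obtain ⟨L', rfl⟩ : Even L := by
    by_contra ho
    rw [(Nat.not_even_iff_odd.1 ho).neg_pow] at h1
    have : (0 : ℤ) < q ^ L := by positivity
    omega
  rw [← two_mul] at h1 h2 hL
  rw [pow_mul, neg_sq] at h1
  exact ⟨by nlinarith, L', by omega, by exact_mod_cast h1, fun n h0 hn =>
    Nat.dvd_of_mul_dvd_mul_left two_pos (h2 _ (by omega) (by omega))⟩

end Par

variable {k : Type u} [Field k] [NeZero R]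

/-- The Frobenius-fixed roots of unity (`Kˣ` resp. `μ_{q+1}`). -/
def fixm (k : Type u) [Field k] (Q : ℤ) (R : ℕ) [NeZero R] : Subgroup (Mu k R) where
  carrier := {z | z ^ Q = z}
  mul_mem' h h' := by simp_all [mul_zpow]
  one_mem' := one_zpow _
  inv_mem' h := by simp_all

/-- The Frobenius-fixed labels. -/
def fixq (k : Type u) [Field k] (Q : ℤ) (R : ℕ) [NeZero R] : Subgroup (Lab k R) where
  carrier := {y | y ^ Q = y}
  mul_mem' := fun {a b} h h' => (mul_zpow a b Q).trans (congrArg₂ (· * ·) h h')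
  one_mem' := one_zpow (α := Lab k R) Q
  inv_mem' := fun {a} h => (inv_zpow a Q).trans (congrArg (·⁻¹) h)

theorem mem_fixm {z : Mu k R} : z ∈ fixm k Q R ↔ z ^ tn Q 1 = 1 := by
  rw [← zpow_pow_eq_iff, pow_one]
  rfl

theorem mem_fixq {y : Lab k R} : y ∈ fixq k Q R ↔ y ^ tn Q 1 = 1 := by
  rw [← zpow_pow_eq_iff y, pow_one]
  rfl

theorem fixm_pow (z : fixm k Q R) (i : ℕ) : z.1 ^ Q ^ i = z.1 := by
  rw [← frz_iterate]
  exact iterate_fixed (f := frz Q) z.2 i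

theorem fixq_zpow (y : fixq k Q R) (i : ℕ) : y.1 ^ Q ^ i = y.1 := by
  have h : y.1 ^ Q = y.1 := y.2
  rw [← frz_iterate Q i y.1]
  exact iterate_fixed (f := frz Q) h i

theorem prod_zpow_pow {A : Type*} [CommGroup A] (a : A) (Q : ℤ) (c : ℕ) :
    ∏ i ∈ range c, a ^ Q ^ i = a ^ ∑ i ∈ range c, Q ^ i := by
  induction c with
  | zero => simp
  | succ c ih => rw [prod_range_succ, sum_range_succ, ih, zpow_add]

theorem sign_eq_or {m : ℤ} (hm : m.natAbs ∣ R) : m.sign = 1 ∨ m.sign = -1 := by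
  rcases Int.sign_trichotomy m with e | e | e
  · exact Or.inl e
  · rw [Int.sign_eq_zero_iff_zero.1 e] at hm
    exact absurd (Nat.eq_zero_of_zero_dvd hm) (NeZero.ne R)
  · exact Or.inr e

theorem zpow_sign_sign {A : Type*} [Group A] {m : ℤ} (hm : m.natAbs ∣ R) (a : A) :
    (a ^ m.sign) ^ m.sign = a := by
  rcases sign_eq_or hm with e | e <;> simp [e]

theorem zpow_div_eq {A : Type*} [Group A] {m : ℤ} (hm : m.natAbs ∣ R) (a : A) :
    a ^ ((R : ℤ) / m) = (a ^ m.sign) ^ (R / m.natAbs) := by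
  rw [← zpow_natCast, ← zpow_mul, Int.natCast_ediv]
  rcases sign_eq_or hm with e | e
  · rw [e, one_mul, Int.natAbs_of_nonneg (Int.pos_of_sign_eq_one e).le]
  · rw [e, Int.ofNat_natAbs_of_nonpos (Int.neg_of_sign_eq_neg_one e).le, Int.ediv_neg, neg_mul_neg,
      one_mul]

theorem zpow_pow_eq_one {A : Type*} [Group A] {a : A} (h : a ^ n = 1) (j : ℤ) : (a ^ j) ^ n = 1 := by
  rw [← zpow_natCast, zpow_comm, zpow_natCast, h, one_zpow]

theorem zpow_div_pow {A : Type*} [Group A] {m : ℤ} (hm : m.natAbs ∣ R) {a : A} (h : a ^ R = 1) :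
    (a ^ ((R : ℤ) / m)) ^ m.natAbs = 1 := by
  rw [zpow_div_eq hm, ← pow_mul, Nat.div_mul_cancel hm, zpow_pow_eq_one h]

/-- The norm `z ↦ ∏_{i<c} z ^ Q ^ i`. -/
def nrm (Q : ℤ) (c : ℕ) : fixm k (Q ^ c) R →* fixm k Q R where
  toFun z := ⟨∏ i ∈ range c, z.1 ^ Q ^ i, by
    change _ ^ Q = _
    have h := prod_range_succ' (fun i => z.1 ^ Q ^ i) c
    rw [prod_range_succ, show z.1 ^ Q ^ c = z.1 from z.2, pow_zero, zpow_one, mul_left_inj] at h
    rw [← prod_zpow]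
    simpa only [← zpow_mul, ← pow_succ] using h.symm⟩
  map_one' := Subtype.ext (by simp)
  map_mul' a b := Subtype.ext (by simp [mul_zpow, prod_mul_distrib])

theorem coe_nrm (c : ℕ) (z : fixm k (Q ^ c) R) :
    (nrm Q c z : Mu k R) = ∏ i ∈ range c, z.1 ^ Q ^ i := rfl

/-- The signed pairing. -/
noncomputable def prz (m : ℤ) (x : Mu k R) (a : Lab k R) : ℂ := pr m.natAbs x (a ^ m.sign)

variable [IsAlgClosed k]

section prz

variable (hR : (R : k) ≠ 0) {m : ℤ} (hm : m.natAbs ∣ R) {x y : Mu k R} {a b : Lab k R}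
include hR hm

theorem Mu.exists_zpow_eq (hx : x ^ m.natAbs = 1) : ∃ y : Mu k R, y ^ ((R : ℤ) / m) = x := by
  obtain ⟨y, rfl⟩ := Mu.exists_pow_eq hR hm hx
  exact ⟨y ^ m.sign, by rw [zpow_div_eq hm, zpow_sign_sign hm]⟩

theorem Lab.exists_zpow_eq (ha : a ^ m.natAbs = 1) : ∃ b : Lab k R, b ^ ((R : ℤ) / m) = a := by
  obtain ⟨y, rfl⟩ := Lab.exists_pow_eq hR hm ha
  exact ⟨y ^ m.sign, by rw [zpow_div_eq hm (y ^ m.sign), zpow_sign_sign hm y]⟩

theorem prz_pow_div (ha : a ^ m.natAbs = 1) (y : Mu k R) : prz m (y ^ ((R : ℤ) / m)) a = a y := by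
  rw [prz, zpow_div_eq hm, pr_pow_div hR hm (zpow_pow_eq_one (A := Lab k R) ha _), MonoidHom.zpow_apply, ← map_zpow,
    zpow_sign_sign hm]

theorem prz_pow_div' (hx : x ^ m.natAbs = 1) (b : Lab k R) : prz m x (b ^ ((R : ℤ) / m)) = b x := by
  obtain ⟨y, rfl⟩ := Mu.exists_zpow_eq hR hm hx
  rw [prz_pow_div hR hm (zpow_div_pow (A := Lab k R) hm (Lab.pow_eq_one b)), MonoidHom.zpow_apply, map_zpow]

theorem prz_mul_left (hx : x ^ m.natAbs = 1) (hy : y ^ m.natAbs = 1) (ha : a ^ m.natAbs = 1) :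
    prz m (x * y) a = prz m x a * prz m y a := by
  exact pr_mul_left hR hm hx hy (zpow_pow_eq_one (A := Lab k R) ha _)

theorem prz_mul_right (hx : x ^ m.natAbs = 1) (ha : a ^ m.natAbs = 1) (hb : b ^ m.natAbs = 1) :
    prz m x (a * b) = prz m x a * prz m x b := by
  rw [prz, mul_zpow a]
  exact pr_mul_right hR hm hx (zpow_pow_eq_one (A := Lab k R) ha _) (zpow_pow_eq_one (A := Lab k R) hb _)

theorem prz_one_left (ha : a ^ m.natAbs = 1) : prz m 1 a = 1 := by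
  exact pr_one_left hR hm (zpow_pow_eq_one (A := Lab k R) ha _)

theorem prz_one_right (hx : x ^ m.natAbs = 1) : prz m x (1 : Lab k R) = 1 := by
  rw [prz, one_zpow (α := Lab k R)]
  exact pr_one_right hR hm hx

theorem prz_zpow (hx : x ^ m.natAbs = 1) (ha : a ^ m.natAbs = 1) (j : ℤ) :
    prz m (x ^ j) a = prz m x (a ^ j) := by
  obtain ⟨x, rfl⟩ := Mu.exists_zpow_eq hR hm hx
  rw [zpow_comm, prz_pow_div hR hm ha, prz_pow_div hR hm (zpow_pow_eq_one (A := Lab k R) ha _),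
    MonoidHom.zpow_apply, map_zpow]

omit hm in
theorem star_prz (x : Mu k R) (a : Lab k R) : star (prz m x a) = prz m x a⁻¹ := by
  rw [prz, prz, inv_zpow a, pr, pr, star_mul', star_sum]
  generalize a ^ m.sign = a
  congr 1
  · simp
  · refine sum_congr rfl fun y _ => ?_
    have h1 : ((a y : ℂˣ) : ℂ) ^ R = 1 := by
      rw [← Units.val_pow_eq_pow_val, ← map_pow, Mu.pow_eq_one, map_one, Units.val_one]
    rw [MonoidHom.inv_apply, Units.val_inv_eq_inv_val,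
      Complex.inv_eq_conj (Complex.norm_eq_one_of_pow_eq_one h1 (NeZero.ne R))]
    rfl

theorem prz_inv_left (hx : x ^ m.natAbs = 1) (ha : a ^ m.natAbs = 1) :
    prz m x⁻¹ a = prz m x a⁻¹ := by
  rw [← zpow_neg_one, ← zpow_neg_one a, prz_zpow hR hm hx ha]

theorem prz_eq_one_of_coprime (hx : x ^ m.natAbs = 1) (ha : a ^ m.natAbs = 1)
    (h : (orderOf x).Coprime (orderOf a)) : prz m x a = 1 := by
  exact pr_eq_one_of_coprime hR hm hx (zpow_pow_eq_one (A := Lab k R) ha _) (h.coprime_dvd_right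
    (orderOf_dvd_of_pow_eq_one (zpow_pow_eq_one (pow_orderOf_eq_one a) _)))

theorem prz_eq_pr (hx : x ^ m.natAbs = 1) (ha : a ^ m.natAbs = 1) :
    prz m x a = pr m.natAbs (x ^ m.sign) a := by
  conv_lhs => rw [← zpow_sign_sign hm x, prz_zpow hR hm (zpow_pow_eq_one hx _) ha, prz,
    zpow_sign_sign hm a]

theorem sum_prz_left (ha : a ^ m.natAbs = 1) :
    ∑ x : Mu k R with x ^ m.natAbs = 1, prz m x a = if a = 1 then (m.natAbs : ℂ) else 0 := by
  refine (sum_pr_left hR hm (zpow_pow_eq_one (A := Lab k R) ha _)).trans (if_congr ⟨fun e => ?_, fun e => ?_⟩ rfl rfl)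
  · rw [← zpow_sign_sign hm a, e, one_zpow (α := Lab k R)]
  · rw [e, one_zpow (α := Lab k R)]

theorem sum_prz_right (hx : x ^ m.natAbs = 1) :
    ∑ a : Lab k R with a ^ m.natAbs = 1, prz m x a = if x = 1 then (m.natAbs : ℂ) else 0 := by
  rw [sum_congr rfl fun a ha => prz_eq_pr hR hm hx (mem_filter.1 ha).2]
  refine (sum_pr_right hR hm (zpow_pow_eq_one hx _)).trans (if_congr ⟨fun e => ?_, fun e => ?_⟩ rfl rfl)
  · rw [← zpow_sign_sign hm x, e, one_zpow]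
  · rw [e, one_zpow]

open Classical in
theorem sum_prz_pPart {p : ℕ} (hp : p.Prime) (hx : x ^ m.natAbs = 1) :
    ∑ b : Lab k R with b ^ ordProj[p] m.natAbs = 1, prz m x b =
      if IsPRegular p x then ((ordProj[p] m.natAbs : ℕ) : ℂ) else 0 := by
  rw [sum_congr rfl fun a ha => prz_eq_pr hR hm hx (orderOf_dvd_iff_pow_eq_one.1
    ((orderOf_dvd_of_pow_eq_one (mem_filter.1 ha).2).trans (Nat.ordProj_dvd _ p))),
    sum_pr_pPart hR hm hp (zpow_pow_eq_one hx _)]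
  rcases sign_eq_or hm with e | e <;> simp [e, IsPRegular]

end prz

variable (hP : ParZ k Q R N)
include hP

theorem per_mu : Per (frz Q : Mu k R → Mu k R) := hP.per Mu.pow_eq_one

theorem per_lab : Per (frz Q : Lab k R → Lab k R) := hP.per Lab.pow_eq_one

theorem deg_mu_dvd_iff {x : Mu k R} : (Orb.mk (frz Q) x).deg ∣ n ↔ x ^ tn Q n = 1 := by
  rw [← (per_mu hP).iterate_eq_iff, frz_iterate, zpow_pow_eq_iff]

theorem deg_lab_dvd_iff {a : Lab k R} : (Orb.mk (frz Q) a).deg ∣ n ↔ a ^ tn Q n = 1 := by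
  rw [← (per_lab hP).iterate_eq_iff, frz_iterate, zpow_pow_eq_iff]

theorem mk_mu_eq_iff {x y : Mu k R} :
    Orb.mk (frz Q) x = Orb.mk (frz Q) y ↔ ∃ i : ℕ, y = x ^ Q ^ i := by
  simp only [(per_mu hP).mk_eq_iff, frz_iterate]

theorem mk_eq_mk_fixm {x : Mu k R} {z : fixm k Q R} :
    Orb.mk (frz Q) x = Orb.mk (frz Q) z.1 ↔ x = z.1 := by
  rw [eq_comm, mk_mu_eq_iff hP]
  simp only [fixm_pow, exists_const]

theorem deg_mk_fixm (z : fixm k Q R) : (Orb.mk (frz Q) z.1).deg = 1 := by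
  exact Nat.eq_one_of_dvd_one ((deg_mu_dvd_iff hP).2 (mem_fixm.1 z.2))

theorem isPRegular_rep_mk {p : ℕ} (x : Mu k R) :
    IsPRegular p (Orb.mk (frz Q) x).rep ↔ IsPRegular p x := by
  have h : ∀ {x y : Mu k R}, Orb.mk (frz Q) x = Orb.mk (frz Q) y → orderOf y ∣ orderOf x :=
    fun {x y} e => by
      obtain ⟨i, rfl⟩ := (mk_mu_eq_iff hP).1 e
      exact orderOf_dvd_of_pow_eq_one (zpow_pow_eq_one (pow_orderOf_eq_one x) _)
  rw [IsPRegular, IsPRegular, Nat.dvd_antisymm (h (Orb.mk_rep _).symm) (h (Orb.mk_rep _))]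

theorem card_fixm : Nat.card (fixm k Q R) = tn Q 1 := by
  rw [← Mu.card_pow_eq_one hP.cast hP.dvd_one, ← Fintype.card_subtype, ← Nat.card_eq_fintype_card]
  exact Nat.card_congr (Equiv.subtypeEquivRight fun _ => mem_fixm)

theorem card_fixq : Nat.card (fixq k Q R) = tn Q 1 := by
  rw [← Lab.card_pow_eq_one hP.cast hP.dvd_one, ← Fintype.card_subtype, ← Nat.card_eq_fintype_card]
  exact Nat.card_congr (Equiv.subtypeEquivRight fun _ => mem_fixq)

omit hP in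
theorem isCyclic_fixm : IsCyclic (fixm k Q R) := by
  infer_instance

theorem isCyclic_fixq : IsCyclic (fixq k Q R) := by
  haveI := Lab.isCyclic hP.cast
  infer_instance

theorem dvd_sub_one : (Q - 1).natAbs ∣ R := by
  simpa only [tn, pow_one] using hP.dvd_one

omit hP in
theorem fixm_pow_natAbs (z : fixm k Q R) : z.1 ^ (Q - 1).natAbs = 1 := by
  simpa only [tn, pow_one] using mem_fixm.1 z.2

omit hP in
theorem fixq_pow_natAbs (y : fixq k Q R) : y.1 ^ (Q - 1).natAbs = 1 := by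
  simpa only [tn, pow_one] using mem_fixq.1 y.2

theorem nrm_zpow_div {c : ℕ} (hc : 0 < c) (hN : c ≤ N) (z : fixm k (Q ^ c) R) (w : Mu k R)
    (h : w ^ ((R : ℤ) / (Q ^ c - 1)) = z) : (nrm Q c z : Mu k R) = w ^ ((R : ℤ) / (Q - 1)) := by
  obtain ⟨d, hd⟩ := Int.natAbs_dvd.1 (Int.natCast_dvd_natCast.2 (hP.dvd hc hN))
  have h0 : Q ^ c - 1 ≠ 0 := Int.natAbs_pos.1 (tn_pos hP.two hc)
  have h1 : Q - 1 ≠ 0 := fun e => h0 (by rw [sub_eq_zero.1 e, one_pow, sub_self])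
  rw [coe_nrm, prod_zpow_pow, ← h, ← zpow_mul, hd, Int.mul_ediv_cancel_left _ h0, ← mul_geom_sum,
    mul_assoc, Int.mul_ediv_cancel_left _ h1, mul_comm]

/-- `nrm z = z ^ ((Q^c - 1) / (Q - 1))`; use `Mu.exists_zpow_eq`. -/
theorem nrm_surjective {c : ℕ} (hc : 0 < c) (hN : c ≤ N) :
    Surjective (nrm Q c : fixm k (Q ^ c) R → fixm k Q R) := by
  intro z
  obtain ⟨w, hw⟩ := Mu.exists_zpow_eq hP.cast (dvd_sub_one hP) (fixm_pow_natAbs z)
  refine ⟨⟨w ^ ((R : ℤ) / (Q ^ c - 1)), mem_fixm.2 ?_⟩,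
    Subtype.ext ((nrm_zpow_div hP hc hN _ w rfl).trans hw)⟩
  rw [tn, pow_one]
  exact zpow_div_pow (hP.dvd hc hN) (Mu.pow_eq_one w)

theorem exists_dch : ∃ e : fixq k Q R ≃* (fixm k Q R →* ℂˣ),
    ∀ y z, (e y z : ℂ) = prz (Q - 1) z.1 y.1 := by
  have hm := dvd_sub_one hP
  have h1 : ∀ y : fixq k Q R, ∃ φ : fixm k Q R →* ℂˣ, ∀ z, (φ z : ℂ) = prz (Q - 1) z.1 y.1 :=
    fun y => ⟨MonoidHom.toHomUnits
      { toFun := fun z => prz (Q - 1) z.1 y.1
        map_one' := prz_one_left hP.cast hm (fixq_pow_natAbs y)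
        map_mul' := fun z z' => prz_mul_left hP.cast hm (fixm_pow_natAbs z) (fixm_pow_natAbs z')
          (fixq_pow_natAbs y) }, fun _ => rfl⟩
  choose φ hφ using h1
  obtain ⟨f, hf⟩ : ∃ f : fixq k Q R →* (fixm k Q R →* ℂˣ), ∀ y, f y = φ y :=
    ⟨MonoidHom.mk' φ fun y y' => MonoidHom.ext fun z => Units.ext (by
      rw [MonoidHom.mul_apply, Units.val_mul, hφ, hφ, hφ]
      exact prz_mul_right hP.cast hm (fixm_pow_natAbs z) (fixq_pow_natAbs y) (fixq_pow_natAbs y')),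
      fun _ => rfl⟩
  have h2 : Injective f := by
    refine (injective_iff_map_eq_one f).2 fun y hy =>
      Subtype.ext (MonoidHom.ext fun w => Units.ext ?_)
    have := hφ y ⟨w ^ ((R : ℤ) / (Q - 1)), mem_fixm.2 (by
      rw [tn, pow_one]
      exact zpow_div_pow hm (Mu.pow_eq_one w))⟩
    rw [prz_pow_div hP.cast hm (fixq_pow_natAbs y), ← hf, hy] at this
    exact this.symm
  have h3 : Nat.card (fixq k Q R) = Nat.card (fixm k Q R →* ℂˣ) := by
    rw [CommGroup.card_monoidHom_of_hasEnoughRootsOfUnity, card_fixm hP, card_fixq hP]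
  exact ⟨MulEquiv.ofBijective f ((Nat.bijective_iff_injective_and_card f).2 ⟨h2, h3⟩),
    fun y z => by rw [MulEquiv.ofBijective_apply, hf, hφ]⟩

/-- The linear characters of `fixm`. -/
noncomputable def dch : fixq k Q R ≃* (fixm k Q R →* ℂˣ) := (exists_dch hP).choose

theorem dch_apply (y : fixq k Q R) (z : fixm k Q R) : (dch hP y z : ℂ) = prz (Q - 1) z.1 y.1 :=
  (exists_dch hP).choose_spec y z

theorem dch_spec (ω : Lab k R) (y : fixq k Q R) (h : y.1 = ω ^ ((R : ℤ) / (Q - 1)))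
    (z : fixm k Q R) : dch hP y z = ω z.1 := by
  exact Units.ext (by
    rw [dch_apply, h, prz_pow_div' hP.cast (dvd_sub_one hP) (fixm_pow_natAbs z)])

theorem exists_eq_zpow_div (y : fixq k Q R) : ∃ ω : Lab k R, y.1 = ω ^ ((R : ℤ) / (Q - 1)) := by
  exact (Lab.exists_zpow_eq hP.cast (dvd_sub_one hP) (fixq_pow_natAbs y)).imp fun _ e => e.symm

/-- Compatibility with the norm. -/
theorem dch_nrm {c m : ℕ} (hc : 0 < c) (hN : c ≤ N) (hP' : ParZ k (Q ^ c) R m) (y : fixq k Q R)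
    (y' : fixq k (Q ^ c) R) (h : y'.1 = y.1) (z : fixm k (Q ^ c) R) :
    dch hP y (nrm Q c z) = dch hP' y' z := by
  obtain ⟨w, hw⟩ := Mu.exists_zpow_eq hP.cast (dvd_sub_one hP') (fixm_pow_natAbs z)
  refine Units.ext ?_
  rw [dch_apply, dch_apply, nrm_zpow_div hP hc hN z w hw, ← hw,
    prz_pow_div hP.cast (dvd_sub_one hP) (fixq_pow_natAbs y),
    prz_pow_div hP.cast (dvd_sub_one hP') (fixq_pow_natAbs y'), h]

end Cfsg.Gun

set_option linter.all false in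
theorem Cfsg.Rz.Gun_PairZ_0 : True := by
  have := @_root_.Cfsg.Gun.frz.eq_def.{0}
  have := @_root_.Cfsg.Gun.frz.eq_1.{0}
  have := @_root_.Cfsg.Gun.frz.fun_cases
  have := @_root_.Cfsg.Gun.tn.eq_def
  have := @_root_.Cfsg.Gun.tn.eq_1
  have := @_root_.Cfsg.Gun.tn.fun_cases
  have := @_root_.Cfsg.Gun.fixq.congr_simp.{0}
  have := @_root_.Cfsg.Gun.fixq.eq_def.{0}
  have := @_root_.Cfsg.Gun.fixq.eq_1.{0}
  have := @_root_.Cfsg.Gun.fixq.fun_cases
  have := @_root_.Cfsg.Gun.prz.congr_simp.{0}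
  have := @_root_.Cfsg.Gun.prz.eq_def.{0}
  have := @_root_.Cfsg.Gun.prz.eq_1.{0}
  have := @_root_.Cfsg.Gun.prz.fun_cases
  have := @_root_.Cfsg.Gun.ParZ.mk.congr_simp.{0}
  have := @_root_.Cfsg.Gun.fixm.congr_simp.{0}
  have := @_root_.Cfsg.Gun.fixm.eq_def.{0}
  have := @_root_.Cfsg.Gun.fixm.eq_1.{0}
  have := @_root_.Cfsg.Gun.fixm.fun_cases
  have := @_root_.Cfsg.Gun.dch.congr_simp.{0}
  have := @_root_.Cfsg.Gun.dch.eq_def.{0}
  have := @_root_.Cfsg.Gun.dch.eq_1.{0}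
  have := @_root_.Cfsg.Gun.dch.fun_cases
  have := @_root_.Cfsg.Gun.nrm.eq_def.{0}
  have := @_root_.Cfsg.Gun.nrm.eq_1.{0}
  have := @_root_.Cfsg.Gun.nrm.fun_cases
  trivial
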