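import Cfsg.Agent.Gun.Mm
import Cfsg.Agent.Gun.PairZ

/-!
# Types of conjugacy classes (S4537 project)

`EO` = orbits of eigenvalues under `t ↦ t ^ Q`; a type is a map `EO → Multiset ℕ`; `Cls n` = the types of size `n`;
`evm c` = the multiset of eigenvalues, `acg c` = the centralizer order, `hdg c c'` = dimension of the intertwiners.
-/

set_option autoImplicit false
set_option linter.unusedSectionVars false
set_option linter.unusedVariables false
set_option linter.style.haveILetI false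

namespace Cfsg.Gun

open Finset Function Gln

universe u

/-- Orbits of eigenvalues. -/
abbrev EO (k : Type u) [Field k] (Q : ℤ) (R : ℕ) [NeZero R] : Type u :=
  Orb (frz Q : Mu k R → Mu k R)

/-- Types. -/
abbrev Ty (k : Type u) [Field k] (Q : ℤ) (R : ℕ) [NeZero R] : Type u := EO k Q R → Multiset ℕ

variable {k : Type u} [Field k] {Q : ℤ} {R N n : ℕ} [NeZero R]

/-- The orbit of an eigenvalue. -/
abbrev eo (Q : ℤ) (x : Mu k R) : EO k Q R := Orb.mk (frz Q) x

/-- All parts are positive. -/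
def TPos (c : Ty k Q R) : Prop := ∀ o, Pos (c o)

/-- The dimension of a type. -/
noncomputable def tsz (c : Ty k Q R) : ℕ := ∑ o, o.deg * (c o).sum

open Classical in
/-- The types of dimension `n`. -/
noncomputable def Cls (k : Type u) [Field k] (Q : ℤ) (R : ℕ) [NeZero R] (n : ℕ) : Finset (Ty k Q R) :=
  (Fintype.piFinset fun _ => (range (n + 1)).biUnion fun m =>
    univ.image (Nat.Partition.parts (n := m))).filter fun c => tsz c = n

/-- The eigenvalues, with multiplicities. -/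
noncomputable def evm (c : Ty k Q R) : Multiset (Mu k R) :=
  ∑ o, (c o).sum • (Multiset.range o.deg).map fun i => o.rep ^ Q ^ i

/-- The centralizer order. -/
noncomputable def acg (c : Ty k Q R) : ℂ :=
  (Q.sign : ℂ) ^ tsz c * ∏ o, ac (c o) ((Q ^ o.deg : ℤ) : ℂ)

/-- The dimension of the space of intertwiners. -/
noncomputable def hdg (c c' : Ty k Q R) : ℕ := ∑ o, o.deg * mm (c o) (c' o)

/-- Unipotent types. -/
def Unip (c : Ty k Q R) : Prop := ∀ o, o ≠ eo Q 1 → c o = 0

/-- Types of `p`-regular elements. -/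
def TReg (p : ℕ) (c : Ty k Q R) : Prop := ∀ o, c o ≠ 0 → IsPRegular p o.rep

variable {c c' : Ty k Q R}

theorem tpos_zero : TPos (0 : Ty k Q R) := by
  exact fun _ => pos_zero

theorem tpos_add : TPos (c + c') ↔ TPos c ∧ TPos c' := by
  simp only [TPos, Pi.add_apply, pos_add, forall_and]

theorem tpos_single {o : EO k Q R} {l : Multiset ℕ} : TPos (Pi.single o l) ↔ Pos l := by
  refine ⟨fun h => by simpa using h o, fun h o' => ?_⟩
  rw [Pi.single_apply]
  split_ifs
  · exact h
  · exact pos_zero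

@[simp] theorem tsz_zero : tsz (0 : Ty k Q R) = 0 := by
  simp [tsz]

theorem tsz_add (c c' : Ty k Q R) : tsz (c + c') = tsz c + tsz c' := by
  simp [tsz, mul_add, sum_add_distrib]

theorem tsz_single (o : EO k Q R) (l : Multiset ℕ) : tsz (Pi.single o l) = o.deg * l.sum := by
  rw [tsz, sum_eq_single o (fun o' _ h => by simp [Pi.single_eq_of_ne h]) (by simp)]
  simp

theorem evm_add (c c' : Ty k Q R) : evm (c + c') = evm c + evm c' := by
  simp [evm, add_smul, sum_add_distrib]

theorem evm_single (o : EO k Q R) (l : Multiset ℕ) :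
    evm (Pi.single o l) = l.sum • (Multiset.range o.deg).map fun i => o.rep ^ Q ^ i := by
  rw [evm, sum_eq_single o (fun o' _ h => by simp [Pi.single_eq_of_ne h]) (by simp)]
  simp

theorem evm_congr (h : ∀ o, (c o).sum = (c' o).sum) : evm c = evm c' := by
  simp only [evm, h]

theorem card_evm (c : Ty k Q R) : (evm c).card = tsz c := by
  simp [evm, tsz, Multiset.card_sum, mul_comm]

theorem induction_tpos {P : Ty k Q R → Prop} (h0 : P 0)
    (h1 : ∀ o j c, 0 < j → TPos c → P c → P (Pi.single o {j} + c)) (h : TPos c) : P c := by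
  induction hn : ∑ o, (c o).card using Nat.strong_induction_on generalizing c with
  | _ n ih =>
  by_cases hc : c = 0
  · exact hc ▸ h0
  obtain ⟨o, ho⟩ := Function.ne_iff.1 hc
  obtain ⟨j, hj⟩ := Multiset.exists_mem_of_ne_zero ho
  have e : c = Pi.single o {j} + Function.update c o ((c o).erase j) := by
    ext1 o'
    by_cases h' : o' = o
    · subst h'; simp [Multiset.cons_erase hj]
    · simp [h']
  have hp : TPos (Function.update c o ((c o).erase j)) := (tpos_add.1 (e ▸ h)).2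
  rw [e]
  refine h1 o j _ (h o j hj) hp (ih _ ?_ hp rfl)
  rw [← hn]
  refine sum_lt_sum (fun o' _ => ?_) ⟨o, mem_univ _, ?_⟩
  · by_cases h' : o' = o
    · subst h'; simpa using Multiset.card_erase_le
    · simp [h']
  · simpa using Multiset.card_erase_lt_of_mem hj

variable [IsAlgClosed k] (hP : ParZ k Q R N)
include hP

theorem eo_deg_pos (o : EO k Q R) : 0 < o.deg := (per_mu hP).deg_pos o

theorem eo_zpow (x : Mu k R) (i : ℕ) : eo Q (x ^ Q ^ i) = eo Q x := by
  rw [← frz_iterate]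
  exact Orb.mk_iterate i x

theorem deg_eo_one : (eo Q (1 : Mu k R)).deg = 1 := by
  exact deg_mk_fixm hP (1 : fixm k Q R)

theorem eo_eq_one {x : Mu k R} : eo Q x = eo Q 1 ↔ x = 1 := by
  exact mk_eq_mk_fixm hP (z := 1)

theorem mem_Cls : c ∈ Cls k Q R n ↔ TPos c ∧ tsz c = n := by
  simp only [Cls, mem_filter, Fintype.mem_piFinset, mem_biUnion, mem_range, mem_image, mem_univ,
    true_and]
  refine and_congr_left fun hn => forall_congr' fun o => ⟨?_, fun h => ?_⟩
  · rintro ⟨m, -, μ, hμ⟩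
    exact hμ ▸ pos_parts μ
  · refine ⟨(c o).sum, Nat.lt_succ_of_le ?_, h.exists_parts rfl⟩
    rw [← hn]
    exact (Nat.le_mul_of_pos_left _ (eo_deg_pos hP o)).trans
      (single_le_sum (f := fun o => o.deg * (c o).sum) (fun _ _ => Nat.zero_le _) (mem_univ o))

theorem evm_eq_sum (c : Ty k Q R) : evm c = ∑ x : Mu k R, (c (eo Q x)).sum • {x} := by
  rw [(per_mu hP).sum_orb, evm]
  refine sum_congr rfl fun o _ => ?_
  simp only [Orb.mk_iterate, Orb.mk_rep, ← smul_sum]
  simp only [frz_iterate]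
  congr 1
  induction o.deg with
  | zero => simp
  | succ d ih => rw [Multiset.range_succ, Multiset.map_cons, sum_range_succ, ← ih, add_comm]; rfl

theorem count_evm (c : Ty k Q R) (x : Mu k R) : (evm c).count x = (c (eo Q x)).sum := by
  rw [evm_eq_sum hP, Multiset.count_sum', sum_eq_single x
    (fun y _ h => by simp [Multiset.count_singleton, h.symm]) (by simp)]
  simp

theorem mem_evm (h : TPos c) {x : Mu k R} : x ∈ evm c ↔ c (eo Q x) ≠ 0 := by
  rw [← Multiset.count_ne_zero, count_evm hP]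
  exact ⟨fun h' e => h' (by simp [e]), fun h' e => h' ((h _).eq_zero e)⟩

theorem tsz_eq_sum (c : Ty k Q R) : tsz c = ∑ x : Mu k R, (c (eo Q x)).sum := by
  rw [(per_mu hP).sum_orb' fun o => (c o).sum, tsz]
  rfl

theorem hdg_eq_sum (c c' : Ty k Q R) :
    hdg c c' = ∑ x : Mu k R, mm (c (eo Q x)) (c' (eo Q x)) := by
  rw [(per_mu hP).sum_orb' fun o => mm (c o) (c' o), hdg]
  rfl

theorem prod_evm (c : Ty k Q R) {A : Type*} [CommMonoid A] (α : Mu k R → A) :
    ((evm c).map α).prod = ∏ x : Mu k R, α x ^ (c (eo Q x)).sum := by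
  rw [evm_eq_sum hP, ← Multiset.coe_mapAddMonoidHom, map_sum, Multiset.prod_sum]
  simp [Multiset.map_nsmul, Multiset.prod_nsmul]

theorem prod_evm_mem (c : Ty k Q R) : (evm c).prod ∈ fixm k Q R := by
  have h := prod_evm hP c id
  rw [Multiset.map_id] at h
  rw [mem_fixm, ← zpow_pow_eq_iff, h, ← prod_zpow]
  have hb : Bijective fun a : Mu k R => a ^ Q ^ 1 :=
    Finite.injective_iff_bijective.1 (hP.zpow_injective Mu.pow_eq_one 1)
  rw [← hb.prod_comp fun x => id x ^ (c (eo Q x)).sum]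
  refine prod_congr rfl fun x _ => ?_
  rw [eo_zpow hP, id, id, ← zpow_natCast, ← zpow_natCast, ← zpow_mul, ← zpow_mul, mul_comm]

theorem treg_iff {p : ℕ} (h : TPos c) : TReg p c ↔ ∀ x ∈ evm c, IsPRegular p x := by
  refine ⟨fun H x hx => (isPRegular_rep_mk hP x).1 (H _ ((mem_evm hP h).1 hx)), fun H o ho => ?_⟩
  exact H _ ((mem_evm hP h).2 (by rwa [eo, Orb.mk_rep]))

theorem acg_ne_zero (c : Ty k Q R) : acg c ≠ 0 := by
  refine mul_ne_zero (pow_ne_zero _ fun e => ?_) (prod_ne_zero_iff.2 fun o _ =>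
    ac_ne_zero _ (two_le_pow hP.two (eo_deg_pos hP o)))
  have := sign_sq hP.two
  rw [e] at this
  simp at this

theorem Unip.eq_single (h : Unip c) : c = Pi.single (eo Q 1) (c (eo Q 1)) := by
  ext1 o
  by_cases e : o = eo Q 1
  · rw [e, Pi.single_eq_same]
  · rw [h o e, Pi.single_eq_of_ne e]

theorem Unip.tsz (h : Unip c) : tsz c = (c (eo Q 1)).sum := by
  conv_lhs => rw [h.eq_single hP, tsz_single, deg_eo_one hP, one_mul]

theorem Unip.prod_evm (h : Unip c) : (evm c).prod = 1 := by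
  have h' := Gun.prod_evm hP c id
  rw [Multiset.map_id] at h'
  rw [h']
  refine prod_eq_one fun x _ => ?_
  by_cases e : x = 1
  · simp [e]
  · simp [h _ (mt (eo_eq_one hP).1 e)]

theorem acg_single_one (n : ℕ) :
    acg (Pi.single (eo Q (1 : Mu k R)) (Multiset.replicate n 1)) =
      ((Q.natAbs ^ n.choose 2 * ∏ i ∈ range n, tn Q (i + 1) : ℕ) : ℂ) := by
  have hQ : (Q : ℂ) ≠ 0 := by
    rw [Int.cast_ne_zero]; rintro rfl; simpa using hP.two
  have hs : (Q.natAbs : ℂ) = Q.sign * Q := by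
    rw [← Int.cast_mul, Int.sign_mul_self_eq_natAbs, Int.cast_natCast]
  rw [acg, tsz_single, deg_eo_one hP, prod_eq_single (eo Q 1)
    (fun o _ h => by simp [Pi.single_eq_of_ne h]) (by simp), deg_eo_one hP, Pi.single_eq_same,
    pow_one, ac_replicate_one n hQ]
  push_cast
  simp only [cast_tn hP.two, hs, prod_mul_distrib, prod_pow_eq_pow_sum, mul_pow,
    Multiset.sum_replicate, smul_eq_mul, mul_one, one_mul]
  have : ∑ i ∈ range n, (i + 1) = n.choose 2 + n := by
    rw [sum_add_distrib, Nat.choose_two_right, ← sum_range_id]; simp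
  have h2 : (Q.sign : ℂ) ^ n.choose 2 * (Q.sign : ℂ) ^ n.choose 2 = 1 := by
    rw [← mul_pow, ← sq, sign_sq hP.two, one_pow]
  rw [this, pow_add]
  linear_combination (-(Q.sign : ℂ) ^ n * Q ^ n.choose 2 * ∏ i ∈ range n, ((Q : ℂ) ^ (i + 1) - 1)) * h2

/-- A sum over types of a product of local terms living in the sizes `s o`. -/
theorem sum_Cls_prod (s : EO k Q R → ℕ) (φ : EO k Q R → Multiset ℕ → ℂ)
    (h : ∀ o l, Pos l → l.sum ≠ s o → φ o l = 0) (m : ℕ) :
    ∑ c ∈ Cls k Q R m, ∏ o, φ o (c o) =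
      if ∑ o, o.deg * s o = m then ∏ o, ∑ τ : Nat.Partition (s o), φ o τ.parts else 0 := by
  classical
  have h1 : ∏ o, ∑ τ : Nat.Partition (s o), φ o τ.parts =
      ∑ c ∈ Fintype.piFinset fun o => univ.image (Nat.Partition.parts (n := s o)), ∏ o, φ o (c o) := by
    rw [← prod_univ_sum]
    exact prod_congr rfl fun o _ => (sum_image fun a _ b _ e => Nat.Partition.ext e).symm
  have h2 : ∀ c ∈ Cls k Q R m, ∏ o, φ o (c o) ≠ 0 → ∀ o, (c o).sum = s o := fun c hc h0 o => by
    by_contra e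
    exact h0 (prod_eq_zero (mem_univ o) (h o _ (((mem_Cls hP).1 hc).1 o) e))
  split_ifs with hm
  · rw [h1]
    symm
    refine sum_subset (fun c hc => ?_) fun c hc hc' => ?_
    · simp only [Fintype.mem_piFinset, mem_image, mem_univ, true_and] at hc
      choose τ hτ using hc
      refine (mem_Cls hP).2 ⟨fun o => hτ o ▸ pos_parts _, ?_⟩
      rw [← hm, tsz]
      exact sum_congr rfl fun o _ => by rw [← hτ, (τ o).parts_sum]
    · by_contra h0
      refine hc' ?_
      simp only [Fintype.mem_piFinset, mem_image, mem_univ, true_and]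
      exact fun o => (((mem_Cls hP).1 hc).1 o).exists_parts (h2 c hc h0 o)
  · refine sum_eq_zero fun c hc => ?_
    by_contra h0
    refine hm ?_
    rw [← ((mem_Cls hP).1 hc).2, tsz]
    exact sum_congr rfl fun o _ => by rw [h2 c hc h0 o]

end Cfsg.Gun

set_option linter.all false in
theorem Cfsg.Rz.Gun_Ty_0 : True := by
  have := @_root_.Cfsg.Gun.TPos.eq_def.{0}
  have := @_root_.Cfsg.Gun.TPos.eq_1.{0}
  have := @_root_.Cfsg.Gun.TPos.fun_cases
  have := @_root_.Cfsg.Gun.Cls.eq_def.{0}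
  have := @_root_.Cfsg.Gun.Cls.eq_1.{0}
  have := @_root_.Cfsg.Gun.Cls.fun_cases
  have := @_root_.Cfsg.Gun.eo.eq_def.{0}
  have := @_root_.Cfsg.Gun.eo.eq_1.{0}
  have := @_root_.Cfsg.Gun.eo.fun_cases
  have := @_root_.Cfsg.Gun.Ty.congr_simp.{0}
  have := @_root_.Cfsg.Gun.Ty.eq_def.{0}
  have := @_root_.Cfsg.Gun.Ty.eq_1.{0}
  have := @_root_.Cfsg.Gun.Ty.fun_cases
  have := @_root_.Cfsg.Gun.EO.congr_simp.{0}
  have := @_root_.Cfsg.Gun.EO.eq_def.{0}
  have := @_root_.Cfsg.Gun.EO.eq_1.{0}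
  have := @_root_.Cfsg.Gun.EO.fun_cases
  have := @_root_.Cfsg.Gun.acg.eq_def.{0}
  have := @_root_.Cfsg.Gun.acg.eq_1.{0}
  have := @_root_.Cfsg.Gun.acg.fun_cases
  have := @_root_.Cfsg.Gun.hdg.eq_def.{0}
  have := @_root_.Cfsg.Gun.hdg.eq_1.{0}
  have := @_root_.Cfsg.Gun.hdg.fun_cases
  have := @_root_.Cfsg.Gun.tsz.eq_def.{0}
  have := @_root_.Cfsg.Gun.tsz.eq_1.{0}
  have := @_root_.Cfsg.Gun.tsz.fun_cases
  have := @_root_.Cfsg.Gun.evm.eq_def.{0}
  have := @_root_.Cfsg.Gun.evm.eq_1.{0}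
  have := @_root_.Cfsg.Gun.evm.fun_cases
  have := @_root_.Cfsg.Gun.Unip.eq_def.{0}
  trivial

set_option linter.all false in
theorem Cfsg.Rz.Gun_Ty_1 : True := by
  have := @_root_.Cfsg.Gun.Unip.eq_1.{0}
  have := @_root_.Cfsg.Gun.Unip.fun_cases
  have := @_root_.Cfsg.Gun.TReg.eq_def.{0}
  have := @_root_.Cfsg.Gun.TReg.eq_1.{0}
  have := @_root_.Cfsg.Gun.TReg.fun_cases
  trivial
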