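import Cfsg.Agent.Gun.Jt
import Cfsg.Agent.Gun.Ty

/-!
# The types of linear maps (S4537 project)

`tyF Q c` = the type of the class `c`.  For `GL(V)` over `F` take `Q = |F|`; for `H.U` (Gun/Herm) take `Q = -q`.
-/

set_option autoImplicit false
set_option linter.unusedSectionVars false
set_option linter.unusedVariables false
set_option linter.style.haveILetI false

namespace Cfsg.Gun

open Module Finset Function Gln Subgroup

universe u

variable {F : Type u} [Field F] [Finite F] {V W : Type*} [AddCommGroup V] [Module F V] [Finite V]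
  [AddCommGroup W] [Module F W] [Finite W] {k : Type u} [Field k] [Algebra F k] [IsAlgClosed k]
  [Algebra.IsAlgebraic F k] {Q : ℤ} {q R N n : ℕ} [NeZero R]

/-- The type of a class. -/
noncomputable def tyF (k : Type u) [Field k] [Algebra F k] (Q : ℤ) (R : ℕ) [NeZero R] (c : Iso F) :
    Ty k Q R := fun o => jt (mv o.rep) c

/-- The Jordan types are constant on the orbits of `t ↦ t ^ Q`. -/
def Stab (k : Type u) [Field k] [Algebra F k] (Q : ℤ) (c : Iso F) : Prop :=
  ∀ t : k, jt (t ^ Q) c = jt t c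

/-- All eigenvalues are `R`-th roots of unity. -/
def InMu (k : Type u) [Field k] [Algebra F k] (R : ℕ) (c : Iso F) : Prop := ∀ t ∈ ev k c, t ^ R = 1

theorem mv_zpow' (x : Mu k R) (j : ℤ) : mv (x ^ j) = mv x ^ j := by
  simp [mv]

theorem mv_multiset_prod (s : Multiset (Mu k R)) : mv s.prod = (s.map mv).prod := by
  induction s using Multiset.induction_on with
  | empty => simp
  | cons a s ih => simp [ih]

theorem Stab.zpow_pow {c : Iso F} (h : Stab k Q c) (i : ℕ) (t : k) : jt (t ^ Q ^ i) c = jt t c := by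
  induction i with
  | zero => simp
  | succ i ih => rw [pow_succ, zpow_mul, h, ih]

theorem stab_card (c : Iso F) : Stab k (Nat.card F) c := by
  intro t
  have := jt_pow_card t 1 c
  rwa [pow_one, ← zpow_natCast] at this

theorem Stab.add {c d : Iso F} (h : Stab k Q c) (h' : Stab k Q d) : Stab k Q (c + d) := by
  intro t
  rw [jt_add, jt_add, h t, h' t]

theorem inMu_of_par (hP : Par (Nat.card F) R N) (hV : finrank F V ≤ N) (g : GLV F V) :
    InMu k R (cls (g : End F V)) := by
  intro t ht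
  exact pow_eq_one_of_mem_ev hP (by rwa [dim_cls]) ht fun h0 =>
    (isUnit_iff_ev (k := k)).1 g.isUnit (h0 ▸ ht)

theorem tyF_add (c d : Iso F) : tyF k Q R (c + d) = tyF k Q R c + tyF k Q R d := by
  exact funext fun o => jt_add _ c d

theorem tpos_tyF (c : Iso F) : TPos (tyF k Q R c) := by
  exact fun o => jt_pos _ c

variable (hP : ParZ k Q R N) {c d : Iso F}
include hP

theorem tyF_eo (h : Stab k Q c) (s : Mu k R) : tyF k Q R c (eo Q s) = jt (mv s) c := by
  obtain ⟨i, hi⟩ := (mk_mu_eq_iff hP).1 (Orb.mk_rep (eo Q s)).symm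
  rw [tyF, hi, mv_zpow', h.zpow_pow]

theorem map_evm_tyF (h : Stab k Q c) (h' : InMu k R c) : (evm (tyF k Q R c)).map mv = ev k c := by
  classical
  ext t
  by_cases ht : t ^ R = 1
  · obtain ⟨s, rfl⟩ := exists_mv_eq ht
    rw [Multiset.count_map_eq_count' _ _ mv_injective, ← sum_jt, ← tyF_eo hP h]
    convert count_evm hP _ s
  · rw [Multiset.count_eq_zero.2 fun h0 => ht (h' t h0), Multiset.count_eq_zero]
    intro h0
    obtain ⟨s, _, rfl⟩ := Multiset.mem_map.1 h0
    exact ht (mv_pow_eq_one s)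

theorem tsz_tyF (h : Stab k Q c) (h' : InMu k R c) : tsz (tyF k Q R c) = c.dim := by
  rw [← card_evm, ← Multiset.card_map mv, map_evm_tyF hP h h', card_ev]

theorem eq_of_tyF (h : Stab k Q c) (h' : InMu k R c) (e : Stab k Q d) (e' : InMu k R d)
    (H : tyF k Q R c = tyF k Q R d) : c = d := by
  refine ext_jt k fun t => ?_
  by_cases ht : t ^ R = 1
  · obtain ⟨s, rfl⟩ := exists_mv_eq ht
    rw [← tyF_eo hP h, ← tyF_eo hP e, H]
  · rw [jt_eq_zero_iff.2 fun h0 => ht (h' t h0), jt_eq_zero_iff.2 fun h0 => ht (e' t h0)]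

/-- `hQ`: `|F| = Q ^ i` for `i = 1` or `2`. -/
theorem exists_tyF (hQ : ∃ i, (Nat.card F : ℤ) = Q ^ i) {τ : Ty k Q R} (hτ : TPos τ) :
    ∃ c : Iso F, Stab k Q c ∧ InMu k R c ∧ tyF k Q R c = τ := by
  classical
  obtain ⟨i, hi⟩ := hQ
  let f : k → Multiset ℕ := fun t => if h : t ^ R = 1 then τ (eo Q (exists_mv_eq h).choose) else 0
  have f1 : ∀ s : Mu k R, f (mv s) = τ (eo Q s) := fun s => by
    simp only [f, dif_pos (mv_pow_eq_one s)]
    rw [mv_injective (exists_mv_eq (mv_pow_eq_one s)).choose_spec]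
  have f2 : ∀ t, t ^ R ≠ 1 → f t = 0 := fun t ht => dif_neg ht
  have hi0 : i ≠ 0 := by
    rintro rfl
    have := one_lt_card_F (F := F)
    rw [pow_zero] at hi
    omega
  have f3 : ∀ t, f (t ^ Q) = f t := fun t => by
    by_cases ht : t ^ R = 1
    · obtain ⟨s, rfl⟩ := exists_mv_eq ht
      have := eo_zpow hP s 1
      rw [pow_one] at this
      rw [← mv_zpow', f1, f1, this]
    · rw [f2 t ht, f2]
      intro h0
      obtain ⟨σ, hσ⟩ := exists_frob (F := F) (k := k) 1
      refine ht (σ.injective ?_)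
      obtain ⟨j, rfl⟩ := Nat.exists_eq_succ_of_ne_zero hi0
      have h1 : (t ^ R) ^ Q = 1 := by
        rw [← zpow_natCast, ← zpow_mul, mul_comm, zpow_mul, zpow_natCast, h0]
      rw [hσ, map_one, pow_one, ← zpow_natCast _ (Nat.card F), hi, pow_succ', zpow_mul, h1,
        one_zpow]
  have f4 : ∀ j t, f (t ^ Q ^ j) = f t := fun j => by
    induction j with
    | zero => simp
    | succ j ih => intro t; rw [pow_succ, zpow_mul, f3, ih]
  obtain ⟨c, hc⟩ := exists_jt (F := F) (f := f) (fun t => by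
      by_cases ht : t ^ R = 1
      · obtain ⟨s, rfl⟩ := exists_mv_eq ht
        rw [f1]; exact hτ _
      · rw [f2 t ht]; exact pos_zero)
    ((Set.finite_range (mv : Mu k R → k)).subset fun t ht => by
      by_contra h0
      exact ht (f2 t fun h1 => h0 (exists_mv_eq h1)))
    (fun t => by rw [← zpow_natCast, hi, f4])
  refine ⟨c, fun t => by rw [hc, hc, f3], fun t ht => ?_, funext fun o => ?_⟩
  · by_contra h0
    exact jt_eq_zero_iff.1 ((hc t).trans (f2 t h0)) ht
  · rw [tyF, hc, f1, eo, Orb.mk_rep]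

theorem finrank_itw_eq {x : End F V} {y : End F W} (h : Stab k Q (cls x)) (h' : InMu k R (cls x))
    (e : Stab k Q (cls y)) : finrank F (itw x y) = hdg (tyF k Q R (cls x)) (tyF k Q R (cls y)) := by
  classical
  rw [finrank_itw k, hdg_eq_sum hP]
  simp only [tyF_eo hP h, tyF_eo hP e]
  rw [← Finset.sum_image (g := mv) (f := fun t => mm (jt t (cls x)) (jt t (cls y)))
    mv_injective.injOn]
  refine Finset.sum_subset (fun t ht => ?_) fun t _ ht => ?_
  · obtain ⟨s, rfl⟩ := exists_mv_eq (h' t (Multiset.mem_toFinset.1 ht))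
    exact mem_image_of_mem _ (mem_univ s)
  · rw [jt_eq_zero_iff.2 fun h0 => ht (Multiset.mem_toFinset.2 h0), mm_zero_left]

theorem isPRegular_iff_tyF {p : ℕ} (hp : p.Prime) (hpF : (p : F) ≠ 0) {g : GLV F V}
    (h : Stab k Q (cls (g : End F V))) (h' : InMu k R (cls (g : End F V))) :
    IsPRegular p g ↔ TReg p (tyF k Q R (cls (g : End F V))) := by
  rw [isPRegular_iff_ev (k := k) hp hpF, treg_iff hP (tpos_tyF _), ← map_evm_tyF hP h h']
  simp only [Multiset.mem_map, forall_exists_index, and_imp, forall_apply_eq_imp_iff₂, mv_mem_regS]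

theorem mv_prod_evm {x : End F V} (h : Stab k Q (cls x)) (h' : InMu k R (cls x)) :
    mv (evm (tyF k Q R (cls x))).prod = algebraMap F k (LinearMap.det x) := by
  rw [← prod_ev, ← map_evm_tyF hP h h', mv_multiset_prod]

theorem tyF_one : tyF k Q R (cls (1 : End F V)) =
    Pi.single (eo Q 1) (Multiset.replicate (finrank F V) 1) := by
  classical
  funext o
  rw [tyF, jt_one, Pi.single_apply]
  refine if_congr ?_ rfl rfl
  rw [← mv_one (R := R), mv_injective.eq_iff, ← eo_eq_one hP, eo, Orb.mk_rep]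

theorem unip_tyF_iff {x : End F V} (h' : InMu k R (cls x)) (h : Stab k Q (cls x)) :
    Unip (tyF k Q R (cls x)) ↔ IsNilpotent (x - 1) := by
  have h1 := isNilpotent_sub_iff (k := k) x 1
  rw [one_smul, map_one] at h1
  rw [h1]
  constructor
  · intro H t ht
    obtain ⟨s, rfl⟩ := exists_mv_eq (h' t ht)
    by_contra h0
    have := H (eo Q s) fun e => h0 (by rw [(eo_eq_one hP).1 e, mv_one])
    rw [tyF_eo hP h] at this
    exact jt_eq_zero_iff.1 this ht
  · intro H o ho
    refine jt_eq_zero_iff.2 fun h0 => ho ?_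
    rw [← Orb.mk_rep o]
    exact (eo_eq_one hP).2 (mv_injective ((H _ h0).trans mv_one.symm))

theorem card_tyF_one (x : End F V) :
    (tyF k Q R (cls x) (eo Q 1)).card = finrank F (LinearMap.ker (x - 1)) := by
  have h1 := finrank_ker_sub_pow (k := k) 1 x 1
  rw [one_smul, pow_one, map_one, (jt_pos _ _).mm_one] at h1
  rw [h1, tyF, (eo_eq_one hP).1 (Orb.mk_rep _), mv_one]

end Cfsg.Gun

set_option linter.all false in
theorem Cfsg.Rz.Gun_UV_0 : True := by
  have := @_root_.Cfsg.Gun.InMu.congr_simp.{0}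
  have := @_root_.Cfsg.Gun.InMu.eq_def.{0}
  have := @_root_.Cfsg.Gun.InMu.eq_1.{0}
  have := @_root_.Cfsg.Gun.InMu.fun_cases
  have := @_root_.Cfsg.Gun.tyF.congr_simp.{0}
  have := @_root_.Cfsg.Gun.tyF.eq_def.{0}
  have := @_root_.Cfsg.Gun.tyF.eq_1.{0}
  have := @_root_.Cfsg.Gun.tyF.fun_cases
  have := @_root_.Cfsg.Gun.Stab.congr_simp.{0}
  have := @_root_.Cfsg.Gun.Stab.eq_def.{0}
  have := @_root_.Cfsg.Gun.Stab.eq_1.{0}
  have := @_root_.Cfsg.Gun.Stab.fun_cases
  trivial
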