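import Cfsg.Agent.Gun.Tr
import Cfsg.Agent.Gun.UV

/-!
# Existence statements for classes of unitary groups (S4537 project)
-/

set_option autoImplicit false
set_option linter.unusedSectionVars false
set_option linter.unusedVariables false
set_option linter.style.haveILetI false

namespace Cfsg.Gun

open Module Finset Function Gln Subgroup

universe u

section alg

variable {F : Type*} [Field F] [StarRing F] {A : Type*} [Ring A] [Algebra F A] [StarRing A]
  [StarModule F A] [Finite A]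

theorem inv_mem_adjoin (u : Aˣ) : ((u⁻¹ : Aˣ) : A) ∈ Algebra.adjoin F {(u : A)} := by
  obtain ⟨n, hn⟩ : u⁻¹ ∈ Submonoid.powers u :=
    mem_powers_iff_mem_zpowers.2 (inv_mem (mem_zpowers u))
  rw [← hn, Units.val_pow_eq_pow_val]
  exact pow_mem (Algebra.self_mem_adjoin_singleton F _) n

open scoped IsMulCommutative in
/-- A unit can be made self-adjoint by a polynomial in `a⁻¹ * star a`. -/
theorem exists_star_mul_eq (hF : Sec F) (a u : Aˣ) (hu : star (a : A) = a * u) :
    ∃ c : Aˣ, (c : A) ∈ Algebra.adjoin F {(u : A)} ∧ star ((a : A) * c) = a * c := by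
  obtain ⟨θ, hθ⟩ := hF
  have hu' : star (u : A) * a = a * (u⁻¹ : Aˣ) := by
    rw [eq_comm, Units.mul_inv_eq_iff_eq_mul, mul_assoc, ← hu, ← star_mul, ← hu, star_star]
  have h0 : ∀ r : F, ((a⁻¹ : Aˣ) : A) * star (algebraMap F A r) * a = algebraMap F A (star r) :=
    fun r => by rw [← algebraMap_star_comm, mul_assoc, Algebra.commutes, Units.inv_mul_cancel_left]
  have h1 : ∀ x y : A, ((a⁻¹ : Aˣ) : A) * star (x * y) * a =
      ((a⁻¹ : Aˣ) : A) * star y * a * ((a⁻¹ : Aˣ) * star x * a) := fun x y => by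
    simp only [star_mul, mul_assoc, Units.mul_inv_cancel_left]
  have hm : ∀ x ∈ Algebra.adjoin F {(u : A)},
      ((a⁻¹ : Aˣ) : A) * star x * a ∈ Algebra.adjoin F {(u : A)} := fun x hx => by
    induction hx using Algebra.adjoin_induction with
    | mem x hx =>
      rw [Set.mem_singleton_iff.1 hx, mul_assoc, hu', Units.inv_mul_cancel_left]
      exact inv_mem_adjoin u
    | algebraMap r => rw [h0]; exact algebraMap_mem _ _
    | add x y _ _ hx hy => rw [star_add, mul_add, add_mul]; exact add_mem hx hy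
    | mul x y _ _ hx hy => rw [h1]; exact mul_mem hy hx
  have h2 : star ((a⁻¹ : Aˣ) : A) = (u⁻¹ : Aˣ) * (a⁻¹ : Aˣ) := by
    rw [← Units.val_mul, ← mul_inv_rev, ← Units.coe_star_inv]
    exact congrArg (fun x : Aˣ => ((x⁻¹ : Aˣ) : A)) (Units.ext hu)
  letI : StarRing (Algebra.adjoin F {(u : A)}) :=
    { star := fun x => ⟨_, hm x.1 x.2⟩
      star_involutive := fun x => Subtype.ext (by
        have := (Algebra.commute_of_mem_adjoin_self x.2).eq
        change ((a⁻¹ : Aˣ) : A) * star (((a⁻¹ : Aˣ) : A) * star x.1 * a) * a = x.1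
        simp only [star_mul, star_star, hu, h2, mul_assoc, Units.inv_mul_cancel_left, Units.inv_mul,
          mul_one]
        rw [← mul_assoc, this, Units.mul_inv_cancel_right])
      star_mul := fun x y => Subtype.ext (h1 x.1 y.1)
      star_add := fun x y => Subtype.ext (by
        change ((a⁻¹ : Aˣ) : A) * star (x.1 + y.1) * a = _
        rw [star_add, mul_add, add_mul]; rfl) }
  obtain ⟨c, hc, h⟩ := hilbert90 (C := Algebra.adjoin F {(u : A)}) (θ := algebraMap F _ θ)
    (by
      rw [show star (algebraMap F (Algebra.adjoin F {(u : A)}) θ) = algebraMap F _ (star θ) from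
        Subtype.ext (h0 θ), ← map_sub]
      exact (Ne.isUnit (sub_ne_zero.2 hθ)).map _)
    (a := ⟨u, Algebra.self_mem_adjoin_singleton F _⟩) (Subtype.ext (by
      change ((a⁻¹ : Aˣ) : A) * star (u : A) * a * u = 1
      rw [mul_assoc _ (star (u : A)), hu', Units.inv_mul_cancel_left, Units.inv_mul]))
  obtain ⟨c', hc'⟩ := hc.map (Algebra.adjoin F {(u : A)}).val
  refine ⟨c', hc' ▸ c.2, ?_⟩
  have := congrArg Subtype.val (h.trans (mul_comm _ _))
  change c.1 = ((a⁻¹ : Aˣ) : A) * star c.1 * a * u at this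
  rw [hc', star_mul, hu]
  change star c.1 * _ = a * c.1
  conv_rhs => rw [this]
  simp only [mul_assoc, Units.mul_inv_cancel_left]

/-- A unit preserving some nondegenerate form is conjugate to a unitary element. -/
theorem exists_conj_uni (hF : Sec F) (g a : Aˣ) (h : star (g : A) * a * g = a) :
    ∃ b : Aˣ, b * g * b⁻¹ ∈ uni A := by
  have hu : star (a : A) = a * (a⁻¹ * star a : Aˣ) := by simp
  obtain ⟨c, hc, hs⟩ := exists_star_mul_eq hF a _ hu
  have h' : star g * a * g = a := Units.ext h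
  have h'' : star g * star a * g = star a := by
    simpa only [star_mul, star_star, mul_assoc] using congrArg star h'
  have h1 : Commute g (a⁻¹ * star a) := by
    have : a⁻¹ * star a = g⁻¹ * (a⁻¹ * star a) * g := by
      conv_lhs => rw [← h'', ← congrArg (·⁻¹) h']
      group
    exact (eq_inv_mul_iff_mul_eq.1 (this.trans (mul_assoc _ _ _)))
  have h2 : Commute (g : A) c :=
    Algebra.commute_of_mem_adjoin_singleton_of_commute hc (Commute.units_val h1)
  obtain ⟨b, hb, -⟩ := lang' hF (a.isUnit.mul c.isUnit) hs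
  refine ⟨b, mem_uni.2 ?_⟩
  have h3 : star g * (star b * b) * g = star b * b := Units.ext (by
    simp only [Units.val_mul, Units.coe_star, hb]
    rw [mul_assoc, mul_assoc, ← h2.eq, ← mul_assoc, ← mul_assoc, h])
  rw [← Units.coe_star, ← Units.val_mul, Units.val_eq_one, star_mul, star_mul, star_inv]
  calc _ = (star b)⁻¹ * (star g * (star b * b) * g) * b⁻¹ := by group
    _ = 1 := by rw [h3]; group

theorem exists_eq_mul_star (hF : Sec F) {g : Aˣ} (hg : g ∈ uni A) :
    ∃ b : Aˣ, (∀ y : A, Commute y g → Commute y b) ∧ (b : A) = g * star (b : A) := by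
  obtain ⟨θ, hθ⟩ := hF
  have h0 : star (g : A) = (g⁻¹ : Aˣ) := Units.eq_inv_of_mul_eq_one_right (mem_uni.1 hg)
  haveI : IsStarNormal (g : A) := ⟨by rw [h0]; exact (Commute.refl _).units_inv_left⟩
  obtain ⟨c, hc, h⟩ := hilbert90 (C := StarAlgebra.adjoin F {(g : A)}) (θ := algebraMap F _ θ)
    (by rw [← algebraMap_star_comm, ← map_sub]; exact (Ne.isUnit (sub_ne_zero.2 hθ)).map _)
    (a := ⟨g, StarAlgebra.self_mem_adjoin_singleton F _⟩) (Subtype.ext (mem_uni.1 hg))
  obtain ⟨b, hb⟩ := isUnit_coe_iff.2 hc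
  refine ⟨b, fun y hy => ?_, hb ▸ congrArg Subtype.val h⟩
  have := c.2
  rw [← StarSubalgebra.mem_toSubalgebra, StarAlgebra.adjoin_toSubalgebra, ← hb] at this
  refine Algebra.commute_of_mem_adjoin_of_forall_mem_commute this ?_
  rintro z (rfl | hz)
  · exact hy
  · rw [Set.star_singleton, h0] at hz
    exact hz ▸ hy.units_inv_right

end alg

variable {F : Type u} [Field F] [StarRing F] [Finite F] {V : Type*} [AddCommGroup V] [Module F V]
  [Finite V] {k : Type u} [Field k] [Algebra F k] [IsAlgClosed k] [Algebra.IsAlgebraic F k] {Q : ℤ}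
  {q R N : ℕ} [NeZero R] (H : HF F V) (hF : Nat.card F = q ^ 2) (hs : ∀ a : F, star a = a ^ q)
include hF hs

theorem sec_of_pow' : Sec F := by
  obtain ⟨d, hd⟩ := exists_pow_q_ne hF
  exact ⟨d, by rwa [hs]⟩

theorem fq_eq_of_pow : fq F = q :=
  Nat.pow_left_injective two_ne_zero ((sec_of_pow' hF hs).card_eq.symm.trans hF)

theorem HF.stab' {g : GLV F V} (hg : g ∈ H.U) : Stab k (-(q : ℤ)) (cls (g : End F V)) := by
  intro t
  rw [← fq_eq_of_pow hF hs, ← H.jt_cg (sec_of_pow' hF hs), H.cg_val, ← H.mem_U_iff_adj.1 hg, H.adj_adj]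

theorem HF.exists_mem' {c : Iso F} (hc : c.dim = finrank F V) (h0 : (0 : k) ∉ ev k c)
    (h : Stab k (-(q : ℤ)) c) : ∃ g ∈ H.U, cls (g : End F V) = c := by
  obtain ⟨x, rfl⟩ := exists_cls (V := V) c hc.symm
  obtain ⟨g, rfl⟩ := (isUnit_iff_ev (k := k)).2 h0
  obtain ⟨a, ha⟩ := _root_.isConj_iff.1 (cls_eq_iff_isConj.1 (ext_jt (k := k) fun t =>
    ((H.jt_cg (sec_of_pow' hF hs) g t).trans (by rw [fq_eq_of_pow hF hs, h])).symm))
  obtain ⟨b, hb⟩ := exists_conj_uni (A := H.E) (sec_of_pow' hF hs) g a (by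
    change H.adj g * (a : End F V) * g = a
    rw [mul_assoc, ← Units.val_mul, mul_inv_eq_iff_eq_mul.1 ha, Units.val_mul, H.cg_val, ← mul_assoc,
      ← H.adj_mul, Units.inv_mul, H.adj_one, one_mul])
  let b' : GLV F V := b
  exact ⟨b' * g * b'⁻¹, H.U_eq_uni ▸ hb, cls_eq_iff_isConj.2 (_root_.isConj_iff.2 ⟨b', rfl⟩).symm⟩

theorem HF.exists_det_eq' (g : H.U) : ∃ b : GLV F V,
    (∀ x : GLV F V, Commute x g → Commute x b) ∧ dt g.1 * dt b ^ q = dt b := by
  obtain ⟨b, h1, h2⟩ := exists_eq_mul_star (A := H.E) (sec_of_pow' hF hs) (g := g.1)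
    (H.U_eq_uni ▸ g.2)
  let b' : GLV F V := b
  refine ⟨b', fun x hx => Commute.units_of_val (h1 x.1 (Commute.units_val hx)), Units.ext ?_⟩
  have h3 : (b' : End F V) = g.1 * H.adj b' := h2
  rw [Units.val_mul, Units.val_pow_eq_pow_val, ← hs, dt_val, dt_val,
    ← H.det_adj (sec_of_pow' hF hs), ← map_mul, ← h3]

theorem HF.exists_of_comm' (x : H.U)
    (hx : ∀ a b : End F V, Commute a x.1 → Commute b x.1 → Commute a b)
    {b : GLV F V} (hb : Commute b x) : ∃ g : H.U, Commute g x ∧ dt g.1 * dt b ^ q = dt b := by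
  have h0 : Commute (H.adj b) x.1 := by
    have := congrArg H.adj (Commute.units_val hb).eq
    rw [H.adj_mul, H.adj_mul, H.mem_U_iff_adj.1 x.2] at this
    exact Commute.units_inv_right_iff.1 (Eq.symm this)
  have h1 : Commute b⁻¹ (H.cg b) := Commute.units_of_val
    (hx _ _ (Commute.units_val hb.inv_left) (Commute.units_val
      (Commute.units_of_val (u₁ := (H.cg b)⁻¹) h0).inv_left))
  refine ⟨⟨b * H.cg b, H.mem_U_iff_adj.2 ?_⟩, Subtype.ext ?_, Units.ext ?_⟩
  · rw [Units.val_mul, H.adj_mul, H.cg_val, H.adj_adj, mul_inv_rev, ← h1.inv_right.eq]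
    rfl
  · exact (hb.mul_left (Commute.inv_left_iff.1 (Commute.units_of_val (u₁ := (H.cg b)⁻¹) h0))).eq
  · rw [Units.val_mul, Units.val_pow_eq_pow_val, ← hs, dt_val, dt_val,
      ← H.det_adj (sec_of_pow' hF hs), ← map_mul, Units.val_mul, mul_assoc, H.cg_val, ← H.adj_mul,
      Units.mul_inv, H.adj_one, mul_one]

theorem HF.dt_pow' (g : H.U) : dt g.1 ^ (q + 1) = 1 := by
  rw [← fq_eq_of_pow hF hs]
  exact H.dt_pow_fq (sec_of_pow' hF hs) g.2

end Cfsg.Gun
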