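import Cfsg.Agent.Gun.RzU
import Cfsg.Agent.Gun.UEx

/-!
# Restriction of scalars in unitary groups (S4537 project)

`K : IntermediateField F k` with `[K : F] = c` (`c` odd, star `x ^ q ^ c` by `starOfCard`, `G₁ = GU K m`, trace form) resp. `c / 2`
(`c` even, `|K| = q ^ c`, `G₁ = GLV K (Fin m → K)` acting on `W × W†`); transport to the standard form by `exists_isometry_of_finrank`,
`conjU`.  `r₁` from `exists_rzU` / `exists_rzGL` with `ParZ.pow`.  `ty_ι`: `jt_resS`, `tyF_eo`, and `jt` over `K` is invariant under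
`s ↦ s ^ Q ^ c`.  `cent`: `F(ζ) = K` (the orbit of `ζ` under `Q ^ 2` has length `c` resp. `c / 2`), `centralizer_rsHom_scal`,
`mem_range_blkHom`.
-/

set_option autoImplicit false
set_option linter.unusedSectionVars false
set_option linter.unusedVariables false
set_option linter.style.haveILetI false

namespace Cfsg.Gun

open Module Finset Function Gln Subgroup

universe u

theorem exists_finrank_eq (F k : Type u) [Field F] [Finite F] [Field k] [Algebra F k] [IsAlgClosed k]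
    {c : ℕ} (hc : 0 < c) : ∃ K : IntermediateField F k, Finite K ∧ finrank F K = c := by
  haveI : Fact (ringChar F).Prime := ⟨CharP.char_is_prime F _⟩
  haveI : NeZero c := ⟨hc.ne'⟩
  let φ : FiniteField.Extension F (ringChar F) c →ₐ[F] k := IsAlgClosed.lift
  exact ⟨φ.fieldRange, .of_equiv _ (AlgEquiv.ofInjectiveField φ).toEquiv,
    (AlgEquiv.ofInjectiveField φ).toLinearEquiv.finrank_eq.symm.trans
      (FiniteField.finrank_extension F _ c)⟩

theorem adjoin_eq_top_of_fdeg {F K k : Type*} [Field F] [Field K] [Finite K] [Field k] [Algebra F K]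
    [Algebra F k] [Algebra K k] [IsScalarTower F K k] {ζ : K}
    (h : fdeg F (algebraMap K k ζ) = finrank F K) : Algebra.adjoin F {ζ} = ⊤ := by
  rw [fdeg, minpoly.algebraMap_eq (algebraMap K k).injective,
    ← Field.primitive_element_iff_minpoly_natDegree_eq] at h
  rw [← IntermediateField.adjoin_simple_toSubalgebra_of_isAlgebraic
    (Algebra.IsAlgebraic.isAlgebraic _), h, IntermediateField.top_toSubalgebra]

theorem sum_range_mul_of_coprime {M : Type*} [AddCommMonoid M] {f : ℕ → M} {a c : ℕ}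
    (hf : Periodic f c) (h : a.Coprime c) : ∑ i ∈ range c, f (a * i) = ∑ i ∈ range c, f i := by
  have h1 : Set.MapsTo (fun i => a * i % c) (range c) (range c) := fun i hi =>
    mem_coe.2 (mem_range.2 (Nat.mod_lt _ (Nat.zero_lt_of_lt (mem_range.1 hi))))
  have h2 : Set.InjOn (fun i => a * i % c) (range c) := fun i hi j hj e =>
    (Nat.ModEq.cancel_left_of_coprime h.symm e).eq_of_lt_of_lt (mem_range.1 hi) (mem_range.1 hj)
  exact sum_nbij _ h1 h2 (((finite_toSet _).injOn_iff_bijOn_of_mapsTo h1).1 h2).surjOn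
    fun i _ => (hf.map_mod_nat _).symm

theorem sum_range_two_mul' {M : Type*} [AddCommMonoid M] (f : ℕ → M) (d : ℕ) :
    ∑ i ∈ range (d + d), f i = ∑ i ∈ range d, f (2 * i) + ∑ i ∈ range d, f (2 * i + 1) := by
  rw [← Nat.two_mul, sum_range_mul', Finset.sum_range_succ, Finset.sum_range_one]
  rfl

variable {F : Type u} [Field F] [StarRing F] [Finite F] {k : Type u} [Field k] [Algebra F k]
  [IsAlgClosed k] [Algebra.IsAlgebraic F k] {Q : ℤ} {R N n c m : ℕ} [NeZero R]
  (hF : Sec F) (hP : ParZ k Q R (2 * N)) (hQ : Q = -(fq F : ℤ)) (hn : n ≤ N)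
  {r : Rz k Q R n (GU F n)} (hr : IsLin r (Subgroup.subtype _)) (hm : 0 < m) (h : c * m = n)
include hF hP hQ hn hr hm h

omit hn hr hm h in
theorem pow_card_pow_eq (t : k) (i : ℕ) : t ^ Nat.card F ^ i = t ^ Q ^ (2 * i) := by
  rw [hF.card_eq, hQ, pow_mul, neg_sq, ← zpow_natCast, Nat.cast_pow, Nat.cast_pow]

omit hn hr hm h in
theorem fdeg_dvd_iffU (s : Mu k R) (i : ℕ) : fdeg F (mv s) ∣ i ↔ (eo Q s).deg ∣ 2 * i := by
  rw [← pow_eq_iff_fdeg_dvd, pow_card_pow_eq hF hP hQ, ← mv_zpow', mv_injective.eq_iff,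
    zpow_pow_eq_iff, deg_mu_dvd_iff hP]

theorem exists_emb_odd (hc : Odd c) : Nonempty (Emb c m r) := by
  obtain ⟨K, _, hK⟩ := exists_finrank_eq F k hc.pos
  have hq : Nat.card K = (fq F ^ c) ^ 2 := by
    rw [card_eq_pow (F := F), hK, hF.card_eq, ← pow_mul, ← pow_mul, mul_comm]
  letI := starOfCard hq
  have hK' : Sec K := sec_starOfCard hq
  have hQ' : Q ^ c = -(fq K : ℤ) := by rw [fq_starOfCard hq, hQ, hc.neg_pow, Nat.cast_pow]
  have hP' : ParZ k (Q ^ c) R (2 * m) :=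
    hP.pow hc.pos (by omega) (by rw [mul_left_comm, h]; omega)
  obtain ⟨r₁, h₁⟩ := exists_rzU hK' hP' hQ' le_rfl
  obtain ⟨ι, i1, i2, i3⟩ := exists_trU (F := F) (K := K) (fun a => by
      obtain ⟨d, rfl⟩ := hc
      haveI := Fintype.ofFinite F
      change algebraMap F K a ^ fq F ^ (2 * d + 1) = _
      rw [← map_pow, pow_succ, pow_mul, pow_mul, ← hF.card_eq, Nat.card_eq_fintype_card,
        FiniteField.pow_card_pow, hF.star_eq_pow]) hF (HF.std K (Fin m)) (HF.std F (Fin n))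
    (by rw [← Module.finrank_mul_finrank F K, hK, finrank_fin_fun, finrank_fin_fun, h])
  refine ⟨⟨GU K m, r₁, ι, i1, fun x s => ?_, fun ζ hζ => ?_⟩⟩
  · have hx : Stab k (Q ^ c) (cls (x.1 : End K (Fin m → K))) :=
      hQ' ▸ HF.stab' _ hK'.card_eq hK'.star_eq_pow x.2
    rw [hr.ty, h₁.ty, tyF_eo hP (hQ ▸ HF.stab' _ hF.card_eq hF.star_eq_pow (ι x).2)]
    refine (congrArg _ (i2 x)).trans ?_
    rw [jt_resS, hK]
    simp only [pow_card_pow_eq hF hP hQ]
    refine (sum_range_mul_of_coprime (f := fun i => jt (mv s ^ Q ^ i) (cls (x.1 : End K (Fin m → K))))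
      (fun i => ?_) hc.coprime_two_left).trans (sum_congr rfl fun i _ => ?_)
    · simp only [pow_add, zpow_mul, hx _]
    · rw [← mv_zpow']
      exact (tyF_eo hP' hx _).symm
  · obtain ⟨a, a1, a2⟩ := h₁.sc ζ
    refine i3 a _ a2 (adjoin_eq_top_of_fdeg (k := k) ?_)
    rw [a1, hK]
    refine Nat.dvd_antisymm ((fdeg_dvd_iffU hF hP hQ _ _).2 (hζ.dvd.mul_left 2)) ?_
    exact hc.coprime_two_right.dvd_of_dvd_mul_left
      (hζ.symm.dvd.trans ((fdeg_dvd_iffU hF hP hQ _ _).1 dvd_rfl))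

theorem exists_emb_even (hc : Even c) (h0 : 0 < c) : Nonempty (Emb c m r) := by
  obtain ⟨d, rfl⟩ := hc
  obtain ⟨K, _, hK⟩ := exists_finrank_eq F k (c := d) (by omega)
  have hQ' : Q ^ (d + d) = Nat.card K := by
    rw [card_eq_pow (F := F), hK, hF.card_eq, hQ, ← two_mul, pow_mul, neg_sq, Nat.cast_pow,
      Nat.cast_pow]
  have hP' : ParZ k (Q ^ (d + d)) R m := hP.pow h0 hm (by omega)
  obtain ⟨r₁, h₁⟩ := exists_rzGL hP' hQ' le_rfl
  obtain ⟨ι, i1, i2, i3⟩ := exists_hypU (W := Fin m → K) (k := k) hF (HF.std F (Fin n)) (by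
    rw [← Module.finrank_mul_finrank F K, hK, finrank_fin_fun, finrank_fin_fun, ← h]; ring)
  have h2 : ∀ x : GLV K (Fin m → K), cls (rsHom F x : End F (Fin m → K)) =
      resS F (1 : Kˣ) (cls (x : End K (Fin m → K))) := fun x => by
    rw [resS_cls, Units.val_one, one_smul]
    rfl
  refine ⟨⟨GLV K (Fin m → K), r₁, ι.comp (rsHom F), i1.comp (rsHom_injective (F := F)),
    fun x s => ?_, fun ζ hζ => ?_⟩⟩
  · have hx : Stab k (Q ^ (d + d)) (cls (x : End K (Fin m → K))) := hQ' ▸ stab_card _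
    rw [hr.ty, h₁.ty, tyF_eo hP (hQ ▸ HF.stab' _ hF.card_eq hF.star_eq_pow (ι _).2)]
    refine (i2 _ _).trans ?_
    rw [h2, jt_resS, jt_resS, hK, sum_range_two_mul', ← hQ]
    simp only [pow_card_pow_eq hF hP hQ, MonoidHom.id_apply, tyF_eo hP' hx, mv_zpow', pow_succ',
      zpow_mul]
  · obtain ⟨a, a1, a2⟩ := h₁.sc ζ
    rw [MonoidHom.id_apply] at a2
    have h3 : ∀ t ∈ ev k (cls (rsHom F (scal (Fin m → K) a) : End F (Fin m → K))),
        ∃ i, t = mv (ζ.1 ^ Q ^ (2 * i)) := fun t ht => by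
      rw [show cls (rsHom F (scal (Fin m → K) a) : End F (Fin m → K)) =
        resS F a (cls (1 : End K (Fin m → K))) from (resS_cls a 1).symm] at ht
      obtain ⟨i, -, s, hs, rfl⟩ := mem_ev_resS.1 ht
      rw [← not_not (a := s ∈ _), ← jt_eq_zero_iff, jt_one] at hs
      rw [show s = 1 from by_contra fun e => hs (if_neg e), mul_one, a1]
      exact ⟨i, by rw [pow_card_pow_eq hF hP hQ, mv_zpow']⟩
    rw [a2, MonoidHom.comp_apply]
    refine (i3 _ fun t ht ht' => ?_).trans ?_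
    · obtain ⟨i, rfl⟩ := h3 t ht
      obtain ⟨j, e⟩ := h3 _ ht'
      rw [← hQ, ← mv_zpow', mv_injective.eq_iff, ← zpow_mul, ← pow_succ] at e
      have key : ∀ a b : ℕ, ζ.1 ^ Q ^ a = ζ.1 ^ Q ^ (a + b) → 2 ∣ b := fun a b e => by
        rw [add_comm a, pow_add Q b, zpow_mul] at e
        have := hP.zpow_injective (fun x : Mu k R => Subtype.ext x.2) a e
        rw [eq_comm, zpow_pow_eq_iff, ← deg_mu_dvd_iff hP] at this
        exact (Dvd.intro _ ((two_mul d).trans hζ.symm)).trans this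
      rcases le_total (2 * i + 1) (2 * j) with l | l
      · have := key _ (2 * j - (2 * i + 1)) (by rwa [Nat.add_sub_of_le l])
        omega
      · have := key (2 * j) (2 * i + 1 - 2 * j) (by rw [Nat.add_sub_of_le l, e])
        omega
    · rw [centralizer_rsHom_scal (adjoin_eq_top_of_fdeg (k := k) ?_), MonoidHom.map_range]
      rw [a1, hK]
      refine Nat.dvd_antisymm ((fdeg_dvd_iffU hF hP hQ _ _).2 (hζ.trans (two_mul d).symm).dvd) ?_
      exact Nat.dvd_of_mul_dvd_mul_left two_pos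
        (((two_mul d).trans hζ.symm).dvd.trans ((fdeg_dvd_iffU hF hP hQ _ _).1 dvd_rfl))

end Cfsg.Gun
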