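import Cfsg.Agent.Gun.Ty

/-!
# The Ennola algebra (S4537 project)

`Lam` = polynomials in the coloured power sums `pX o j` (`j > 0`); it replaces `Gln.Hall`.  The monomials `mX f` (`TPos f`) are a
basis (`MvPolynomial.basisMonomials` reindexed: `d ↦ fun o => ∑ over i with i.1 = o of replicate (d i) (i.2 + 1)`).
`bf` is diagonal on monomials; `der u` is the derivation with `der u (X i) = bf (X i) u`; it is adjoint to multiplication by
`u` for linear `u` (`bf_mul_left`: reduce to `u = pX o j`, `f = mX f`, `g = mX g`; `der_mX`, `zc_cons`).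
`bf_mul_Hh`: induction on the monomial `g` (`bf_mul_left`, `der` commutes with `Sh`); base case `Hh_eq_sum`.
`Hh_eq_sum`: `IsNw.prod`, `IsNw.expand`, `nexp_eq_sum`, or: both sides have the same `bf` with all monomials.
-/

set_option autoImplicit false
set_option linter.unusedSectionVars false
set_option linter.unusedVariables false
set_option linter.style.haveILetI false

namespace Cfsg.Gun

open Finset Function Gln Cfsg.Sym MvPolynomial

universe u

/-- The Ennola algebra. -/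
abbrev Lam (k : Type u) [Field k] (Q : ℤ) (R : ℕ) [NeZero R] : Type u :=
  MvPolynomial (EO k Q R × ℕ) ℂ

variable {k : Type u} [Field k] {Q : ℤ} {R N n m : ℕ} [NeZero R]

/-- The coloured power sums. -/
noncomputable def pX (o : EO k Q R) : ℕ → Lam k Q R
  | 0 => 0
  | j + 1 => X (o, j)

/-- The monomials. -/
noncomputable def mX (f : Ty k Q R) : Lam k Q R := ∏ o, pm (pX o) (f o)

@[simp] theorem mX_zero : mX (0 : Ty k Q R) = 1 := by
  simp [mX, pm]

theorem mX_add (f g : Ty k Q R) : mX (f + g) = mX f * mX g := by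
  simp [mX, pm, prod_mul_distrib]

theorem mX_single (o : EO k Q R) (l : Multiset ℕ) : mX (Pi.single o l) = pm (pX o) l := by
  rw [mX, Fintype.prod_eq_single o fun o' h => by simp [pm, h], Pi.single_eq_same]

theorem mX_single_singleton (o : EO k Q R) (j : ℕ) : mX (Pi.single o {j}) = pX o j := by
  simp [mX_single, pm]

theorem mX_cons (o : EO k Q R) (j : ℕ) (f : Ty k Q R) : mX (Pi.single o {j} + f) = pX o j * mX f := by
  rw [mX_add, mX_single_singleton]

theorem tpos_cons {o : EO k Q R} {j : ℕ} {f : Ty k Q R} (hj : 0 < j) (h : TPos f) :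
    TPos (Pi.single o {j} + f) := tpos_add.2 ⟨tpos_single.2 (pos_singleton.2 hj), h⟩

theorem tsz_cons (o : EO k Q R) (j : ℕ) (f : Ty k Q R) :
    tsz (Pi.single o {j} + f) = o.deg * j + tsz f := by
  rw [tsz_add, tsz_single, Multiset.sum_singleton]

theorem exists_bas : ∃ b : Module.Basis {f : Ty k Q R // TPos f} ℂ (Lam k Q R), ∀ f, b f = mX f.1 := by
  let Φ : Multiset (EO k Q R × ℕ) → Ty k Q R := fun d =>
    (d.map fun i => (Pi.single i.1 {i.2 + 1} : Ty k Q R)).sum
  have h0 : ∀ i d, Φ (i ::ₘ d) = Pi.single i.1 {i.2 + 1} + Φ d := fun i d => by simp [Φ]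
  have h1 : ∀ d, TPos (Φ d) ∧ mX (Φ d) = monomial d.toFinsupp 1 := fun d => by
    induction d using Multiset.induction_on with
    | empty => exact ⟨tpos_zero, by simp [Φ]⟩
    | cons i d ih =>
      rw [h0, mX_cons, ih.2, ← Multiset.singleton_add, map_add, Multiset.toFinsupp_singleton,
        monomial_single_add, pow_one]
      exact ⟨tpos_cons i.2.succ_pos ih.1, rfl⟩
  have h2 : Bijective fun d => (⟨Φ d, (h1 d).1⟩ : {f : Ty k Q R // TPos f}) := by
    refine ⟨fun d d' e => Multiset.toFinsupp.injective (monomial_left_injective (R := ℂ) one_ne_zero ?_),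
      fun f => ?_⟩
    · simp only [← (h1 _).2]
      exact congrArg (mX ·.1) e
    · obtain ⟨d, hd⟩ : ∃ d, Φ d = f.1 := induction_tpos (P := fun f => ∃ d, Φ d = f) ⟨0, by simp [Φ]⟩
        (by
          rintro o j _ hj - ⟨d, rfl⟩
          exact ⟨(o, j - 1) ::ₘ d, by rw [h0, Nat.sub_add_cancel hj]⟩) f.2
      exact ⟨d, Subtype.ext hd⟩
  refine ⟨(basisMonomials _ ℂ).reindex
    (Multiset.toFinsupp.symm.toEquiv.trans (Equiv.ofBijective _ h2)), fun f => ?_⟩
  obtain ⟨d, rfl⟩ := h2.2 f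
  rw [Module.Basis.reindex_apply, (h1 d).2, coe_basisMonomials]
  exact congrArg (fun s => monomial (Multiset.toFinsupp s) (1 : ℂ))
    ((Equiv.ofBijective _ h2).symm_apply_apply d)

/-- The basis of monomials. -/
noncomputable def bas : Module.Basis {f : Ty k Q R // TPos f} ℂ (Lam k Q R) := exists_bas.choose

theorem bas_apply (f : {f : Ty k Q R // TPos f}) : bas f = mX f.1 := exists_bas.choose_spec f

/-- The linear map with given values on monomials. -/
noncomputable def lin {M : Type*} [AddCommGroup M] [Module ℂ M] (g : Ty k Q R → M) :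
    Lam k Q R →ₗ[ℂ] M := bas.constr ℂ fun f => g f.1

/-- The homogeneous parts. -/
noncomputable def hom (k : Type u) [Field k] (Q : ℤ) (R : ℕ) [NeZero R] (n : ℕ) :
    Submodule ℂ (Lam k Q R) := Submodule.span ℂ (mX '' {f | TPos f ∧ tsz f = n})

/-- The linear forms. -/
noncomputable def lin1 (k : Type u) [Field k] (Q : ℤ) (R : ℕ) [NeZero R] :
    Submodule ℂ (Lam k Q R) := Submodule.span ℂ (Set.range X)

/-- Diagonal operators. -/
noncomputable def Dg (w : Ty k Q R → ℂ) : Lam k Q R →ₗ[ℂ] Lam k Q R := lin fun f => w f • mX f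

/-- The homogeneous components. -/
noncomputable def comp (n : ℕ) : Lam k Q R →ₗ[ℂ] Lam k Q R := Dg fun f => if tsz f = n then 1 else 0

/-- The norm of a monomial. -/
noncomputable def nmX (f : Ty k Q R) : ℂ :=
  ∏ o, (zc (f o) : ℂ) * ((f o).map fun j => (tn Q (o.deg * j) : ℂ)⁻¹).prod

open Classical in
/-- The bilinear form. -/
noncomputable def bf : Lam k Q R →ₗ[ℂ] Lam k Q R →ₗ[ℂ] ℂ :=
  lin fun f => lin fun g => if f = g then nmX f else 0

/-- The constant-coefficient derivation with `X i ↦ c i`. -/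
noncomputable def dcf (c : EO k Q R × ℕ → ℂ) : Lam k Q R →ₗ[ℂ] Lam k Q R :=
  (mkDerivation ℂ fun i => (C (c i) : Lam k Q R)).toLinearMap

/-- The derivation dual to `u`. -/
noncomputable def der (u : Lam k Q R) : Lam k Q R →ₗ[ℂ] Lam k Q R := dcf fun i => bf (X i) u

/-- Complex conjugation. -/
noncomputable def cj : Lam k Q R →+* Lam k Q R := MvPolynomial.map (starRingEnd ℂ)

/-- Pointwise multiplication by `∏ α(eigenvalues)`. -/
noncomputable def T (α : Mu k R → ℂ) : Lam k Q R →ₐ[ℂ] Lam k Q R :=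
  aeval fun i => (∏ l ∈ range i.1.deg, α (i.1.rep ^ Q ^ l)) ^ (i.2 + 1) • (X i : Lam k Q R)

open Classical in
/-- Restriction to `p`-regular elements. -/
noncomputable def cut (p : ℕ) : Lam k Q R →ₐ[ℂ] Lam k Q R :=
  aeval fun i => if IsPRegular p i.1.rep then (X i : Lam k Q R) else 0

/-- The shift. -/
noncomputable def Sh (s : ℂ) : Lam k Q R →ₐ[ℂ] Lam k Q R :=
  aeval fun i => (X i : Lam k Q R) + C (s ^ (i.1.deg * (i.2 + 1)) / tn Q (i.1.deg * (i.2 + 1)))

/-- The power sums of the trivial character. -/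
noncomputable def p1 (k : Type u) [Field k] (Q : ℤ) (R : ℕ) [NeZero R] (j : ℕ) : Lam k Q R :=
  ∑ o : EO k Q R with o.deg ∣ j, (o.deg : ℂ) • pX o (j / o.deg)

/-- The trivial character. -/
noncomputable def Hh (k : Type u) [Field k] (Q : ℤ) (R : ℕ) [NeZero R] (n : ℕ) : Lam k Q R :=
  nexp (p1 k Q R) n

variable {f g : Ty k Q R} {u v w : Lam k Q R} {o : EO k Q R} {j : ℕ}

theorem pX_zero (o : EO k Q R) : pX o 0 = 0 := rfl

theorem pX_succ (o : EO k Q R) (j : ℕ) : pX o (j + 1) = X (o, j) := rfl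


theorem lin_mX {M : Type*} [AddCommGroup M] [Module ℂ M] (g : Ty k Q R → M) (h : TPos f) :
    lin g (mX f) = g f := by
  rw [← bas_apply ⟨f, h⟩, lin, Module.Basis.constr_basis]

theorem ext_mX {M : Type*} [AddCommGroup M] [Module ℂ M] {L L' : Lam k Q R →ₗ[ℂ] M}
    (h : ∀ f, TPos f → L (mX f) = L' (mX f)) : L = L' := by
  exact bas.ext fun f => by rw [bas_apply, h _ f.2]

theorem ext_mX₂ {M : Type*} [AddCommGroup M] [Module ℂ M]
    {L L' : Lam k Q R →ₗ[ℂ] Lam k Q R →ₗ[ℂ] M}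
    (h : ∀ f g, TPos f → TPos g → L (mX f) (mX g) = L' (mX f) (mX g)) (u v : Lam k Q R) :
    L u v = L' u v := by
  rw [ext_mX (L := L) (L' := L') fun f hf => ext_mX fun g hg => h f g hf hg]

theorem induction_mX {P : Lam k Q R → Prop} (h0 : P 0) (h1 : ∀ f, TPos f → P (mX f))
    (h2 : ∀ u v, P u → P v → P (u + v)) (h3 : ∀ (c : ℂ) u, P u → P (c • u)) (u : Lam k Q R) : P u := by
  refine Submodule.span_induction (p := fun u _ => P u) ?_ h0 (fun u v _ _ => h2 u v)
    (fun c u _ => h3 c u) (bas.mem_span u)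
  rintro _ ⟨f, rfl⟩
  exact bas_apply f ▸ h1 _ f.2

theorem ext_hom {M : Type*} [AddCommGroup M] [Module ℂ M] {L L' : Lam k Q R →ₗ[ℂ] M}
    (h : ∀ f, TPos f → tsz f = n → L (mX f) = L' (mX f)) (hu : u ∈ hom k Q R n) : L u = L' u := by
  exact LinearMap.eqOn_span' (by rintro _ ⟨f, hf, rfl⟩; exact h f hf.1 hf.2) hu

theorem hom_le {P : Submodule ℂ (Lam k Q R)} (h : ∀ f, TPos f → tsz f = n → mX f ∈ P) :
    hom k Q R n ≤ P := Submodule.span_le.2 (by rintro _ ⟨f, hf, rfl⟩; exact h f hf.1 hf.2)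

theorem lin1_le {P : Submodule ℂ (Lam k Q R)} (h : ∀ o j, pX o (j + 1) ∈ P) : lin1 k Q R ≤ P :=
  Submodule.span_le.2 (by rintro _ ⟨i, rfl⟩; exact h i.1 i.2)

theorem ext_lin1 {M : Type*} [AddCommGroup M] [Module ℂ M] {L L' : Lam k Q R →ₗ[ℂ] M}
    (h : ∀ o j, L (pX o (j + 1)) = L' (pX o (j + 1))) (hu : u ∈ lin1 k Q R) : L u = L' u :=
  LinearMap.eqOn_span' (by rintro _ ⟨i, rfl⟩; exact h i.1 i.2) hu

theorem algHom_ext_pX {A : Type*} [CommRing A] [Algebra ℂ A] {φ ψ : Lam k Q R →ₐ[ℂ] A}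
    (h : ∀ o j, 0 < j → φ (pX o j) = ψ (pX o j)) : φ = ψ := by
  exact MvPolynomial.algHom_ext fun i => h i.1 (i.2 + 1) i.2.succ_pos

theorem mX_mem_hom (h : TPos f) : mX f ∈ hom k Q R (tsz f) := by
  exact Submodule.subset_span ⟨f, ⟨h, rfl⟩, rfl⟩

theorem pX_mem_hom (o : EO k Q R) (j : ℕ) : pX o j ∈ hom k Q R (o.deg * j) := by
  rcases j with _ | j
  · exact zero_mem _
  · have := mX_mem_hom (tpos_cons (o := o) j.succ_pos tpos_zero)
    rwa [mX_cons, tsz_cons, mX_zero, mul_one, tsz_zero, add_zero] at this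

theorem pX_mem_lin1 (o : EO k Q R) (j : ℕ) : pX o j ∈ lin1 k Q R := by
  rcases j with _ | j
  · exact zero_mem _
  · exact Submodule.subset_span ⟨(o, j), rfl⟩

theorem one_mem_hom : (1 : Lam k Q R) ∈ hom k Q R 0 := by
  simpa only [mX_zero, tsz_zero] using mX_mem_hom (tpos_zero (k := k) (Q := Q) (R := R))

theorem mul_mem_hom (i j : ℕ) : ∀ u ∈ hom k Q R i, ∀ v ∈ hom k Q R j, u * v ∈ hom k Q R (i + j) := by
  intro u hu v hv
  refine hom_le (P := (hom k Q R (i + j)).comap (LinearMap.mulRight ℂ v)) (fun f hf e => ?_) hu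
  refine hom_le (P := (hom k Q R (i + j)).comap (LinearMap.mulLeft ℂ (mX f))) (fun g hg e' => ?_) hv
  have := mX_mem_hom (tpos_add.2 ⟨hf, hg⟩)
  rwa [tsz_add, mX_add, e, e'] at this

theorem Dg_mX (w : Ty k Q R → ℂ) (h : TPos f) : Dg w (mX f) = w f • mX f := lin_mX _ h

theorem Dg_mem (w : Ty k Q R → ℂ) (h : u ∈ hom k Q R n) : Dg w u ∈ hom k Q R n := by
  refine hom_le (P := (hom k Q R n).comap (Dg w)) (fun f hf e => ?_) h
  rw [Submodule.mem_comap, Dg_mX _ hf]
  exact Submodule.smul_mem _ _ (e ▸ mX_mem_hom hf)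

theorem Dg_Dg (w w' : Ty k Q R → ℂ) (u : Lam k Q R) : Dg w (Dg w' u) = Dg (w * w') u := by
  exact LinearMap.congr_fun (ext_mX (L := Dg w ∘ₗ Dg w') fun f hf => by
    rw [LinearMap.comp_apply, Dg_mX _ hf, map_smul, Dg_mX _ hf, Dg_mX _ hf, smul_smul, mul_comm,
      Pi.mul_apply]) u

open Classical in
theorem bf_mX (hf : TPos f) (hg : TPos g) : bf (mX f) (mX g) = if f = g then nmX f else 0 := by
  rw [bf, lin_mX _ hf, lin_mX _ hg]

theorem bf_Dg (w : Ty k Q R → ℂ) (u v : Lam k Q R) : bf (Dg w u) v = bf u (Dg w v) := by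
  refine ext_mX₂ (L := bf ∘ₗ Dg w) (L' := bf.compl₂ (Dg w)) (fun f g hf hg => ?_) u v
  rw [LinearMap.comp_apply, LinearMap.compl₂_apply, Dg_mX _ hf, Dg_mX _ hg, map_smul, map_smul,
    LinearMap.smul_apply, bf_mX hf hg]
  split_ifs with h <;> simp [h]

theorem comp_mX (n : ℕ) (h : TPos f) : comp n (mX f) = if tsz f = n then mX f else 0 := by
  rw [comp, Dg_mX _ h, ite_smul, one_smul, zero_smul]

theorem comp_mem (n : ℕ) (u : Lam k Q R) : comp n u ∈ hom k Q R n := by
  induction u using induction_mX with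
  | h0 => rw [map_zero]; exact zero_mem _
  | h1 f hf =>
    rw [comp_mX _ hf]
    split_ifs with h
    · exact h ▸ mX_mem_hom hf
    · exact zero_mem _
  | h2 u v hu hv => rw [map_add]; exact add_mem hu hv
  | h3 c u hu => rw [map_smul]; exact Submodule.smul_mem _ _ hu

theorem comp_of_mem (h : u ∈ hom k Q R n) : comp n u = u := by
  exact ext_hom (L' := LinearMap.id) (fun f hf e => by rw [comp_mX _ hf, if_pos e]; rfl) h

theorem comp_of_ne (h : u ∈ hom k Q R n) (e : m ≠ n) : comp m u = 0 := by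
  exact ext_hom (L' := 0) (fun f hf e' => by rw [comp_mX _ hf, if_neg (by omega)]; rfl) h

theorem comp_mul (n : ℕ) (u v : Lam k Q R) :
    comp n (u * v) = ∑ x ∈ antidiagonal n, comp x.1 u * comp x.2 v := by
  have := ext_mX₂ (L := (LinearMap.mul ℂ _).compr₂ (comp n))
    (L' := ∑ x ∈ antidiagonal n, (LinearMap.mul ℂ _).compl₁₂ (comp x.1) (comp x.2))
    (fun f g hf hg => ?_) u v
  · simpa [LinearMap.sum_apply] using this
  · simp only [LinearMap.compr₂_apply, LinearMap.mul_apply', LinearMap.sum_apply,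
      LinearMap.compl₁₂_apply, ← mX_add, comp_mX _ hf, comp_mX _ hg,
      comp_mX _ (tpos_add.2 ⟨hf, hg⟩), tsz_add]
    simp only [ite_zero_mul_ite_zero, ← Prod.mk_inj, Prod.mk.eta, sum_ite_eq,
      HasAntidiagonal.mem_antidiagonal, mX_add]


theorem bf_comm (u v : Lam k Q R) : bf u v = bf v u := by
  refine ext_mX₂ (L' := bf.flip) (fun f g hf hg => ?_) u v
  rw [LinearMap.flip_apply, bf_mX hf hg, bf_mX hg hf]
  by_cases h : f = g
  · rw [h]
  · rw [if_neg h, if_neg (Ne.symm h)]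

theorem bf_eq_zero (hu : u ∈ hom k Q R m) (hv : v ∈ hom k Q R n) (e : m ≠ n) : bf u v = 0 := by
  rw [← comp_of_mem hu, comp, bf_Dg, ← comp, comp_of_ne hv e, map_zero]

theorem bf_comp (hu : u ∈ hom k Q R n) (v : Lam k Q R) : bf u (comp n v) = bf u v := by
  rw [comp, ← bf_Dg, ← comp, comp_of_mem hu]

theorem nmX_zero : nmX (0 : Ty k Q R) = 1 := by
  simp [nmX, zc]

theorem nmX_cons (o : EO k Q R) (j : ℕ) (f : Ty k Q R) : nmX (Pi.single o {j} + f) =
    (((f o).count j : ℂ) + 1) * ((j : ℂ) / tn Q (o.deg * j)) * nmX f := by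
  rw [nmX, nmX, ← mul_prod_erase _ _ (mem_univ o), ← mul_prod_erase _ _ (mem_univ o),
    prod_congr rfl fun o' h => by rw [Pi.add_apply, Pi.single_eq_of_ne (ne_of_mem_erase h), zero_add],
    Pi.add_apply, Pi.single_eq_same, Multiset.singleton_add, zc_cons, Multiset.map_cons,
    Multiset.prod_cons]
  push_cast
  ring

theorem bf_one_one : bf (1 : Lam k Q R) 1 = 1 := by
  rw [← mX_zero, bf_mX tpos_zero tpos_zero, if_pos rfl, nmX_zero]


theorem bf_pX {o' : EO k Q R} {j' : ℕ} (hj : 0 < j) : bf (pX o j) (pX o' j') =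
    if o = o' ∧ j = j' then (j : ℂ) / tn Q (o.deg * j) else 0 := by
  rcases j' with _ | j'
  · rw [pX_zero, map_zero, if_neg fun h => hj.ne' h.2]
  · have := nmX_cons o j 0
    rw [add_zero, nmX_zero] at this
    rw [← mX_single_singleton, ← mX_single_singleton, bf_mX (tpos_single.2 (pos_singleton.2 hj))
      (tpos_single.2 (pos_singleton.2 j'.succ_pos)), this]
    refine if_congr ⟨fun e => ?_, fun e => by rw [e.1, e.2]⟩ (by simp) rfl
    have := congrFun e o
    by_cases e' : o = o'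
    · subst e'
      simpa using this
    · simp [e'] at this

/-- A monomial of length `≠ 1` is orthogonal to linear forms. -/
theorem bf_mX_lin1 (hf : TPos f) (h : ∑ o, (f o).card ≠ 1) (hu : u ∈ lin1 k Q R) :
    bf (mX f) u = 0 := by
  refine ext_lin1 (L' := 0) (fun o j => ?_) hu
  rw [← mX_single_singleton, bf_mX hf (tpos_single.2 (pos_singleton.2 j.succ_pos)), if_neg,
    LinearMap.zero_apply]
  rintro rfl
  exact h (by rw [Fintype.sum_eq_single o fun o' h => by simp [h]]; simp)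

theorem bf_one_lin1 (h : u ∈ lin1 k Q R) : bf 1 u = 0 := by
  rw [← mX_zero, bf_mX_lin1 tpos_zero (by simp) h]

theorem dcf_one (c : EO k Q R × ℕ → ℂ) : dcf c 1 = 0 := by
  exact Derivation.map_one_eq_zero _

theorem dcf_mul (c : EO k Q R × ℕ → ℂ) (u v : Lam k Q R) :
    dcf c (u * v) = u * dcf c v + dcf c u * v := by
  exact (Derivation.leibniz _ u v).trans (congrArg _ (mul_comm _ _))

theorem dcf_X (c : EO k Q R × ℕ → ℂ) (i : EO k Q R × ℕ) : dcf c (X i) = C (c i) := by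
  exact mkDerivation_X _ _ _

/-- On linear forms `dcf` is the linear functional it came from. -/
theorem dcf_lin1 (L : Lam k Q R →ₗ[ℂ] ℂ) (h : u ∈ lin1 k Q R) :
    dcf (fun i => L (X i)) u = C (L u) := by
  exact ext_lin1 (L := dcf fun i => L (X i)) (L' := Algebra.linearMap ℂ (Lam k Q R) ∘ₗ L)
    (fun o j => dcf_X _ (o, j)) h

theorem der_one (v : Lam k Q R) : der v 1 = 0 := dcf_one _

theorem der_mul (h : u ∈ lin1 k Q R) (v w : Lam k Q R) :
    der v (u * w) = u * der v w + bf u v • w := by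
  rw [der, dcf_mul, smul_eq_C_mul]
  exact congrArg (_ + · * w) (dcf_lin1 (bf.flip v) h)

theorem exists_derL : ∃ L : Lam k Q R →ₗ[ℂ] Lam k Q R →ₗ[ℂ] Lam k Q R, ∀ u, L u = der u :=
  ⟨⟨⟨der, fun u v => congrArg Derivation.toLinearMap (derivation_ext (D₂ := mkDerivation ℂ _ +
      mkDerivation ℂ _) fun i => by simp [mkDerivation_X])⟩,
    fun c u => congrArg Derivation.toLinearMap (derivation_ext
      (D₁ := mkDerivation ℂ fun i => (C (bf (X i) (c • u)) : Lam k Q R))
      (D₂ := c • mkDerivation ℂ fun i => (C (bf (X i) u) : Lam k Q R))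
      fun i => by simp [mkDerivation_X, ← smul_eq_C_mul])⟩, fun _ => rfl⟩

theorem pX_mul_der_mX (o : EO k Q R) (j : ℕ) (hg : TPos g) : pX o j * der (pX o j) (mX g) =
    (((g o).count j : ℂ) * ((j : ℂ) / tn Q (o.deg * j))) • mX g := by
  refine induction_tpos (P := fun g => pX o j * der (pX o j) (mX g) =
    (((g o).count j : ℂ) * ((j : ℂ) / tn Q (o.deg * j))) • mX g) ?_ (fun o' j' c hj hc ih => ?_) hg
  · simp [der_one]
  · rw [mX_cons, der_mul (pX_mem_lin1 _ _), mul_add, mul_left_comm, ih, bf_pX hj, Pi.add_apply,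
      Multiset.count_add, Nat.cast_add, add_mul, add_smul, mul_smul_comm, mul_smul_comm, add_comm]
    congr 1
    split_ifs with h
    · obtain ⟨rfl, rfl⟩ := h
      simp
    · by_cases e : o = o'
      · subst e
        simp [Multiset.count_singleton, show j ≠ j' from fun e => h ⟨rfl, e.symm⟩]
      · simp [e]

theorem bf_mul_left (h : u ∈ lin1 k Q R) (v w : Lam k Q R) : bf (u * v) w = bf v (der u w) := by
  obtain ⟨L, hL⟩ := exists_derL (k := k) (Q := Q) (R := R)
  rw [← hL]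
  refine ext_lin1 (L := bf.flip w ∘ₗ LinearMap.mulRight ℂ v) (L' := bf v ∘ₗ L.flip w)
    (fun o j => ?_) h
  refine ext_mX₂ (L := bf ∘ₗ LinearMap.mulLeft ℂ (pX o (j + 1))) (L' := bf.compl₂ (L (pX o (j + 1))))
    (fun f g hf hg => ?_) v w
  rw [LinearMap.comp_apply, LinearMap.compl₂_apply, LinearMap.mulLeft_apply, hL, ← mX_cons,
    bf_mX (tpos_cons j.succ_pos hf) hg]
  have hx : pX o (j + 1) ≠ 0 := X_ne_zero _
  by_cases hj : j + 1 ∈ g o
  · obtain ⟨g, rfl⟩ : ∃ g', g = Pi.single o {j + 1} + g' := ⟨g - Pi.single o {j + 1},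
      (add_tsub_cancel_of_le fun o' => by by_cases e : o' = o <;> simp [e, hj]).symm⟩
    have h1 := pX_mul_der_mX o (j + 1) hg
    rw [mX_cons, ← mul_smul_comm, mul_right_inj' hx, ← mX_cons] at h1
    rw [h1, map_smul, bf_mX hf (tpos_add.1 hg).2, nmX_cons]
    simp only [add_right_inj]
    split_ifs with e
    · simp [e, add_comm]
    · simp
  · have h1 := pX_mul_der_mX o (j + 1) hg
    rw [Multiset.count_eq_zero.2 hj, Nat.cast_zero, zero_mul, zero_smul, mul_eq_zero] at h1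
    rw [h1.resolve_left hx, map_zero, if_neg]
    rintro rfl
    simp at hj

theorem cj_C (c : ℂ) : cj (C c : Lam k Q R) = C (star c) := map_C _ _

theorem cj_X (i : EO k Q R × ℕ) : cj (X i : Lam k Q R) = X i := map_X _ _

theorem cj_smul (c : ℂ) (u : Lam k Q R) : cj (c • u) = star c • cj u := by
  rw [smul_eq_C_mul, smul_eq_C_mul, map_mul, cj_C]

theorem cj_cj (u : Lam k Q R) : cj (cj u) = u := by
  exact RingHom.congr_fun (ringHom_ext (f := cj.comp cj) (g := RingHom.id _)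
    (fun c => by simp [cj_C]) fun i => by simp [cj_X]) u

theorem cj_pX (o : EO k Q R) (j : ℕ) : cj (pX o j) = pX o j := by
  rcases j with _ | j
  · exact map_zero _
  · exact cj_X _

theorem cj_mX (f : Ty k Q R) : cj (mX f) = mX f := by
  simp only [mX, pm, map_prod, map_multiset_prod, Multiset.map_map, comp_def, cj_pX]

theorem cj_mem_span {s : Set (Lam k Q R)} (hs : ∀ x ∈ s, cj x = x) (h : u ∈ Submodule.span ℂ s) :
    cj u ∈ Submodule.span ℂ s := by
  induction h using Submodule.span_induction with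
  | mem x hx => rw [hs x hx]; exact Submodule.subset_span hx
  | zero => rw [map_zero]; exact zero_mem _
  | add x y _ _ hx hy => rw [map_add]; exact add_mem hx hy
  | smul c x _ hx => rw [cj_smul]; exact Submodule.smul_mem _ _ hx

theorem cj_mem_hom (h : u ∈ hom k Q R n) : cj u ∈ hom k Q R n := by
  exact cj_mem_span (by rintro _ ⟨f, -, rfl⟩; exact cj_mX f) h

theorem cj_mem_lin1 (h : u ∈ lin1 k Q R) : cj u ∈ lin1 k Q R := by
  exact cj_mem_span (by rintro _ ⟨i, rfl⟩; exact cj_X i) h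

theorem cj_cut (p : ℕ) (u : Lam k Q R) : cj (cut p u) = cut p (cj u) := by
  refine RingHom.congr_fun (ringHom_ext (f := cj.comp (cut p).toRingHom)
    (g := (cut p).toRingHom.comp cj) (fun c => by simp [cj_C]) fun i => ?_) u
  simp only [cut, AlgHom.toRingHom_eq_coe, RingHom.comp_apply, RingHom.coe_coe, aeval_X, cj_X]
  split_ifs <;> simp [cj_X]

theorem star_bf (u v : Lam k Q R) : star (bf u v) = bf (cj u) (cj v) := by
  induction u using induction_mX with
  | h0 => simp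
  | h2 u u' hu hu' => simp [hu, hu']
  | h3 c u hu => simp [hu, cj_smul]
  | h1 f hf =>
    induction v using induction_mX with
    | h0 => simp
    | h2 u u' hu hu' => simp only [map_add, star_add, hu, hu']
    | h3 c u hu => simp only [map_smul, smul_eq_mul, star_mul', hu, cj_smul]
    | h1 g hg =>
      rw [cj_mX, cj_mX, bf_mX hf hg]
      split_ifs
      · change starRingEnd ℂ _ = _
        simp [nmX, map_multiset_prod]
      · simp

theorem T_pX (α : Mu k R → ℂ) (o : EO k Q R) (j : ℕ) :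
    T α (pX o j) = (∏ l ∈ range o.deg, α (o.rep ^ Q ^ l)) ^ j • pX o j := by
  rcases j with _ | j
  · simp [pX_zero]
  · exact aeval_X _ _

theorem algHom_eq_Dg (φ : Lam k Q R →ₐ[ℂ] Lam k Q R) (w : Ty k Q R → ℂ) (h0 : w 0 = 1)
    (h : ∀ o j c, ∃ a : ℂ, φ (pX o j) = a • pX o j ∧ w (Pi.single o {j} + c) = a * w c)
    (u : Lam k Q R) : φ u = Dg w u := by
  refine LinearMap.congr_fun (ext_mX (L := φ.toLinearMap) fun f hf => ?_) u
  rw [Dg_mX _ hf, AlgHom.toLinearMap_apply]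
  refine induction_tpos (P := fun f => φ (mX f) = w f • mX f) (by simp [h0])
    (fun o j c _ _ ih => ?_) hf
  obtain ⟨a, h1, h2⟩ := h o j c
  rw [mX_cons, map_mul, h1, h2, ih, smul_mul_smul_comm]

theorem T_eq_Dg (α : Mu k R → ℂ) (u : Lam k Q R) :
    T α u = Dg (fun f => ((evm f).map α).prod) u := by
  refine algHom_eq_Dg _ _ (by simp [evm]) (fun o j c => ⟨_, T_pX α o j, ?_⟩) u
  rw [evm_add, evm_single, Multiset.map_add, Multiset.prod_add, Multiset.map_nsmul,
    Multiset.prod_nsmul, Multiset.map_map, Multiset.sum_singleton]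
  rfl

open Classical in
theorem cut_pX (p : ℕ) (o : EO k Q R) (j : ℕ) :
    cut p (pX o j) = if IsPRegular p o.rep then pX o j else 0 := by
  rcases j with _ | j
  · simp [pX_zero]
  · exact aeval_X _ _

open Classical in
theorem cut_eq_Dg (p : ℕ) (u : Lam k Q R) :
    cut p u = Dg (fun f => if TReg p f then 1 else 0) u := by
  refine algHom_eq_Dg _ _ (if_pos fun o h => absurd rfl h) (fun o j c =>
    ⟨if IsPRegular p o.rep then 1 else 0, by simp [cut_pX], ?_⟩) u
  rw [ite_zero_mul_ite_zero, mul_one]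
  refine if_congr ⟨fun h => ⟨h o (by simp), fun o' e => h o' (by simp [e])⟩, fun h o' e => ?_⟩ rfl rfl
  by_cases e' : o' = o
  · exact e' ▸ h.1
  · exact h.2 o' (by simpa [e'] using e)

theorem cut_cut (p : ℕ) (u : Lam k Q R) : cut p (cut p u) = cut p u := by
  classical
  rw [cut_eq_Dg, cut_eq_Dg, Dg_Dg]
  congr 2
  ext f
  rw [Pi.mul_apply]
  split_ifs <;> simp

theorem bf_cut (p : ℕ) (u v : Lam k Q R) : bf (cut p u) v = bf u (cut p v) := by
  rw [cut_eq_Dg, cut_eq_Dg, bf_Dg]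

theorem cut_mem_hom (p : ℕ) (h : u ∈ hom k Q R n) : cut p u ∈ hom k Q R n := by
  exact cut_eq_Dg p u ▸ Dg_mem _ h

theorem cut_mem_lin1 (p : ℕ) (h : u ∈ lin1 k Q R) : cut p u ∈ lin1 k Q R := by
  refine lin1_le (P := (lin1 k Q R).comap (cut p).toLinearMap) (fun o j => ?_) h
  rw [Submodule.mem_comap, AlgHom.toLinearMap_apply, cut_pX]
  split_ifs
  · exact pX_mem_lin1 _ _
  · exact zero_mem _

theorem T_mem_hom (α : Mu k R → ℂ) (h : u ∈ hom k Q R n) : T α u ∈ hom k Q R n := by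
  exact T_eq_Dg α u ▸ Dg_mem _ h

theorem Sh_pX (s : ℂ) (o : EO k Q R) (hj : 0 < j) :
    Sh s (pX o j) = pX o j + C (s ^ (o.deg * j) / tn Q (o.deg * j)) := by
  obtain ⟨j, rfl⟩ := Nat.exists_eq_succ_of_ne_zero hj.ne'
  exact aeval_X _ _

theorem comp_Sh_eq (s : ℂ) (r : ℕ) (h : u ∈ hom k Q R n) :
    comp r (Sh s u) = (if r ≤ n then s ^ (n - r) else 0) • comp r (Sh 1 u) := by
  refine ext_hom (L := comp r ∘ₗ (Sh s).toLinearMap)
    (L' := (if r ≤ n then s ^ (n - r) else 0) • comp r ∘ₗ (Sh 1).toLinearMap) (fun f hf e => ?_) h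
  subst e
  have h1 : ∀ r : ℕ, comp r (1 : Lam k Q R) = if r = 0 then 1 else 0 := fun r => by
    split_ifs with e
    · exact e ▸ comp_of_mem one_mem_hom
    · exact comp_of_ne one_mem_hom e
  refine induction_tpos (P := fun f => ∀ s r, comp r (Sh s (mX f)) =
    (if r ≤ tsz f then s ^ (tsz f - r) else 0) • comp r (Sh 1 (mX f))) (fun s r => ?_)
    (fun o j c hj _ ih s r => ?_) hf s r
  · rcases r with _ | r <;> simp [h1]
  have h2 : ∀ (s : ℂ) r, comp r (Sh s (pX o j)) =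
      (if r ≤ o.deg * j then s ^ (o.deg * j - r) else 0) • comp r (Sh 1 (pX o j)) := fun s r => by
    rw [Sh_pX _ _ hj, Sh_pX _ _ hj, map_add, map_add, smul_add, C_eq_smul_one, C_eq_smul_one,
      map_smul, map_smul, h1]
    congr 1
    · by_cases e : r = o.deg * j
      · simp [e]
      · simp [comp_of_ne (pX_mem_hom o j) e]
    · rcases r with _ | r <;> simp [smul_smul, div_eq_mul_inv]
  rw [mX_cons, map_mul (Sh s), map_mul (Sh 1), comp_mul, comp_mul, smul_sum, tsz_cons]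
  refine sum_congr rfl fun x hx => ?_
  rw [HasAntidiagonal.mem_antidiagonal] at hx
  by_cases e : x.1 ≤ o.deg * j
  · by_cases e' : x.2 ≤ tsz c
    · rw [h2, ih, smul_mul_smul_comm, if_pos e, if_pos e', if_pos (by omega), ← pow_add]
      congr 2
      omega
    · rw [ih s, ih 1, if_neg e', if_neg e']
      simp
  · rw [h2 s, h2 1, if_neg e, if_neg e]
    simp

theorem comp_Sh (s : ℂ) (r l : ℕ) (h : u ∈ hom k Q R (r + l)) :
    comp r (Sh s u) = s ^ l • comp r (Sh 1 u) := by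
  rw [comp_Sh_eq s r h, if_pos (by omega), Nat.add_sub_cancel_left]

theorem comp_Sh_of_lt (s : ℂ) (h : u ∈ hom k Q R n) (e : n < m) : comp m (Sh s u) = 0 := by
  rw [comp_Sh_eq s m h, if_neg (by omega), zero_smul]

theorem cj_Sh_one (u : Lam k Q R) : cj (Sh 1 u) = Sh 1 (cj u) := by
  exact RingHom.congr_fun (ringHom_ext (f := cj.comp (Sh 1).toRingHom)
    (g := (Sh 1).toRingHom.comp cj) (fun c => by simp [cj_C]) fun i => by simp [Sh, cj_C, cj_X]) u

theorem p1_mem_hom (j : ℕ) : p1 k Q R j ∈ hom k Q R j := by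
  refine sum_mem fun o ho => Submodule.smul_mem _ _ ?_
  have := pX_mem_hom o (j / o.deg)
  rwa [Nat.mul_div_cancel' (mem_filter.1 ho).2] at this

theorem p1_mem_lin1 (j : ℕ) : p1 k Q R j ∈ lin1 k Q R :=
  sum_mem fun o _ => Submodule.smul_mem _ _ (pX_mem_lin1 _ _)

theorem Hh_zero : Hh k Q R 0 = 1 := nexp_zero _

theorem Hh_mem_hom (n : ℕ) : Hh k Q R n ∈ hom k Q R n := by
  exact nexp_mem one_mem_hom mul_mem_hom fun j _ _ => p1_mem_hom j

theorem cj_Hh (n : ℕ) : cj (Hh k Q R n) = Hh k Q R n := by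
  rw [Hh, map_nexp]
  congr 1
  ext1 j
  simp [p1, cj_smul, cj_pX]

variable [IsAlgClosed k] (hP : ParZ k Q R N)
include hP

theorem nmX_ne_zero (h : TPos f) : nmX f ≠ 0 := by
  refine prod_ne_zero_iff.2 fun o _ => mul_ne_zero (Nat.cast_ne_zero.2 (zc_ne_zero (h o)))
    (Multiset.prod_ne_zero fun e => ?_)
  obtain ⟨j, hj, e⟩ := Multiset.mem_map.1 e
  exact inv_ne_zero (Nat.cast_ne_zero.2
    (tn_pos hP.two (Nat.mul_pos (eo_deg_pos hP o) (h o j hj))).ne') e

theorem eq_sum_mX (h : u ∈ hom k Q R n) :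
    u = ∑ f ∈ Cls k Q R n, (bf u (mX f) / nmX f) • mX f := by
  have := ext_hom (L := LinearMap.id)
    (L' := ∑ f ∈ Cls k Q R n, ((nmX f)⁻¹ • bf.flip (mX f)).smulRight (mX f)) (fun g hg e => ?_) h
  · simpa [LinearMap.sum_apply, div_eq_inv_mul] using this
  · rw [LinearMap.sum_apply, sum_eq_single_of_mem g ((mem_Cls hP).2 ⟨hg, e⟩) fun f hf e' => by
      simp [bf_mX hg ((mem_Cls hP).1 hf).1, e'.symm]]
    simp [bf_mX hg hg, nmX_ne_zero hP hg]

theorem ext_bf (hu : u ∈ hom k Q R n) (hv : v ∈ hom k Q R n)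
    (h : ∀ w ∈ hom k Q R n, bf u w = bf v w) : u = v := by
  rw [eq_sum_mX hP hu, eq_sum_mX hP hv]
  refine sum_congr rfl fun f hf => ?_
  obtain ⟨h1, rfl⟩ := (mem_Cls hP).1 hf
  rw [h _ (mX_mem_hom h1)]

theorem hom_eq_span (n : ℕ) :
    hom k Q R n = Submodule.span ℂ (Set.range fun f : Cls k Q R n => mX f.1) := by
  rw [hom, show {f | TPos f ∧ tsz f = n} = (Cls k Q R n : Set (Ty k Q R)) from
    Set.ext fun f => (mem_Cls hP).symm, Set.image_eq_range]
  rfl

theorem finrank_hom (n : ℕ) : Module.finrank ℂ (hom k Q R n) = #(Cls k Q R n) := by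
  have := bas.linearIndependent.comp
    (fun f : Cls k Q R n => (⟨f.1, ((mem_Cls hP).1 f.2).1⟩ : {f : Ty k Q R // TPos f}))
    fun f g e => Subtype.ext (congrArg (·.1) e)
  simp only [comp_def, bas_apply] at this
  rw [hom_eq_span hP, finrank_span_eq_card this, Fintype.card_coe]

theorem finite_hom' (n : ℕ) : Module.Finite ℂ (hom k Q R n) := by
  rw [hom_eq_span hP]
  exact Module.Finite.span_of_finite _ (Set.finite_range _)

theorem eq_smul_one (h : u ∈ hom k Q R 0) : u = bf u 1 • 1 := by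
  refine ext_hom (L := LinearMap.id) (L' := (bf.flip 1).smulRight 1) (fun f hf e => ?_) h
  obtain rfl : f = 0 := funext fun o => (hf o).eq_zero ((mul_eq_zero.1
    (sum_eq_zero_iff.1 e o (mem_univ o))).resolve_left (eo_deg_pos hP o).ne')
  simp [bf_one_one]

theorem comp_Sh_self (s : ℂ) (h : u ∈ hom k Q R n) : comp n (Sh s u) = u := by
  have h1 : (Sh 0 : Lam k Q R →ₐ[ℂ] Lam k Q R) = AlgHom.id ℂ _ := algHom_ext_pX fun o j hj => by
    rw [Sh_pX _ _ hj, zero_pow (Nat.mul_pos (eo_deg_pos hP o) hj).ne']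
    simp
  have h2 := comp_Sh 0 n 0 h
  rw [h1, AlgHom.id_apply, comp_of_mem h, pow_zero] at h2
  rw [comp_Sh s n 0 h, pow_zero, ← h2]

theorem der_Hh (o : EO k Q R) (hj : 0 < j) (l : ℕ) (u : Lam k Q R) :
    der (pX o j) (Hh k Q R l * u) = (tn Q (o.deg * j) : ℂ)⁻¹ •
      ((if o.deg * j ≤ l then Hh k Q R (l - o.deg * j) else 0) * u) + Hh k Q R l * der (pX o j) u := by
  have h0 : ∀ b : Fin 1 → ℕ, Sch (p1 k Q R) b = Hh k Q R (b 0) := fun b => by
    simp [Sch, Hh]
  have := deriv_Sch (π := p1 k Q R) (RingHom.id _) (der (pX o j)) (Nat.mul_pos (eo_deg_pos hP o) hj)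
    (tn Q (o.deg * j) : ℂ)⁻¹ (b := fun _ : Fin 1 => l) (fun m hm _ f => ?_) u
  · simpa [dn, h0] using this
  · rw [der_mul (p1_mem_lin1 m), add_comm, bf_comm, p1, map_sum]
    simp only [map_smul, bf_pX hj, RingHom.id_apply]
    congr 2
    rw [sum_filter, Fintype.sum_eq_single o fun o' e => by simp [e.symm]]
    split_ifs with h1 h2 h3 h4
    · rw [smul_eq_mul, Nat.cast_mul, mul_assoc, div_eq_mul_inv]
    · exact absurd (by rw [h2.2, Nat.mul_div_cancel' h1]) h3
    · exact absurd ⟨rfl, by rw [h4, Nat.mul_div_cancel_left _ (eo_deg_pos hP o)]⟩ h2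
    · simp
    · exact absurd (‹m = _› ▸ dvd_mul_right _ _) h1
    · rfl

/-- `Sh 1` is adjoint to multiplication by the trivial characters. -/
theorem bf_mul_Hh {r l : ℕ} (hu : u ∈ hom k Q R r) (hv : v ∈ hom k Q R (r + l)) :
    bf (u * Hh k Q R l) v = bf u (Sh 1 v) := by
  have key : ∀ g : Ty k Q R, TPos g → ∀ u M, tsz g < M →
      ∑ l ∈ range M, bf (Hh k Q R l * u) (mX g) = bf u (Sh 1 (mX g)) := fun g hg => by
    refine induction_tpos (P := fun g => ∀ u M, tsz g < M →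
      ∑ l ∈ range M, bf (Hh k Q R l * u) (mX g) = bf u (Sh 1 (mX g))) (fun u M hM => ?_)
      (fun o j c hj _ ih u M hM => ?_) hg
    · rw [sum_eq_single_of_mem 0 (mem_range.2 (by omega)) fun l _ e => ?_, Hh_zero, one_mul, mX_zero,
        map_one (Sh 1)]
      rw [mX_zero, bf_comm, ← bf_comp one_mem_hom, comp_mul, Nat.antidiagonal_zero, sum_singleton,
        comp_of_ne (Hh_mem_hom l) e.symm, zero_mul, map_zero]
    · rw [tsz_cons] at hM
      obtain ⟨M, rfl⟩ := Nat.exists_eq_add_of_le ((Nat.le_add_right _ _).trans hM.le)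
      have h1 : ∀ w, bf w (pX o j * mX c) = bf (der (pX o j) w) (mX c) := fun w => by
        rw [bf_comm, bf_mul_left (pX_mem_lin1 _ _), bf_comm]
      rw [mX_cons, map_mul, Sh_pX _ _ hj, add_mul, map_add, bf_comm u (_ * _),
        bf_mul_left (pX_mem_lin1 _ _), bf_comm _ (der _ _), ← ih _ (o.deg * j + M) (by omega),
        ← smul_eq_C_mul, map_smul, ← ih u M (by omega), one_pow, one_div]
      simp only [h1, der_Hh hP o hj, map_add, LinearMap.add_apply, sum_add_distrib, map_smul,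
        LinearMap.smul_apply, ← smul_sum]
      rw [add_comm]
      congr 2
      rw [sum_range_add, sum_eq_zero fun l hl => by
        rw [if_neg (by simpa using hl), zero_mul, map_zero, LinearMap.zero_apply], zero_add]
      simp
  refine ext_hom (L' := bf u ∘ₗ (Sh 1).toLinearMap) (fun g hg e => ?_) hv
  rw [LinearMap.comp_apply, AlgHom.toLinearMap_apply, ← key g hg u (r + l + 1) (by omega),
    sum_eq_single_of_mem l (mem_range.2 (by omega)) fun l' _ e' => bf_eq_zero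
      (mul_mem_hom _ _ _ (Hh_mem_hom l') _ hu) (mX_mem_hom hg) (by omega), mul_comm]

theorem Hh_eq_sum (n : ℕ) :
    Hh k Q R n = ∑ f ∈ Cls k Q R n, (∏ o, (zc (f o) : ℂ))⁻¹ • mX f := by
  rw [eq_sum_mX hP (Hh_mem_hom n)]
  refine sum_congr rfl fun f hf' => ?_
  obtain ⟨hf, rfl⟩ := (mem_Cls hP).1 hf'
  have h1 : bf 1 (Sh 1 (mX f)) = ∏ o, ((f o).map fun j => (tn Q (o.deg * j) : ℂ)⁻¹).prod := by
    refine induction_tpos (P := fun f => bf 1 (Sh 1 (mX f)) =
      ∏ o, ((f o).map fun j => (tn Q (o.deg * j) : ℂ)⁻¹).prod) (by simp [bf_one_one])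
      (fun o j c hj _ ih => ?_) hf
    rw [mX_cons, map_mul, Sh_pX _ _ hj, add_mul, map_add, bf_comm, bf_mul_left (pX_mem_lin1 _ _),
      der_one, map_zero, zero_add, ← smul_eq_C_mul, map_smul, ih, one_pow, one_div]
    simp only [Pi.add_apply, Multiset.map_add, Multiset.prod_add, prod_mul_distrib]
    rw [smul_eq_mul]
    congr 1
    rw [Fintype.prod_eq_single o fun o' e => by simp [e]]
    simp
  have h2 := nmX_ne_zero hP hf
  rw [← one_mul (Hh k Q R _), bf_mul_Hh hP one_mem_hom (by simpa using mX_mem_hom hf), h1]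
  rw [nmX, prod_mul_distrib] at h2 ⊢
  rw [div_mul_cancel_right₀ (right_ne_zero_of_mul h2)]

end Cfsg.Gun

set_option linter.all false in
theorem Cfsg.Rz.Gun_En_0 : True := by
  have := @_root_.Cfsg.Gun.hom.eq_def.{0}
  have := @_root_.Cfsg.Gun.hom.eq_1.{0}
  have := @_root_.Cfsg.Gun.hom.fun_cases
  have := @_root_.Cfsg.Gun.T.eq_def.{0}
  have := @_root_.Cfsg.Gun.T.eq_1.{0}
  have := @_root_.Cfsg.Gun.T.fun_cases
  have := @_root_.Cfsg.Gun.lin1.eq_def.{0}
  have := @_root_.Cfsg.Gun.lin1.eq_1.{0}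
  have := @_root_.Cfsg.Gun.lin1.fun_cases
  have := @_root_.Cfsg.Gun.Dg.eq_def.{0}
  have := @_root_.Cfsg.Gun.Dg.eq_1.{0}
  have := @_root_.Cfsg.Gun.Dg.fun_cases
  have := @_root_.Cfsg.Gun.dcf.eq_def.{0}
  have := @_root_.Cfsg.Gun.dcf.eq_1.{0}
  have := @_root_.Cfsg.Gun.dcf.fun_cases
  have := @_root_.Cfsg.Gun.Sh.eq_def.{0}
  have := @_root_.Cfsg.Gun.Sh.eq_1.{0}
  have := @_root_.Cfsg.Gun.Sh.fun_cases
  have := @_root_.Cfsg.Gun.bas.eq_def.{0}
  have := @_root_.Cfsg.Gun.bas.eq_1.{0}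
  have := @_root_.Cfsg.Gun.bas.fun_cases
  have := @_root_.Cfsg.Gun.comp.eq_def.{0}
  have := @_root_.Cfsg.Gun.comp.eq_1.{0}
  have := @_root_.Cfsg.Gun.comp.fun_cases
  have := @_root_.Cfsg.Gun.p1.eq_def.{0}
  have := @_root_.Cfsg.Gun.p1.eq_1.{0}
  have := @_root_.Cfsg.Gun.p1.fun_cases
  have := @_root_.Cfsg.Gun.nmX.eq_def.{0}
  have := @_root_.Cfsg.Gun.nmX.eq_1.{0}
  have := @_root_.Cfsg.Gun.nmX.fun_cases
  trivial

set_option linter.all false in
theorem Cfsg.Rz.Gun_En_1 : True := by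
  have := @_root_.Cfsg.Gun.cut.eq_def.{0}
  have := @_root_.Cfsg.Gun.cut.eq_1.{0}
  have := @_root_.Cfsg.Gun.cut.fun_cases
  have := @_root_.Cfsg.Gun.Lam.congr_simp.{0}
  have := @_root_.Cfsg.Gun.Lam.eq_def.{0}
  have := @_root_.Cfsg.Gun.Lam.eq_1.{0}
  have := @_root_.Cfsg.Gun.Lam.fun_cases
  have := @_root_.Cfsg.Gun.pX.eq_def.{0}
  have := @_root_.Cfsg.Gun.pX.eq_1.{0}
  have := @_root_.Cfsg.Gun.pX.fun_cases
  have := @_root_.Cfsg.Gun.cj.eq_def.{0}
  have := @_root_.Cfsg.Gun.cj.eq_1.{0}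
  have := @_root_.Cfsg.Gun.cj.fun_cases
  have := @_root_.Cfsg.Gun.lin.eq_def.{0, 0}
  have := @_root_.Cfsg.Gun.lin.eq_1.{0, 0}
  have := @_root_.Cfsg.Gun.lin.fun_cases
  have := @_root_.Cfsg.Gun.mX.eq_def.{0}
  have := @_root_.Cfsg.Gun.mX.eq_1.{0}
  have := @_root_.Cfsg.Gun.mX.fun_cases
  have := @_root_.Cfsg.Gun.bf.eq_def.{0}
  have := @_root_.Cfsg.Gun.bf.eq_1.{0}
  have := @_root_.Cfsg.Gun.bf.fun_cases
  have := @_root_.Cfsg.Gun.der.eq_def.{0}
  have := @_root_.Cfsg.Gun.der.eq_1.{0}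
  have := @_root_.Cfsg.Gun.der.fun_cases
  have := @_root_.Cfsg.Gun.Hh.eq_def.{0}
  have := @_root_.Cfsg.Gun.Hh.eq_1.{0}
  have := @_root_.Cfsg.Gun.Hh.fun_cases
  trivial
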