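import Cfsg.Agent.Gun.Gv

/-!
# The Howe kernel identity and the Coxeter Green function (S4537 project)

`int_howe`: the number of intertwiners is `oneH * injH x` (`card_itw_eq'`), and pairing with `injH x` sums over the
invariant subspaces.  `gv_howe` for `t = |K|`: `int_howe` with `f = pm pI ρ`, `int_unip`, `card_itw_unip`, `adj_nw_mul`.
`gv_single` for `t = |K|`: `E = ∑ (-1)^r q^C(r,2) comp r idH` is the inverse of `Hx 1`, so `∑ pI n 1 = - (δ E) * Hx 1` with
the degree derivation `δ`; the right side only depends on `ker (x - 1)`.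
-/

set_option autoImplicit false
set_option linter.unusedSectionVars false
set_option linter.unusedVariables false
set_option linter.style.haveILetI false

namespace Cfsg.Gun

open Module Finset Gln Cfsg.Sym
open Function (Injective)

universe u

section K

variable {K : Type u} [Field K] [Finite K] {V W : Type*} [AddCommGroup V] [Module K V] [Finite V]
  [AddCommGroup W] [Module K W] [Finite W]

/-- The constant function `1`. -/
def oneH (K : Type u) [Field K] [Finite K] : Hall K := fun _ => 1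

theorem mult_oneH : Mult (oneH K) := ⟨rfl, fun _ _ => (mul_one _).symm⟩

theorem mul_oneH (f : Hall K) (x : End K V) : (f * oneH K) (cls x) = ∑ U : Inv x, f (cls U.sub) :=
  (mul_cls f _ x).trans (sum_congr rfl fun _ _ => mul_one _)

/-- The number of injective intertwiners. -/
noncomputable def injH (x : End K V) : Hall K :=
  fun c => Nat.card {A : (Fin c.dim → K) →ₗ[K] V // A ∈ itw x c.rep ∧ Injective A}

theorem injH_cls (x : End K V) (y : End K W) :
    injH x (cls y) = Nat.card {A : W →ₗ[K] V // A ∈ itw x y ∧ Injective A} := by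
  obtain ⟨e, h⟩ := sim_rep y
  refine congrArg _ (Nat.card_congr (Equiv.subtypeEquiv (e.arrowCongr (.refl K V)).toEquiv
    fun A => and_congr ⟨fun h1 => LinearMap.ext (e.surjective.forall.2 fun v => ?_),
      fun h1 => LinearMap.ext fun v => ?_⟩ ?_))
  · change x (A (e.symm (e v))) = A (e.symm (y (e v)))
    rw [← h, e.symm_apply_apply, e.symm_apply_apply]
    exact LinearMap.congr_fun h1 v
  · have h2 : x (A (e.symm (e v))) = A (e.symm (y (e v))) := LinearMap.congr_fun h1 (e v)
    rwa [← h, e.symm_apply_apply, e.symm_apply_apply] at h2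
  · exact (EquivLike.injective_comp e.symm A).symm

theorem oneH_mul_injH (x : End K V) (c : Iso K) :
    (oneH K * injH x) c = Nat.card (itw x c.rep) := by
  conv_lhs => rw [← cls_rep c]
  rw [mul_cls, card_itw_eq', Nat.cast_sum]
  refine sum_congr rfl fun U _ => (one_mul _).trans ((injH_cls x _).trans (congrArg _ ?_))
  exact (Nat.card_congr (Equiv.subtypeSubtypeEquivSubtypeInter (· ∈ itw x U.quo)
    fun A => Injective A)).symm

theorem int_injH (x : End K V) (j : ℕ) (g : Hall K) :
    int j (pw (injH x) g) = ∑ U : Inv x, if finrank K U.1 = j then g (cls U.sub) else 0 := by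
  classical
  haveI : ∀ U : Inv x, Fintype ((Fin j → K) ≃ₗ[K] U.1) := fun U =>
    haveI : Finite ((Fin j → K) ≃ₗ[K] U.1) := DFunLike.finite _
    Fintype.ofFinite _
  have h1 := Fintype.sum_bijective (fun r : Σ U : Inv x, (Fin j → K) ≃ₗ[K] U.1 =>
    (⟨(r.2.symm.conj r.1.sub, r.1.1.subtype ∘ₗ r.2.toLinearMap), LinearMap.ext fun v => by
      simp [Inv.sub], r.1.1.injective_subtype.comp r.2.injective⟩ :
      {p : ((Fin j → K) →ₗ[K] (Fin j → K)) × ((Fin j → K) →ₗ[K] V) //
        p.2 ∈ itw x p.1 ∧ Injective p.2})) ⟨?_, ?_⟩ (fun r => g (cls r.1.sub))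
      (fun p => g (cls p.1.1)) fun r => congrArg g (cls_conj _ _).symm
  · rw [int_def, inv_mul_eq_iff_eq_mul₀ card_GLV_ne, mul_sum]
    rw [Fintype.sum_sigma, ← (Equiv.subtypeProdEquivSigmaSubtype
      fun (y : (Fin j → K) →ₗ[K] (Fin j → K)) (A : (Fin j → K) →ₗ[K] V) =>
        A ∈ itw x y ∧ Injective A).symm.sum_comp, Fintype.sum_sigma] at h1
    refine (sum_congr rfl fun y _ => ?_).trans (h1.symm.trans (sum_congr rfl fun U _ => ?_))
    · rw [pw_apply, injH_cls, Nat.card_eq_fintype_card]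
      exact (nsmul_eq_mul _ _).symm.trans (sum_const _).symm
    · refine (sum_const (g (cls U.sub))).trans ?_
      rw [card_univ, nsmul_eq_mul, ← Nat.card_eq_fintype_card]
      split_ifs with h
      · congr 2
        let e := LinearEquiv.ofFinrankEq (R := K) (Fin j → K) U.1 (by simp [h])
        exact Nat.card_congr (Equiv.trans ⟨fun a => a.trans e.symm, fun a => a.trans e,
          fun a => by ext; simp, fun a => by ext; simp⟩
          (LinearMap.GeneralLinearGroup.generalLinearEquiv K (Fin j → K)).symm.toEquiv)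
      · haveI : IsEmpty ((Fin j → K) ≃ₗ[K] U.1) := ⟨fun e => h (by simpa using e.finrank_eq.symm)⟩
        simp
  · rintro ⟨U, e⟩ ⟨U', e'⟩ h
    have h2 : U.1.subtype ∘ₗ e.toLinearMap = U'.1.subtype ∘ₗ e'.toLinearMap :=
      congrArg (fun p => p.1.2) h
    obtain rfl : U = U' := Subtype.ext (by
      simpa [LinearMap.range_comp] using congrArg LinearMap.range h2)
    exact congrArg _ (LinearEquiv.ext fun v => Subtype.ext (LinearMap.congr_fun h2 v))
  · rintro ⟨⟨y, A⟩, h1, h2⟩
    refine ⟨⟨⟨LinearMap.range A, ?_⟩, LinearEquiv.ofInjective A h2⟩, Subtype.ext (Prod.ext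
      (LinearMap.ext fun v => (LinearEquiv.ofInjective A h2).injective (Subtype.ext ?_)) rfl)⟩
    · rintro _ ⟨v, rfl⟩
      exact ⟨y v, (LinearMap.congr_fun h1 v).symm⟩
    · simpa [Inv.sub] using LinearMap.congr_fun h1 v

theorem int_howe (x : End K V) (m : ℕ) (f : Hall K) :
    int m (pw f fun c => (Nat.card (itw x c.rep) : ℂ)) =
      ∑ U : Inv x, if finrank K U.1 ≤ m then adj (m - finrank K U.1) (oneH K) f (cls U.sub) else 0 := by
  have h1 : int m (pw f fun c => (Nat.card (itw x c.rep) : ℂ)) = bf m (comp m (oneH K * injH x)) f :=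
    int_congr fun c hc => by
      rw [pw_apply, comp_apply, if_pos hc, oneH_mul_injH, mul_comm]; rfl
  rw [h1, comp_mul, map_sum, LinearMap.sum_apply]
  have h2 : ∀ p ∈ antidiagonal m, bf m (comp p.1 (oneH K) * comp p.2 (injH x)) f =
      ∑ U : Inv x, if finrank K U.1 = p.2 then adj p.1 (oneH K) f (cls U.sub) else 0 := fun p hp => by
    rw [← mem_antidiagonal.1 hp, bf_mul_left (comp_mem _ _), adj_comp, ← int_injH]
    exact int_congr fun c hc => by rw [pw_apply, pw_apply, comp_apply, if_pos hc]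
  rw [sum_congr rfl h2, sum_comm]
  refine sum_congr rfl fun U _ => ?_
  split_ifs with h
  · rw [sum_eq_single_of_mem (m - finrank K U.1, finrank K U.1) 
      (HasAntidiagonal.mem_antidiagonal.2 (Nat.sub_add_cancel h)), if_pos rfl]
    rintro ⟨a, b⟩ hp h0
    exact if_neg fun h3 => h0 (by
      have := mem_antidiagonal.1 hp
      exact Prod.ext (by simp only at *; omega) h3.symm)
  · exact sum_eq_zero fun p hp => if_neg fun h3 => h (by have := mem_antidiagonal.1 hp; omega)

variable {k : Type u} [Field k] [Algebra K k] [IsAlgClosed k] [Algebra.IsAlgebraic K k]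

theorem Hx_one_apply {c : Iso K} (h : ∀ t ∈ ev k c, t = 1) : Hx K (1 : k) c = 1 := by
  rw [Hx_apply, if_pos fun t ht => isConjRoot_one.2 (h t ht)]

theorem mul_Hx_one (f : Hall K) {c : Iso K} (h : ∀ t ∈ ev k c, t = 1) :
    (f * Hx K (1 : k)) c = (f * oneH K) c := by
  rw [← cls_rep c] at h ⊢
  rw [mul_cls, mul_cls]
  refine sum_congr rfl fun U _ => ?_
  rw [Hx_one_apply fun t ht => h t (ev_sub_add_quo (k := k) U ▸ Multiset.mem_add.2 (Or.inr ht))]
  rfl

theorem mul_comp_sub {i : ℕ} {f : Hall K} (hf : f ∈ hom K i) (g : Hall K) (c : Iso K) :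
    (f * comp (c.dim - i) g) c = (f * g) c := by
  conv_rhs => rw [← cls_rep c]
  conv_lhs => rw [← cls_rep c]
  rw [mul_cls, mul_cls]
  refine sum_congr rfl fun U _ => ?_
  by_cases h : (cls U.sub).dim = i
  · rw [comp_apply, if_pos (by have := dim_sub_add_dim_quo U; omega)]
  · rw [hf _ h, zero_mul, zero_mul]

theorem isNw_Hx_one : IsNw (fun j => comp j (Hx K (1 : k))) fun n => pI K n (1 : k) := by
  simpa [fdeg_one] using isNw_Hx (F := K) (1 : k)

theorem pm_mem_hom (ρ : Multiset ℕ) : pm (fun j => pI K j (1 : k)) ρ ∈ hom K ρ.sum := by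
  simpa [pm] using prod_mem_hom (d := id) (μ := ρ) fun i _ => pI_mem_hom (F := K) i (1 : k)

theorem adj_oneH_pm {ρ : Multiset ℕ} (hρ : Pos ρ) (i : ℕ) :
    adj i (oneH K) (pm (fun j => pI K j (1 : k)) ρ) = (ρ.antidiagonal.map fun x =>
      (if x.2.sum = i then (x.2.map fun j => ((Nat.card K : ℂ) ^ j - 1)⁻¹).prod else 0) •
        pm (fun j => pI K j (1 : k)) x.1).sum := by
  have H : IsNw (fun l => int l (pw (Hx K (1 : k)) (oneH K))) fun l => int l (pI K l (1 : k)) := by
    have := (isNw_Hx_one (K := K) (k := k)).graded int ((int_zero _).trans (if_pos dim_zero))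
      (fun i j a ha b hb => int_mul ha hb) (fun n => comp_mem n _) fun n => pI_mem_hom n _
    simp only [int_comp] at this
    exact (funext fun l => int_congr fun c _ => mul_one _ :
      (fun l => int l (pw (Hx K (1 : k)) (oneH K))) = fun l => int l (Hx K (1 : k))) ▸ this
  induction ρ using Multiset.induction_on generalizing i with
  | empty =>
    rcases i with _ | i
    · simp [adj_zero, pm, oneH]
    · simp [adj_eq_zero _ one_mem_hom i.succ_pos, pm]
  | cons n ρ ih =>
    have hn := hρ n (Multiset.mem_cons_self _ _)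
    replace ih := ih fun i hi => hρ i (Multiset.mem_cons_of_mem hi)
    rw [pm_cons, adj_nw_mul (mult_mf _) mult_oneH isNw_Hx_one H hn, ih, ih,
      int_pI hn (fdeg_one (F := K) (k := k) ▸ one_dvd n), Multiset.antidiagonal_cons,
      Multiset.map_add, Multiset.sum_add, Multiset.map_map, Multiset.map_map, add_comm,
      ← Multiset.sum_map_mul_left]
    congr 1
    · split_ifs with h
      · rw [Multiset.smul_sum, Multiset.map_map]
        refine congrArg _ (Multiset.map_congr rfl fun x _ => ?_)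
        simp only [Function.comp_apply, Prod.map_snd, Prod.map_fst, id, Multiset.sum_cons,
          Multiset.map_cons, Multiset.prod_cons, smul_smul, mul_ite, mul_zero]
        congr 1
        exact if_congr (by omega) rfl rfl
      · refine (Multiset.sum_eq_zero fun y hy => ?_).symm
        obtain ⟨x, -, rfl⟩ := Multiset.mem_map.1 hy
        simp only [Function.comp_apply, Prod.map_snd, Multiset.sum_cons]
        rw [if_neg (by omega), zero_smul]
    · refine congrArg _ (Multiset.map_congr rfl fun x _ => ?_)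
      simp only [Function.comp_apply, Prod.map_snd, Prod.map_fst, id, pm_cons, mul_smul_comm]

theorem Hall.msum_apply (s : Multiset (Hall K)) (c : Iso K) : s.sum c = (s.map fun f => f c).sum := by
  induction s using Multiset.induction_on with
  | empty => rfl
  | cons a s ih => rw [Multiset.sum_cons, Multiset.map_cons, Multiset.sum_cons, ← ih]; rfl

theorem pm_mem_supp (ρ : Multiset ℕ) : pm (fun j => pI K j (1 : k)) ρ ∈ supp K ({1} : Set k) :=
  multiset_prod_mem _ fun f hf => by
    obtain ⟨j, -, rfl⟩ := Multiset.mem_map.1 hf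
    exact supp_mono (fun t ht => isConjRoot_one.1 ht) (pI_mem_supp j _)

theorem howe_K {ρ l : Multiset ℕ} (hρ : Pos ρ) (hl : Pos l) :
    ∑ μ : Nat.Partition ρ.sum, (Nat.card K : ℂ) ^ mm l μ.parts * gv.{u} ρ μ.parts (Nat.card K) /
      ac μ.parts (Nat.card K) =
      (ρ.antidiagonal.map fun x => (x.2.map fun j => ((Nat.card K : ℂ) ^ j - 1)⁻¹).prod *
        ∑ τ : Nat.Partition (l.sum - x.1.sum), gv.{u} (x.1 + τ.parts) l (Nat.card K) /
          zc τ.parts).sum := by
  let k := AlgebraicClosure K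
  obtain ⟨h1, h2, h3⟩ := uc_spec (K := K) (k := k) hl
  generalize uc K k l = c at h1 h2 h3
  have h4 := int_howe c.rep ρ.sum (pm (fun j => pI K j (1 : k)) ρ)
  refine (sum_congr rfl fun μ _ => ?_).trans (((int_unip (k := k) (mem_supp.2 fun d hd =>
    mem_supp.1 (pm_mem_supp ρ) d (left_ne_zero_of_mul hd)) _).symm.trans h4).trans ?_)
  · obtain ⟨h5, h6, -⟩ := uc_spec (K := K) (k := k) (pos_parts μ)
    rw [← h6, gv_spec ρ h5, h6, mul_comm]
    congr 2
    rw [card_itw_unip (k := k) (by rwa [cls_rep]), cls_rep, cls_rep, h2, h6, Nat.cast_pow]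
  have h5 : ∀ U : Inv c.rep, (if finrank K U.1 ≤ ρ.sum then adj (ρ.sum - finrank K U.1) (oneH K)
      (pm (fun j => pI K j (1 : k)) ρ) (cls U.sub) else 0) = (ρ.antidiagonal.map fun x =>
        (x.2.map fun j => ((Nat.card K : ℂ) ^ j - 1)⁻¹).prod •
          pm (fun j => pI K j (1 : k)) x.1).sum (cls U.sub) := fun U => by
    have h5 : ∀ x ∈ ρ.antidiagonal, x.1.sum + x.2.sum = ρ.sum := fun x hx => by
      rw [← Multiset.sum_add, Multiset.mem_antidiagonal.1 hx]
    rw [adj_oneH_pm hρ, Hall.msum_apply, Hall.msum_apply, Multiset.map_map, Multiset.map_map]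
    split_ifs with h
    · refine congrArg _ (Multiset.map_congr rfl fun x hx => ?_)
      simp only [Function.comp_apply, Hall.smul_apply]
      split_ifs with h6
      · rfl
      · rw [pm_mem_hom x.1 _ (by have := h5 x hx; rw [dim_cls]; omega), mul_zero, mul_zero]
    · refine (Multiset.sum_eq_zero fun y hy => ?_).symm
      obtain ⟨x, hx, rfl⟩ := Multiset.mem_map.1 hy
      rw [Function.comp_apply, Hall.smul_apply,
        pm_mem_hom x.1 _ (by have := h5 x hx; rw [dim_cls]; omega), mul_zero]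
  rw [sum_congr rfl fun U _ => h5 U, ← mul_oneH, cls_rep, ← mul_Hx_one _ h1,
    ← Multiset.sum_map_mul_right, Hall.msum_apply, Multiset.map_map]
  refine congrArg _ (Multiset.map_congr rfl fun x _ => ?_)
  rw [Function.comp_apply, smul_mul_assoc, Hall.smul_apply, ← mul_comp_sub (pm_mem_hom x.1),
    isNw_Hx_one.left_eq (isNw_nexp _) (fun _ _ _ => rfl) le_rfl, nexp_eq_sum, mul_sum,
    Hall.sum_apply, h3]
  refine congrArg _ (sum_congr rfl fun τ _ => ?_)
  have h6 := gv_spec (x.1 + τ.parts) h1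
  rw [h2] at h6
  rw [mul_smul_comm, Hall.smul_apply, h6, div_eq_inv_mul, pm, pm, pm, Multiset.map_add,
    Multiset.prod_add]

/-- Functions supported on the identities. -/
noncomputable def idW (K : Type u) [Field K] [Finite K] (α : ℕ → ℂ) : Hall K :=
  fun c => α c.dim * idH c

theorem idW_mul_oneH (α : ℕ → ℂ) (x : End K V) :
    (idW K α * oneH K) (cls x) = (idW K α * oneH K) (cls (1 : End K (LinearMap.ker (x - 1)))) := by
  have h1 : ∀ v ∈ LinearMap.ker (x - 1), x v = v := fun v hv => sub_eq_zero.1 hv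
  rw [mul_oneH, mul_oneH]
  refine (Fintype.sum_of_injective (fun U : Inv (1 : End K (LinearMap.ker (x - 1))) =>
    (⟨U.1.map (LinearMap.ker (x - 1)).subtype, ?_⟩ : Inv x)) (fun U U' h => Subtype.ext
      (Submodule.map_injective_of_injective (Submodule.injective_subtype _)
        (congrArg Subtype.val h))) _ _ (fun U hU => ?_) fun U => ?_).symm
  · rintro _ ⟨v, hv, rfl⟩
    exact ⟨v, hv, (h1 v v.2).symm⟩
  · refine mul_eq_zero_of_right _ ((idH_cls _).trans (if_neg fun h => hU
      ⟨⟨U.1.comap (LinearMap.ker (x - 1)).subtype, le_rfl⟩, Subtype.ext ?_⟩))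
    exact Submodule.map_comap_eq_self fun v hv => ⟨⟨v, sub_eq_zero.2
      (congrArg Subtype.val (LinearMap.congr_fun h ⟨v, hv⟩))⟩, rfl⟩
  · exact congrArg _ (cls_sub_eq _ ((LinearMap.ker (x - 1)).subtype ∘ₗ U.1.subtype)
      ((Submodule.injective_subtype _).comp U.1.injective_subtype)
      (by rw [LinearMap.range_comp, Submodule.range_subtype]) fun w => by
        exact (h1 _ w.1.2).symm).symm

theorem unip_one : ∀ t ∈ ev k (cls (1 : End K V)), t = 1 := fun t ht =>
  Multiset.eq_of_mem_replicate (ev_one (F := K) (V := V) (k := k) ▸ ht)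

theorem idW_mul_Hx (α : ℕ → ℂ) {x : End K V} (h : ∀ t ∈ ev k (cls x), t = 1) :
    (idW K α * Hx K (1 : k)) (cls x) =
      (idW K α * Hx K (1 : k)) (cls (1 : End K (LinearMap.ker (x - 1)))) := by
  rw [mul_Hx_one _ h, mul_Hx_one _ unip_one, idW_mul_oneH]

theorem finrank_ker_unip {x : End K V} :
    finrank K (LinearMap.ker (x - 1)) = (jt (1 : k) (cls x)).card := by
  have h := finrank_ker_sub_pow (k := k) 1 x 1
  rwa [pow_one, one_smul, map_one, (jt_pos _ _).mm_one] at h

theorem qsum {q : ℂ} (hq : ∀ n, q ^ (n + 1) - 1 ≠ 0) (n : ℕ) :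
    ∑ p ∈ antidiagonal (n + 1), (-1) ^ p.1 * q ^ p.1.choose 2 /
      ((∏ i ∈ range p.1, (q ^ (i + 1) - 1)) * ∏ i ∈ range p.2, (q ^ (i + 1) - 1)) = 0 := by
  have h0 : ∀ m, ∏ i ∈ range m, (q ^ (i + 1) - 1) ≠ 0 := fun m => prod_ne_zero_iff.2 fun i _ => hq i
  refine mul_left_cancel₀ (hq n) ?_
  rw [mul_sum, mul_zero, sum_congr rfl (g := fun p : ℕ × ℕ => (-1) ^ p.1 * q ^ p.1.choose 2 *
    q ^ p.1 * (q ^ p.2 - 1) / ((∏ i ∈ range p.1, (q ^ (i + 1) - 1)) *
      ∏ i ∈ range p.2, (q ^ (i + 1) - 1)) + (-1) ^ p.1 * q ^ p.1.choose 2 * (q ^ p.1 - 1) /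
        ((∏ i ∈ range p.1, (q ^ (i + 1) - 1)) * ∏ i ∈ range p.2, (q ^ (i + 1) - 1))) fun p hp => by
      rw [← HasAntidiagonal.mem_antidiagonal.1 hp]; ring, sum_add_distrib,
    Finset.Nat.sum_antidiagonal_succ', Finset.Nat.sum_antidiagonal_succ]
  simp only [pow_zero, sub_self, mul_zero, zero_div, zero_add, ← sum_add_distrib]
  refine sum_eq_zero fun p _ => ?_
  rw [prod_range_succ, prod_range_succ, Nat.choose_succ_succ', Nat.choose_one_right]
  have := h0 p.1
  have := h0 p.2
  have := hq p.1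
  have := hq p.2
  field_simp
  ring

theorem choose_two_add' (i j : ℕ) : (i + j).choose 2 = i.choose 2 + j.choose 2 + i * j := by
  induction j with
  | zero => simp
  | succ j ih =>
    rw [← add_assoc, Nat.choose_succ_succ' (i + j), Nat.choose_succ_succ' j,
      Nat.choose_one_right, Nat.choose_one_right, ih]
    ring

theorem idW_mul_Hx_eq_one :
    idW K (fun r => (-1) ^ r * (Nat.card K : ℂ) ^ r.choose 2) * Hx K (1 : k) = 1 := by
  ext c
  rw [Hall.one_apply]
  split_ifs with hc
  · rw [dim_eq_zero.1 hc, Hall.mul_apply_zero, Hx, (mult_mf _).zero, mul_one, idW,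
      ← cls_of_subsingleton (1 : End K (Fin 0 → K)), idH_cls, if_pos rfl]
    simp
  by_cases h : ∀ t ∈ ev k c, t = 1
  swap
  · refine by_contra fun h0 => h (mem_supp.1 (mul_mem (mem_supp.2 fun d hd => ?_)
      (mem_supp.2 fun d hd t ht => isConjRoot_one.1 (Hx_ne_zero hd t ht))) c h0)
    rw [← cls_rep d] at hd ⊢
    rw [not_not.1 fun h1 => right_ne_zero_of_mul hd ((idH_cls _).trans (if_neg h1))]
    exact unip_one
  rw [← cls_rep c] at h ⊢
  rw [idW_mul_Hx _ h]
  obtain ⟨n, hn⟩ := Nat.exists_eq_succ_of_ne_zero (n := finrank K (LinearMap.ker (c.rep - 1)))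
    fun h0 => hc (by
      rw [finrank_ker_unip (k := k), Multiset.card_eq_zero] at h0
      rw [← cls_rep c, dim_of_unip h, h0, Multiset.sum_zero])
  have hq : (Nat.card K : ℂ) ≠ 0 := Nat.cast_ne_zero.2 Nat.card_pos.ne'
  refine mul_left_cancel₀ (mul_ne_zero (pow_ne_zero ((n + 1).choose 2) hq)
    (inv_ne_zero (card_GLV_ne (F := K) (V := LinearMap.ker (c.rep - 1))))) ?_
  rw [mul_zero, mul_assoc, ← bf_idH hn, ← qsum (fun n => card_pow_sub_one_ne (F := K) n.succ_pos) n,
    show bf n.succ _ idH = bf (n + 1) (comp (n + 1) (_ * Hx K (1 : k))) idH from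
      int_congr fun d hd => by rw [pw_apply, pw_apply, comp_apply, if_pos hd], comp_mul, map_sum,
    LinearMap.sum_apply, mul_sum]
  refine sum_congr rfl fun p hp => ?_
  rw [← HasAntidiagonal.mem_antidiagonal.1 hp, bf_mul_idH (comp_mem _ _),
    bf_idH (finrank_fin_fun K), bf_idH (finrank_fin_fun K), card_GLV_cast (finrank_fin_fun K),
    card_GLV_cast (finrank_fin_fun K), comp_apply, comp_apply, dim_cls, dim_cls, finrank_fin_fun,
    finrank_fin_fun, if_pos rfl, if_pos rfl, Hx_one_apply unip_one, idW, idH_cls, if_pos rfl,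
    dim_cls, finrank_fin_fun, choose_two_add']
  field_simp
  ring

theorem pI_eq_idW (c : Iso K) : pI K c.dim (1 : k) c =
    -(idW K (fun r => r * ((-1) ^ r * (Nat.card K : ℂ) ^ r.choose 2)) * Hx K (1 : k)) c := by
  let δ : Hall K → Hall K := fun f c => c.dim * f c
  have h1 : ∀ f g, δ (f * g) = δ f * g + f * δ g := fun f g => Hall.ext fun c => by
    rw [← cls_rep c, Hall.add_apply, mul_cls, mul_cls, ← sum_add_distrib]
    refine (congrArg _ (mul_cls f g _)).trans ((mul_sum _ _ _).trans (sum_congr rfl fun U _ => ?_))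
    rw [← dim_sub_add_dim_quo U]
    simp only [δ]
    push_cast
    ring
  let P : Hall K := fun c => pI K c.dim (1 : k) c
  have h2 : ∀ i, comp i P = pI K i (1 : k) := fun i => Hall.ext fun c => by
    rw [comp_apply]
    split_ifs with h
    · rw [← h]
    · exact (pI_mem_hom i _ c h).symm
  have h3 : δ (Hx K (1 : k)) = P * Hx K (1 : k) := Hall.ext fun c => by
    have h3 : (P * Hx K (1 : k)) c = comp c.dim (P * Hx K (1 : k)) c := (if_pos rfl).symm
    rw [h3, comp_mul]
    rcases hc : c.dim with _ | n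
    · simp [δ, hc, h2, pI_zero]
    · simp only [Finset.Nat.sum_antidiagonal_succ, h2, pI_zero, zero_mul, zero_add]
      rw [← (isNw_Hx_one (K := K) (k := k)).2 n, ← nsmul_eq_mul, ← Nat.cast_smul_eq_nsmul ℂ,
        Hall.smul_apply]
      exact congrArg₂ (· * ·) (congrArg Nat.cast hc) (if_pos hc).symm
  have h4 := h1 (idW K fun r => (-1) ^ r * (Nat.card K : ℂ) ^ r.choose 2) (Hx K (1 : k))
  rw [h3, mul_left_comm, idW_mul_Hx_eq_one, mul_one] at h4
  have h5 := congrFun h4 c
  rw [show δ 1 c = 0 by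
    simp only [δ, Hall.one_apply]
    split_ifs with h <;> simp [h]] at h5
  rw [show idW K (fun r => r * ((-1) ^ r * (Nat.card K : ℂ) ^ r.choose 2)) =
    δ (idW K fun r => (-1) ^ r * (Nat.card K : ℂ) ^ r.choose 2) from
      funext fun c => mul_assoc _ _ _]
  exact eq_neg_of_add_eq_zero_right h5.symm

theorem single_K {l : Multiset ℕ} (hl : Pos l) (h0 : l ≠ 0) :
    gv.{u} {l.sum} l (Nat.card K) = ∏ i ∈ Ico 1 l.card, (1 - (Nat.card K : ℂ) ^ i) := by
  let k := AlgebraicClosure K
  obtain ⟨h1, h2, h3⟩ := uc_spec (K := K) (k := k) hl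
  generalize uc K k l = c at h1 h2 h3
  have h4 := gv_spec {l.sum} h1
  rw [h2, pm, Multiset.map_singleton, Multiset.prod_singleton, ← h3, pI_eq_idW, ← cls_rep c,
    idW_mul_Hx _ (by rwa [cls_rep]), ← pI_eq_idW, dim_cls (1 : End K _), finrank_ker_unip (k := k),
    pI_one (by rw [cls_rep, h2]; exact Multiset.card_pos.2 h0) finrank_ker_unip, cls_rep, h2,
    h3] at h4
  rw [h4, ← Nat.card_Ico, ← prod_const, ← prod_mul_distrib]
  exact prod_congr rfl fun i _ => by ring

end K

variable {ρ l : Multiset ℕ} {t : ℤ} (ht : 2 ≤ |t|)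
include ht

theorem gv_howe (hρ : Pos ρ) (hl : Pos l) {m : ℕ} (hm : ρ.sum = m) :
    ∑ μ : Nat.Partition m, (t : ℂ) ^ mm l μ.parts * gv.{u} ρ μ.parts t / ac μ.parts t =
      (ρ.antidiagonal.map fun x => (x.2.map fun j => ((t : ℂ) ^ j - 1)⁻¹).prod *
        ∑ τ : Nat.Partition (l.sum - x.1.sum), gv.{u} (x.1 + τ.parts) l t / zc τ.parts).sum := by
  subst hm
  refine transfer.{u} (f := fun t : ℤ => ∑ μ : Nat.Partition ρ.sum,
    (t : ℂ) ^ mm l μ.parts * gv.{u} ρ μ.parts t / ac μ.parts t) (g := fun t : ℤ =>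
      (ρ.antidiagonal.map fun x => (x.2.map fun j => ((t : ℂ) ^ j - 1)⁻¹).prod *
        ∑ τ : Nat.Partition (l.sum - x.1.sum), gv.{u} (x.1 + τ.parts) l t / zc τ.parts).sum)
    (reg_sum _ fun μ _ => mul_mem (mul_mem (pow_mem reg_id _) (gv_mem _ _)) (reg_ac_inv _))
    (reg_multiset_sum _ fun x hx => mul_mem (reg_multiset_prod _ fun j hj => reg_pow_sub_one_inv
      (hρ j (Multiset.mem_antidiagonal.1 hx ▸ Multiset.mem_add.2 (Or.inr hj))))
      (reg_sum _ fun τ _ => mul_mem (gv_mem _ _) (reg_const _))) (fun K _ _ => ?_) ht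
  simpa only [Int.cast_natCast] using howe_K (K := K) hρ hl

theorem gv_single (hl : Pos l) (h0 : l ≠ 0) :
    gv.{u} {l.sum} l t = ∏ i ∈ Ico 1 l.card, (1 - (t : ℂ) ^ i) := by
  refine transfer.{u} (g := fun t : ℤ => ∏ i ∈ Ico 1 l.card, (1 - (t : ℂ) ^ i)) (gv_mem _ _)
    (reg_prod _ fun i _ => sub_mem (reg_const 1) (pow_mem reg_id i)) (fun K _ _ => ?_) ht
  simpa only [Int.cast_natCast] using single_K (K := K) hl h0

end Cfsg.Gun

set_option linter.all false in
theorem Cfsg.Rz.Gun_GvH_0 : True := by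
  have := @_root_.Cfsg.Gun.idW.eq_def.{0}
  have := @_root_.Cfsg.Gun.idW.fun_cases
  have := @_root_.Cfsg.Gun.injH.eq_def.{0, 0}
  have := @_root_.Cfsg.Gun.injH.eq_1.{0, 0}
  have := @_root_.Cfsg.Gun.injH.fun_cases
  have := @_root_.Cfsg.Gun.oneH.eq_def.{0}
  have := @_root_.Cfsg.Gun.oneH.fun_cases
  trivial
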