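import Cfsg.Agent.Gun.En
import Cfsg.Agent.Gun.GvH

/-!
# Values of the elements of the Ennola algebra at types (S4537 project)

All global identities are products over the colours of the local ones of `Gun/Gv`, `Gun/GvH` at `t = Q ^ deg o`
(`ext_hom` to reduce to monomials, `sum_Cls_prod`, `gv_eq_zero`, `cast_tn`, `sign_sq`).
`howe`: for `u = mX f`, `Sh sign (mX f) = ∏_o ∑_{(σ, σ') ∈ antidiagonal (f o)} (∏_{j ∈ σ'} (Q^(d j) - 1)⁻¹) • pm (pX o) σ`;
it is convenient to prove first `ev c (∑ x ∈ antidiagonal n, comp x.1 (∏ o, A o) * Hh x.2) = ∏ o, L o (A o)` for `A o` in the span of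
the `pm (pX o) σ` (multilinearity), where `L o (pm (pX o) σ) = ∑_{τ ⊢ |c o| - |σ|} gv (σ + τ) (c o) / zc τ`.
`exists_ev_eq`: `hom n → (Cls n → ℂ)` is injective (`sum_ev_mul_ev`, `ext_bf`) between spaces of equal dimension (`finrank_hom`).
-/

set_option autoImplicit false
set_option linter.unusedSectionVars false
set_option linter.unusedVariables false
set_option linter.style.haveILetI false

namespace Cfsg.Gun

open Finset Function Gln Cfsg.Sym

universe u

variable {k : Type u} [Field k] {Q : ℤ} {R N n m : ℕ} [NeZero R]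

/-- The value at the type `c`. -/
noncomputable def vl (c : Ty k Q R) : Lam k Q R →ₗ[ℂ] ℂ :=
  lin fun f => ∏ o, gv.{u} (f o) (c o) (Q ^ o.deg)

/-- The local value of `pm σ` times the trivial character. -/
noncomputable def lw (σ l : Multiset ℕ) (t : ℤ) : ℂ :=
  ∑ τ : Nat.Partition (l.sum - σ.sum), gv.{u} (σ + τ.parts) l t / zc τ.parts

variable {c f : Ty k Q R} {u v : Lam k Q R}

theorem vl_mX (c : Ty k Q R) (h : TPos f) : vl c (mX f) = ∏ o, gv.{u} (f o) (c o) (Q ^ o.deg) :=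
  lin_mX _ h

variable [IsAlgClosed k] (hP : ParZ k Q R N)
include hP

theorem two_le_deg (o : EO k Q R) : 2 ≤ |Q ^ o.deg| := two_le_pow hP.two (eo_deg_pos hP o)

theorem vl_mX_eq_zero (hc : TPos c) (h : TPos f) {o : EO k Q R} (e : (f o).sum ≠ (c o).sum) :
    vl c (mX f) = 0 :=
  (vl_mX c h).trans (prod_eq_zero (mem_univ o) (gv_eq_zero (two_le_deg hP o) (hc o) e))

theorem vl_eq_zero (hc : TPos c) (hu : u ∈ hom k Q R m) (e : tsz c ≠ m) : vl c u = 0 :=
  ext_hom (L' := 0) (fun f hf e' => by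
    obtain ⟨o, ho⟩ := not_forall.1 fun h : ∀ o, (f o).sum = (c o).sum =>
      e (e' ▸ sum_congr rfl fun o _ => by rw [h o])
    exact vl_mX_eq_zero hP hc hf ho) hu

theorem vl_comp (hc : TPos c) (u : Lam k Q R) : vl c (comp (tsz c) u) = vl c u :=
  LinearMap.congr_fun (ext_mX (L := vl c ∘ₗ comp (tsz c)) fun f hf => by
    rw [LinearMap.comp_apply, comp_mX _ hf]
    split_ifs with h
    · rfl
    · rw [map_zero, vl_eq_zero hP hc (mX_mem_hom hf) (Ne.symm h)]) u

theorem vl_zero_one : vl (0 : Ty k Q R) 1 = 1 := by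
  rw [← mX_zero, vl_mX _ tpos_zero]
  exact prod_eq_one fun o _ => gv_zero (two_le_deg hP o)

theorem vl_Dg {w : Ty k Q R → ℂ}
    (hw : ∀ f g, TPos f → TPos g → (∀ o, (f o).sum = (g o).sum) → w f = w g) (hc : TPos c)
    (u : Lam k Q R) : vl c (Dg w u) = w c * vl c u :=
  LinearMap.congr_fun (ext_mX (L := vl c ∘ₗ Dg w) (L' := w c • vl c) fun f hf => by
    rw [LinearMap.comp_apply, Dg_mX _ hf, map_smul, LinearMap.smul_apply]
    by_cases h : ∀ o, (f o).sum = (c o).sum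
    · rw [hw f c hf hc h]
    · obtain ⟨o, ho⟩ := not_forall.1 h
      rw [vl_mX_eq_zero hP hc hf ho, smul_zero, smul_zero]) u

theorem vl_T (α : Mu k R → ℂ) (hc : TPos c) (u : Lam k Q R) :
    vl c (T α u) = ((evm c).map α).prod * vl c u := by
  rw [T_eq_Dg, vl_Dg hP (fun f g _ _ h => by rw [evm_congr h]) hc]

open Classical in
theorem vl_cut (p : ℕ) (hc : TPos c) (u : Lam k Q R) :
    vl c (cut p u) = if TReg p c then vl c u else 0 := by
  rw [cut_eq_Dg, vl_Dg hP ?_ hc, boole_mul]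
  exact fun f g hf hg h => if_congr (forall_congr' fun o => imp_congr_left
    (not_congr ⟨fun e => (hg o).eq_zero (by rw [← h, e, Multiset.sum_zero]),
      fun e => (hf o).eq_zero (by rw [h, e, Multiset.sum_zero])⟩)) rfl rfl

theorem vl_cj (hc : TPos c) (u : Lam k Q R) : vl c (cj u) = star (vl c u) := by
  induction u using induction_mX with
  | h0 => simp
  | h1 f hf =>
    rw [cj_mX, vl_mX _ hf, star_prod]
    exact prod_congr rfl fun o _ => (star_gv (two_le_deg hP o) (hc o)).symm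
  | h2 u v hu hv => simp only [map_add, star_add, hu, hv]
  | h3 a u hu => simp only [cj_smul, map_smul, smul_eq_mul, star_mul', hu]

theorem sign_pow_mul_self (n : ℕ) : (Q.sign : ℂ) ^ n * (Q.sign : ℂ) ^ n = 1 := by
  rw [← mul_pow, ← sq, sign_sq hP.two, one_pow]

theorem sign_div_tn (o : EO k Q R) (j : ℕ) : (Q.sign : ℂ) ^ (o.deg * j) / tn Q (o.deg * j) =
    (((Q ^ o.deg : ℤ) : ℂ) ^ j - 1)⁻¹ := by
  rw [cast_tn hP.two, div_mul_cancel_left₀ (left_ne_zero_of_mul_eq_one (sign_pow_mul_self hP _)),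
    Int.cast_pow, ← pow_mul]

theorem nmX_eq (f : Ty k Q R) : nmX f = (Q.sign : ℂ) ^ tsz f *
    ∏ o, (zc (f o) : ℂ) * ((f o).map fun j => (((Q ^ o.deg : ℤ) : ℂ) ^ j - 1)⁻¹).prod := by
  rw [nmX, tsz, ← prod_pow_eq_pow_sum, ← prod_mul_distrib]
  refine prod_congr rfl fun o _ => ?_
  rw [mul_left_comm]
  congr 1
  induction f o using Multiset.induction_on with
  | empty => simp
  | cons j l ih =>
    rw [Multiset.map_cons, Multiset.prod_cons, Multiset.map_cons, Multiset.prod_cons, ih,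
      Multiset.sum_cons, mul_add, pow_add, mul_mul_mul_comm, ← sign_div_tn hP, ← mul_div_assoc,
      sign_pow_mul_self hP, one_div]

theorem div_acg (hc : c ∈ Cls k Q R n) (a : ℂ) :
    a / acg c = (Q.sign : ℂ) ^ n * (a / ∏ o, ac (c o) ((Q ^ o.deg : ℤ) : ℂ)) := by
  rw [acg, ((mem_Cls hP).1 hc).2, ← div_div, div_eq_mul_inv a,
    ← eq_inv_of_mul_eq_one_left (sign_pow_mul_self hP n), mul_comm a, mul_div_assoc]

theorem sum_vl_mul_vl (hu : u ∈ hom k Q R n) (v : Lam k Q R) :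
    ∑ c ∈ Cls k Q R n, vl c u * vl c v / acg c = bf u v := by
  have h1 : ∀ f g : Ty k Q R, TPos f → TPos g → tsz f = n →
      ∑ c ∈ Cls k Q R n, vl c (mX f) * vl c (mX g) / acg c = bf (mX f) (mX g) := fun f g hf hg e => by
    rw [sum_congr rfl fun c hc => by rw [div_acg hP hc, vl_mX c hf, vl_mX c hg, ← prod_mul_distrib,
      ← prod_div_distrib], ← mul_sum, sum_Cls_prod hP (fun o => (f o).sum)
        (fun o l => gv.{u} (f o) l (Q ^ o.deg) * gv.{u} (g o) l (Q ^ o.deg) / ac l (Q ^ o.deg : ℤ))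
        fun o l hl h => by rw [gv_eq_zero (two_le_deg hP o) hl h.symm, zero_mul, zero_div],
      if_pos (show ∑ o, o.deg * (f o).sum = n from e), bf_mX hf hg,
      prod_congr rfl fun o _ => gv_orth (two_le_deg hP o) (hf o) (hg o) rfl]
    split_ifs with h
    · subst h
      simp only [if_true, nmX_eq hP, e]
    · obtain ⟨o, ho⟩ := Function.ne_iff.1 h
      rw [prod_eq_zero (mem_univ o) (if_neg ho), mul_zero]
  have h2 := ext_hom (L := ∑ c ∈ Cls k Q R n, (acg c)⁻¹ • (LinearMap.mul ℂ ℂ).compl₁₂ (vl c) (vl c))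
    (L' := bf) (fun f hf e => ext_mX fun g hg => by
      simpa [LinearMap.sum_apply, div_eq_inv_mul] using h1 f g hf hg e) hu
  simpa [LinearMap.sum_apply, div_eq_inv_mul] using LinearMap.congr_fun h2 v

theorem eq_of_vl (hu : u ∈ hom k Q R n) (hv : v ∈ hom k Q R n)
    (h : ∀ c ∈ Cls k Q R n, vl c u = vl c v) : u = v :=
  ext_bf hP hu hv fun w _ => by
    rw [← sum_vl_mul_vl hP hu, ← sum_vl_mul_vl hP hv]
    exact sum_congr rfl fun c hc => by rw [h c hc]

theorem exists_vl_eq (n : ℕ) (θ : Ty k Q R → ℂ) :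
    ∃ u ∈ hom k Q R n, ∀ c ∈ Cls k Q R n, vl c u = θ c := by
  haveI := finite_hom' hP n
  let Φ : hom k Q R n →ₗ[ℂ] (Cls k Q R n → ℂ) :=
    LinearMap.pi fun c => vl c.1 ∘ₗ (hom k Q R n).subtype
  obtain ⟨u, hu⟩ := (LinearMap.injective_iff_surjective_of_finrank_eq_finrank (f := Φ)
    (by rw [finrank_hom hP, Module.finrank_fintype_fun_eq_card, Fintype.card_coe])).1
    (fun u v h => Subtype.ext (eq_of_vl hP u.2 v.2 fun c hc => congrFun h ⟨c, hc⟩)) fun c => θ c.1
  exact ⟨u, u.2, fun c hc => congrFun hu ⟨c, hc⟩⟩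

theorem vl_mX_mul_Hh (hc : TPos c) (hf : TPos f) (l : ℕ) : vl c (mX f * Hh k Q R l) =
    if ∑ o, o.deg * ((c o).sum - (f o).sum) = l then ∏ o, lw.{u} (f o) (c o) (Q ^ o.deg)
      else 0 := by
  simp only [lw]
  rw [Hh_eq_sum hP, mul_sum, map_sum, ← sum_Cls_prod hP _
    (fun o l => gv.{u} (f o + l) (c o) (Q ^ o.deg) / zc l) fun o l _ h => by
      rw [gv_eq_zero (two_le_deg hP o) (hc o) (by rw [Multiset.sum_add]; omega), zero_div]]
  refine sum_congr rfl fun g hg => ?_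
  rw [mul_smul_comm, ← mX_add, map_smul, vl_mX _ (tpos_add.2 ⟨hf, ((mem_Cls hP).1 hg).1⟩),
    prod_div_distrib, smul_eq_mul, div_eq_inv_mul]
  rfl

theorem vl_Hh (hc : c ∈ Cls k Q R n) : vl c (Hh k Q R n) = 1 := by
  obtain ⟨h1, h2⟩ := (mem_Cls hP).1 hc
  have h := vl_mX_mul_Hh hP h1 tpos_zero n
  rw [mX_zero, one_mul, if_pos (by simpa [tsz] using h2)] at h
  refine h.trans (prod_eq_one fun o _ => ?_)
  exact (sum_congr rfl fun τ _ => by rw [show (0 : Ty k Q R) o + τ.parts = τ.parts from zero_add _]).trans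
    (sum_gv_div (two_le_deg hP o) (h1 o) rfl)

theorem vl_sum_comp_mX (hc : c ∈ Cls k Q R n) (hf : TPos f) :
    vl c (∑ x ∈ antidiagonal n, comp x.1 (mX f) * Hh k Q R x.2) =
      ∏ o, lw.{u} (f o) (c o) (Q ^ o.deg) := by
  obtain ⟨h1, rfl⟩ := (mem_Cls hP).1 hc
  simp only [map_sum, comp_mX _ hf, ite_mul, zero_mul, apply_ite (vl c), map_zero,
    vl_mX_mul_Hh hP h1 hf]
  by_cases h : ∀ o, (f o).sum ≤ (c o).sum
  · have h2 : tsz f + ∑ o, o.deg * ((c o).sum - (f o).sum) = tsz c := by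
      rw [tsz, tsz, ← sum_add_distrib]
      exact sum_congr rfl fun o _ => by rw [← mul_add, Nat.add_sub_cancel' (h o)]
    rw [sum_eq_single_of_mem (tsz f, ∑ o, o.deg * ((c o).sum - (f o).sum))
      (HasAntidiagonal.mem_antidiagonal.2 h2) fun x _ e => ?_,
      if_pos rfl, if_pos rfl]
    split_ifs with h3 h4
    · exact absurd (Prod.ext h3.symm h4.symm) e
    · rfl
    · rfl
  · obtain ⟨o, ho⟩ := not_forall.1 h
    rw [prod_eq_zero (f := fun o => lw.{u} (f o) (c o) (Q ^ o.deg)) (mem_univ o)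
      (sum_eq_zero fun τ _ => by
        rw [gv_eq_zero (two_le_deg hP o) (h1 o) (by rw [Multiset.sum_add]; omega), zero_div])]
    simp

theorem vl_sum_comp_Sh (hc : c ∈ Cls k Q R n) (hf : TPos f) : ∀ g, TPos g →
    vl c (∑ x ∈ antidiagonal n, comp x.1 (mX g * Sh Q.sign (mX f)) * Hh k Q R x.2) =
      ∏ o, ((f o).antidiagonal.map fun x => (x.2.map fun j =>
        (((Q ^ o.deg : ℤ) : ℂ) ^ j - 1)⁻¹).prod * lw.{u} (g o + x.1) (c o) (Q ^ o.deg)).sum := by
  refine induction_tpos (P := fun f => ∀ g, TPos g →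
    vl c (∑ x ∈ antidiagonal n, comp x.1 (mX g * Sh Q.sign (mX f)) * Hh k Q R x.2) =
      ∏ o, ((f o).antidiagonal.map fun x => (x.2.map fun j =>
        (((Q ^ o.deg : ℤ) : ℂ) ^ j - 1)⁻¹).prod * lw.{u} (g o + x.1) (c o) (Q ^ o.deg)).sum) (fun g hg => ?_)
    (fun o j f hj _ ih g hg => ?_) hf
  · rw [mX_zero, map_one, mul_one, vl_sum_comp_mX hP hc hg]
    refine prod_congr rfl fun o _ => ?_
    rw [Pi.zero_apply, Multiset.antidiagonal_zero, Multiset.map_singleton, Multiset.sum_singleton,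
      Multiset.map_zero, Multiset.prod_zero, one_mul, add_zero]
  · have h1 := ih _ (tpos_cons (o := o) hj hg)
    have h2 := ih g hg
    rw [mX_cons, map_mul, Sh_pX _ _ hj, sign_div_tn hP, add_mul, mul_add, ← mul_assoc, mul_comm (mX g),
      ← mX_cons, ← MvPolynomial.smul_eq_C_mul, mul_smul_comm]
    simp only [map_add, map_smul, add_mul, smul_mul_assoc, sum_add_distrib, ← smul_sum]
    rw [h1, h2, ← mul_prod_erase _ _ (mem_univ o), ← mul_prod_erase _ _ (mem_univ o),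
      ← mul_prod_erase _ _ (mem_univ o), smul_eq_mul, ← mul_assoc,
      prod_congr rfl fun o' h => by
        rw [Pi.add_apply, Pi.single_eq_of_ne (ne_of_mem_erase h), zero_add], ← add_mul]
    congr 1
    · simp only [Pi.add_apply, Pi.single_eq_same, Multiset.singleton_add,
        Multiset.antidiagonal_cons, Multiset.map_add, Multiset.sum_add, Multiset.map_map,
        ← Multiset.sum_map_mul_left]
      rw [add_comm]
      congr 2
      · refine Multiset.map_congr rfl fun x _ => ?_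
        simp only [Function.comp_apply, Prod.map_snd, Prod.map_fst, id, Multiset.map_cons,
          Multiset.prod_cons, mul_assoc]
      · refine Multiset.map_congr rfl fun x _ => ?_
        simp only [Function.comp_apply, Prod.map_snd, Prod.map_fst, id]
        rw [Multiset.cons_add, Multiset.add_cons]
    · exact prod_congr rfl fun o' h => by
        rw [Pi.add_apply, Pi.single_eq_of_ne (ne_of_mem_erase h), zero_add]

theorem howe (hu : u ∈ hom k Q R m) (hc : c ∈ Cls k Q R n) :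
    ∑ c' ∈ Cls k Q R m, (Q : ℂ) ^ hdg c c' * vl c' u / acg c' = (Q.sign : ℂ) ^ m *
      vl c (∑ x ∈ antidiagonal n, comp x.1 (Sh Q.sign u) * Hh k Q R x.2) := by
  have h1 := ext_hom (L := ∑ c' ∈ Cls k Q R m, ((Q : ℂ) ^ hdg c c' / acg c') • vl c')
    (L' := (Q.sign : ℂ) ^ m • vl c ∘ₗ ∑ x ∈ antidiagonal n, LinearMap.mulRight ℂ (Hh k Q R x.2) ∘ₗ
      comp x.1 ∘ₗ (Sh Q.sign).toLinearMap) (fun f hf e => ?_) hu
  · simpa [LinearMap.sum_apply, div_mul_eq_mul_div] using h1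
  have h2 := vl_sum_comp_Sh hP hc hf 0 tpos_zero
  simp only [mX_zero, one_mul, Pi.zero_apply, zero_add] at h2
  have h3 : ∑ c' ∈ Cls k Q R m, (Q : ℂ) ^ hdg c c' * vl c' (mX f) / acg c' = (Q.sign : ℂ) ^ m *
      vl c (∑ x ∈ antidiagonal n, comp x.1 (Sh Q.sign (mX f)) * Hh k Q R x.2) := by
    rw [sum_congr rfl fun c' hc' => by
      rw [div_acg hP hc', vl_mX c' hf, hdg, ← prod_pow_eq_pow_sum, ← prod_mul_distrib,
        ← prod_div_distrib], ← mul_sum, sum_Cls_prod hP (fun o => (f o).sum)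
        (fun o l => (Q : ℂ) ^ (o.deg * mm (c o) l) * gv.{u} (f o) l (Q ^ o.deg) / ac l (Q ^ o.deg : ℤ))
        fun o l hl h => by rw [gv_eq_zero (two_le_deg hP o) hl h.symm, mul_zero, zero_div],
      if_pos (show ∑ o, o.deg * (f o).sum = m from e), h2]
    refine congrArg _ (prod_congr rfl fun o _ => ?_)
    refine Eq.trans ?_ (gv_howe (two_le_deg hP o) (hf o) (((mem_Cls hP).1 hc).1 o) rfl)
    simp only [Int.cast_pow, pow_mul]
  simpa [LinearMap.sum_apply, div_mul_eq_mul_div] using h3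

theorem vl_single_pX {o o' : EO k Q R} {l : Multiset ℕ} (hl : Pos l) {j : ℕ} (hj : 0 < j) :
    vl (Pi.single o l) (pX o' j) =
      if o' = o ∧ j = l.sum then ∏ i ∈ Ico 1 l.card, (1 - ((Q : ℂ) ^ o.deg) ^ i) else 0 := by
  rw [← mX_single_singleton]
  have h1 := tpos_single (o := o').2 (pos_singleton.2 hj)
  split_ifs with h
  · obtain ⟨rfl, rfl⟩ := h
    rw [vl_mX _ h1, Fintype.prod_eq_single o' fun o h => by
      rw [Pi.single_eq_of_ne h, Pi.single_eq_of_ne h, gv_zero (two_le_deg hP o)], Pi.single_eq_same,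
      Pi.single_eq_same, gv_single (two_le_deg hP o') hl (by rintro rfl; simp at hj), Int.cast_pow]
  · refine vl_mX_eq_zero hP (tpos_single.2 hl) h1 (o := o') fun e => h ?_
    by_cases e' : o' = o
    · subst e'
      simpa using e
    · simp [e', hj.ne'] at e

/-- Multiplicativity for disjoint supports. -/
theorem vl_add_mX (S : Set (EO k Q R)) {c₁ c₂ f₁ f₂ : Ty k Q R} (hc₁ : ∀ o ∉ S, c₁ o = 0)
    (hc₂ : ∀ o ∈ S, c₂ o = 0) (hf₁ : ∀ o ∉ S, f₁ o = 0) (hf₂ : ∀ o ∈ S, f₂ o = 0) (h₁ : TPos f₁)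
    (h₂ : TPos f₂) : vl (c₁ + c₂) (mX (f₁ + f₂)) = vl c₁ (mX f₁) * vl c₂ (mX f₂) := by
  rw [vl_mX _ (tpos_add.2 ⟨h₁, h₂⟩), vl_mX _ h₁, vl_mX _ h₂, ← prod_mul_distrib]
  refine prod_congr rfl fun o _ => ?_
  by_cases h : o ∈ S
  · rw [Pi.add_apply, Pi.add_apply, hc₂ o h, hf₂ o h, gv_zero (two_le_deg hP o), add_zero, add_zero,
      mul_one]
  · rw [Pi.add_apply, Pi.add_apply, hc₁ o h, hf₁ o h, gv_zero (two_le_deg hP o), zero_add, zero_add,
      one_mul]

end Cfsg.Gun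

set_option linter.all false in
theorem Cfsg.Rz.Gun_Ev_0 : True := by
  have := @_root_.Cfsg.Gun.vl.eq_def.{0}
  have := @_root_.Cfsg.Gun.vl.eq_1.{0}
  have := @_root_.Cfsg.Gun.vl.fun_cases
  have := @_root_.Cfsg.Gun.lw.eq_def.{0}
  have := @_root_.Cfsg.Gun.lw.fun_cases
  trivial
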