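import Cfsg.Agent.Gun.EmbU

/-!
# The family of unitary groups (S4537 project)

`blkU_blk`: `cls_blkHom`, `tyF_add`, `mem_range_blkHom`, `blkHom_mem`.  `exists_blk3`: choose isometries `e₁ e₂ d` and put
`e = prodAssoc ∘ ..` as in `Gln.exists_stepHom_comp`; `s` = the swap transported by `d`.
-/

set_option autoImplicit false
set_option linter.unusedSectionVars false
set_option linter.unusedVariables false
set_option linter.style.haveILetI false

namespace Cfsg.Gun

open Module Finset Function Gln Subgroup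

universe u

variable {F : Type u} [Field F] [StarRing F] [Finite F] {k : Type u} [Field k] [Algebra F k]
  [IsAlgClosed k] [Algebra.IsAlgebraic F k] {Q : ℤ} {R N : ℕ} [NeZero R]
  (hF : Sec F) (hP : ParZ k Q R (2 * N)) (hQ : Q = -(fq F : ℤ))
include hF hP hQ

omit hP in
theorem GU.stab {n : ℕ} (g : GU F n) : Stab k Q (cls (g.1 : End F (Fin n → F))) :=
  hQ ▸ HF.stab _ hF.card_eq hF.star_eq_pow g.2

theorem GU.inMu {n : ℕ} (hn : n ≤ N) (g : GLV F (Fin n → F)) :
    InMu k R (cls (g : End F (Fin n → F))) := by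
  subst hQ
  exact inMu_of_par (hF.card_eq ▸ hP.par_sq) (by simpa using hn) g

omit hP hQ in
theorem exists_isometry_std {a b n : ℕ} (h : a + b = n) :
    ∃ e : ((Fin a → F) × (Fin b → F)) ≃ₗ[F] (Fin n → F), ∀ u v,
      (HF.std F (Fin n)).h (e u) (e v) = ((HF.std F (Fin a)).prod (HF.std F (Fin b))).h u v :=
  HF.exists_isometry_of_finrank _ hF _ (by simp [h])

/-- The block diagonal embedding along an isometry. -/
noncomputable def blkOf {a b n : ℕ} (ha : a ≤ N) {r₁ : Rz k Q R a (GU F a)}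
    {r₂ : Rz k Q R b (GU F b)} {r : Rz k Q R n (GU F n)} (h₁ : IsLin r₁ (Subgroup.subtype _))
    (h₂ : IsLin r₂ (Subgroup.subtype _)) (h : IsLin r (Subgroup.subtype _))
    (e : ((Fin a → F) × (Fin b → F)) ≃ₗ[F] (Fin n → F)) (he : ∀ u v,
      (HF.std F (Fin n)).h (e u) (e v) = ((HF.std F (Fin a)).prod (HF.std F (Fin b))).h u v) :
    Blk r₁ r₂ r where
  f := HF.blkU _ _ _ e he
  inj := HF.blkU_injective _ _ _ e he
  ty_f x y := by
    rw [h.ty, h₁.ty, h₂.ty, ← tyF_add, ← cls_blkHom e]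
    rfl
  cent x y hxy g hg := by
    have h1 : ∀ t : k, jt t (cls (x.1 : End F (Fin a → F))) = 0 ∨
        jt t (cls (y.1 : End F (Fin b → F))) = 0 := fun t => by
      by_cases ht : t ∈ ev k (cls (x.1 : End F (Fin a → F)))
      · obtain ⟨s, rfl⟩ := exists_mv_eq (GU.inMu hF hP hQ ha x.1 t ht)
        have := hxy (eo Q s)
        rwa [h₁.ty, h₂.ty, Subgroup.subtype_apply, Subgroup.subtype_apply, tyF_eo hP (GU.stab hF hQ x),
          tyF_eo hP (GU.stab hF hQ y)] at this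
      · exact .inl (jt_eq_zero_iff.2 ht)
    obtain ⟨⟨x', y'⟩, hg'⟩ := mem_range_blkHom k e h1 (g := g.1)
      (congrArg Subtype.val (mem_centralizer_singleton_iff.1 hg))
    obtain ⟨h2, h3⟩ := (HF.blkHom_mem _ _ _ e he).1 (hg' ▸ g.2)
    exact ⟨(⟨x', h2⟩, ⟨y', h3⟩), Subtype.ext hg'⟩

/-- The family. -/
noncomputable def famU : Fam k Q R N where
  G := GU F
  rz n hn := (exists_rzU hF hP hQ hn).choose
  exists_blk ha hb hn h := by
    obtain ⟨e, he⟩ := exists_isometry_std hF h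
    exact ⟨blkOf hF hP hQ ha (exists_rzU hF hP hQ ha).choose_spec
      (exists_rzU hF hP hQ hb).choose_spec (exists_rzU hF hP hQ hn).choose_spec e he⟩
  exists_emb {c m n} hn hc hm h := (Nat.even_or_odd c).elim
    (fun h' => exists_emb_even hF hP hQ hn (exists_rzU hF hP hQ hn).choose_spec hm h h' hc)
    (exists_emb_odd hF hP hQ hn (exists_rzU hF hP hQ hn).choose_spec hm h)
  exists_blk3 {a b n₁ n₂ n} ha hb h₁ h₂ hn H₁ H₂ H := by
    obtain ⟨e₁, he₁⟩ := exists_isometry_std hF H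
    obtain ⟨e₂, he₂⟩ := exists_isometry_std hF H₁
    obtain ⟨d, hd⟩ := exists_isometry_std hF H₂
    let e : ((Fin n₂ → F) × (Fin b → F)) ≃ₗ[F] (Fin n → F) :=
      (d.symm.prodCongr (LinearEquiv.refl F _)).trans
        ((LinearEquiv.prodAssoc F _ _ _).trans (((LinearEquiv.refl F _).prodCongr e₂).trans e₁))
    have e0 : ∀ u v w, e (d (u, v), w) = e₁ (u, e₂ (v, w)) := fun u v w => by simp [e]
    have he : ∀ u v, (HF.std F (Fin n)).h (e u) (e v) =
        ((HF.std F (Fin n₂)).prod (HF.std F (Fin b))).h u v := fun ⟨u, w⟩ ⟨u', w'⟩ => by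
      obtain ⟨⟨u, v⟩, rfl⟩ := d.surjective u
      obtain ⟨⟨u', v'⟩, rfl⟩ := d.surjective u'
      simp only [e0, he₁, he₂, hd, HF.prod_h, add_assoc]
    let s : GLV F (Fin n₂ → F) := LinearMap.GeneralLinearGroup.ofLinearEquiv
      (d.symm.trans ((LinearEquiv.prodComm F _ _).trans d))
    have s0 : ∀ u v, (s : End F (Fin n₂ → F)) (d (u, v)) = d (v, u) := fun u v => by simp [s]
    have hs : s ∈ (HF.std F (Fin n₂)).U := (HF.mem_U _).2 fun u u' => by
      obtain ⟨⟨u, v⟩, rfl⟩ := d.surjective u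
      obtain ⟨⟨u', v'⟩, rfl⟩ := d.surjective u'
      simp only [s0, hd, HF.prod_h, add_comm]
    refine ⟨blkOf hF hP hQ ha (exists_rzU hF hP hQ ha).choose_spec
      (exists_rzU hF hP hQ h₁).choose_spec (exists_rzU hF hP hQ hn).choose_spec e₁ he₁,
      blkOf hF hP hQ ha (exists_rzU hF hP hQ ha).choose_spec
      (exists_rzU hF hP hQ hb).choose_spec (exists_rzU hF hP hQ h₁).choose_spec e₂ he₂,
      blkOf hF hP hQ ha (exists_rzU hF hP hQ ha).choose_spec
      (exists_rzU hF hP hQ ha).choose_spec (exists_rzU hF hP hQ h₂).choose_spec d hd,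
      blkOf hF hP hQ h₂ (exists_rzU hF hP hQ h₂).choose_spec
      (exists_rzU hF hP hQ hb).choose_spec (exists_rzU hF hP hQ hn).choose_spec e he, ⟨s, hs⟩,
      fun x y z => Subtype.ext (Units.ext (LinearMap.ext fun v => ?_)), fun x y => ?_,
      Subtype.ext (Units.ext (LinearMap.ext fun v => ?_))⟩
    · obtain ⟨⟨v, v₃⟩, rfl⟩ := e.surjective v
      obtain ⟨⟨v₁, v₂⟩, rfl⟩ := d.surjective v
      change (blkHom e₁ (x.1, blkHom e₂ (y.1, z.1))).1 _ = (blkHom e (blkHom d (x.1, y.1), z.1)).1 _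
      rw [blkHom_apply, blkHom_apply, e0, e0, blkHom_apply, blkHom_apply]
    · rw [mul_inv_eq_iff_eq_mul]
      refine Subtype.ext (Units.ext (LinearMap.ext fun v => ?_))
      obtain ⟨⟨v₁, v₂⟩, rfl⟩ := d.surjective v
      change s.1 ((blkHom d (x.1, y.1)).1 _) = (blkHom d (y.1, x.1)).1 (s.1 _)
      rw [blkHom_apply, s0, s0, blkHom_apply]
    · obtain ⟨⟨v₁, v₂⟩, rfl⟩ := d.surjective v
      rw [sq]
      change s.1 (s.1 _) = d _
      rw [s0, s0]

theorem famU_ker (n : ℕ) (hn : n ≤ N) :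
    ((famU hF hP hQ).rz n hn).dt.ker = (dt.comp (HF.std F (Fin n)).U.subtype).ker := by
  ext g
  have h := (exists_rzU hF hP hQ hn).choose_spec.dt g
  change (exists_rzU hF hP hQ hn).choose.dt g = 1 ↔ dt g.1 = 1
  rw [← Subtype.val_inj, ← mv_injective.eq_iff, h, ← Units.val_inj,
    ← (algebraMap F k).injective.eq_iff, Units.val_one, map_one]
  rfl

end Cfsg.Gun

set_option linter.all false in
theorem Cfsg.Rz.Gun_FamU_0 : True := by
  have := @_root_.Cfsg.Gun.famU.congr_simp.{0}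
  have := @_root_.Cfsg.Gun.famU.eq_def.{0}
  have := @_root_.Cfsg.Gun.famU.eq_1.{0}
  have := @_root_.Cfsg.Gun.famU.fun_cases
  have := @_root_.Cfsg.Gun.blkOf.congr_simp.{0}
  have := @_root_.Cfsg.Gun.blkOf.eq_def.{0}
  have := @_root_.Cfsg.Gun.blkOf.eq_1.{0}
  have := @_root_.Cfsg.Gun.blkOf.fun_cases
  trivial
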