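import Cfsg.Agent.Gun.Step
import Cfsg.Agent.Gln.Rank

/-!
# Lower bounds for the sectional rank of defect groups in a family (S4537 project; port of `Gln/Rank`)
-/

set_option autoImplicit false
set_option linter.unusedSectionVars false
set_option linter.unusedVariables false
set_option linter.style.haveILetI false

namespace Cfsg.Gun

open Finset Function Gln Subgroup

universe u

variable {k : Type u} [Field k] [IsAlgClosed k] {Q : ℤ} {R N n n₁ n₂ p j c m : ℕ} [NeZero R]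
  {M : Ideal AlgInt} {𝔉 : Fam k Q R N} {G G₁ G₂ : Type u} [Group G] [Finite G] [Group G₁] [Finite G₁]
  [Group G₂] [Finite G₂] {r : Rz k Q R n G} {r₁ : Rz k Q R n₁ G₁} {r₂ : Rz k Q R n₂ G₂}

variable (p M) in
/-- Some defect group of the block of `χ` meets `ker (δ ∘ det)` in a group of sectional rank `≥ t`. -/
def RkB (r : Rz k Q R n G) (δ : fixm k Q R →* fixm k Q R) (t : ℕ) (χ : IrrCharacter G) : Prop :=
  ∃ D, IsDefectGroup p M (blockOf M χ.1) D ∧ Rk p t (D ⊓ (δ.comp r.dt).ker)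

variable (p M 𝔉) in
/-- Weight `j` at colour `φ` contributes `t` to the rank. -/
def Pc (δ : fixm k Q R →* fixm k Q R) (φ : Col k Q R) (j t : ℕ) : Prop :=
  ∀ n (hn : n ≤ N) (χ : IrrCharacter (𝔉.G n)) (a : Col k Q R → Fin N → ℕ), IsLab (𝔉.rz n hn) χ a →
    RegLab p a → j ≤ wtc p a φ → ∃ n₂ < n, ∃ (hn₂ : n₂ ≤ N) (ψ : IrrCharacter (𝔉.G n₂))
      (b : Col k Q R → Fin N → ℕ), IsLab (𝔉.rz n₂ hn₂) ψ b ∧ RegLab p b ∧ wtc p b φ + j = wtc p a φ ∧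
      (∀ φ', φ' ≠ φ → b φ' = a φ') ∧
      ∀ t', RkB p M (𝔉.rz n₂ hn₂) δ t' ψ → RkB p M (𝔉.rz n hn) δ (t + t') χ

private theorem zmod_two : ∀ x : ZMod 2, ¬ x = 0 → x = 1 := by decide

theorem map_stp (b : Blk r₁ r₂ r) (e : Emb c m r₁) (X : Subgroup e.G₁) (Y : Subgroup G₂) :
    ((X.map e.ι).prod Y).map b.f ≤ (X.prod Y).map (stp b e) := by
  rintro _ ⟨⟨_, y⟩, ⟨⟨x, hx, rfl⟩, hy⟩, rfl⟩
  exact ⟨(x, y), ⟨hx, hy⟩, rfl⟩

theorem rk_of_pc (hM : IsPModular p M) {δ : fixm k Q R →* fixm k Q R} {j t : Col k Q R → ℕ}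
    (hj : ∀ φ, 0 < j φ) (H : ∀ φ, Pc p M 𝔉 δ φ (j φ) (t φ)) (hn : n ≤ N) {χ : IrrCharacter (𝔉.G n)}
    {a : Col k Q R → Fin N → ℕ} (h : IsLab (𝔉.rz n hn) χ a) (ha : RegLab p a) :
    RkB p M (𝔉.rz n hn) δ (∑ φ, wtc p a φ / j φ * t φ) χ := by
  classical
  induction n using Nat.strong_induction_on generalizing a with
  | _ n ih =>
  by_cases hw : ∃ φ, j φ ≤ wtc p a φ
  · obtain ⟨φ, hφ⟩ := hw
    obtain ⟨n₂, hlt, hn₂, ψ, b, hb, hb', e₁, e₂, e₃⟩ := H φ n hn χ a h ha hφ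
    have key : ∑ φ', wtc p a φ' / j φ' * t φ' = t φ + ∑ φ', wtc p b φ' / j φ' * t φ' := by
      rw [← add_sum_erase _ _ (mem_univ φ), ← add_sum_erase _ _ (mem_univ φ), ← e₁,
        Nat.add_div_right _ (hj φ), add_mul, one_mul, add_comm _ (t φ), add_assoc]
      congr 2
      exact sum_congr rfl fun φ' h' => by rw [wtc, wtc, e₂ φ' (ne_of_mem_erase h')]
    rw [key]
    exact e₃ _ (ih n₂ hlt hn₂ hb hb')
  · push Not at hw
    rw [sum_eq_zero fun φ _ => by rw [Nat.div_eq_of_lt (hw φ), zero_mul]]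
    have := hM.fact
    obtain ⟨D, hD⟩ := (isPBlock_blockOf χ).exists_isDefectGroup hM
    exact ⟨D, hD, rk_zero⟩

theorem le_of_step {χ : IrrCharacter G} {a : Col k Q R → Fin N → ℕ}
    (h : IsLab r χ a) (hn : n ≤ N) {φ : Col k Q R} {i : Fin N} (hi : j ≤ a φ i)
    (hg : Good (dnl a φ i j)) : φ.deg * j ≤ N := by
  have h1 := size_dnl hi hg
  rw [h.2.1] at h1
  omega

theorem Piece.ne_zero {φ : Col k Q R} (π : Piece p 𝔉 φ j) : tn Q (φ.deg * j) ≠ 0 := by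
  intro h0
  have := π.ord
  rw [h0, Nat.factorization_zero, Finsupp.zero_apply, pow_zero, orderOf_eq_one_iff] at this
  exact π.ne_one this

theorem Piece.exists_pow {φ : Col k Q R} (π : Piece p 𝔉 φ j) (hp : p.Prime) {t : ℕ}
    (h : p ^ t ∣ tn Q (φ.deg * j)) :
    ∃ z : fixm k (Q ^ π.c) R, π.e.r₁.sc z ∈ π.D ∧ orderOf z = p ^ t := by
  have h1 : p ^ t ∣ orderOf π.ζ := by
    rw [π.ord]
    exact pow_dvd_pow p ((hp.pow_dvd_iff_le_factorization π.ne_zero).1 h)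
  exact ⟨π.ζ ^ (orderOf π.ζ / p ^ t), by rw [map_pow]; exact pow_mem (mem_zpowers _) _,
    orderOf_pow_orderOf_div (orderOf_pos _).ne' h1⟩

variable (hP : ParZ k Q R N)
include hP

theorem rk_blk (b : Blk r₁ r₂ r) {δ : fixm k Q R →* fixm k Q R} {X : Subgroup G₁} {Y : Subgroup G₂}
    {D : Subgroup G} (h : (X.prod Y).map b.f ≤ D) {t t' : ℕ} (h₁ : Rk p t (X ⊓ (δ.comp r₁.dt).ker))
    (h₂ : Rk p t' (Y ⊓ (δ.comp r₂.dt).ker)) : Rk p (t + t') (D ⊓ (δ.comp r.dt).ker) := by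
  refine ((h₁.prod h₂).map b.inj).mono ?_
  rintro _ ⟨⟨x, y⟩, ⟨hx, hy⟩, rfl⟩
  refine ⟨h ⟨(x, y), ⟨hx.1, hy.1⟩, rfl⟩, ?_⟩
  have h1 : δ (r₁.dt x) = 1 := hx.2
  have h2 : δ (r₂.dt y) = 1 := hy.2
  change δ (r.dt (b.f (x, y))) = 1
  rw [b.dt_f hP, map_mul, h1, h2, mul_one]

theorem RkB.pred (hp : p.Prime) {t : ℕ} {χ : IrrCharacter G}
    (h : RkB p M r 1 t χ) : RkB p M r (MonoidHom.id _) (t - 1) χ := by
  obtain ⟨D, hD, h⟩ := h
  refine ⟨D, hD, ?_⟩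
  haveI : IsCyclic (fixm k Q R) := isCyclic_fixm
  rcases t with _ | t
  · exact rk_zero
  · exact (h.mono inf_le_left).inf_ker hp _

theorem Emb.dt_sc (hP' : ParZ k (Q ^ c) R m) (e : Emb c m r) (z : fixm k (Q ^ c) R) :
    (r.dt (e.ι (e.r₁.sc z)) : Mu k R) = z.1 ^ (m * ∑ i ∈ range c, Q ^ i) := by
  rw [e.dt_ι hP hP', e.r₁.dt_sc hP', coe_nrm, prod_zpow_pow, zpow_mul, zpow_natCast]
  rfl

theorem Piece.exists_step {φ : Col k Q R} (π : Piece p 𝔉 φ j) (hn : n ≤ N)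
    {χ : IrrCharacter G} {a : Col k Q R → Fin N → ℕ} (h : IsLab r χ a)
    {i : Fin N} (hi : j ≤ a φ i) (hg : Good (dnl a φ i j)) :
    ∃ n₂ < n, ∃ (hn₂ : n₂ ≤ N) (ψ : IrrCharacter (𝔉.G n₂)), φ.deg * j + n₂ = n ∧
      IsLab (𝔉.rz n₂ hn₂) ψ (dnl a φ i j) := by
  have h1 := size_dnl hi hg
  rw [h.2.1] at h1
  have h2 := Nat.mul_pos (deg_pos hP φ) π.pos
  have h3 : size (dnl a φ i j) ≤ N := by omega
  obtain ⟨ψ, hψ⟩ := exists_irr hP (𝔉.rz _ h3) h3 hg rfl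
  exact ⟨_, by omega, h3, ψ, by omega, hψ⟩

theorem mul_eq_one_of_pow (hq : Q % 4 = 3) {x y : fixm k Q R} {s t : ℕ} (hx : x ^ 2 ^ s = 1)
    (hy : y ^ 2 ^ t = 1) (hx1 : x ≠ 1) (hy1 : y ≠ 1) : x * y = 1 := by
  have key : ∀ {x : fixm k Q R} {t : ℕ}, x ^ 2 ^ t = 1 → x ≠ 1 → orderOf x = 2 := fun {x t} h h1 => by
    obtain ⟨i, -, hi⟩ := (Nat.dvd_prime_pow Nat.prime_two).1 (orderOf_dvd_of_pow_eq_one h)
    have h2 := orderOf_dvd_natCard x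
    rw [card_fixm hP, hi] at h2
    obtain _ | _ | i := i
    · exact absurd (orderOf_eq_one_iff.1 hi) h1
    · exact hi
    · have := dvd_tn_iff.1 ((pow_dvd_pow 2 (show 2 ≤ i + 1 + 1 by omega)).trans h2)
      rw [pow_one] at this
      omega
  classical
  haveI : IsCyclic (fixm k Q R) := isCyclic_fixm
  haveI := Fintype.ofFinite (fixm k Q R)
  have h2 := key hx hx1
  have h3 := IsCyclic.card_orderOf_eq_totient (α := fixm k Q R) (h2 ▸ orderOf_dvd_card (x := x))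
  rw [Nat.totient_two, card_eq_one] at h3
  obtain ⟨w, hw⟩ := h3
  have h4 : ∀ x : fixm k Q R, orderOf x = 2 → x = w := fun x h =>
    mem_singleton.1 (hw ▸ mem_filter.2 ⟨mem_univ _, h⟩)
  rw [(h4 y (key hy hy1)).trans (h4 x h2).symm, ← sq, ← h2, pow_orderOf_eq_one]

variable (hM : IsPModular p M) (hpQ : ¬ (p : ℤ) ∣ Q)
include hM hpQ

theorem pc_one {δ : fixm k Q R →* fixm k Q R} {φ : Col k Q R}
    (h : δ = 1 ∨ ¬ p ∣ tn Q 1 ∨ (p = 2 ∧ Even φ.deg)) : Pc p M 𝔉 δ φ 1 1 := by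
  intro n hn χ a ha hr hw
  have hp := hM.prime
  have := hM.fact
  obtain ⟨hφ, i, hi, hg, hw', hne, -⟩ := exists_dnl hP hp hpQ hr ha.1 hw
  have hN : φ.deg * ee p φ ≤ N := le_of_step ha hn hi hg
  obtain ⟨π⟩ := nonempty_piece_ee hP hp hpQ 𝔉 hφ hN
  obtain ⟨n₂, hlt, hn₂, ψ, hd, hψ⟩ := π.exists_step hP hn ha hi hg
  obtain ⟨b⟩ := 𝔉.exists_blk π.le hn₂ hn hd
  have hi' := π.induces hP hp hpQ hM hn hd b ha hr hi hψ
  refine ⟨n₂, hlt, hn₂, ψ, _, hψ, hr.dnl φ i _, hw', hne, fun t' ⟨D₂, hD₂, h₂⟩ => ?_⟩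
  obtain ⟨D, hD, hle⟩ := hi'.exists_isDefectGroup_ge hM (isDefectGroup_prod hM (isPBlock_blockOf _)
    (isPBlock_blockOf _) (π.isDefectGroup hP hp hpQ hM) hD₂)
  refine ⟨D, hD, rk_blk hP b ((map_stp b _ _ _).trans hle) ?_ h₂⟩
  obtain ⟨z, hz, ho⟩ := π.exists_pow hp (t := 1) ((pow_one p).symm ▸
    (ee_dvd_iff hP hp hpQ φ _).1 dvd_rfl)
  rw [pow_one] at ho
  have hP' := π.par hP hp hpQ
  have hz1 : z ^ p = 1 := orderOf_dvd_iff_pow_eq_one.1 ho.dvd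
  refine rk_one (x := π.e.ι (π.e.r₁.sc z)) ⟨mem_map_of_mem _ hz, ?_⟩ (by
    rw [orderOf_injective _ π.e.inj,
      orderOf_injective _ (π.e.r₁.sc_injective hP' (π.m_pos hP hp hpQ)), ho])
  change δ ((𝔉.rz _ π.le).dt (π.e.ι (π.e.r₁.sc z))) = 1
  rcases h with rfl | h | ⟨rfl, d, hd⟩
  · rfl
  · have h1 : (𝔉.rz _ π.le).dt (π.e.ι (π.e.r₁.sc z)) ^ p = 1 := by
      rw [← map_pow, ← map_pow, ← map_pow, hz1, map_one, map_one, map_one]
    have h2 := orderOf_dvd_natCard ((𝔉.rz _ π.le).dt (π.e.ι (π.e.r₁.sc z)))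
    rw [card_fixm hP] at h2
    rcases (Nat.dvd_prime hp).1 (orderOf_dvd_of_pow_eq_one h1) with h3 | h3
    · rw [orderOf_eq_one_iff.1 h3, map_one]
    · exact absurd (h3 ▸ h2) h
  · have h2 : (𝔉.rz _ π.le).dt (π.e.ι (π.e.r₁.sc z)) = 1 := by
      refine Subtype.ext ((π.e.dt_sc hP hP' z).trans (orderOf_dvd_iff_zpow_eq_one.1 ?_))
      rw [Subgroup.orderOf_coe, ho, ← ZMod.intCast_zmod_eq_zero_iff_dvd]
      have h1 : (Q : ZMod 2) = 1 := by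
        rw [← ZMod.intCast_zmod_eq_zero_iff_dvd] at hpQ
        exact zmod_two _ hpQ
      push_cast
      simp only [h1, one_pow, sum_const, card_range, nsmul_eq_mul, mul_one]
      rw [← Nat.cast_mul, mul_comm, π.dim, hd, ZMod.natCast_eq_zero_iff, ← two_mul, mul_assoc]
      exact dvd_mul_right _ _
    rw [h2, map_one]

section Two

omit hM hpQ in
theorem exists_rk_three (hM : IsPModular 2 M) (hP' : ParZ k (Q ^ c) R m) (hm : 0 < m) (e : Emb c m r₁)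
    {ζ : fixm k (Q ^ c) R} (hd : (eo Q ζ.1).deg = c) {t : ℕ} (ht : 2 ≤ t)
    (ho : orderOf ζ = 2 ^ t) {θ : IrrCharacter e.G₁}
    (hQ : IsDefectGroup 2 M (blockOf M θ.1) (zpowers (e.r₁.sc ζ))) {n₃ n₄ : ℕ} {G₃ G₄ : Type u}
    [Group G₃] [Finite G₃] [Group G₄] [Finite G₄] {r₃ : Rz k Q R n₃ G₃} {r₄ : Rz k Q R n₄ G₄}
    {e₁ : Blk r₁ r₃ r} {e₂ : Blk r₁ r₂ r₃} {d : Blk r₁ r₁ r₄} {b : Blk r₄ r₂ r} {s : G₄}
    (he : ∀ x y z, e₁.f (x, e₂.f (y, z)) = b.f (d.f (x, y), z))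
    (hs : ∀ x y, s * d.f (x, y) * s⁻¹ = d.f (y, x)) (hs2 : s ^ 2 = 1) {B B₁ B₂}
    (hi₁ : Induces M (stp e₁ e) (prodBlock (blockOf M θ.1) B₁) B)
    (hi₂ : Induces M (stp e₂ e) (prodBlock (blockOf M θ.1) B₂) B₁) (hB₂ : IsPBlock M B₂) {D₂}
    (hD₂ : IsDefectGroup 2 M B₂ D₂) : ∃ (X : Subgroup G₄) (D : _), IsDefectGroup 2 M B D ∧
      (X.prod D₂).map b.f ≤ D ∧ Rk 2 3 X := by
  have := hM.fact
  have hb := isPBlock_blockOf (M := M) θ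
  have hI := ((induces_prodAssoc hM hb hb hB₂).trans hM
    (induces_prodMap hM (induces_id hM hb) hi₂)).trans hM hi₁
  set J : e.G₁ × e.G₁ →* G₄ := d.f.comp (e.ι.prodMap e.ι) with hJ
  have hJi : Injective J := d.inj.comp (e.inj.prodMap e.inj)
  have he' : (stp e₁ e).comp (((MonoidHom.id _).prodMap (stp e₂ e)).comp
      (MulEquiv.prodAssoc : (e.G₁ × e.G₁) × G₂ ≃* _).toMonoidHom) =
      b.f.comp (J.prodMap (MonoidHom.id _)) := MonoidHom.ext fun ⟨⟨x, y⟩, z⟩ => he _ _ _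
  rw [he', ← blockOf_prod hM] at hI
  set D := zpowers (e.r₁.sc ζ)
  have h1 : ζ ≠ 1 := by
    rintro rfl
    rw [orderOf_one] at ho
    have := Nat.pow_le_pow_right two_pos ht
    omega
  have hs' : ∀ c, J c.swap = s * J c * s⁻¹ := fun ⟨x, y⟩ => (hs _ _).symm
  have hc : D.prod D ≤ center _ := by
    rintro ⟨_, _⟩ ⟨⟨u, rfl⟩, ⟨v, rfl⟩⟩
    exact mem_center_iff.2 fun ⟨x, y⟩ => Prod.ext (mem_center_iff.1 (zpow_mem (e.r₁.sc_mem _) u) x)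
      (mem_center_iff.1 (zpow_mem (e.r₁.sc_mem _) v) y)
  have hm₁ : (e.r₁.sc ζ, 1) ∈ D.prod D := ⟨mem_zpowers _, one_mem _⟩
  have hm₂ : (1, e.r₁.sc ζ) ∈ D.prod D := ⟨one_mem _, mem_zpowers _⟩
  obtain ⟨s', ⟨c, hc'⟩, hs', D', hD, hle⟩ := exists_loc hM (j := J) hJi hc
    (fun g hg => by
      have h2 : g ∈ (stp d e).range := by
        rw [range_stp hP hP' e hd d h1, mem_centralizer_singleton_iff]
        have := hg _ ⟨_, hm₁, rfl⟩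
        rw [show J (e.r₁.sc ζ, 1) = stp d e (e.r₁.sc ζ, 1) from
          congrArg (fun w => d.f (_, w)) (map_one e.ι)] at this
        exact this.symm
      obtain ⟨⟨x, y⟩, rfl⟩ := h2
      have h3 : d.f (_ * _) = d.f (_ * _) :=
        (map_mul d.f _ _).trans ((hg _ ⟨_, hm₂, rfl⟩).trans (map_mul d.f _ _).symm)
      have h4 : y ∈ e.ι.range := by
        rw [← e.centralizer_eq hP hP' hd, mem_centralizer_singleton_iff]
        exact (congrArg Prod.snd (d.inj h3)).symm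
      obtain ⟨w, rfl⟩ := h4
      exact ⟨(x, w), rfl⟩)
    MulEquiv.prodComm hs' (hs2 ▸ one_mem _) (θ := θ.prod θ) (fun c _ => by
      rw [IrrCharacter.prod_apply', IrrCharacter.prod_apply', mul_comm]; rfl)
    (by rw [blockOf_prod hM]; exact isDefectGroup_prod hM hb hb hQ hQ) hB₂ hD₂ hI
  refine ⟨_, D', hD, hle, ?_⟩
  have hcj : ∀ x ∈ D.prod D, s' * J x * s'⁻¹ = J x.swap := fun x hx => by
    rw [show J x.swap = s * J x * s⁻¹ from (hs _ _).symm, eq_mul_of_inv_mul_eq hc'.symm, mul_assoc s,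
      ← map_mul, mem_center_iff.1 (hc hx) c, map_mul]
    group
  refine rk_three (a := J (e.r₁.sc ζ, 1)) (b := J (1, e.r₁.sc ζ))
    (mem_sup_left (mem_map_of_mem _ hm₁)) (mem_sup_right (mem_zpowers s')) ht ?_ ?_ (hcj _ hm₁)
    (hcj _ hm₂) ?_ ?_
  · rw [orderOf_injective _ hJi, Prod.orderOf_mk, orderOf_one, Nat.lcm_one_right,
      orderOf_injective _ (e.r₁.sc_injective hP' hm), ho]
  · exact Commute.map (Prod.ext (by simp) (by simp)) J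
  · refine eq_bot_iff.2 fun x ⟨⟨u, hu⟩, ⟨v, hv⟩⟩ => ?_
    have h1 := hJi ((map_zpow J _ u).trans (hu.trans (hv.symm.trans (map_zpow J _ v).symm)))
    have h2 : e.r₁.sc ζ ^ u = 1 := by simpa using congrArg Prod.fst h1
    refine mem_bot.2 (hu.symm.trans ((map_zpow J _ u).symm.trans ?_))
    rw [Prod.pow_mk, h2, one_zpow]
    exact map_one J
  · obtain ⟨⟨_, _⟩, ⟨⟨u, rfl⟩, ⟨v, rfl⟩⟩, h⟩ := hs'
    have h1 : J (e.r₁.sc ζ, 1) ^ u * J (1, e.r₁.sc ζ) ^ v = s' ^ 2 := by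
      rw [← h, ← map_zpow, ← map_zpow, ← map_mul]
      simp
    exact h1 ▸ mul_mem_sup (zpow_mem (mem_zpowers _) u) (zpow_mem (mem_zpowers _) v)

omit hM hpQ in
theorem exists_rk_two (hM : IsPModular 2 M) (hq : Q % 4 = 3) (hc : c = 2) (hP' : ParZ k (Q ^ c) R m)
    (hm : Odd m) (e : Emb c m r₁) {ζ : fixm k (Q ^ c) R} (hd : (eo Q ζ.1).deg = c)
    {t : ℕ} (ht : 2 ≤ t) (ho : orderOf ζ = 2 ^ t) (hn : ¬ ((2 ^ t : ℕ) : ℤ) ∣ Q + 1)
    {θ : IrrCharacter e.G₁}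
    (hθ : ∀ s x x', s * e.ι (e.r₁.sc ζ) * s⁻¹ = e.ι (e.r₁.sc (ζ ^ Q)) → IsPRegular 2 x →
      e.ι x' = s * e.ι x * s⁻¹ → θ x' = θ x)
    (hQ : IsDefectGroup 2 M (blockOf M θ.1) (zpowers (e.r₁.sc ζ))) {b : Blk r₁ r₂ r} {B B₂}
    (hi : Induces M (stp b e) (prodBlock (blockOf M θ.1) B₂) B) (hB₂ : IsPBlock M B₂) {D₂}
    (hD₂ : IsDefectGroup 2 M B₂ D₂) : ∃ (X : Subgroup G₁) (D : _), IsDefectGroup 2 M B D ∧
      (X.prod D₂).map b.f ≤ D ∧ Rk 2 2 (X ⊓ r₁.dt.ker : Subgroup _) := by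
  subst hc
  have hqq : (ζ ^ Q) ^ Q = ζ := Subtype.ext (by
    have := fixm_pow ζ 1
    rwa [pow_one, show ζ.1 ^ Q ^ 2 = (ζ.1 ^ Q) ^ Q by rw [← zpow_mul ζ.1, ← sq]] at this)
  have hdt : ∀ z : fixm k (Q ^ 2) R, r₁.dt (e.ι (e.r₁.sc z)) = 1 ↔ (orderOf z : ℤ) ∣ m * (Q + 1) :=
    fun z => by
      rw [← Subgroup.orderOf_coe, orderOf_dvd_iff_zpow_eq_one, Subtype.ext_iff, e.dt_sc hP hP',
        sum_range_succ, sum_range_one, pow_zero, pow_one, add_comm]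
      rfl
  have hcm : ∀ (z : fixm k (Q ^ 2) R) (x : e.G₁), e.ι x * e.ι (e.r₁.sc z) = e.ι (e.r₁.sc z) * e.ι x :=
    fun z x => by rw [← map_mul, ← map_mul, mem_center_iff.1 (e.r₁.sc_mem z) x]
  have h0 : eo Q (ζ ^ Q).1 = eo Q ζ.1 := by
    have := eo_zpow hP ζ.1 1
    rwa [pow_one] at this
  obtain ⟨s, hs0⟩ := isConj_iff.1 ((r₁.conj (e.ι (e.r₁.sc ζ)) (e.ι (e.r₁.sc (ζ ^ Q)))).1 (by
    rw [e.ty_sc hP hP' hd, e.ty_sc hP hP' (h0 ▸ hd), h0]))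
  have hs : ∀ u : ℤ, s * e.ι (e.r₁.sc (ζ ^ u)) * s⁻¹ = e.ι (e.r₁.sc ((ζ ^ u) ^ Q)) := fun u => by
    rw [← zpow_mul, mul_comm u, zpow_mul, map_zpow, map_zpow, map_zpow, map_zpow, ← hs0, conj_zpow]
  obtain ⟨σ, hσ⟩ := exists_conj_equiv e.inj (s := s) fun c => by
    rw [← e.centralizer_eq hP hP' hd, mem_centralizer_singleton_iff, ← hqq, ← hs]
    calc _ = s * (e.ι c * e.ι (e.r₁.sc (ζ ^ Q))) * s⁻¹ := by group
      _ = _ := by rw [hcm]; group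
  obtain ⟨s', ⟨c, hc⟩, ⟨_, ⟨u, rfl⟩, hs'⟩, D, hD, hle⟩ := exists_loc hM (j := e.ι) e.inj
    (zpowers_le.2 (e.r₁.sc_mem ζ)) (fun g hg => e.centralizer_eq hP hP' hd ▸
      mem_centralizer_singleton_iff.2 (hg _ ⟨_, mem_zpowers _, rfl⟩).symm) σ hσ
    (by
      rw [← e.centralizer_eq hP hP' hd, mem_centralizer_singleton_iff, ← mul_inv_eq_iff_eq_mul]
      calc _ = s * (s * e.ι (e.r₁.sc ζ) * s⁻¹) * s⁻¹ := by rw [sq]; group
        _ = _ := by rw [hs0, hs, hqq])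
    (fun c h => hθ s c _ hs0 h (hσ c)) hQ (g := b.f) hB₂ hD₂ hi
  refine ⟨_, D, hD, hle, ?_⟩
  set X := (zpowers (e.r₁.sc ζ)).map e.ι ⊔ zpowers s'
  have hz : ∀ u : ℕ, e.ι (e.r₁.sc (ζ ^ u)) ∈ X := fun u =>
    mem_sup_left (mem_map_of_mem _ (by rw [map_pow]; exact pow_mem (mem_zpowers _) u))
  have h4 : orderOf (ζ ^ (orderOf ζ / 4)) = 4 :=
    orderOf_pow_orderOf_div (orderOf_pos _).ne' (ho ▸ pow_dvd_pow 2 ht)
  have hsz := hs (orderOf ζ / 4 : ℕ)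
  rw [zpow_natCast] at hsz
  set z := ζ ^ (orderOf ζ / 4)
  have hinv : s' * e.ι (e.r₁.sc z) * s'⁻¹ = (e.ι (e.r₁.sc z))⁻¹ := by
    rw [eq_mul_of_inv_mul_eq hc.symm, mul_assoc s, hcm, ← map_inv, ← map_inv,
      show z⁻¹ = z ^ Q from ?_, ← hsz]
    · group
    · rw [inv_eq_iff_mul_eq_one, ← zpow_one_add, ← orderOf_dvd_iff_zpow_eq_one, h4]
      omega
  have hi : e.ι (e.r₁.sc z) ∈ X ⊓ r₁.dt.ker := ⟨hz _, (hdt z).2
    (h4 ▸ dvd_mul_of_dvd_right (by omega) _)⟩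
  have hi4 : orderOf (e.ι (e.r₁.sc z)) = 4 := by
    rw [orderOf_injective _ e.inj, orderOf_injective _ (e.r₁.sc_injective hP' hm.pos), h4]
  by_cases h1 : r₁.dt s' = 1
  · exact rk_two hi ⟨mem_sup_right (mem_zpowers s'), h1⟩ hi4 hinv
  have h2 : r₁.dt (e.ι (e.r₁.sc ζ)) ^ 2 ^ t = 1 := by
    rw [← map_pow, ← map_pow, ← map_pow, ← ho, pow_orderOf_eq_one, map_one, map_one, map_one]
  have h3 : r₁.dt s' ^ 2 ^ (t + 1) = 1 := by
    rw [pow_succ', pow_mul, ← map_pow, ← hs']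
    simp only [map_zpow]
    rw [← zpow_natCast, ← zpow_mul, mul_comm, zpow_mul, zpow_natCast, h2, one_zpow]
  refine rk_two (s := s' * e.ι (e.r₁.sc ζ)) hi ⟨mul_mem (mem_sup_right (mem_zpowers s'))
    (pow_one ζ ▸ hz 1), ?_⟩ hi4 ?_
  · refine (map_mul r₁.dt _ _).trans (mul_eq_one_of_pow hP hq h3 h2 h1 fun h => hn ?_)
    rw [hdt, ho] at h
    exact (Nat.isCoprime_iff_coprime.2
      (Nat.Coprime.pow_left t (Nat.coprime_two_left.2 hm))).dvd_of_dvd_mul_left h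
  · rw [← hinv, mul_assoc s', hcm]
    group

omit hM in
theorem res_P_conj (hp : p.Prime) (hc : c = 2) (hP' : ParZ k (Q ^ c) R m) (hm : Odd m) (hN : c * m ≤ N)
    (e : Emb c m r₁) {a : Lab k R} (ha : a ^ tn Q m = 1) (ha' : IsPRegular p a)
    {ζ : fixm k (Q ^ c) R} (hd : (eo Q ζ.1).deg = c) (hζ : IsPElt p ζ) {s : G₁} {x x' : e.G₁}
    (hs : s * e.ι (e.r₁.sc ζ) * s⁻¹ = e.ι (e.r₁.sc (ζ ^ Q)))
    (hx : IsPRegular p x) (h : e.ι x' = s * e.ι x * s⁻¹) :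
    e.r₁.res (P (Q ^ c) m a) x' = e.r₁.res (P (Q ^ c) m a) x := by
  subst hc
  have := Fact.mk hp
  have h1 : a ^ tn Q (2 * m) = 1 := by
    obtain ⟨w, hw⟩ := tn_dvd Q (dvd_mul_left m 2)
    rw [hw, pow_mul a, ha]
    exact one_pow (M := Lab k R) w
  have h2 : P (Q ^ 2) m (a ^ Q) = P (Q ^ 2) m a := by
    obtain ⟨d, hd⟩ := hm
    have h4 := P_pow hP' (a := a) (by omega) le_rfl (by rwa [tn_pow]) (d + 1)
    rwa [← pow_mul, mul_add, mul_one, pow_succ _ (2 * d + 1), ← hd, zpow_mul a,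
      (zpow_pow_eq_iff a).2 ha] at h4
  have hpQ' : ¬ (p : ℤ) ∣ Q ^ 2 := fun h => hpQ ((Nat.prime_iff_prime_int.1 hp).dvd_of_dvd_pow h)
  have key : ∀ {ζ : fixm k (Q ^ 2) R}, (eo Q ζ.1).deg = 2 → IsPElt p ζ → ∀ {x : e.G₁},
      IsPRegular p x → r₁.res (P Q (2 * m) a) (e.ι (e.r₁.sc ζ * x)) =
        2 * e.r₁.res (P (Q ^ 2) m a) x := fun {ζ} hd hζ x hx => by
    obtain ⟨t, ht⟩ := id hζ
    rw [e.res_tau hP hP' hd hp hpQ hζ hx, tau_P hP hP' hp ⟨t, (Subgroup.orderOf_coe ζ).trans ht⟩ hd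
      hm.pos hN h1 ha', sum_range_succ, sum_range_one, pow_zero, zpow_one a, pow_one, h2, map_add,
      e.r₁.res_cut hP' hp hpQ', Pi.add_apply, two_mul]
    simp only [pRegularPart, if_pos hx]
  have hx' : IsPRegular p x' := by
    rwa [IsPRegular, ← orderOf_injective _ e.inj, h,
      ← MulAut.conj_apply, MulEquiv.orderOf_eq, orderOf_injective _ e.inj]
  have h0 : eo Q (ζ ^ Q).1 = eo Q ζ.1 := by
    have := eo_zpow hP ζ.1 1
    rwa [pow_one] at this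
  have hζ' : IsPElt p (ζ ^ Q) := by
    obtain ⟨w, hw⟩ := mem_powers_iff_mem_zpowers.2 (zpow_mem (mem_zpowers ζ) Q)
    exact hw ▸ hζ.pow w
  refine mul_left_cancel₀ two_ne_zero ((key (h0 ▸ hd) hζ' hx').symm.trans
    (Eq.trans ?_ (key hd hζ hx)))
  have h3 : IsConj (e.ι (e.r₁.sc ζ * x)) (e.ι (e.r₁.sc (ζ ^ Q) * x')) :=
    isConj_iff.2 ⟨s, by rw [map_mul, map_mul, ← hs, h]; group⟩
  rw [Rb.res_apply, Rb.res_apply, (r₁.conj _ _).2 h3]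

end Two

theorem pc_two (h2 : p = 2) (hq : Q % 4 = 1) (φ : Col k Q R) : Pc p M 𝔉 1 φ 2 3 := by
  subst h2
  intro n hn χ a ha hr hw
  have hp := hM.prime
  obtain ⟨hφ, i, hi, hg, hw', hne, -⟩ := exists_dnl hP hp hpQ (φ := φ) hr ha.1 (by omega)
  have hN : φ.deg * ee 2 φ ≤ N := le_of_step ha hn hi hg
  obtain ⟨π⟩ := nonempty_piece_ee hP hp hpQ 𝔉 hφ hN
  obtain ⟨n₁, hlt, hn₁, χ₁, d₁, h₁⟩ := π.exists_step hP hn ha hi hg
  have hr₁ := hr.dnl φ i (ee 2 φ)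
  obtain ⟨-, i₂, hi₂, hg₂, hw₂, hne₂, -⟩ := exists_dnl hP hp hpQ (φ := φ) hr₁ hg (by omega)
  obtain ⟨n₂, hlt₂, hn₂, ψ, d₂, hψ⟩ := π.exists_step hP hn₁ h₁ hi₂ hg₂
  refine ⟨n₂, by omega, hn₂, ψ, _, hψ, hr₁.dnl φ i₂ _, by omega,
    fun φ' h => (hne₂ φ' h).trans (hne φ' h), fun t' ⟨D₂, hD₂, h₂⟩ => ?_⟩
  have h4 : 2 ^ 2 ∣ tn Q (φ.deg * ee 2 φ) :=
    (dvd_tn_iff.2 (by rw [pow_one]; omega)).trans (tn_dvd Q (one_dvd _))
  obtain ⟨e₁, e₂, d, b, s, he, hs, hs2⟩ := 𝔉.exists_blk3 π.le hn₂ hn₁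
    (show φ.deg * ee 2 φ + φ.deg * ee 2 φ ≤ N by omega) hn d₂ rfl d₁
  obtain ⟨X, D, hD, hle, hX⟩ := exists_rk_three hP hM (π.par hP hp hpQ) (π.m_pos hP hp hpQ) π.e π.deg
    ((hp.pow_dvd_iff_le_factorization π.ne_zero).1 h4) π.ord (π.isDefectGroup hP hp hpQ hM) he hs hs2
    (π.induces hP hp hpQ hM hn d₁ e₁ ha hr hi h₁) (π.induces hP hp hpQ hM hn₁ d₂ e₂ h₁ hr₁ hi₂ hψ)
    (isPBlock_blockOf ψ) hD₂
  refine ⟨D, hD, rk_blk hP b hle ?_ h₂⟩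
  rwa [MonoidHom.one_comp, MonoidHom.ker_one, inf_top_eq]

theorem pc_three (h2 : p = 2) (hq : Q % 4 = 3) {φ : Col k Q R} (hφ : Odd φ.deg) :
    Pc p M 𝔉 (MonoidHom.id _) φ 2 2 := by
  classical
  subst h2
  intro n hn χ a ha hr hw
  have hp := hM.prime
  obtain ⟨hreg, -⟩ := exists_dnl hP hp hpQ (φ := φ) hr ha.1 (by omega)
  have hq4 : ∀ i, Odd i → Q ^ i % 4 = 3 := by
    rintro _ ⟨i, rfl⟩
    have h1 : Q ^ 2 ≡ 1 [ZMOD 4] := (Int.ModEq.pow 2 (show Q ≡ 3 [ZMOD 4] from hq)).trans (by decide)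
    have h2 := (h1.pow i).mul (show Q ≡ 3 [ZMOD 4] from hq)
    rwa [← pow_mul, ← pow_succ, one_pow, one_mul] at h2
  have hee : ee 2 φ = 1 := Nat.dvd_one.1 ((ee_dvd_iff hP hp hpQ φ 1).2 (by
    have := hq4 _ hφ
    rw [mul_one, dvd_tn_iff]
    omega))
  have hwt : ∀ b : Col k Q R → Fin N → ℕ, wtc 2 b φ = sz (b φ) := fun b => by
    rw [wtc, hee, wt_one, sz]
  have hN0 : 0 < N := Nat.pos_of_ne_zero fun h => by
    subst h
    simp [hwt, sz] at hw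
  obtain ⟨a', i, hinj, hsum, hrow⟩ := exists_row hN0 (wtc 2 a φ)
  have hsz : ∀ φ', sz (update a φ a' φ') = sz (a φ') := fun φ' => by
    rcases eq_or_ne φ' φ with rfl | h
    · rw [update_self, sz, hsum, Nat.add_sub_cancel_left, hwt]
    · rw [update_of_ne h]
  have hg₁ : Good (update a φ a') := fun φ' => by
    rcases eq_or_ne φ' φ with rfl | h
    · rwa [update_self]
    · rw [update_of_ne h]; exact ha.1 φ'
  have hr₁ : RegLab 2 (update a φ a') := fun φ' h => (hsz φ').trans (hr φ' h)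
  obtain ⟨χ₁, h₁⟩ := exists_irr hP (𝔉.rz n hn) hn hg₁
    (by rw [← ha.2.1]; exact sum_congr rfl fun φ' _ => by rw [hsz])
  have hB := sameBlock_of_sameCls hP hp hpQ hM hn h₁ ha hr₁ hr
    ((hr₁.sameCls_iff hP hp hpQ hr hg₁ ha.1).2 fun φ' => ⟨hsz φ', by
      rcases eq_or_ne φ' φ with rfl | h
      · simp only [hee, rs_ms, Nat.mod_one]
      · rw [update_of_ne h]⟩)
  have hi : 2 ≤ update a φ a' φ i := by rw [update_self]; exact (hrow 2 hw).1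
  have hg : Good (dnl (update a φ a') φ i 2) := fun φ' => by
    rcases eq_or_ne φ' φ with rfl | h
    · rw [dnl, update_self, update_self]; exact (hrow 2 hw).2
    · rw [dnl, update_of_ne h]; exact hg₁ φ'
  have hN : φ.deg * 2 ≤ N := le_of_step h₁ hn hi hg
  have h0 : tn Q (φ.deg * 2) ≠ 0 := (tn_pos hP.two (Nat.mul_pos (deg_pos hP φ) two_pos)).ne'
  have hdv : ∀ {d : ℕ}, (d : ℤ) ∣ (Q + 1) * (Q - 1) → d ∣ tn Q (φ.deg * 2) := fun h =>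
    (dvd_tn_iff.2 (by rwa [← one_pow 2, sq_sub_sq])).trans (tn_dvd Q (dvd_mul_left 2 _))
  have ht : 2 ≤ (tn Q (φ.deg * 2)).factorization 2 :=
    (hp.pow_dvd_iff_le_factorization h0).1 (hdv (dvd_mul_of_dvd_left (by omega) _))
  obtain ⟨π⟩ := nonempty_piece hP hp hpQ 𝔉 hreg two_pos hN
    (hdv (dvd_mul_of_dvd_left (by omega) _)) fun i h => by
      by_contra h2
      have := hq4 _ (hφ.mul (Nat.not_even_iff_odd.1 fun h => h2 h.two_dvd))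
      have := dvd_tn_iff.1 ((pow_dvd_pow 2 ht).trans h)
      omega
  have hK : π.c = 2 := by
    obtain ⟨t, h⟩ := π.c_dvd hP hp hpQ
    have h1 : (Q : ZMod 2) = 1 := by
      rw [← sub_eq_zero, ← Int.cast_one, ← Int.cast_sub, ZMod.intCast_zmod_eq_zero_iff_dvd]
      omega
    rw [h1, orderOf_one, one_mul] at h
    rcases (Nat.dvd_prime hp).1 ((Nat.Coprime.coprime_dvd_left h (Nat.Coprime.pow_left t
      (Nat.coprime_two_left.2 hφ))).dvd_of_dvd_mul_left ⟨_, π.dim.symm⟩) with h2 | h2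
    · have h3 := orderOf_dvd_of_pow_eq_one ((π.c_dvd_iff hP hp hpQ 1).1 h2.dvd)
      rw [π.ord] at h3
      have := dvd_tn_iff.1 ((pow_dvd_pow 2 ht).trans h3)
      rw [pow_one] at this
      omega
    · exact h2
  have hm : π.m = φ.deg := by
    have := π.dim
    rw [hK] at this
    omega
  obtain ⟨n₂, hlt, hn₂, ψ, hd, hψ⟩ := π.exists_step hP hn h₁ hi hg
  obtain ⟨b⟩ := 𝔉.exists_blk π.le hn₂ hn hd
  have hi' := π.induces hP hp hpQ hM hn hd b h₁ hr₁ hi hψ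
  refine ⟨n₂, hlt, hn₂, ψ, _, hψ, hr₁.dnl φ i 2, ?_,
    fun φ' h => by rw [dnl, update_of_ne h, update_of_ne h], fun t' ⟨D₂, hD₂, h₂⟩ => ?_⟩
  · have := wt_sub_single (a := a') (e := 1) (j := 2) one_pos (hrow 2 hw).1 (hrow 2 hw).2
    rw [one_mul] at this
    rw [wtc, hee, dnl, update_self, update_self, this, wt_one, hsum, Nat.add_sub_cancel_left]
  have hP' := π.par hP hp hpQ
  obtain ⟨X, D, hD, hle, hX⟩ := exists_rk_two hP hM hq hK hP' (hm ▸ hφ) π.e π.deg ht π.ord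
    (fun h => Nat.pow_succ_factorization_not_dvd h0 hp (hdv (by
      rw [pow_succ, Nat.cast_mul]
      exact mul_dvd_mul h (by omega)))) (fun s x x' hs hx hx' => by
      have h1 := res_P_conj hP hpQ hp hK hP' (hm ▸ hφ) (π.dim.trans_le π.le) π.e (a := φ.rep)
        (hm ▸ mul_one φ.deg ▸ rep_pow hP φ 1) hreg π.deg π.isPElt hs hx hx'
      rw [π.res_eq] at h1
      rcases π.sign with h | h <;> simpa [h] using h1)
    (π.isDefectGroup hP hp hpQ hM) (hB ▸ hi') (isPBlock_blockOf ψ) hD₂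
  exact ⟨D, hD, rk_blk hP b hle hX h₂⟩

variable (hn : n ≤ N) {χ : IrrCharacter (𝔉.G n)} {a : Col k Q R → Fin N → ℕ}
  (h : IsLab (𝔉.rz n hn) χ a) (ha : RegLab p a)
include h ha

theorem rkB_of_not_dvd (hq : ¬ p ∣ tn Q 1) :
    RkB p M (𝔉.rz n hn) (MonoidHom.id _) (∑ φ, wtc p a φ) χ := by
  simpa using rk_of_pc hM (j := fun _ => 1) (t := fun _ => 1) (fun _ => one_pos)
    (fun φ => pc_one hP hM hpQ (Or.inr (Or.inl hq))) hn h ha

theorem rkB_pred : RkB p M (𝔉.rz n hn) (MonoidHom.id _) (∑ φ, wtc p a φ - 1) χ := by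
  refine RkB.pred hP hM.prime ?_
  simpa using rk_of_pc hM (j := fun _ => 1) (t := fun _ => 1) (fun _ => one_pos)
    (fun φ => pc_one hP hM hpQ (Or.inl rfl)) hn h ha

theorem rkB_one_mod_four (h2 : p = 2) (hq : Q % 4 = 1) (he : ∀ φ, 2 ∣ wtc p a φ) :
    RkB p M (𝔉.rz n hn) (MonoidHom.id _) ((∑ φ, wtc p a φ) / 2 * 3 - 1) χ := by
  refine RkB.pred hP hM.prime ?_
  rw [Nat.sum_div fun φ _ => he φ, sum_mul]
  exact rk_of_pc hM (j := fun _ => 2) (t := fun _ => 3) (fun _ => two_pos)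
    (fun φ => pc_two hP hM hpQ h2 hq φ) hn h ha

theorem rkB_three_mod_four (h2 : p = 2) (hq : Q % 4 = 3) (he : ∀ φ, 2 ∣ wtc p a φ) :
    RkB p M (𝔉.rz n hn) (MonoidHom.id _) (∑ φ, wtc p a φ) χ := by
  have key := rk_of_pc hM (δ := MonoidHom.id _) (j := fun φ => if Even φ.deg then 1 else 2)
    (t := fun φ => if Even φ.deg then 1 else 2) (fun φ => by split_ifs <;> omega) (fun φ => by
      split_ifs with hφ
      · exact pc_one hP hM hpQ (Or.inr (Or.inr ⟨h2, hφ⟩))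
      · exact pc_three hP hM hpQ h2 hq (Nat.not_even_iff_odd.1 hφ)) hn h ha
  rwa [sum_congr rfl fun φ _ => Nat.div_mul_cancel (by
    split_ifs
    exacts [one_dvd _, he φ])] at key

end Cfsg.Gun

set_option linter.all false in
theorem Cfsg.Rz.Gun_Rank_0 : True := by
  have := @_root_.Cfsg.Gun.Pc.eq_def.{0}
  have := @_root_.Cfsg.Gun.Pc.eq_1.{0}
  have := @_root_.Cfsg.Gun.Pc.fun_cases
  have := @_root_.Cfsg.Gun.RkB.eq_def.{0}
  have := @_root_.Cfsg.Gun.RkB.eq_1.{0}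
  have := @_root_.Cfsg.Gun.RkB.fun_cases
  trivial
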