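import Cfsg.Agent.Gun.Herm
import Cfsg.Agent.Gun.Weil

/-!
# Finite fields with an involution; Gauss sums; the Weil character (S4537 project)
-/

set_option autoImplicit false
set_option linter.unusedSectionVars false
set_option linter.unusedVariables false
set_option linter.style.haveILetI false

namespace Cfsg.Gun

open Module Gln

variable {F : Type*} [Field F] [Finite F]

section star

variable [StarRing F]

variable (F) in
/-- The order of the fixed field. -/
noncomputable def fq : ℕ := Nat.card {a : F // star a = a}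

theorem pow_fq_of_star {a : F} (h : star a = a) : a ^ fq F = a := by
  haveI := Fintype.ofFinite (selfAdjoint F)
  have := congrArg Subtype.val (FiniteField.pow_card (⟨a, h⟩ : selfAdjoint F))
  rwa [← Nat.card_eq_fintype_card] at this

variable (hF : Sec F)
include hF

theorem Sec.card_eq : Nat.card F = fq F ^ 2 := by
  have := card_fixed_sq hF (⊤ : Submodule F F) fun _ _ => trivial
  simp only [Submodule.mem_top, true_and] at this
  exact (Nat.card_congr (Submodule.topEquiv (R := F) (M := F)).toEquiv).symm.trans this.symm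

theorem Sec.one_lt : 1 < fq F := one_lt_q hF.card_eq

theorem Sec.star_eq_pow (a : F) : star a = a ^ fq F := by
  have h1 : ∀ a : F, a ^ fq F = a → star a = a := fun a ha => by
    have := Set.eq_of_subset_of_ncard_le (s := {a : F | star a = a}) (t := {a : F | a ^ fq F = a})
      (fun a => pow_fq_of_star) (card_fixed_q hF.card_eq).le
    exact (this ▸ ha : a ∈ {a : F | star a = a})
  obtain ⟨σ, hσ⟩ := exists_sigma hF.card_eq
  have h2 : σ (a + star a) = a + star a := by
    rw [hσ, pow_fq_of_star (by rw [star_add, star_star, add_comm])]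
  have h3 : σ (a * star a) = a * star a := by
    rw [hσ, pow_fq_of_star (by rw [star_mul, star_star])]
  have h4 : (σ a - a) * (σ a - star a) = 0 := by
    have : σ (a * a - (a + star a) * a + a * star a) = 0 := by rw [← map_zero σ]; congr 1; ring
    rw [map_add, map_sub, map_mul, map_mul σ (a + star a), h2, h3] at this
    linear_combination this
  rw [← hσ]
  rcases mul_eq_zero.1 h4 with h | h
  · rw [sub_eq_zero.1 h, h1 a (hσ a ▸ sub_eq_zero.1 h)]
  · exact (sub_eq_zero.1 h).symm

theorem Sec.exists_pow : ∃ i, fq F = ringChar F ^ i := by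
  haveI := Fintype.ofFinite F
  obtain ⟨n, hp, hn⟩ := FiniteField.card F (ringChar F)
  rw [← Nat.card_eq_fintype_card, hF.card_eq] at hn
  obtain ⟨j, -, hj⟩ := (Nat.dvd_prime_pow hp).1 (hn ▸ dvd_pow_self (fq F) two_ne_zero)
  exact ⟨j, hj⟩

theorem Sec.cast_fq : (fq F : F) = 0 := by
  obtain ⟨i, hi⟩ := hF.exists_pow
  have := hF.one_lt
  rw [hi, Nat.cast_pow, ringChar.Nat.cast_ringChar, zero_pow]
  rintro rfl
  rw [pow_zero] at hi
  omega

theorem Sec.exists_norm {b : F} (hb : star b = b) : ∃ a : F, star a * a = b := by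
  obtain ⟨t, ht⟩ := exists_norm_eq hF.card_eq (pow_fq_of_star hb)
  exact ⟨t, by rw [hF.star_eq_pow, mul_comm, ht]⟩

theorem Sec.exists_trace : ∃ c : F, c + star c = 1 := by
  obtain ⟨t, ht⟩ := exists_trace_ne_zero hF.card_eq
  rw [← hF.star_eq_pow] at ht
  exact ⟨t / (t + star t), by
    rw [star_div₀, star_add, star_star, add_comm (star t), ← add_div, div_self ht]⟩

theorem Sec.exists_addChar : ∃ ψ : AddChar F ℂ, ∃ b : F, star b = b ∧ ψ b ≠ 1 := by
  obtain ⟨ψ, h⟩ := (AddChar.exists_apply_ne_zero (a := (1 : F))).2 one_ne_zero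
  exact ⟨ψ, 1, star_one F, h⟩

variable {V : Type*} [AddCommGroup V] [Module F V] [Finite V]

theorem isHerm_of_symm {B : V →ₗ⋆[F] V →ₗ[F] F} (hB : ∀ u v, star (B u v) = B v u) :
    IsHerm (fq F) fun u v => B v u :=
  ⟨fun _ _ _ => map_add _ _ _, fun _ _ _ => map_smul _ _ _, fun u v => by rw [← hF.star_eq_pow, hB]⟩

theorem eq_zero_of_self {B : V →ₗ⋆[F] V →ₗ[F] F} (h : ∀ v, B v v = 0) : B = 0 := by
  obtain ⟨θ, hθ⟩ := hF
  ext u v
  have h1 := h (u + v)
  have h2 := h (u + θ • v)
  simp only [map_add, LinearMap.add_apply, h, LinearMap.map_smulₛₗ, LinearMap.smul_apply, smul_eq_mul,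
    RingHom.id_apply, starRingEnd_apply, mul_zero, zero_add, add_zero] at h1 h2
  exact mul_left_cancel₀ (sub_ne_zero.2 hθ) (by simp only [LinearMap.zero_apply]; linear_combination star θ * h1 - h2)

universe u in
/-- The hermitian Gauss sum. -/
theorem gauss_sum (ψ : AddChar F ℂ) (hψ : ∃ b : F, star b = b ∧ ψ b ≠ 1) (n : ℕ) :
    ∀ (V : Type u) [AddCommGroup V] [Module F V] [Fintype V] (B : V →ₗ⋆[F] V →ₗ[F] F),
      (∀ u v, star (B u v) = B v u) → finrank F V = n →
        ∑ v, ψ (B v v) = (-(fq F : ℂ)) ^ (n + finrank F (LinearMap.ker B)) := by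
  classical
  haveI := Fintype.ofFinite F
  induction n using Nat.strong_induction_on with
  | _ n ih =>
  intro V _ _ _ B hB hn
  by_cases h0 : ∀ x, B x x = 0
  · rw [eq_zero_of_self hF h0, LinearMap.ker_zero, finrank_top, hn, ← two_mul,
      Even.neg_pow (even_two_mul n)]
    simp only [LinearMap.zero_apply, AddChar.map_zero_eq_one, Finset.sum_const, Finset.card_univ,
      nsmul_eq_mul, mul_one]
    rw [Module.card_eq_pow_finrank (K := F), hn, ← Nat.card_eq_fintype_card, hF.card_eq, ← pow_mul,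
      Nat.cast_pow]
  push Not at h0
  obtain ⟨x₀, hx₀⟩ := h0
  let W := LinearMap.ker (B x₀)
  have hW : finrank F W + 1 = n := by
    have := (B x₀).finrank_range_add_finrank_ker
    rw [LinearMap.range_eq_top.2 fun c => ⟨(c / B x₀ x₀) • x₀, by
      rw [map_smul, smul_eq_mul, div_mul_cancel₀ _ hx₀]⟩, finrank_top, finrank_self] at this
    rw [add_comm, ← hn, ← this]
  let B' : W →ₗ⋆[F] W →ₗ[F] F := (B.comp W.subtype).compl₂ W.subtype
  have hj := ih _ (by omega) W B' (fun u v => hB _ _) rfl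
  have hb : Function.Bijective fun p : F × W => p.1 • x₀ + (p.2 : V) := by
    constructor
    · rintro ⟨t, y⟩ ⟨t', y'⟩ he
      have h1 := congrArg (B x₀) he
      simp only [map_add, map_smul, smul_eq_mul, show B x₀ y = 0 from y.2, show B x₀ y' = 0 from y'.2,
        add_zero] at h1
      obtain rfl : t = t' := mul_right_cancel₀ hx₀ h1
      exact Prod.ext rfl (Subtype.ext (add_left_cancel he))
    · intro v
      refine ⟨(B x₀ v / B x₀ x₀, ⟨v - (B x₀ v / B x₀ x₀) • x₀, ?_⟩), add_sub_cancel _ _⟩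
      change B x₀ _ = 0
      rw [map_sub, map_smul, smul_eq_mul, div_mul_cancel₀ _ hx₀, sub_self]
  have hz : ∀ y : W, B y x₀ = 0 := fun y => by rw [← hB, show B x₀ y = 0 from y.2, star_zero]
  have hk : finrank F (LinearMap.ker B') = finrank F (LinearMap.ker B) := by
    rw [← Submodule.finrank_map_subtype_eq]
    refine congrArg (fun S : Submodule F V => finrank F S) ?_
    refine le_antisymm ?_ fun v hv => ⟨⟨v, ?_⟩, LinearMap.ext fun w => ?_, rfl⟩
    · rintro _ ⟨y, hy, rfl⟩
      refine LinearMap.ext fun v => ?_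
      obtain ⟨⟨t, w⟩, rfl⟩ := hb.2 v
      have : B y w = 0 := congrArg (· w) hy
      simp [hz, this]
    · change B x₀ v = 0
      rw [← hB, LinearMap.mem_ker.1 hv, LinearMap.zero_apply, star_zero]
    · exact congrArg (· (w : V)) (LinearMap.mem_ker.1 hv)
  rw [← hb.sum_comp, Fintype.sum_prod_type, ← hW, add_right_comm, pow_succ', ← hk, ← hj,
    ← gauss_one hF.card_eq ψ (hψ.imp fun b h => ⟨pow_fq_of_star h.1, h.2⟩) hx₀ (pow_fq_of_star (hB _ _)),
    Finset.sum_mul_sum]
  refine Finset.sum_congr rfl fun t _ => Finset.sum_congr rfl fun y _ => ?_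
  rw [← AddChar.map_add_eq_mul, ← hF.star_eq_pow]
  congr 1
  simp only [map_add, LinearMap.add_apply, LinearMap.map_smulₛₗ, LinearMap.smul_apply, smul_eq_mul,
    RingHom.id_apply, starRingEnd_apply, hz, show B x₀ y = 0 from y.2]
  change _ = _ + B y y
  ring

theorem HF.isHerm (H : HF F V) : IsHerm (fq F) fun u v => H.h v u := isHerm_of_symm hF H.symm

theorem HF.exists_aniso (H : HF F V) [Nontrivial V] : ∃ v, H.h v v ≠ 0 := by
  by_contra! h
  obtain ⟨v, hv⟩ := exists_ne (0 : V)
  exact hv (H.nondeg v fun w => by rw [eq_zero_of_self hF h]; rfl)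

/-- The Gauss sum of a self-adjoint operator. -/
theorem HF.gauss (H : HF F V) [Fintype V] (ψ : AddChar F ℂ) (hψ : ∃ b : F, star b = b ∧ ψ b ≠ 1)
    {b : End F V} (hb : H.adj b = b) :
    ∑ v, ψ (H.h v (b v)) = (-(fq F : ℂ)) ^ (finrank F V + finrank F (LinearMap.ker b)) := by
  have h1 : ∀ u v, H.h u (b v) = H.h (b u) v := fun u v => by rw [← H.adj_right, hb]
  rw [← show LinearMap.ker (H.h.compl₂ b) = LinearMap.ker b from Submodule.ext fun v =>
    ⟨fun h => H.nondeg _ fun w => (h1 v w).symm.trans (congrArg (· w) h),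
      fun h => LinearMap.ext fun w => (h1 v w).trans (by rw [LinearMap.mem_ker.1 h]; simp)⟩]
  exact gauss_sum hF ψ hψ _ V (H.h.compl₂ b) (fun u v => (H.symm _ _).trans (h1 v u).symm) rfl

/-- The Weil character, pulled back along a homomorphism to the unitary group. -/
theorem HF.isCharacter_weil (H : HF F V) {G : Type*} [Group G] (ρ : G →* H.U) :
    IsCharacter G fun g => (-1) ^ finrank F V *
      (-(fq F : ℂ)) ^ finrank F (LinearMap.ker (((ρ g).1 : End F V) - 1)) :=
  Gun.isCharacter_weil hF.card_eq (H.isHerm hF) (fun u h => H.ext_right fun v => by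
    rw [map_zero]; exact h v) ((Units.coeHom _).comp (H.U.subtype.comp ρ)) fun g u v => (ρ g).2 v u

omit hF in
theorem HF.adj_conj {W : Type*} [AddCommGroup W] [Module F W] [Finite W] (H : HF F V) (H' : HF F W)
    (e : V ≃ₗ[F] W) (he : ∀ u v, H'.h (e u) (e v) = H.h u v) (x : End F V) :
    H'.adj (e.conj x) = e.conj (H.adj x) :=
  H'.adj_eq_iff.2 fun u v => by
    obtain ⟨u, rfl⟩ := e.surjective u
    obtain ⟨v, rfl⟩ := e.surjective v
    simp [LinearEquiv.conj_apply, he, H.adj_left]

omit hF in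
theorem HF.adj_std {ι : Type*} [Fintype ι] [DecidableEq ι] (A : Matrix ι ι F) :
    (HF.std F ι).adj (Matrix.toLin' A) = Matrix.toLin' A.conjTranspose :=
  (HF.std F ι).adj_eq_iff.2 fun u v => by
    simp only [HF.std_h, Matrix.toLin'_apply, Matrix.mulVec, dotProduct, star_sum, Finset.sum_mul,
      Finset.mul_sum, Matrix.conjTranspose_apply, star_mul', star_star]
    rw [Finset.sum_comm]
    exact Finset.sum_congr rfl fun i _ => Finset.sum_congr rfl fun j _ => by ring

theorem HF.det_adj (H : HF F V) (x : End F V) : LinearMap.det (H.adj x) = star (LinearMap.det x) := by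
  obtain ⟨e, he⟩ := H.exists_isometry_of_finrank hF (HF.std F (Fin (finrank F V))) (by simp)
  obtain ⟨A, hA⟩ := Matrix.toLin'.surjective (e.conj x)
  rw [← LinearMap.det_conj x e, ← LinearMap.det_conj (H.adj x) e]
  change LinearMap.det (e.conj (H.adj x)) = star (LinearMap.det (e.conj x))
  rw [← H.adj_conj _ e he, ← hA, HF.adj_std, LinearMap.det_toLin', LinearMap.det_toLin',
    Matrix.det_conjTranspose]

theorem HF.star_dt_mul (H : HF F V) {g : GLV F V} (hg : g ∈ H.U) : star (dt g : F) * dt g = 1 := by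
  rw [dt_val, ← H.det_adj hF, ← map_mul, H.mem_U_iff_mul.1 hg, map_one]

theorem HF.dt_pow_fq (H : HF F V) {g : GLV F V} (hg : g ∈ H.U) : dt g ^ (fq F + 1) = 1 :=
  Units.ext (by rw [Units.val_pow_eq_pow_val, pow_succ, ← hF.star_eq_pow]; exact H.star_dt_mul hF hg)

omit hF in
theorem HF.scal_mem (H : HF F V) {c : Fˣ} (hc : star (c : F) * c = 1) : scal V c ∈ H.U := fun u v => by
  simp only [scal_apply, LinearMap.map_smulₛₗ, LinearMap.smul_apply, smul_eq_mul, RingHom.id_apply,
    starRingEnd_apply]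
  rw [← mul_assoc, mul_comm (c : F), hc, one_mul]

theorem HF.exists_dt_eq (H : HF F V) [Nontrivial V] {c : Fˣ} (hc : star (c : F) * c = 1) :
    ∃ g ∈ H.U, dt g = c := by
  obtain ⟨v, hv⟩ := H.exists_aniso hF
  have h : Disjoint (F ∙ v) (H.orth (F ∙ v)) := Submodule.disjoint_def.2 fun w hw hw' => by
    obtain ⟨a, rfl⟩ := Submodule.mem_span_singleton.1 hw
    have := hw' v (Submodule.mem_span_singleton_self v)
    rw [map_smul, smul_eq_mul, mul_eq_zero, or_iff_left hv] at this
    rw [this, zero_smul]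
  refine ⟨blkHom ((F ∙ v).prodEquivOfIsCompl _ (H.isCompl_orth h)) (scal _ c, 1),
    (H.blkHom_mem _ _ _ (H.h_prodEquiv h)).2 ⟨HF.scal_mem _ hc, one_mem _⟩, Units.ext ?_⟩
  have h0 : v ≠ 0 := by rintro rfl; simp at hv
  rw [dt_blkHom, map_one, mul_one, dt_val, show ((scal (F ∙ v) c : GLV F _) : End F (F ∙ v)) =
    (c : F) • LinearMap.id from rfl, LinearMap.det_smul, finrank_span_singleton h0, LinearMap.det_id,
    pow_one, mul_one]

end star

/-- The involution `x ↦ x ^ q` of a field with `q ^ 2` elements. -/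
@[reducible] def starOfCard {q : ℕ} (hq : Nat.card F = q ^ 2) : StarRing F where
  star x := x ^ q
  star_involutive := pow_q_pow_q hq
  star_mul x y := by rw [mul_pow, mul_comm]
  star_add := add_pow_q hq

theorem sec_starOfCard {q : ℕ} (hq : Nat.card F = q ^ 2) : letI := starOfCard hq; Sec F :=
  exists_pow_q_ne hq

theorem fq_starOfCard {q : ℕ} (hq : Nat.card F = q ^ 2) : letI := starOfCard hq; fq F = q :=
  card_fixed_q hq

/-- `SU n F q` is the kernel of the determinant in the standard unitary group. -/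
theorem exists_SU_emb [StarRing F] (hF : Sec F) (n : ℕ) :
    ∃ f : SU n F (fq F) →* (HF.std F (Fin n)).U, Function.Injective f ∧
      f.range = (dt.comp (HF.std F (Fin n)).U.subtype).ker := by
  let f₀ : Matrix.SpecialLinearGroup (Fin n) F →* GLV F (Fin n → F) :=
    Matrix.GeneralLinearGroup.toLin.toMonoidHom.comp Matrix.SpecialLinearGroup.toGL
  have h : ∀ u v, hermForm n F (fq F) u v = (HF.std F (Fin n)).h v u := fun u v => by
    simp only [hermForm, HF.std_h, hF.star_eq_pow, mul_comm]
  have hi : Function.Injective f₀ := Matrix.GeneralLinearGroup.toLin.injective.comp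
    Matrix.SpecialLinearGroup.toGL_injective
  refine ⟨(f₀.comp (SU n F (fq F)).subtype).codRestrict _ fun g u v => ?_, fun g g' e =>
    Subtype.ext (hi (congrArg Subtype.val e)), ?_⟩
  · rw [← h, ← h]
    exact g.2 v u
  · ext ⟨g, hg⟩
    obtain ⟨A, rfl⟩ := Matrix.GeneralLinearGroup.toLin.surjective g
    have h1 : ((dt (Matrix.GeneralLinearGroup.toLin A) : Fˣ) : F) = A.1.det := LinearMap.det_toLin' A.1
    rw [MonoidHom.mem_ker, ← Units.val_eq_one]
    refine Iff.trans ⟨?_, fun e => ⟨⟨⟨A.1, e⟩, fun u v => ?_⟩, Subtype.ext (Units.ext rfl)⟩⟩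
      (h1 ▸ Iff.rfl : A.1.det = 1 ↔ _)
    · rintro ⟨x, hx⟩
      rw [← Matrix.GeneralLinearGroup.toLin.injective (congrArg Subtype.val hx)]
      exact x.1.2
    · rw [h, h]
      exact hg v u

end Cfsg.Gun

set_option linter.all false in
theorem Cfsg.Rz.Gun_Fld_0 : True := by
  have := @_root_.Cfsg.Gun.fq.eq_def.{0}
  have := @_root_.Cfsg.Gun.fq.eq_1.{0}
  have := @_root_.Cfsg.Gun.fq.fun_cases
  have := @_root_.Cfsg.Gun.starOfCard.congr_simp.{0}
  have := @_root_.Cfsg.Gun.starOfCard.eq_def.{0}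
  have := @_root_.Cfsg.Gun.starOfCard.eq_1.{0}
  have := @_root_.Cfsg.Gun.starOfCard.fun_cases
  trivial
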