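import Cfsg.Agent.Gun.Prim
import Cfsg.Agent.Gln.Integ

/-!
# The necklace induction in the Ennola algebra (S4537 project; port of `Gln/Integ`)

`Tj ω j` = pointwise multiplication by `e_j(ω(eigenvalues))`; `T (1 + t ω) = ∑ t ^ j Tj ω j`.  `Tj_mul`: compare coefficients
(`poly_ext_of_eval` or `Multiset.esymm` of a sum on monomials).  `LZ_le`: copy `Gln.nexp_P_mem_intg` with `comp j (mf α)` replaced by
`T α (Hh j) = nexp (T α ∘ p1) j` (`map_nexp`, `p1_eq_sum`, `T_pI`) and an integer version of `nkS` (`nkZ Q m J = ∑_{i<m, J i} Q ^ i`);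
`nkZ Q L J = nkZ Q m J * (R / (Q ^ m - 1))`, `prz_pow_div'`.
-/

set_option autoImplicit false
set_option linter.unusedSectionVars false
set_option linter.unusedVariables false
set_option linter.style.haveILetI false

namespace Cfsg.Gun

open Finset Function Gln Cfsg.Sym

universe u

variable {k : Type u} [Field k] {Q : ℤ} {R N n : ℕ} [NeZero R]

/-- Multiplication by an elementary symmetric function of the eigenvalues. -/
noncomputable def Tj (ω : Lab k R) (j : ℕ) : Lam k Q R →ₗ[ℂ] Lam k Q R :=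
  Dg fun f => ((evm f).map fun x => (ω x : ℂ)).esymm j

theorem coeff_prod_one_add (s : Multiset ℂ) (j : ℕ) :
    (s.map fun y => 1 + Polynomial.C y * Polynomial.X).prod.coeff j = s.esymm j := by
  induction s using Multiset.induction_on generalizing j with
  | empty => cases j <;> simp [Multiset.esymm, Polynomial.coeff_one, Multiset.powersetCard_zero_right]
  | cons a s ih =>
    rw [Multiset.map_cons, Multiset.prod_cons, add_mul, one_mul, Polynomial.coeff_add, mul_assoc,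
      Polynomial.coeff_C_mul, ih]
    cases j with
    | zero => simp [Multiset.esymm]
    | succ j =>
      rw [Polynomial.coeff_X_mul, ih]
      simp [Multiset.esymm, Multiset.sum_map_mul_left]

theorem esymm_add (s t : Multiset ℂ) (j : ℕ) :
    (s + t).esymm j = ∑ x ∈ antidiagonal j, s.esymm x.1 * t.esymm x.2 := by
  simp only [← coeff_prod_one_add, Multiset.map_add, Multiset.prod_add, Polynomial.coeff_mul]

theorem Tj_zero (ω : Lab k R) (u : Lam k Q R) : Tj ω 0 u = u := by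
  have : Tj ω 0 = LinearMap.id (R := ℂ) (M := Lam k Q R) := ext_mX fun f hf => by
    rw [Tj, Dg_mX _ hf]
    simp [Multiset.esymm]
  rw [this, LinearMap.id_apply]

theorem Tj_mul (ω : Lab k R) (j : ℕ) (u v : Lam k Q R) :
    Tj ω j (u * v) = ∑ x ∈ antidiagonal j, Tj ω x.1 u * Tj ω x.2 v := by
  induction u using induction_mX with
  | h0 => simp
  | h2 u u' h h' => simp [add_mul, h, h', sum_add_distrib]
  | h3 c u h => simp [h, smul_sum]
  | h1 f hf =>
  induction v using induction_mX with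
  | h0 => simp
  | h2 u u' h h' => simp [mul_add, h, h', sum_add_distrib]
  | h3 c u h => simp [h, smul_sum]
  | h1 g hg =>
  simp only [Tj, ← mX_add, Dg_mX _ hf, Dg_mX _ hg, Dg_mX _ (tpos_add.2 ⟨hf, hg⟩), evm_add,
    Multiset.map_add, esymm_add, smul_mul_smul_comm, sum_smul]

theorem T_one_add (ω : Lab k R) (t : ℂ) {u : Lam k Q R} (hu : u ∈ hom k Q R n) :
    T (fun x => 1 + t * ω x) u = ∑ j ∈ range (n + 1), t ^ j • Tj ω j u := by
  have := ext_hom (L := (T (fun x => 1 + t * ω x)).toLinearMap)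
    (L' := ∑ j ∈ range (n + 1), t ^ j • Tj ω j) (fun f hf hn => by
      rw [AlgHom.toLinearMap_apply, T_eq_Dg, Dg_mX _ hf, LinearMap.sum_apply]
      simp only [LinearMap.smul_apply, Tj, Dg_mX _ hf, smul_smul, ← sum_smul]
      rw [← hn, ← card_evm, ← Multiset.card_map (fun x => (ω x : ℂ)), ← prod_one_add_mul,
        Multiset.map_map]
      rfl) hu
  simpa [LinearMap.sum_apply] using this

section Neck

variable {L m : ℕ} {J : ZMod L → Bool}

/-- The number with digits `J` in an integer base. -/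
def nkZ (g : ℤ) (m : ℕ) (J : ZMod L → Bool) : ℤ := ∑ i ∈ range m, if J i then g ^ i else 0

theorem nkZ_mul (h : nkR^[m] J = J) (g : ℤ) (c : ℕ) :
    nkZ g (m * c) J = nkZ g m J * ∑ s ∈ range c, (g ^ m) ^ s := by
  induction c with
  | zero => simp [nkZ]
  | succ c ih =>
    rw [sum_range_succ, mul_add _ _ (_ ^ c), ← ih, mul_add_one, nkZ, sum_range_add, nkZ, nkZ, sum_mul]
    congr 1
    refine sum_congr rfl fun i _ => ?_
    rw [Nat.cast_add, add_comm, nk_add_mul h, ← pow_mul]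
    split_ifs <;> simp [pow_add, mul_comm]

theorem nkZ_nkR (g : ℤ) (m : ℕ) (J : ZMod L → Bool) :
    g * nkZ g m (nkR J) + (if J 0 then 1 else 0) = nkZ g m J + if J m then g ^ m else 0 := by
  rw [nkZ, nkZ, ← sum_range_succ (fun i => if J i then g ^ i else 0), sum_range_succ', mul_sum]
  simp only [nkR, pow_succ', Nat.cast_succ, Nat.cast_zero, pow_zero]
  congr 1
  exact sum_congr rfl fun i _ => by by_cases h : J (i + 1) <;> simp [h]

theorem zpow_nkZ_nkR {G : Type*} [Group G] {ω : G} (hR : (R : ℤ) + 1 = Q ^ L) (hω : ω ^ R = 1)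
    (J : ZMod L → Bool) : (ω ^ nkZ Q L (nkR J)) ^ Q = ω ^ nkZ Q L J := by
  have h := nkZ_nkR Q L J
  rw [ZMod.natCast_self, ← hR] at h
  rw [← zpow_mul, mul_comm]
  split_ifs at h
  · rw [show Q * nkZ Q L (nkR J) = nkZ Q L J + R by omega, zpow_add, zpow_natCast, hω, mul_one]
  · rw [show Q * nkZ Q L (nkR J) = nkZ Q L J by omega]

theorem zpow_nkZ_iterate {G : Type*} [Group G] {ω : G} (hR : (R : ℤ) + 1 = Q ^ L) (hω : ω ^ R = 1)
    (J : ZMod L → Bool) (i : ℕ) : (ω ^ nkZ Q L (nkR^[i] J)) ^ Q ^ i = ω ^ nkZ Q L J := by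
  induction i with
  | zero => simp
  | succ i ih => rw [iterate_succ_apply', pow_succ', zpow_mul, zpow_nkZ_nkR hR hω, ih]

theorem nkZ_eq_mul_div (hQ : 2 ≤ |Q|) (hR : (R : ℤ) + 1 = Q ^ L) (hm : 0 < m) (hL : m ∣ L)
    (h : nkR^[m] J = J) : nkZ Q L J = nkZ Q m J * ((R : ℤ) / (Q ^ m - 1)) := by
  obtain ⟨c, hc⟩ := hL
  have h1 := nkZ_mul h Q c
  have h0 : Q ^ m - 1 ≠ 0 := fun e => by
    have := two_le_pow hQ hm
    rw [sub_eq_zero.1 e] at this
    simp at this
  rw [← hc] at h1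
  rw [h1, show (R : ℤ) = (Q ^ m) ^ c - 1 by rw [← pow_mul, ← hc, ← hR]; ring, ← geom_sum_mul,
    Int.mul_ediv_cancel _ h0]

theorem nkz_pow_eq_one (hL : (R : ℤ) + 1 = Q ^ L) (ω : Lab k R) (h : nkR^[m] J = J) :
    (ω ^ nkZ Q L J) ^ tn Q m = 1 := by
  have h1 := zpow_nkZ_iterate (ω := ω) hL (Lab.pow_eq_one ω) J m
  rw [h] at h1
  exact (zpow_pow_eq_iff _).1 h1

variable [IsAlgClosed k] (hP : ParZ k Q R N) (hL : (R : ℤ) + 1 = Q ^ L) (ω : Lab k R)
include hP hL

theorem P_nkz_iterate (h0 : 0 < m) (hm : m ≤ N) (h : nkR^[m] J = J) (i : ℕ) :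
    P Q m (ω ^ nkZ Q L (nkR^[i] J)) = P Q m (ω ^ nkZ Q L J) := by
  rw [← P_pow hP h0 hm (nkz_pow_eq_one hL ω (Function.IsPeriodicPt.apply_iterate h i)) i]
  exact congrArg _ (zpow_nkZ_iterate (ω := ω) hL (Lab.pow_eq_one ω) J i)

theorem T_p1_nk [NeZero L] (h0 : 0 < m) (hm : m ≤ N) (hmL : m ∣ L) (t : ℂ) :
    T (fun x => 1 + t * ω x) (p1 k Q R m) =
      ∑ J : ZMod L → Bool with nkR^[m] J = J, t ^ nkS 1 m J • P Q m (ω ^ nkZ Q L J) := by
  rw [p1_eq_sum hP h0, map_sum]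
  simp only [P, smul_sum, smul_smul, T_pI hP]
  rw [sum_comm]
  refine sum_congr rfl fun x hx => ?_
  rw [← sum_smul, prod_one_add, ← sum_nk h0 hmL]
  congr 1
  refine sum_congr rfl fun J hJ => ?_
  rw [nkZ_eq_mul_div hP.two hL h0 hmL (mem_filter.1 hJ).2, zpow_mul ω,
    prz_pow_div' hP.cast (hP.dvd h0 hm) (mem_filter.1 hx).2, prod_mul_distrib,
    prod_const, nkS_one_eq, nkZ, ← sum_filter]
  congr 1
  generalize filter (fun i : ℕ => J i = true) (range m) = I
  induction I using Finset.induction_on with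
  | empty => simp
  | insert a s ha ih =>
    rw [prod_insert ha, sum_insert ha, zpow_add, ih, MonoidHom.mul_apply, Units.val_mul, map_zpow]
    rfl

omit hP hL in
variable (Q) in
/-- The factor belonging to a necklace. -/
noncomputable def nkG (o : Orb (nkR (L := L))) (n : ℕ) : Polynomial (Lam k Q R) :=
  if o.deg ∣ n then (Polynomial.X ^ nkS 1 o.deg o.rep) ^ (n / o.deg) * Polynomial.C
    (nexp (fun j => P Q (o.deg * j) (ω ^ nkZ Q L o.rep)) (n / o.deg)) else 0

omit hP hL in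
theorem isNw_nkG (hper : Per (nkR (L := L))) (o : Orb (nkR (L := L))) :
    IsNw (nkG Q ω o) fun n => if o.deg ∣ n then (o.deg : Polynomial (Lam k Q R)) *
      ((Polynomial.X ^ nkS 1 o.deg o.rep) ^ (n / o.deg) * Polynomial.C
        (P Q (o.deg * (n / o.deg)) (ω ^ nkZ Q L o.rep))) else 0 :=
  (((isNw_nexp fun j => P Q (o.deg * j) (ω ^ nkZ Q L o.rep)).map Polynomial.C).scale
    (Polynomial.X ^ nkS 1 o.deg o.rep)).expand (hper.deg_pos o)

theorem coeff_prod_nkG [NeZero L] (hdvd : ∀ n, 0 < n → n ≤ N → n ∣ L) (hn : n ≤ N) :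
    PowerSeries.coeff n (∏ o : Orb (nkR (L := L)), PowerSeries.mk (nkG Q ω o)) =
      ∑ j ∈ range (n + 1), Polynomial.X ^ j * Polynomial.C (Tj ω j (Hh k Q R n)) := by
  have hper := per_nkR (L := L)
  refine poly_ext_of_eval fun t => ?_
  have h1 := (IsNw.prod univ fun o _ => isNw_nkG (Q := Q) ω hper o).map
    (Polynomial.evalRingHom (algebraMap ℂ (Lam k Q R) t))
  refine (h1.left_eq ((isNw_nexp (p1 k Q R)).map (T (fun x => 1 + t * ω x)).toRingHom)
    (fun m h0 hm => ?_) le_rfl).trans ?_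
  · have hm' := hm.trans hn
    refine Eq.trans ?_ (T_p1_nk hP hL ω h0 hm' (hdvd m h0 hm') t).symm
    rw [sum_filter, hper.sum_orb]
    simp only [Function.comp_apply, Finset.sum_apply, map_sum]
    refine sum_congr rfl fun o _ => ?_
    simp only [hper.iterate_eq_iff, Orb.mk_iterate, Orb.mk_rep]
    split_ifs with h
    swap
    · simp
    have h2 : nkR^[m] o.rep = o.rep := hper.iterate_eq_iff.2 (by rwa [Orb.mk_rep])
    have h3 := nkS_mul (hper.iterate_eq_iff.2 (by rw [Orb.mk_rep]) : nkR^[o.deg] o.rep = o.rep) 1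
      (m / o.deg)
    rw [Nat.mul_div_cancel' h] at h3
    simp only [nkS_one_iterate h2, P_nkz_iterate hP hL ω h0 hm' h2, Nat.mul_div_cancel' h]
    simp [h3, pow_mul, Algebra.smul_def]
  · refine Eq.trans (T_one_add ω t (Hh_mem_hom n)) ?_
    simp only [Polynomial.eval_finsetSum, Algebra.smul_def, Polynomial.eval_mul, Polynomial.eval_pow,
      Polynomial.eval_X, Polynomial.eval_C, map_pow]
    rfl

end Neck

theorem nexp_P_mem [IsAlgClosed k] (hP : ParZ k Q R N) {n' : ℕ} (hN : n' ≤ N)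
    (A : Subring (Lam k Q R)) (hA' : ∀ (ω : Lab k R) j, ∀ m ≤ n', Tj ω j (Hh k Q R m) ∈ A)
    {n₀ l : ℕ} (h0 : 0 < n₀) (hn : n₀ * l ≤ n') {a : Lab k R} (ha : a ^ tn Q n₀ = 1) :
    nexp (fun j => P Q (n₀ * j) a) l ∈ A := by
  generalize hn' : n₀ * l = n at hn
  induction n using Nat.strong_induction_on generalizing n₀ l a with
  | _ n ihn =>
  induction l using Nat.strong_induction_on generalizing n₀ a with
  | _ l ihl =>
  rcases l.eq_zero_or_pos with rfl | hl
  · rw [nexp]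
    exact one_mem _
  have hn0 : 0 < n := hn' ▸ Nat.mul_pos h0 hl
  have hnN : n ≤ N := hn.trans hN
  have hn₀ : n₀ ≤ N := (hn' ▸ Nat.le_mul_of_pos_right n₀ hl :).trans hnN
  obtain ⟨L, hL0, hL, hdvd⟩ := hP.ex
  haveI : NeZero L := ⟨hL0.ne'⟩
  obtain ⟨ω, hω⟩ := Lab.exists_zpow_eq hP.cast (m := Q ^ n₀ - 1) (hP.dvd h0 hn₀) ha
  have hper := per_nkR (L := L)
  have hrep : ∀ o : Orb (nkR (L := L)), nkR^[o.deg] o.rep = o.rep := fun o =>
    hper.iterate_eq_iff.2 (by rw [Orb.mk_rep])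
  have hA : ∀ o : Orb (nkR (L := L)), (ω ^ nkZ Q L o.rep) ^ tn Q o.deg = 1 :=
    fun o => nkz_pow_eq_one hL ω (hrep o)
  let B : Subring (Polynomial (Lam k Q R)) := (Polynomial.mapRingHom A.subtype).range
  have hC : ∀ f ∈ A, Polynomial.C f ∈ B := fun f hf => ⟨Polynomial.C ⟨f, hf⟩, by simp⟩
  have hX : Polynomial.X ∈ B := ⟨Polynomial.X, by simp⟩
  have h1 := coeff_prod_sub_mem B univ (h := nkG Q ω) hn0 (fun o _ => (isNw_nkG ω hper o).1)
    fun o _ j hj => by
      rw [nkG]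
      split_ifs with h
      · exact mul_mem (pow_mem (pow_mem hX _) _) (hC _
          (ihn j hj (hper.deg_pos o) (hA o) (Nat.mul_div_cancel' h) (by omega)))
      · exact zero_mem _
  rw [coeff_prod_nkG hP hL ω hdvd hnN] at h1
  obtain ⟨p, hp⟩ : ∑ o : Orb (nkR (L := L)), nkG Q ω o n ∈ B := by
    have h2 := sub_mem (sum_mem fun j (_ : j ∈ range (n + 1)) => mul_mem (pow_mem hX j)
      (hC _ (hA' ω j n hn))) h1
    rwa [sub_sub_cancel] at h2
  have h2 : (∑ o : Orb (nkR (L := L)), nkG Q ω o n).coeff l ∈ A := by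
    rw [← hp, Polynomial.coe_mapRingHom, Polynomial.coeff_map]
    exact Subtype.property _
  obtain ⟨J, hJ, hJ'⟩ := exists_nk h0 (hdvd n₀ h0 hn₀) {0}
  have hJS : ∀ g, nkS g n₀ J = 1 := fun g => by
    rw [nkS, sum_eq_single 0 (fun i hi h => if_neg (by simpa [hJ' i (mem_range.1 hi)] using h))
      (fun h => absurd (mem_range.2 h0) h), if_pos ((hJ' 0 h0).2 (by simp)), pow_zero]
  have hJZ : nkZ Q n₀ J = 1 := by
    rw [nkZ, sum_eq_single 0 (fun i hi h => if_neg (by simpa [hJ' i (mem_range.1 hi)] using h))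
      (fun h => absurd (mem_range.2 h0) h), if_pos ((hJ' 0 h0).2 (by simp)), pow_zero]
  obtain ⟨i, hi⟩ := hper.mk_eq_iff.1 (Orb.mk_rep (Orb.mk nkR J))
  have hd : (Orb.mk nkR J).deg = n₀ := by
    obtain ⟨c, hc⟩ := hper.iterate_eq_iff.1 hJ
    have h3 := nkS_mul (hper.iterate_eq_iff.2 (dvd_refl (Orb.mk nkR J).deg)) 1 c
    rw [← hc, hJS] at h3
    have h4 : c = 1 := by simpa using Nat.eq_one_of_mul_eq_one_left h3.symm
    rw [hc, h4, mul_one]
  have hw : nkS 1 n₀ (Orb.mk nkR J).rep = 1 := by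
    rw [← nkS_one_iterate (hd ▸ hrep _ :) i, ← hi, hJS]
  rw [Polynomial.finsetSum_coeff, ← add_sum_erase _ _ (mem_univ (Orb.mk nkR J))] at h2
  have h3 := sub_mem h2 (sum_mem (t := univ.erase (Orb.mk nkR J))
    (f := fun o => (nkG Q ω o n).coeff l) fun o ho => ?_)
  · rw [add_sub_cancel_right, nkG, hd, if_pos (hn' ▸ dvd_mul_right n₀ l), hw, ← hn',
      Nat.mul_div_cancel_left _ h0, pow_one, mul_comm, Polynomial.coeff_C_mul_X_pow, if_pos rfl] at h3
    rwa [nexp_congr fun j hj hjl => ?_]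
    have h4 : nkR^[n₀ * j] (Orb.mk nkR J).rep = (Orb.mk nkR J).rep :=
      Function.IsPeriodicPt.mul_const (hd ▸ hrep _ :) j
    rw [← P_nkz_iterate hP hL ω (Nat.mul_pos h0 hj) ((Nat.mul_le_mul_left _ hjl).trans (hn' ▸ hnN))
      h4 i, ← hi, nkZ_eq_mul_div hP.two hL h0 (hdvd n₀ h0 hn₀) hJ, hJZ, one_mul, hω]
  · rw [nkG]
    split_ifs with h
    swap
    · simp
    rw [← pow_mul, mul_comm, Polynomial.coeff_C_mul_X_pow]
    split_ifs with h'
    swap
    · simp
    refine ihl _ (lt_of_le_of_ne (Nat.le_of_dvd hl (h' ▸ dvd_mul_left _ _)) fun e => ?_)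
      (hper.deg_pos o) (hA o) (Nat.mul_div_cancel' h)
    have h4 : o.deg = n₀ := Nat.eq_of_mul_eq_mul_right hl (by rw [hn', ← e, Nat.mul_div_cancel' h])
    rw [e, h4] at h'
    refine ne_of_mem_erase ho ?_
    rw [← o.mk_rep]
    exact nk_eq_of_one h0 (h4 ▸ hrep o :) hJ ((Nat.mul_eq_right hl.ne').1 h'.symm) (hJS 1)

theorem LZ_le [IsAlgClosed k] (hP : ParZ k Q R N) (hn : n ≤ N) (A : Subring (Lam k Q R))
    (hA : ∀ (ω : Lab k R) j, ∀ m ≤ n, Tj ω j (Hh k Q R m) ∈ A) : LZ k Q R n ≤ A := by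
  refine Subring.closure_le.2 ?_
  rintro _ ⟨n₀, l, a, h0, hl, ha, rfl⟩
  exact nexp_P_mem hP hn A hA h0 hl ha

end Cfsg.Gun

set_option linter.all false in
theorem Cfsg.Rz.Gun_Integ_0 : True := by
  have := @_root_.Cfsg.Gun.Tj.eq_def.{0}
  have := @_root_.Cfsg.Gun.Tj.eq_1.{0}
  have := @_root_.Cfsg.Gun.Tj.fun_cases
  trivial

set_option linter.all false in
theorem Cfsg.Rz.Gun_Integ_1 : True := by
  have := @_root_.Cfsg.Gun.nkG.eq_def.{0}
  have := @_root_.Cfsg.Gun.nkG.fun_cases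
  have := @_root_.Cfsg.Gun.nkZ.eq_def
  have := @_root_.Cfsg.Gun.nkZ.fun_cases
  trivial
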