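import Cfsg.Agent.Gun.Rz
import Cfsg.Agent.Gun.Integ

/-!
# Integrality from the Weil character (S4537 project)

Let `Gn n = {u ∈ hom n | res u is a generalized character of G n}`; it is a self-dual lattice:
`u ∈ Gn n ↔ ∀ v ∈ Gn n, bf u (cj v) ∈ ℤ` (`ip_res`, `exists_res_eq`).
(1) `Hh l * Gn m ⊆ Gn (m + l)`, by strong induction on `m` (all `l`): the Howe map `θ ↦ (g ↦ |G m|⁻¹ ∑_h ω(g, h) θ h)` preserves
generalized characters, and by `sum_ty`, `howe` it sends `res u` to `± res (∑_{r ≤ m} comp r (Sh sign u) * Hh (m + l - r))`; the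
term `r = m` is `u * Hh l` (`comp_Sh_self`), for `r < m` `comp r (Sh sign u) = ± comp r (Sh 1 u) ∈ Gn r` by duality
(`bf_mul_Hh`, `cj_Hh`, `cj_Sh_one`, induction), then induction again.
(2) `Tj ω j (Hh l) * Gn m ⊆ Gn (m + l)` by induction on `j` (`Tj_mul`, `Tj` preserves `Gn`: `vl_Dg`, `hE`).
(3) `A = {u | ∀ l m, m + l ≤ N → comp l u * Gn m ⊆ Gn (m + l)}` is a subring (`comp_mul`); `LZ_le`; `1 ∈ Gn 0` (`res_Hh`).
-/

set_option autoImplicit false
set_option linter.unusedSectionVars false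
set_option linter.unusedVariables false
set_option linter.style.haveILetI false

namespace Cfsg.Gun

open Finset Function Gln Subgroup

universe u

variable {k : Type u} [Field k] [IsAlgClosed k] {Q : ℤ} {R N : ℕ} [NeZero R]

section

variable {G : ℕ → Type u} [∀ n, Group (G n)] [∀ n, Finite (G n)]
  (r : ∀ n, n ≤ N → Rb k Q R n (G n)) {n m l : ℕ} {u v : Lam k Q R}

/-- The lattice of generalized characters. -/
def Gn (n : ℕ) : AddSubgroup (Lam k Q R) where
  carrier := {u | u ∈ hom k Q R n ∧ ∀ hn, IsGeneralizedCharacter (G n) ((r n hn).res u)}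
  add_mem' ha hb := ⟨add_mem ha.1 hb.1, fun hn => by rw [map_add]; exact (ha.2 hn).add (hb.2 hn)⟩
  zero_mem' := ⟨zero_mem _, fun hn => by rw [map_zero]; exact IsGeneralizedCharacter.zero⟩
  neg_mem' ha := ⟨neg_mem ha.1, fun hn => by rw [map_neg]; exact (ha.2 hn).neg⟩

theorem smul_mem_Gn (hu : u ∈ Gn r n) (z : ℤ) : (z : ℂ) • u ∈ Gn r n := by
  rw [Int.cast_smul_eq_zsmul]
  exact zsmul_mem hu z

variable (hP : ParZ k Q R N)
include hP

theorem bf_Gn (hn : n ≤ N) (hu : u ∈ Gn r n) (hv : v ∈ Gn r n) : ∃ z : ℤ, bf u (cj v) = z := by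
  rw [← (r n hn).ip_res hP hu.1]
  exact (hu.2 hn).exists_ip_eq_int (hv.2 hn)

theorem mem_Gn_of_bf (hu : u ∈ hom k Q R n) (h : ∀ v ∈ Gn r n, ∃ z : ℤ, bf u (cj v) = z) :
    u ∈ Gn r n := by
  refine ⟨hu, fun hn => isGeneralizedCharacter_iff.2 ⟨(r n hn).isClassFunction_res u, fun χ => ?_⟩⟩
  obtain ⟨v, hv, e⟩ := (r n hn).exists_res_eq hP χ.isClassFunction
  rw [← e, (r n hn).ip_res hP hu]
  exact h v ⟨hv, fun _ => e ▸ χ.isCharacter.isGen⟩

theorem one_mem_Gn : (1 : Lam k Q R) ∈ Gn r 0 :=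
  ⟨one_mem_hom, fun hn => by
    rw [← Hh_zero, (r 0 hn).res_Hh hP]
    exact IsCharacter.one.isGen⟩

theorem howe_mem_Gn
    (hW : ∀ n m hn hm, IsGeneralizedCharacter (G n × G m) fun x =>
      (Q : ℂ) ^ hdg ((r n hn).ty x.1) ((r m hm).ty x.2)) (hm : m ≤ N) (hu : u ∈ Gn r m) (n : ℕ) :
    ∑ x ∈ antidiagonal n, comp x.1 (Sh Q.sign u) * Hh k Q R x.2 ∈ Gn r n := by
  haveI := Fintype.ofFinite (G n)
  haveI := Fintype.ofFinite (G m)
  set w := ∑ x ∈ antidiagonal n, comp x.1 (Sh Q.sign u) * Hh k Q R x.2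
  have hw : w ∈ hom k Q R n := Submodule.sum_mem _ fun x hx =>
    mem_antidiagonal.1 hx ▸ mul_mem_hom _ _ _ (comp_mem _ _) _ (Hh_mem_hom _)
  refine ⟨hw, fun hn => isGeneralizedCharacter_iff.2 ⟨(r n hn).isClassFunction_res _, fun χ => ?_⟩⟩
  obtain ⟨z, hz⟩ := (hW n m hn hm).exists_ip_eq_int
    ((χ.isCharacter.isGen.comp (MonoidHom.fst _ _)).mul ((hu.2 hm).star.comp (MonoidHom.snd _ _)))
  have h1 : ∀ g, (Nat.card (G m) : ℂ)⁻¹ * ∑ h, (Q : ℂ) ^ hdg ((r n hn).ty g) ((r m hm).ty h) *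
      (r m hm).res u h = (Q.sign : ℂ) ^ m * (r n hn).res w g := fun g =>
    ((r m hm).sum_ty hP fun c' => (Q : ℂ) ^ hdg ((r n hn).ty g) c' * vl c' u).trans
      (howe hP hu.1 ((r n hn).mem g))
  have h2 : (Q.sign : ℂ) ^ m * (Q.sign : ℂ) ^ m = 1 := by
    rw [← mul_pow, ← sq, sign_sq hP.two, one_pow]
  refine ⟨Q.sign ^ m * z, ?_⟩
  push_cast
  have h3 : ∀ g, (r n hn).res w g * (starRingEnd ℂ) (χ.1 g) = (Q.sign : ℂ) ^ m *
      ((Nat.card (G m) : ℂ)⁻¹ * ∑ h, (Q : ℂ) ^ hdg ((r n hn).ty g) ((r m hm).ty h) *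
        ((starRingEnd ℂ) (χ.1 g) * (r m hm).res u h)) := fun g => by
    simp only [mul_left_comm _ ((starRingEnd ℂ) (χ.1 g)), ← mul_sum]
    rw [h1, ← mul_assoc (_ ^ m), h2, one_mul, mul_comm]
  rw [← hz, ip_def, ip_def, Fintype.sum_prod_type, Nat.card_prod, Nat.cast_mul, mul_inv,
    sum_congr rfl fun g _ => h3 g, ← mul_sum, ← mul_sum, mul_left_comm, mul_assoc]
  simp only [Pi.mul_apply, Function.comp_apply, MonoidHom.coe_fst, MonoidHom.coe_snd, map_mul,
    Pi.star_apply, RCLike.star_def, Complex.conj_conj]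

theorem mul_Hh_mem_Gn
    (hW : ∀ n m hn hm, IsGeneralizedCharacter (G n × G m) fun x =>
      (Q : ℂ) ^ hdg ((r n hn).ty x.1) ((r m hm).ty x.2)) (e : m + l = n) (hn : n ≤ N)
    (hu : u ∈ Gn r m) : u * Hh k Q R l ∈ Gn r n := by
  induction m using Nat.strong_induction_on generalizing l n u with
  | _ m ih =>
  have hm : m ≤ N := by omega
  have h1 := howe_mem_Gn r hP hW hm hu n
  rw [← add_sum_erase _ _ (mem_antidiagonal.2 e : (m, l) ∈ _), comp_Sh_self hP _ hu.1] at h1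
  refine (AddSubgroup.add_mem_cancel_right _ (sum_mem fun x hx => ?_)).1 h1
  have hx' := mem_antidiagonal.1 (mem_of_mem_erase hx)
  rcases lt_trichotomy x.1 m with h | h | h
  · obtain ⟨d, rfl⟩ := Nat.exists_eq_add_of_le h.le
    rw [comp_Sh _ _ _ hu.1, smul_mul_assoc, ← Int.cast_pow]
    refine smul_mem_Gn r (ih _ h hx' hn (mem_Gn_of_bf r hP (comp_mem _ _) fun v hv => ?_)) _
    rw [bf_comm, bf_comp (cj_mem_hom hv.1), ← bf_mul_Hh hP (cj_mem_hom hv.1) hu.1, bf_comm,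
      ← cj_Hh, ← map_mul]
    exact bf_Gn r hP hm hu (ih _ h rfl hm hv)
  · exact absurd (Prod.ext h (by omega)) (ne_of_mem_erase hx)
  · rw [comp_Sh_of_lt _ hu.1 h, zero_mul]
    exact zero_mem _

theorem Tj_mem_Gn (hE : ∀ n hn (ω : Lab k R) j, IsGeneralizedCharacter (G n) fun g =>
      ((evm ((r n hn).ty g)).map fun x => (ω x : ℂ)).esymm j) (ω : Lab k R) (j : ℕ)
    (hu : u ∈ Gn r n) : Tj ω j u ∈ Gn r n := by
  refine ⟨Dg_mem _ hu.1, fun hn => ?_⟩
  convert (hE n hn ω j).mul (hu.2 hn) using 1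
  ext g
  exact vl_Dg hP (fun f g _ _ h => by rw [evm_congr h]) ((r n hn).tpos hP g) u

theorem Tj_Hh_mul_mem_Gn
    (hW : ∀ n m hn hm, IsGeneralizedCharacter (G n × G m) fun x =>
      (Q : ℂ) ^ hdg ((r n hn).ty x.1) ((r m hm).ty x.2))
    (hE : ∀ n hn (ω : Lab k R) j, IsGeneralizedCharacter (G n) fun g =>
      ((evm ((r n hn).ty g)).map fun x => (ω x : ℂ)).esymm j) (ω : Lab k R) (j : ℕ)
    (e : m + l = n) (hn : n ≤ N) (hu : u ∈ Gn r m) : Tj ω j (Hh k Q R l) * u ∈ Gn r n := by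
  induction j using Nat.strong_induction_on generalizing u with
  | _ j ih =>
  have h1 := Tj_mem_Gn r hP hE ω j (mul_Hh_mem_Gn r hP hW e hn hu)
  rw [mul_comm, Tj_mul, ← add_sum_erase _ _ (mem_antidiagonal.2 (add_zero j) : (j, 0) ∈ _),
    Tj_zero] at h1
  refine (AddSubgroup.add_mem_cancel_right _ (sum_mem fun x hx => ?_)).1 h1
  have hx' := mem_antidiagonal.1 (mem_of_mem_erase hx)
  refine ih _ (lt_of_le_of_ne (by omega) fun h => ne_of_mem_erase hx (Prod.ext h (by omega)))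
    (Tj_mem_Gn r hP hE ω _ hu)

end

theorem gen_of_weil (hP : ParZ k Q R N) {G : ℕ → Type u} [∀ n, Group (G n)] [∀ n, Finite (G n)]
    (r : ∀ n, n ≤ N → Rb k Q R n (G n))
    (hW : ∀ n m hn hm, IsGeneralizedCharacter (G n × G m) fun x =>
      (Q : ℂ) ^ hdg ((r n hn).ty x.1) ((r m hm).ty x.2))
    (hE : ∀ n hn (ω : Lab k R) j, IsGeneralizedCharacter (G n) fun g =>
      ((evm ((r n hn).ty g)).map fun x => (ω x : ℂ)).esymm j)
    {n : ℕ} (hn : n ≤ N) {u : Lam k Q R} (hu : u ∈ LZ k Q R n) :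
    IsGeneralizedCharacter (G n) ((r n hn).res u) := by
  let A : Subring (Lam k Q R) :=
    { carrier := {u | ∀ l m n, m + l = n → n ≤ N → ∀ v ∈ Gn r m, comp l u * v ∈ Gn r n}
      mul_mem' := fun {a b} ha hb l m n e hn v hv => by
        rw [comp_mul, sum_mul]
        refine sum_mem fun x hx => ?_
        have hx' := mem_antidiagonal.1 hx
        rw [mul_assoc]
        exact ha _ _ _ (by omega) hn _ (hb x.2 m _ rfl (by omega) v hv)
      one_mem' := fun l m n e hn v hv => by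
        rcases eq_or_ne l 0 with rfl | h
        · rwa [comp_of_mem one_mem_hom, one_mul, ← e]
        · rw [comp_of_ne one_mem_hom h, zero_mul]
          exact zero_mem _
      add_mem' := fun {a b} ha hb l m n e hn v hv => by
        rw [map_add, add_mul]
        exact add_mem (ha l m n e hn v hv) (hb l m n e hn v hv)
      zero_mem' := fun l m n e hn v hv => by
        rw [map_zero, zero_mul]
        exact zero_mem _
      neg_mem' := fun {a} ha l m n e hn v hv => by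
        rw [map_neg, neg_mul]
        exact neg_mem (ha l m n e hn v hv) }
  have h1 := LZ_le hP hn A (fun ω j m' _ l m n e hn v hv => by
    have h0 : Tj ω j (Hh k Q R m') ∈ hom k Q R m' := Dg_mem _ (Hh_mem_hom _)
    rcases eq_or_ne l m' with rfl | h
    · rw [comp_of_mem h0]
      exact Tj_Hh_mul_mem_Gn r hP hW hE ω j e hn hv
    · rw [comp_of_ne h0 h, zero_mul]
      exact zero_mem _) hu n 0 n (zero_add n) hn 1 (one_mem_Gn r hP)
  have h2 := h1.2 hn
  rwa [mul_one, (r n hn).res_comp hP] at h2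

end Cfsg.Gun

set_option linter.all false in
theorem Cfsg.Rz.Gun_Gen_0 : True := by
  have := @_root_.Cfsg.Gun.Gn.congr_simp.{0}
  have := @_root_.Cfsg.Gun.Gn.eq_def.{0}
  have := @_root_.Cfsg.Gun.Gn.eq_1.{0}
  have := @_root_.Cfsg.Gun.Gn.fun_cases
  trivial
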