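import Cfsg.Agent.Gun.Mm

/-!
# Rational functions of the parameter (S4537 project)

`reg` = the functions `ℤ → ℂ` which on `2 ≤ |t|` agree with a rational function without poles there.
`transfer`: finite fields of order `2 ^ j` in universe `u` are `ULift (GaloisField 2 j)`; a polynomial with infinitely many
roots is `0`.
-/

set_option autoImplicit false
set_option linter.unusedSectionVars false
set_option linter.unusedVariables false

namespace Cfsg.Gun

open Finset Polynomial

universe u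

/-- The regular functions. -/
def reg : Subalgebra ℂ (ℤ → ℂ) where
  carrier := {f | ∃ A B : ℂ[X], ∀ t : ℤ, 2 ≤ |t| → B.eval (t : ℂ) ≠ 0 ∧
    f t * B.eval (t : ℂ) = A.eval (t : ℂ)}
  mul_mem' := by
    rintro f g ⟨A, B, h⟩ ⟨A', B', h'⟩
    refine ⟨A * A', B * B', fun t ht => ?_⟩
    rw [eval_mul, eval_mul, ← (h t ht).2, ← (h' t ht).2, Pi.mul_apply]
    exact ⟨mul_ne_zero (h t ht).1 (h' t ht).1, by ring⟩
  add_mem' := by
    rintro f g ⟨A, B, h⟩ ⟨A', B', h'⟩
    refine ⟨A * B' + A' * B, B * B', fun t ht => ?_⟩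
    rw [eval_add, eval_mul, eval_mul, eval_mul, ← (h t ht).2, ← (h' t ht).2, Pi.add_apply]
    exact ⟨mul_ne_zero (h t ht).1 (h' t ht).1, by ring⟩
  algebraMap_mem' c := ⟨C c, 1, fun t _ => by simp⟩

variable {f g : ℤ → ℂ}

theorem reg_congr (hf : f ∈ reg) (h : ∀ t, 2 ≤ |t| → g t = f t) : g ∈ reg := by
  obtain ⟨A, B, hf⟩ := hf
  exact ⟨A, B, fun t ht => by rw [h t ht]; exact hf t ht⟩

theorem reg_const (c : ℂ) : (fun _ => c) ∈ reg := by
  exact reg.algebraMap_mem c

theorem reg_id : (fun t : ℤ => (t : ℂ)) ∈ reg := by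
  exact ⟨X, 1, fun t _ => by simp⟩

theorem reg_inv (hf : f ∈ reg) (h : ∀ t, 2 ≤ |t| → f t ≠ 0) : (fun t => (f t)⁻¹) ∈ reg := by
  obtain ⟨A, B, hf⟩ := hf
  refine ⟨B, A, fun t ht => ?_⟩
  rw [← (hf t ht).2]
  exact ⟨mul_ne_zero (h t ht) (hf t ht).1, inv_mul_cancel_left₀ (h t ht) _⟩

theorem reg_star (hf : f ∈ reg) : (fun t => star (f t)) ∈ reg := by
  obtain ⟨A, B, hf⟩ := hf
  have : ∀ (P : ℂ[X]) (t : ℤ), (P.map (starRingEnd ℂ)).eval (t : ℂ) = star (P.eval (t : ℂ)) :=
    fun P t => by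
      conv_lhs => rw [← map_intCast (starRingEnd ℂ) t, eval_map, eval₂_hom]
      rfl
  refine ⟨A.map (starRingEnd ℂ), B.map (starRingEnd ℂ), fun t ht => ?_⟩
  rw [this, this, ← (hf t ht).2, star_mul']
  exact ⟨star_ne_zero.2 (hf t ht).1, rfl⟩

theorem reg_sum {ι : Type*} (s : Finset ι) {f : ι → ℤ → ℂ} (h : ∀ i ∈ s, f i ∈ reg) :
    (fun t => ∑ i ∈ s, f i t) ∈ reg := by
  convert reg.sum_mem h using 1
  ext t
  rw [Finset.sum_apply]

theorem reg_prod {ι : Type*} (s : Finset ι) {f : ι → ℤ → ℂ} (h : ∀ i ∈ s, f i ∈ reg) :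
    (fun t => ∏ i ∈ s, f i t) ∈ reg := by
  convert reg.prod_mem h using 1
  ext t
  rw [Finset.prod_apply]

theorem reg_multiset_sum {ι : Type*} (s : Multiset ι) {f : ι → ℤ → ℂ} (h : ∀ i ∈ s, f i ∈ reg) :
    (fun t => (s.map fun i => f i t).sum) ∈ reg := by
  induction s using Multiset.induction_on with
  | empty => simpa using reg_const 0
  | cons a s ih =>
    simp only [Multiset.map_cons, Multiset.sum_cons]
    exact reg.add_mem (h a (Multiset.mem_cons_self _ _))
      (ih fun i hi => h i (Multiset.mem_cons_of_mem hi))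

theorem reg_multiset_prod {ι : Type*} (s : Multiset ι) {f : ι → ℤ → ℂ} (h : ∀ i ∈ s, f i ∈ reg) :
    (fun t => (s.map fun i => f i t).prod) ∈ reg := by
  induction s using Multiset.induction_on with
  | empty => simpa using reg_const 1
  | cons a s ih =>
    simp only [Multiset.map_cons, Multiset.prod_cons]
    exact reg.mul_mem (h a (Multiset.mem_cons_self _ _))
      (ih fun i hi => h i (Multiset.mem_cons_of_mem hi))

theorem reg_ac (l : Multiset ℕ) : (fun t : ℤ => ac l t) ∈ reg := by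
  have h : (fun t : ℤ => (t : ℂ)⁻¹) ∈ reg := reg_inv reg_id fun t ht => by
    rw [Int.cast_ne_zero]; rintro rfl; simp at ht
  exact reg.mul_mem (reg.pow_mem reg_id _) (reg_prod _ fun i _ => reg_prod _ fun j _ =>
    reg.sub_mem reg.one_mem (reg.pow_mem h (j + 1)))

theorem reg_ac_inv (l : Multiset ℕ) : (fun t : ℤ => (ac l t)⁻¹) ∈ reg := by
  exact reg_inv (reg_ac l) fun t ht => ac_ne_zero l ht

theorem reg_pow_sub_one_inv {j : ℕ} (hj : 0 < j) : (fun t : ℤ => ((t : ℂ) ^ j - 1)⁻¹) ∈ reg := by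
  refine reg_inv (reg.sub_mem (reg.pow_mem reg_id j) reg.one_mem) fun t ht e => ?_
  have h1 : t ^ j = 1 := by exact_mod_cast sub_eq_zero.1 e
  have h2 := congrArg abs h1
  rw [abs_pow, abs_one] at h2
  exact (one_lt_pow₀ (by omega) hj.ne').ne' h2

/-- An identity between regular functions valid at all orders of finite fields holds for all `2 ≤ |t|`. -/
theorem transfer (hf : f ∈ reg) (hg : g ∈ reg)
    (h : ∀ (K : Type u) [Field K] [Finite K], f (Nat.card K) = g (Nat.card K)) {t : ℤ}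
    (ht : 2 ≤ |t|) : f t = g t := by
  obtain ⟨A, B, hf⟩ := reg.sub_mem hf hg
  have hA : A = 0 := by
    refine eq_zero_of_infinite_isRoot A (Set.infinite_of_injective_forall_mem
      (f := fun j : ℕ => (2 : ℂ) ^ (j + 1)) (fun i j e => ?_) fun j => ?_)
    · have : 2 ^ (i + 1) = 2 ^ (j + 1) := by
        simp only [] at e
        exact_mod_cast e
      simpa using this
    · have hc : Nat.card (ULift.{u} (GaloisField 2 (j + 1))) = 2 ^ (j + 1) := by
        rw [Nat.card_ulift, GaloisField.card 2 (j + 1) j.succ_ne_zero]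
      have h1 := h (ULift.{u} (GaloisField 2 (j + 1)))
      rw [hc] at h1
      have h2 := (hf ((2 ^ (j + 1) : ℕ) : ℤ) (by
        rw [Nat.abs_cast]
        exact_mod_cast Nat.le_self_pow j.succ_ne_zero 2)).2
      rw [Pi.sub_apply, h1, sub_self, zero_mul] at h2
      simpa using h2.symm
  have := hf t ht
  rw [hA, eval_zero, mul_eq_zero, Pi.sub_apply, sub_eq_zero] at this
  exact this.2.resolve_right this.1

end Cfsg.Gun

set_option linter.all false in
theorem Cfsg.Rz.Gun_Reg_0 : True := by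
  have := @_root_.Cfsg.Gun.reg.eq_def
  have := @_root_.Cfsg.Gun.reg.eq_1
  have := @_root_.Cfsg.Gun.reg.fun_cases
  trivial
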