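import Cfsg.Agent.Gun.Aut
import Cfsg.Agent.Gun.Reg

/-!
# Green functions as regular functions of the parameter (S4537 project)

`gv ρ l t`: for `t = |K|` the value of `∏_{j ∈ ρ} pI K j 1` at the unipotent class of type `l`.
Existence.  For unipotent `c` of type `l` let `s_K κ c = #{U : Inv c.rep | jt 1 (cls U.sub) = κ}`.  Counting intertwiners
`A : W → V` (`y` on `W` of type `κ`, `x` on `V` of type `l`) by their kernels (`finrank_itw`, `card_itw_eq`):
`|K| ^ mm κ l = ∑_{N : Inv y} inj (cls N.quo) x`, `inj d x = #{U : Inv x | cls U.sub = d} * |Aut d|`, `|Aut d| = ac` (`card_cent_unip`);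
the number of `N` with quotient type `μ` is `s_K μ (cls y)` (commutativity of the Hall product: `(δ_μ * 1)` vs `(1 * δ_μ)`).
So `s κ l * ac κ = t ^ mm κ l - ∑_{|μ| < |κ|} s μ κ * s μ l * ac μ`: by induction on `|κ|`, `s κ l` is regular.
Then for every `P : MvPolynomial ℕ ℂ` the family `aeval (fun j => comp j (Hx K 1)) P` is regular
(`MvPolynomial.induction_on`; `(f * comp j (Hx K 1)) c = ∑_{κ ⊢ |l| - j} s κ l * f(κ)`), and `pI K j 1 = nw (..) j` (`isNw_Hx`,
`fdeg_one`, `map_nw`; `nw` ignores `h 0`).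
`gv_orth`: `bf_monomial`, `adj_pI_mul`, `int_unip`.  `sum_gv_div`: `nexp_eq_sum`, `isNw_Hx`.  `star_gv`: `star_pI`, `reg_star`.
-/

set_option autoImplicit false
set_option linter.unusedSectionVars false
set_option linter.unusedVariables false
set_option linter.style.haveILetI false

namespace Cfsg.Gun

open Module Finset Function Gln Sym

universe u

section K

variable {K : Type u} [Field K] [Finite K] {k : Type u} [Field k] [Algebra K k] [IsAlgClosed k]
  [Algebra.IsAlgebraic K k] {V W : Type*} [AddCommGroup V] [Module K V] [Finite V]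
  [AddCommGroup W] [Module K W] [Finite W]

theorem itw_apply {x : End K V} {y : End K W} (A : itw x y) (w : W) : x (A.1 w) = A.1 (y w) :=
  LinearMap.congr_fun (mem_itw.1 A.2) w

theorem mem_itw_iff {x : End K V} {y : End K W} {A : W →ₗ[K] V} :
    A ∈ itw x y ↔ ∀ w, x (A w) = A (y w) := by
  rw [mem_itw, LinearMap.ext_iff]; rfl

/-- Intertwiners with an additional property, counted by image. -/
theorem card_itw_sub (x : End K V) (y : End K W) (p : Submodule K W → Prop) :
    Nat.card {A : itw x y // p (LinearMap.ker A.1)} =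
    ∑ U : Inv x, Nat.card {A : itw U.sub y // Surjective A.1 ∧ p (LinearMap.ker A.1)} := by
  rw [← Nat.card_sigma]
  symm
  refine Nat.card_congr (Equiv.ofBijective (fun z => ⟨⟨z.1.1.subtype ∘ₗ z.2.1.1,
    mem_itw_iff.2 fun w => congrArg Subtype.val (itw_apply z.2.1 w)⟩, ?_⟩) ⟨?_, ?_⟩)
  · rw [LinearMap.ker_comp, Submodule.ker_subtype, Submodule.comap_bot]
    exact z.2.2.2
  · rintro ⟨U, A, hA⟩ ⟨U', A', hA'⟩ h
    have h1 : U.1.subtype ∘ₗ A.1 = U'.1.subtype ∘ₗ A'.1 :=
      congrArg (fun z => z.1.1) h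
    have h2 : U = U' := by
      apply Subtype.ext
      have := congrArg LinearMap.range h1
      rwa [LinearMap.range_comp, LinearMap.range_comp, LinearMap.range_eq_top.2 hA.1,
        LinearMap.range_eq_top.2 hA'.1, Submodule.map_subtype_top, Submodule.map_subtype_top] at this
    subst h2
    have h3 : A = A' := Subtype.ext (LinearMap.ext fun w => Subtype.ext (LinearMap.congr_fun h1 w))
    subst h3
    rfl
  · rintro ⟨A, hA⟩
    refine ⟨⟨⟨LinearMap.range A.1, ?_⟩, ⟨⟨A.1.rangeRestrict, mem_itw_iff.2 fun w =>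
      Subtype.ext (itw_apply A w)⟩, A.1.surjective_rangeRestrict, ?_⟩⟩, rfl⟩
    · rintro _ ⟨w, rfl⟩
      exact ⟨y w, (itw_apply A w).symm⟩
    · rwa [LinearMap.ker_rangeRestrict]

/-- Intertwiners with an additional property, counted by kernel. -/
theorem card_itw_quo (x : End K V) (y : End K W) (p : Submodule K V → Prop) :
    Nat.card {A : itw x y // p (LinearMap.range A.1)} =
    ∑ U : Inv y, Nat.card {A : itw x U.quo // Injective A.1 ∧ p (LinearMap.range A.1)} := by
  rw [← Nat.card_sigma]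
  symm
  refine Nat.card_congr (Equiv.ofBijective (fun z => ⟨⟨z.2.1.1 ∘ₗ z.1.1.mkQ,
    mem_itw_iff.2 fun w => itw_apply z.2.1 (z.1.1.mkQ w)⟩, ?_⟩) ⟨?_, ?_⟩)
  · rw [LinearMap.range_comp, Submodule.range_mkQ, Submodule.map_top]
    exact z.2.2.2
  · rintro ⟨U, A, hA⟩ ⟨U', A', hA'⟩ h
    have h1 : A.1 ∘ₗ U.1.mkQ = A'.1 ∘ₗ U'.1.mkQ :=
      congrArg (fun z => z.1.1) h
    have h2 : U = U' := by
      apply Subtype.ext
      have := congrArg LinearMap.ker h1
      rwa [LinearMap.ker_comp, LinearMap.ker_comp, LinearMap.ker_eq_bot.2 hA.1,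
        LinearMap.ker_eq_bot.2 hA'.1, Submodule.comap_bot, Submodule.comap_bot, Submodule.ker_mkQ,
        Submodule.ker_mkQ] at this
    subst h2
    have h3 : A = A' := Subtype.ext (Submodule.linearMap_qext _ h1)
    subst h3
    rfl
  · rintro ⟨A, hA⟩
    refine ⟨⟨⟨LinearMap.ker A.1, ?_⟩, ⟨⟨(LinearMap.ker A.1).liftQ A.1 le_rfl, mem_itw_iff.2 ?_⟩,
      ?_, ?_⟩⟩, Subtype.ext (Subtype.ext (Submodule.liftQ_mkQ _ _ _))⟩
    · intro w hw
      change A.1 (y w) = 0
      rw [← itw_apply, show A.1 w = 0 from hw, map_zero]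
    · rintro ⟨w⟩
      exact itw_apply A w
    · exact LinearMap.ker_eq_bot.1 (Submodule.ker_liftQ_eq_bot _ _ _ le_rfl)
    · rwa [Submodule.range_liftQ]

/-- Intertwiners counted by image. -/
theorem card_itw_eq (x : End K V) (y : End K W) : Nat.card (itw x y) =
    ∑ U : Inv x, Nat.card {A : itw U.sub y // Surjective A.1} := by
  have := card_itw_sub x y fun _ => True
  simp only [and_true] at this
  rw [← this]
  exact Nat.card_congr (Equiv.subtypeUnivEquiv fun _ => trivial).symm

/-- Intertwiners counted by kernel. -/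
theorem card_itw_eq' (x : End K V) (y : End K W) : Nat.card (itw x y) =
    ∑ U : Inv y, Nat.card {A : itw x U.quo // Injective A.1} := by
  have := card_itw_quo x y fun _ => True
  simp only [and_true] at this
  rw [← this]
  exact Nat.card_congr (Equiv.subtypeUnivEquiv fun _ => trivial).symm

theorem card_itw_unip {x : End K V} {y : End K W} (hx : ∀ t ∈ ev k (cls x), t = 1) :
    Nat.card (itw x y) = Nat.card K ^ mm (jt (1 : k) (cls x)) (jt (1 : k) (cls y)) := by
  classical
  rw [Module.natCard_eq_pow_finrank (K := K), finrank_itw k]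
  congr 1
  by_cases h : (1 : k) ∈ ev k (cls x)
  · rw [Finset.sum_eq_single 1]
    · intro t ht h1
      exact absurd (hx t (Multiset.mem_toFinset.1 ht)) h1
    · intro h1
      exact absurd (Multiset.mem_toFinset.2 h) h1
  · rw [jt_eq_zero_iff.2 h, mm_zero_left]
    exact Finset.sum_eq_zero fun t ht => absurd (hx t (Multiset.mem_toFinset.1 ht) ▸
      Multiset.mem_toFinset.1 ht) h

/-- The bijective intertwiners. -/
theorem card_itw_bij (g : GLV K V) (y : End K W) [Decidable (cls y = cls (g : End K V))] :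
    Nat.card {A : itw (g : End K V) y // Bijective A.1} =
      if cls y = cls (g : End K V) then Nat.card (Subgroup.centralizer {g}) else 0 := by
  split_ifs with h
  · obtain ⟨e, he⟩ := cls_eq_iff.1 h
    symm
    refine Nat.card_congr (Equiv.ofBijective (fun z => ⟨⟨(z.1 : End K V) ∘ₗ e.toLinearMap,
      mem_itw_iff.2 fun w => ?_⟩, ?_⟩) ⟨?_, ?_⟩)
    · have := congrArg (fun a : GLV K V => (a : End K V) (e w))
        (Subgroup.mem_centralizer_singleton_iff.1 z.2)
      simp only [Units.val_mul, Module.End.mul_apply] at this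
      simp only [LinearMap.comp_apply, LinearEquiv.coe_coe, he, this]
    · exact ((Module.End.isUnit_iff _).1 z.1.isUnit).comp e.bijective
    · intro z z' hz
      have h1 : (z.1 : End K V) ∘ₗ e.toLinearMap = (z'.1 : End K V) ∘ₗ e.toLinearMap :=
        congrArg (fun a => a.1.1) hz
      refine Subtype.ext (Units.ext (LinearMap.ext fun v => ?_))
      simpa using LinearMap.congr_fun h1 (e.symm v)
    · rintro ⟨A, hA⟩
      have hu : IsUnit (A.1 ∘ₗ e.symm.toLinearMap : End K V) :=
        (Module.End.isUnit_iff _).2 (hA.comp e.symm.bijective)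
      refine ⟨⟨hu.unit, Subgroup.mem_centralizer_singleton_iff.2 (Units.ext
        (LinearMap.ext fun v => ?_))⟩, Subtype.ext (Subtype.ext (LinearMap.ext fun w => ?_))⟩
      · obtain ⟨w, rfl⟩ := e.surjective v
        simp [← he, itw_apply]
      · simp
  · rw [Nat.card_eq_zero]
    refine Or.inl ⟨fun A => h (cls_eq_iff.2 ⟨LinearEquiv.ofBijective A.1.1 A.2, fun w => ?_⟩)⟩
    exact (itw_apply A.1 w).symm

open Classical in
/-- The indicator function of a class. -/
noncomputable def dl (d : Iso K) : Hall K := fun c => if c = d then 1 else 0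

open Classical in
theorem dl_apply (d c : Iso K) : dl d c = if c = d then 1 else 0 := rfl

theorem dl_mem_hom (d : Iso K) : dl d ∈ hom K d.dim := fun c h => by
  classical
  rw [dl_apply, if_neg fun e => h (by rw [e])]

theorem int_dl (g : GLV K V) :
    int (finrank K V) (dl (cls (g : End K V))) = (Nat.card (Subgroup.centralizer {g}) : ℂ)⁻¹ := by
  classical
  haveI := Fintype.ofFinite (GLV K V)
  rw [int_eq (V := V) rfl]
  have h1 : ∑ x : V →ₗ[K] V, dl (cls (g : End K V)) (cls x) =
      ∑ h : GLV K V, if IsConj g h then (1 : ℂ) else 0 := by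
    symm
    refine Fintype.sum_of_injective Units.val Units.val_injective _ _ (fun x hx => ?_) fun h => ?_
    · rw [dl_apply, if_neg]
      intro e
      exact hx ((cls_eq_iff.1 e).symm.isUnit g.isUnit)
    · rw [dl_apply]
      exact if_congr (by rw [eq_comm, cls_eq_iff_isConj]) rfl rfl
  have h2 : Nat.card {h : GLV K V // IsConj g h} * Nat.card (Subgroup.centralizer {g}) =
      Nat.card (GLV K V) := by
    have := MulAction.card_orbit_mul_card_stabilizer_eq_card_group (ConjAct (GLV K V)) g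
    rw [← Nat.card_eq_fintype_card, ← Nat.card_eq_fintype_card, ← Nat.card_eq_fintype_card] at this
    rw [Subgroup.nat_card_centralizer_nat_card_stabilizer]
    refine Eq.trans ?_ this
    congr 1
    exact Nat.card_congr (Equiv.subtypeEquivRight fun h => by
      rw [ConjAct.mem_orbit_conjAct, isConj_comm])
  have h3 : (Nat.card (Subgroup.centralizer {g}) : ℂ) ≠ 0 := Nat.cast_ne_zero.2 Nat.card_pos.ne'
  rw [h1, sum_boole, ← Fintype.card_subtype, ← Nat.card_eq_fintype_card, ← h2, Nat.cast_mul]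
  have h4 : (Nat.card {h : GLV K V // IsConj g h} : ℂ) ≠ 0 := by
    haveI : Nonempty {h : GLV K V // IsConj g h} := ⟨⟨g, IsConj.refl g⟩⟩
    exact Nat.cast_ne_zero.2 Nat.card_pos.ne'
  field_simp

theorem isUnit_of_unip {x : End K V} (h : ∀ t ∈ ev k (cls x), t = 1) : IsUnit x :=
  (isUnit_iff_ev (k := k)).2 fun h0 => zero_ne_one (h 0 h0)

theorem unip_sub {x : End K V} (h : ∀ t ∈ ev k (cls x), t = 1) (U : Inv x) :
    ∀ t ∈ ev k (cls U.sub), t = 1 := fun t ht =>
  h t (by rw [← ev_sub_add_quo k U]; exact Multiset.mem_add.2 (Or.inl ht))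

theorem unip_quo {x : End K V} (h : ∀ t ∈ ev k (cls x), t = 1) (U : Inv x) :
    ∀ t ∈ ev k (cls U.quo), t = 1 := fun t ht =>
  h t (by rw [← ev_sub_add_quo k U]; exact Multiset.mem_add.2 (Or.inr ht))

theorem int_dl_unip {c : Iso K} (h : ∀ t ∈ ev k c, t = 1) :
    int c.dim (dl c) = (ac (jt (1 : k) c) (Nat.card K))⁻¹ := by
  have h' : ∀ t ∈ ev k (cls c.rep), t = 1 := by rwa [cls_rep]
  obtain ⟨g, hg⟩ := isUnit_of_unip h'
  have e : cls (g : End K (Fin c.dim → K)) = c := by rw [hg, cls_rep]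
  have := int_dl g
  rw [card_cent_unip (k := k) g (by rwa [e]), e, Module.finrank_fin_fun] at this
  exact this

variable (K k) in
/-- The unipotent class of type `l`. -/
noncomputable def uc (l : Multiset ℕ) : Iso K :=
  Classical.epsilon fun c => (∀ t ∈ ev k c, t = 1) ∧ jt (1 : k) c = l ∧ c.dim = l.sum

theorem uc_spec {l : Multiset ℕ} (h : Pos l) :
    (∀ t ∈ ev k (uc K k l), t = 1) ∧ jt (1 : k) (uc K k l) = l ∧ (uc K k l).dim = l.sum :=
  Classical.epsilon_spec (exists_unip (F := K) (k := k) h)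

theorem uc_jt {c : Iso K} (h : ∀ t ∈ ev k c, t = 1) : uc K k (jt (1 : k) c) = c :=
  eq_of_unip (uc_spec (jt_pos _ _)).1 h (uc_spec (jt_pos _ _)).2.1

theorem dim_uc {n : ℕ} (l : Nat.Partition n) : (uc K k l.parts).dim = n :=
  (uc_spec (pos_parts l)).2.2.trans l.parts_sum

theorem jt_uc {n : ℕ} (l : Nat.Partition n) : jt (1 : k) (uc K k l.parts) = l.parts :=
  (uc_spec (pos_parts l)).2.1

theorem unip_uc {n : ℕ} (l : Nat.Partition n) : ∀ t ∈ ev k (uc K k l.parts), t = 1 :=
  (uc_spec (pos_parts l)).1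

/-- Expansion in the indicator functions of unipotent classes. -/
theorem sum_dl_uc (f : Iso K → ℂ) {n : ℕ} {c : Iso K} (h : ∀ t ∈ ev k c, t = 1) :
    ∑ l : Nat.Partition n, f (uc K k l.parts) * dl (uc K k l.parts) c =
      if c.dim = n then f c else 0 := by
  classical
  split_ifs with hn
  · obtain ⟨μ, hμ⟩ := (jt_pos (1 : k) c).exists_parts ((dim_of_unip h).symm.trans hn)
    rw [Finset.sum_eq_single μ, hμ, uc_jt h, dl_apply, if_pos rfl, mul_one]
    · intro l _ hl
      rw [dl_apply, if_neg, mul_zero]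
      intro e
      refine hl (Nat.Partition.ext ?_)
      rw [hμ, e, jt_uc]
    · exact fun h => absurd (mem_univ _) h
  · refine Finset.sum_eq_zero fun l _ => ?_
    rw [dl_apply, if_neg, mul_zero]
    intro e
    exact hn (e ▸ dim_uc l)

/-- The class equation for functions supported on unipotent classes. -/
theorem int_unip {f : Hall K} (hf : f ∈ supp K ({1} : Set k)) (n : ℕ) :
    int n f = ∑ l : Nat.Partition n, f (uc K k l.parts) / ac l.parts (Nat.card K) := by
  classical
  have h1 : int n f = int n (∑ l : Nat.Partition n, f (uc K k l.parts) • dl (uc K k l.parts)) := by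
    refine int_congr fun c hc => ?_
    rw [Hall.sum_apply]
    simp only [Hall.smul_apply]
    by_cases h : ∀ t ∈ ev k c, t = 1
    · rw [sum_dl_uc f h, if_pos hc]
    · rw [not_not.1 fun h0 => h (mem_supp.1 hf c h0)]
      refine (Finset.sum_eq_zero fun l _ => ?_).symm
      rw [dl_apply, if_neg, mul_zero]
      intro e
      exact h (e ▸ unip_uc l)
  rw [h1, map_sum]
  refine Finset.sum_congr rfl fun l _ => ?_
  have := int_dl_unip (unip_uc (K := K) (k := k) l)
  rw [dim_uc, jt_uc] at this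
  rw [map_smul, this, smul_eq_mul, div_eq_mul_inv]

/-- The number of invariant subspaces of class `d`. -/
noncomputable def ns (d : Iso K) : Hall K := dl d * show Hall K from fun _ => 1

theorem ns_cls (d : Iso K) (x : End K V) : ns d (cls x) = ∑ U : Inv x, dl d (cls U.sub) := by
  rw [ns, mul_cls]
  simp

theorem ns_cls' (d : Iso K) (x : End K V) : ns d (cls x) = ∑ U : Inv x, dl d (cls U.quo) := by
  rw [ns, mul_comm, mul_cls]
  simp

theorem ns_of_le {d c : Iso K} (h : c.dim ≤ d.dim) : ns d c = dl d c := by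
  classical
  rw [← cls_rep c, ns_cls, Finset.sum_eq_single ⟨⊤, le_top⟩]
  · congr 1
    exact cls_sub_eq _ LinearMap.id injective_id LinearMap.range_id fun _ => rfl
  · intro U _ hU
    refine dl_mem_hom d _ fun e => hU (Subtype.ext (Submodule.eq_top_of_finrank_eq ?_))
    refine le_antisymm (Submodule.finrank_le _) ?_
    rw [dim_cls] at e
    rw [e, Module.finrank_fin_fun]
    exact h
  · exact fun h => absurd (mem_univ _) h

/-- A sum over the invariant subspaces of a unipotent map, grouped by their classes. -/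
theorem sum_inv_unip {x : End K V} (h : ∀ t ∈ ev k (cls x), t = 1) (f : Iso K → ℂ) (n : ℕ) :
    ∑ U : Inv x, (if (cls U.sub).dim = n then f (cls U.sub) else 0) =
      ∑ l : Nat.Partition n, f (uc K k l.parts) * ns (uc K k l.parts) (cls x) := by
  simp only [ns_cls, mul_sum]
  rw [sum_comm]
  exact Finset.sum_congr rfl fun U _ => (sum_dl_uc f (unip_sub h U)).symm

theorem card_surj_unip {z : End K V} (h : ∀ t ∈ ev k (cls z), t = 1) (y : End K W) :
    (Nat.card {A : itw z y // Surjective A.1} : ℂ) =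
      ns (cls z) (cls y) * ac (jt (1 : k) (cls z)) (Nat.card K) := by
  classical
  obtain ⟨g, rfl⟩ := isUnit_of_unip h
  have := card_itw_quo (g : End K V) y (· = ⊤)
  simp only [LinearMap.range_eq_top] at this
  rw [this, ns_cls', sum_mul, Nat.cast_sum, ← card_cent_unip g h]
  refine Finset.sum_congr rfl fun U _ => ?_
  rw [dl_apply, ite_mul, one_mul, zero_mul]
  exact (congrArg Nat.cast (card_itw_bij g U.quo)).trans (by split_ifs <;> simp)

/-- The recursion for the numbers of invariant subspaces. -/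
theorem ns_rec {c d : Iso K} (hc : ∀ t ∈ ev k c, t = 1) (hd : ∀ t ∈ ev k d, t = 1) :
    ns d c * ac (jt (1 : k) d) (Nat.card K) = (Nat.card K : ℂ) ^ mm (jt (1 : k) c) (jt (1 : k) d) -
      ∑ m ∈ range d.dim, ∑ l : Nat.Partition m, ns (uc K k l.parts) d * ac l.parts (Nat.card K) *
        ns (uc K k l.parts) c := by
  classical
  have hc' : ∀ t ∈ ev k (cls c.rep), t = 1 := by rwa [cls_rep]
  have h1 := congrArg (Nat.cast : ℕ → ℂ) ((card_itw_unip (y := d.rep) hc').symm.trans
    (card_itw_eq c.rep d.rep))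
  rw [Nat.cast_pow, Nat.cast_sum, cls_rep, cls_rep] at h1
  have h2 : ∀ U : Inv c.rep, (Nat.card {A : itw U.sub d.rep // Surjective A.1} : ℂ) =
      ∑ m ∈ range (d.dim + 1), if (cls U.sub).dim = m then
        ns (cls U.sub) d * ac (jt (1 : k) (cls U.sub)) (Nat.card K) else 0 := fun U => by
    rw [card_surj_unip (unip_sub hc' U), cls_rep, sum_ite_eq]
    split_ifs with hm
    · rfl
    · rw [mem_range, not_lt] at hm
      rw [ns_of_le (by omega), dl_mem_hom _ _ (by omega), zero_mul]
  rw [Finset.sum_congr rfl fun U _ => h2 U, sum_comm, sum_range_succ] at h1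
  simp only [sum_inv_unip hc' (fun e => ns e d * ac (jt (1 : k) e) (Nat.card K)), jt_uc,
    cls_rep] at h1
  rw [h1, add_sub_cancel_left]
  have h3 := sum_dl_uc (n := d.dim) (fun e => ns e c * ac (jt (1 : k) e) (Nat.card K)) hd
  rw [if_pos rfl] at h3
  rw [← h3]
  refine Finset.sum_congr rfl fun l _ => ?_
  rw [ns_of_le (d := uc K k l.parts) (c := d) (dim_uc l).ge, jt_uc]
  ring

theorem mul_Hx_unip (f : Hall K) (j : ℕ) {c : Iso K} (h : ∀ t ∈ ev k c, t = 1) :
    (f * Gln.comp j (Hx K (1 : k))) c = if j ≤ c.dim then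
      ∑ l : Nat.Partition (c.dim - j), f (uc K k l.parts) * ns (uc K k l.parts) c else 0 := by
  classical
  have h' : ∀ t ∈ ev k (cls c.rep), t = 1 := by rwa [cls_rep]
  have h1 := mul_cls f (Gln.comp j (Hx K (1 : k))) c.rep
  have h2 := sum_inv_unip h' f (c.dim - j)
  rw [cls_rep] at h1 h2
  rw [h1, ← h2]
  split_ifs with hj
  · refine Finset.sum_congr rfl fun U _ => ?_
    have h3 := dim_sub_add_dim_quo U
    rw [cls_rep] at h3
    rw [Gln.comp_apply, Hx_apply, if_pos fun t ht => isConjRoot_one.2 (unip_quo h' U t ht), mul_ite,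
      mul_one, mul_zero]
    exact if_congr (by omega) rfl rfl
  · refine Finset.sum_eq_zero fun U _ => ?_
    have h3 := dim_sub_add_dim_quo U
    rw [cls_rep] at h3
    rw [Gln.comp_apply, if_neg (by omega), mul_zero]

theorem pI_one_eq (j : ℕ) : pI K j (1 : k) = nw (fun j => Gln.comp j (Hx K (1 : k))) j := by
  rw [pI, fdeg_one, Nat.cast_one, inv_one, one_smul]

theorem pI_one_mem (j : ℕ) : pI K j (1 : k) ∈ supp K ({1} : Set k) :=
  supp_mono (fun t ht => isConjRoot_one.1 ht) (pI_mem_supp j 1)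

theorem pm_one_mem (ρ : Multiset ℕ) : pm (fun j => pI K j (1 : k)) ρ ∈ supp K ({1} : Set k) :=
  Subalgebra.multiset_prod_mem _ fun a ha => by
    obtain ⟨j, _, rfl⟩ := Multiset.mem_map.1 ha
    exact pI_one_mem j

theorem pm_one_mem_hom (ρ : Multiset ℕ) : pm (fun j => pI K j (1 : k)) ρ ∈ hom K ρ.sum := by
  have := prod_mem_hom (g := fun j => pI K j (1 : k)) (d := id) (μ := ρ) fun j _ => pI_mem_hom j 1
  rwa [Multiset.map_id] at this

end K

/-- The numbers of invariant subspaces are regular. -/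
theorem exists_reg_ns (n : ℕ) : ∀ (κ : Nat.Partition n) (l : Multiset ℕ), ∃ g ∈ reg,
    ∀ (K : Type u) [Field K] [Finite K] (k : Type u)
    [Field k] [Algebra K k] [IsAlgClosed k] [Algebra.IsAlgebraic K k] (c : Iso K),
    (∀ t ∈ ev k c, t = 1) → jt (1 : k) c = l → g (Nat.card K) = ns (uc K k κ.parts) c := by
  induction n using Nat.strong_induction_on with
  | _ n ih =>
    intro κ l
    choose! g hg using ih
    refine ⟨fun t => ((t : ℂ) ^ mm l κ.parts - ∑ m ∈ range n, ∑ μ : Nat.Partition m,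
      g m μ κ.parts t * ac μ.parts t * g m μ l t) * (ac κ.parts t)⁻¹, ?_, ?_⟩
    · refine reg.mul_mem (reg.sub_mem (reg.pow_mem reg_id _) (reg_sum _ fun m hm =>
        reg_sum _ fun μ _ => ?_)) (reg_ac_inv _)
      exact reg.mul_mem (reg.mul_mem (hg m (mem_range.1 hm) μ _).1 (reg_ac _))
        (hg m (mem_range.1 hm) μ _).1
    · intro K _ _ k _ _ _ _ c hc hl
      have h1 := ns_rec hc (unip_uc κ)
      rw [jt_uc, dim_uc, hl] at h1
      have h2 : ac κ.parts (Nat.card K) ≠ 0 := by
        have := ac_ne_zero κ.parts (t := Nat.card K) (by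
          have := one_lt_card_F (F := K)
          rw [Nat.abs_cast]; exact_mod_cast this)
        rwa [Int.cast_natCast] at this
      simp only [Int.cast_natCast]
      rw [mul_inv_eq_iff_eq_mul₀ h2, h1]
      congr 1
      refine Finset.sum_congr rfl fun m hm => Finset.sum_congr rfl fun μ _ => ?_
      rw [(hg m (mem_range.1 hm) μ _).2 K k c hc hl,
        (hg m (mem_range.1 hm) μ _).2 K k _ (unip_uc κ) (jt_uc κ)]

/-- Polynomials in the complete symmetric functions are regular. -/
theorem exists_reg_aeval (P : MvPolynomial ℕ ℂ) : ∀ l : Multiset ℕ, ∃ g ∈ reg,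
    ∀ (K : Type u) [Field K] [Finite K] (k : Type u)
    [Field k] [Algebra K k] [IsAlgClosed k] [Algebra.IsAlgebraic K k] (c : Iso K),
    (∀ t ∈ ev k c, t = 1) → jt (1 : k) c = l →
      g (Nat.card K) = MvPolynomial.aeval (fun j => Gln.comp j (Hx K (1 : k))) P c := by
  induction P using MvPolynomial.induction_on with
  | C a =>
    intro l
    refine ⟨_, reg_const (if l.sum = 0 then a else 0), fun K _ _ k _ _ _ _ c hc hl => ?_⟩
    rw [MvPolynomial.aeval_C, Algebra.algebraMap_eq_smul_one, Hall.smul_apply, Hall.one_apply,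
      dim_of_unip hc, hl, mul_ite, mul_one, mul_zero]
  | add P P' h h' =>
    intro l
    obtain ⟨g, hg, h1⟩ := h l
    obtain ⟨g', hg', h2⟩ := h' l
    refine ⟨g + g', reg.add_mem hg hg', fun K _ _ k _ _ _ _ c hc hl => ?_⟩
    rw [map_add, Hall.add_apply, Pi.add_apply, h1 K k c hc hl, h2 K k c hc hl]
  | mul_X P j h =>
    intro l
    choose g hg using h
    choose s hs using exists_reg_ns.{u}
    refine ⟨fun t => if j ≤ l.sum then ∑ μ : Nat.Partition (l.sum - j),
      g μ.parts t * s _ μ l t else 0, ?_, fun K _ _ k _ _ _ _ c hc hl => ?_⟩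
    · split_ifs
      · exact reg_sum _ fun μ _ => reg.mul_mem (hg _).1 (hs _ μ l).1
      · exact reg_const 0
    · rw [map_mul, MvPolynomial.aeval_X, mul_Hx_unip _ _ hc, dim_of_unip hc, hl]
      refine if_congr Iff.rfl (Finset.sum_congr rfl fun μ _ => ?_) rfl
      rw [(hg _).2 K k _ (unip_uc μ) (jt_uc μ), (hs _ μ l).2 K k c hc hl]

theorem exists_gv (ρ l : Multiset ℕ) : ∃ g ∈ reg, ∀ (K : Type u) [Field K] [Finite K] (k : Type u)
    [Field k] [Algebra K k] [IsAlgClosed k] [Algebra.IsAlgebraic K k] (c : Iso K),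
    (∀ t ∈ ev k c, t = 1) → jt (1 : k) c = l → g (Nat.card K) = pm (fun j => pI K j (1 : k)) ρ c := by
  obtain ⟨g, hg, h⟩ := exists_reg_aeval.{u} (pm (nw MvPolynomial.X) ρ) l
  refine ⟨g, hg, fun K _ _ k _ _ _ _ c hc hl => ?_⟩
  rw [h K k c hc hl, pm, pm, map_multiset_prod, Multiset.map_map]
  refine congrFun (congrArg _ (Multiset.map_congr rfl fun j _ => ?_)) c
  rw [pI_one_eq]
  refine (map_nw (MvPolynomial.aeval (R := ℂ) fun j => Gln.comp j (Hx K (1 : k))).toRingHom _ j).trans ?_
  congr 1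
  exact funext fun i => MvPolynomial.aeval_X _ i

/-- The Green function. -/
noncomputable def gv (ρ l : Multiset ℕ) : ℤ → ℂ := (exists_gv.{u} ρ l).choose

theorem gv_mem (ρ l : Multiset ℕ) : gv.{u} ρ l ∈ reg := (exists_gv.{u} ρ l).choose_spec.1

theorem gv_spec {K : Type u} [Field K] [Finite K] {k : Type u} [Field k] [Algebra K k]
    [IsAlgClosed k] [Algebra.IsAlgebraic K k] (ρ : Multiset ℕ) {c : Iso K}
    (h : ∀ t ∈ ev k c, t = 1) :
    gv.{u} ρ (jt (1 : k) c) (Nat.card K) = pm (fun j => pI K j (1 : k)) ρ c :=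
  (exists_gv.{u} ρ _).choose_spec.2 K k c h rfl

theorem gv_uc (K : Type u) [Field K] [Finite K] (k : Type u) [Field k] [Algebra K k]
    [IsAlgClosed k] [Algebra.IsAlgebraic K k] (ρ : Multiset ℕ) {l : Multiset ℕ} (h : Pos l) :
    gv.{u} ρ l (Nat.card K) = pm (fun j => pI K j (1 : k)) ρ (uc K k l) := by
  rw [← gv_spec ρ (uc_spec h).1, (uc_spec h).2.1]

variable {ρ ρ' l : Multiset ℕ} {t : ℤ} (ht : 2 ≤ |t|)
include ht

theorem gv_eq_zero (hl : Pos l) (h : ρ.sum ≠ l.sum) : gv.{u} ρ l t = 0 := by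
  refine transfer.{u} (gv_mem ρ l) (reg_const 0) (fun K _ _ => ?_) ht
  rw [gv_uc K (AlgebraicClosure K) ρ hl]
  exact pm_one_mem_hom ρ _ (by rw [(uc_spec hl).2.2]; exact h.symm)

theorem gv_zero : gv.{u} 0 0 t = 1 := by
  refine transfer.{u} (gv_mem 0 0) (reg_const 1) (fun K _ _ => ?_) ht
  rw [gv_uc K (AlgebraicClosure K) 0 pos_zero, pm, Multiset.map_zero, Multiset.prod_zero,
    Hall.one_apply, if_pos ((uc_spec pos_zero).2.2.trans Multiset.sum_zero)]

theorem star_gv (hl : Pos l) : star (gv.{u} ρ l t) = gv.{u} ρ l t := by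
  refine transfer.{u} (reg_star (gv_mem ρ l)) (gv_mem ρ l) (fun K _ _ => ?_) ht
  rw [gv_uc K (AlgebraicClosure K) ρ hl, ← Hall.star_apply]
  refine congrFun ((map_multiset_prod (starRingEnd (Hall K)) _).trans ?_) _
  rw [Multiset.map_map]
  exact congrArg _ (Multiset.map_congr rfl fun j _ => star_pI j _)

theorem gv_orth (hρ : Pos ρ) (hρ' : Pos ρ') {n : ℕ} (hn : ρ.sum = n) :
    ∑ l : Nat.Partition n, gv.{u} ρ l.parts t * gv.{u} ρ' l.parts t / ac l.parts t =
      if ρ = ρ' then (zc ρ : ℂ) * (ρ.map fun j => ((t : ℂ) ^ j - 1)⁻¹).prod else 0 := by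
  refine transfer.{u} (f := fun t => ∑ l : Nat.Partition n,
      gv.{u} ρ l.parts t * gv.{u} ρ' l.parts t / ac l.parts t)
    (g := fun t => if ρ = ρ' then (zc ρ : ℂ) * (ρ.map fun j => ((t : ℂ) ^ j - 1)⁻¹).prod else 0)
    (reg_sum _ fun l _ => ?_) ?_ (fun K _ _ => ?_) ht
  · simp only [div_eq_mul_inv]
    exact reg.mul_mem (reg.mul_mem (gv_mem _ _) (gv_mem _ _)) (reg_ac_inv _)
  · split_ifs
    · exact reg.mul_mem (reg_const _) (reg_multiset_prod ρ fun j hj => reg_pow_sub_one_inv (hρ j hj))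
    · exact reg_const 0
  · have h1 := bf_monomial (F := K) (s := {j | 0 < j})
      (g := fun j => pI K j (1 : AlgebraicClosure K))
      (g' := fun j => pI K j (1 : AlgebraicClosure K)) (d := id)
      (γ := fun j => (j : ℂ) * ((Nat.card K : ℂ) ^ j - 1)⁻¹) (fun _ h => h)
      (fun j _ => pI_mem_hom j _) (fun j _ => pI_mem_hom j _) (fun i hi j hj f => by
        rw [id, adj_pI_mul hi hj]
        congr 2
        by_cases e : i = j
        · rw [if_pos e, if_pos ⟨e, IsConjRoot.refl, by rw [fdeg_one]; exact one_dvd _⟩, fdeg_one,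
            Nat.cast_one, div_one, e, div_eq_mul_inv]
        · rw [if_neg e, if_neg fun h => e h.1]) (μ := ρ') (ν := ρ) hρ' hρ
    rw [Multiset.map_id, hn, bf_comm, bf_def, ← pm, ← pm, int_unip (k := AlgebraicClosure K)
      (f := pw _ _) (mem_supp.2 fun c hc =>
        mem_supp.1 (pm_one_mem ρ) c (left_ne_zero_of_mul hc))] at h1
    simp only [Int.cast_natCast, gv_uc K (AlgebraicClosure K) _ (pos_parts _)]
    refine h1.trans ?_
    by_cases e : ρ = ρ'
    · subst e
      rw [if_pos rfl, if_pos rfl, zc, Multiset.prod_map_mul]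
      push_cast
      ring
    · rw [if_neg e, if_neg (Ne.symm e)]

theorem sum_gv_div (hl : Pos l) {n : ℕ} (hn : l.sum = n) :
    ∑ ρ : Nat.Partition n, gv.{u} ρ.parts l t / zc ρ.parts = 1 := by
  refine transfer.{u} (f := fun t => ∑ ρ : Nat.Partition n, gv.{u} ρ.parts l t / zc ρ.parts)
    (reg_sum _ fun ρ _ => ?_) (reg_const 1) (fun K _ _ => ?_) ht
  · simp only [div_eq_mul_inv]
    exact reg.mul_mem (gv_mem _ _) (reg_const _)
  · have h1 := isNw_Hx (F := K) (1 : AlgebraicClosure K)
    simp only [fdeg_one, Nat.cast_one, one_smul] at h1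
    have h2 := congrFun ((h1.left_eq (isNw_nexp _) (fun _ _ _ => rfl) (le_refl n)).trans
      (nexp_eq_sum _ n)) (uc K (AlgebraicClosure K) l)
    rw [Gln.comp_apply, if_pos ((uc_spec hl).2.2.trans hn), Hx_apply,
      if_pos fun t ht => isConjRoot_one.2 ((uc_spec hl).1 t ht), Hall.sum_apply] at h2
    simp only [gv_uc K (AlgebraicClosure K) _ hl]
    refine Eq.trans (Finset.sum_congr rfl fun ρ _ => ?_) h2.symm
    rw [Hall.smul_apply, div_eq_inv_mul]

end Cfsg.Gun

set_option linter.all false in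
theorem Cfsg.Rz.Gun_Gv_0 : True := by
  have := @_root_.Cfsg.Gun.uc.congr_simp.{0}
  have := @_root_.Cfsg.Gun.uc.eq_def.{0}
  have := @_root_.Cfsg.Gun.uc.eq_1.{0}
  have := @_root_.Cfsg.Gun.uc.fun_cases
  have := @_root_.Cfsg.Gun.gv.eq_def.{0}
  have := @_root_.Cfsg.Gun.gv.eq_1.{0}
  have := @_root_.Cfsg.Gun.gv.fun_cases
  trivial

set_option linter.all false in
theorem Cfsg.Rz.Gun_Gv_1 : True := by
  have := @_root_.Cfsg.Gun.ns.eq_def.{0}
  have := @_root_.Cfsg.Gun.ns.fun_cases
  have := @_root_.Cfsg.Gun.dl.eq_def.{0}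
  have := @_root_.Cfsg.Gun.dl.eq_1.{0}
  have := @_root_.Cfsg.Gun.dl.fun_cases.{0}
  trivial
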