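import Cfsg.Agent.Gun.Lang
import Cfsg.Agent.Gln.Unfold

/-!
# Hermitian spaces over a finite field (S4537 project)

`HF F V`: nondegenerate hermitian forms, `H.U` the unitary group, `H.adj` the adjoint, `H.E` = `End F V` with
`star = H.adj`.  `exists_isometry`: Lang's theorem turns any linear equivalence into an isometry.
-/

set_option autoImplicit false
set_option linter.unusedSectionVars false
set_option linter.unusedVariables false
set_option linter.style.haveILetI false

namespace Cfsg.Gun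

open Module Gln

/-- A nondegenerate hermitian form (semilinear in the first variable). -/
structure HF (F V : Type*) [Field F] [StarRing F] [AddCommGroup V] [Module F V] where
  /-- the form -/
  h : V →ₗ⋆[F] V →ₗ[F] F
  symm : ∀ u v, star (h u v) = h v u
  nondeg : ∀ u, (∀ v, h u v = 0) → u = 0

variable {F : Type*} [Field F] [StarRing F] [Finite F]
  {V W V₁ V₂ : Type*} [AddCommGroup V] [Module F V] [Finite V] [AddCommGroup W] [Module F W] [Finite W]
  [AddCommGroup V₁] [Module F V₁] [Finite V₁] [AddCommGroup V₂] [Module F V₂] [Finite V₂]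

namespace HF

variable (H : HF F V)

theorem ext_left {u u' : V} (h : ∀ v, H.h u v = H.h u' v) : u = u' :=
  sub_eq_zero.1 (H.nondeg _ fun v => by rw [map_sub, LinearMap.sub_apply, h, sub_self])

theorem ext_right {v v' : V} (h : ∀ u, H.h u v = H.h u v') : v = v' :=
  H.ext_left fun u => by rw [← H.symm, h, H.symm]

theorem eq_zero_comm {u v : V} : H.h u v = 0 ↔ H.h v u = 0 := by
  rw [← H.symm, star_eq_zero]

theorem bijective : Function.Bijective H.h := by
  haveI : Finite (Dual F V) := finite_hom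
  refine (Nat.bijective_iff_injective_and_card _).2 ⟨fun u u' e => H.ext_left fun v => by rw [e], ?_⟩
  rw [Module.natCard_eq_pow_finrank (K := F), Module.natCard_eq_pow_finrank (K := F) (V := V →ₗ[F] F),
    Subspace.dual_finrank_eq]

/-- The form as a semilinear equivalence onto the dual. -/
noncomputable def toDual : V ≃ₗ⋆[F] Dual F V := LinearEquiv.ofBijective H.h H.bijective

theorem h_toDual_symm (φ : Dual F V) (v : V) : H.h (H.toDual.symm φ) v = φ v :=
  congrArg (· v) (H.toDual.apply_symm_apply φ)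

/-- The adjoint of a map between hermitian spaces. -/
noncomputable def adjm (H' : HF F W) (x : V →ₗ[F] W) : W →ₗ[F] V :=
  (H.toDual.symm : Dual F V →ₗ⋆[F] V) ∘ₛₗ (x.dualMap ∘ₛₗ (H'.h : W →ₗ⋆[F] Dual F W))

theorem adjm_left (H' : HF F W) (x : V →ₗ[F] W) (w : W) (v : V) :
    H.h (H.adjm H' x w) v = H'.h w (x v) := H.h_toDual_symm _ v

theorem adjm_right (H' : HF F W) (x : V →ₗ[F] W) (w : W) (v : V) :
    H.h v (H.adjm H' x w) = H'.h (x v) w := by
  rw [← H.symm, adjm_left, H'.symm]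

/-- The adjoint. -/
noncomputable def adj (x : End F V) : End F V := H.adjm H x

theorem adj_left (x : End F V) (u v : V) : H.h (H.adj x u) v = H.h u (x v) := H.adjm_left H x u v

theorem adj_right (x : End F V) (u v : V) : H.h u (H.adj x v) = H.h (x u) v := H.adjm_right H x v u

theorem adj_eq_iff {x y : End F V} : H.adj x = y ↔ ∀ u v, H.h (y u) v = H.h u (x v) :=
  ⟨fun e u v => e ▸ H.adj_left x u v, fun e => LinearMap.ext fun u => H.ext_left fun v =>
    (H.adj_left x u v).trans (e u v).symm⟩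

/-- `End F V` with the adjoint as `star`. -/
def E (H : HF F V) : Type _ := End F V

instance instRingE : Ring H.E := inferInstanceAs (Ring (End F V))
instance instAlgebraE : Algebra F H.E := inferInstanceAs (Algebra F (End F V))
instance instFiniteE : Finite H.E := inferInstanceAs (Finite (V →ₗ[F] V))

theorem adj_adj (x : End F V) : H.adj (H.adj x) = x :=
  H.adj_eq_iff.2 fun u v => (H.adj_right x u v).symm

theorem adj_mul (x y : End F V) : H.adj (x * y) = H.adj y * H.adj x :=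
  H.adj_eq_iff.2 fun u v => by rw [End.mul_apply, adj_left, adj_left, End.mul_apply]

theorem adj_add (x y : End F V) : H.adj (x + y) = H.adj x + H.adj y :=
  H.adj_eq_iff.2 fun u v => by simp [adj_left]

theorem adj_smul (c : F) (x : End F V) : H.adj (c • x) = star c • H.adj x :=
  H.adj_eq_iff.2 fun u v => by simp [adj_left, starRingEnd_apply]

noncomputable instance instStarRingE : StarRing H.E where
  star := H.adj
  star_involutive := H.adj_adj
  star_mul := H.adj_mul
  star_add := H.adj_add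

instance instStarModuleE : StarModule F H.E := ⟨H.adj_smul⟩

theorem adj_one : H.adj 1 = 1 := star_one H.E
theorem adj_zero : H.adj 0 = 0 := star_zero H.E
theorem adj_sub (x y : End F V) : H.adj (x - y) = H.adj x - H.adj y := star_sub (R := H.E) x y
theorem adj_pow (x : End F V) (n : ℕ) : H.adj (x ^ n) = H.adj x ^ n := star_pow (R := H.E) x n

/-- The unitary group. -/
def U : Subgroup (GLV F V) where
  carrier := {g | ∀ u v, H.h ((g : End F V) u) ((g : End F V) v) = H.h u v}
  one_mem' _ _ := rfl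
  mul_mem' {a b} ha hb u v := (ha _ _).trans (hb u v)
  inv_mem' {a} ha u v := by
    rw [← ha, ← End.mul_apply, ← End.mul_apply, Units.mul_inv, End.one_apply, End.one_apply]

theorem mem_U {g : GLV F V} :
    g ∈ H.U ↔ ∀ u v, H.h ((g : End F V) u) ((g : End F V) v) = H.h u v := Iff.rfl

theorem mem_U_iff_adj {g : GLV F V} : g ∈ H.U ↔ H.adj g = (g⁻¹ : GLV F V) := by
  rw [adj_eq_iff]
  refine ⟨fun h u v => ?_, fun h u v => ?_⟩
  · rw [← h, ← End.mul_apply, Units.mul_inv, End.one_apply]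
  · rw [← h, ← End.mul_apply, Units.inv_mul, End.one_apply]

theorem mem_U_iff_mul {g : GLV F V} : g ∈ H.U ↔ H.adj g * g = 1 := by
  rw [mem_U_iff_adj]
  exact ⟨fun h => h ▸ g.inv_mul, fun h => (Units.inv_eq_of_mul_eq_one_left h).symm⟩

theorem U_eq_uni : H.U = uni H.E := Subgroup.ext fun _ => H.mem_U_iff_mul

theorem isUnit_of_isometry {x : End F V} (h : ∀ u v, H.h (x u) (x v) = H.h u v) : IsUnit x :=
  (End.isUnit_iff x).2 (Finite.injective_iff_bijective.1 fun u u' e => H.ext_left fun v => by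
    rw [← h, e, h])

/-- Transport of a form along an injective map with nondegenerate image. -/
def comap (f : W →ₗ[F] V) (hf : ∀ u, (∀ v, H.h (f u) (f v) = 0) → u = 0) : HF F W where
  h := (H.h.comp f).compl₂ f
  symm u v := H.symm _ _
  nondeg := hf

@[simp] theorem comap_h (f : W →ₗ[F] V) (hf) (u v : W) : (H.comap f hf).h u v = H.h (f u) (f v) := rfl

/-- Transport of a form along an equivalence. -/
def congr (e : W ≃ₗ[F] V) : HF F W :=
  H.comap e fun u h => e.map_eq_zero_iff.1 (H.nondeg _ fun v => by simpa using h (e.symm v))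

@[simp] theorem congr_h (e : W ≃ₗ[F] V) (u v : W) : (H.congr e).h u v = H.h (e u) (e v) := rfl

/-- The orthogonal sum. -/
def prod (H₁ : HF F V₁) (H₂ : HF F V₂) : HF F (V₁ × V₂) where
  h := (H₁.h.comp (LinearMap.fst F V₁ V₂)).compl₂ (LinearMap.fst F V₁ V₂) +
    (H₂.h.comp (LinearMap.snd F V₁ V₂)).compl₂ (LinearMap.snd F V₁ V₂)
  symm u v := by simp [H₁.symm, H₂.symm]
  nondeg u h := Prod.ext (H₁.nondeg _ fun v => by simpa using h (v, 0))
    (H₂.nondeg _ fun v => by simpa using h (0, v))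

@[simp] theorem prod_h (H₁ : HF F V₁) (H₂ : HF F V₂) (u v : V₁ × V₂) :
    (H₁.prod H₂).h u v = H₁.h u.1 v.1 + H₂.h u.2 v.2 := rfl

/-- The standard form. -/
def std (F : Type*) [Field F] [StarRing F] (ι : Type*) [Fintype ι] : HF F (ι → F) where
  h := LinearMap.mk₂'ₛₗ (starRingEnd F) (RingHom.id F) (fun u v => ∑ i, star (u i) * v i)
    (fun _ _ _ => by simp [add_mul, Finset.sum_add_distrib])
    (fun _ _ _ => by simp [Finset.mul_sum, mul_assoc, starRingEnd_apply])
    (fun _ _ _ => by simp [mul_add, Finset.sum_add_distrib])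
    (fun _ _ _ => by simp [Finset.mul_sum, mul_left_comm])
  symm u v := by simp [mul_comm]
  nondeg u h := funext fun i => by
    classical
    simpa [Pi.single_apply] using h (Pi.single i 1)

@[simp] theorem std_h {ι : Type*} [Fintype ι] (u v : ι → F) :
    (std F ι).h u v = ∑ i, star (u i) * v i := rfl

/-- The orthogonal complement. -/
def orth (S : Submodule F V) : Submodule F V where
  carrier := {v | ∀ u ∈ S, H.h u v = 0}
  add_mem' ha hb u hu := by rw [map_add, ha u hu, hb u hu, add_zero]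
  zero_mem' u hu := map_zero _
  smul_mem' c v hv u hu := by rw [map_smul, hv u hu, smul_zero]

theorem mem_orth {S : Submodule F V} {v : V} : v ∈ H.orth S ↔ ∀ u ∈ S, H.h u v = 0 := Iff.rfl

theorem mem_orth' {S : Submodule F V} {v : V} : v ∈ H.orth S ↔ ∀ u ∈ S, H.h v u = 0 := by
  simp only [mem_orth, H.eq_zero_comm (v := v)]

theorem finrank_orth (S : Submodule F V) : finrank F S + finrank F (H.orth S) = finrank F V := by
  rw [← Subspace.finrank_add_finrank_dualAnnihilator_eq S]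
  congr 1
  haveI : Finite (Dual F V) := finite_hom
  refine Nat.pow_right_injective (Finite.one_lt_card (α := F)) ?_
  simp only
  rw [← Module.natCard_eq_pow_finrank (K := F) (V := H.orth S),
    ← Module.natCard_eq_pow_finrank (K := F) (V := S.dualAnnihilator)]
  exact Nat.card_congr (H.toDual.toEquiv.subtypeEquiv fun v =>
    H.mem_orth'.trans (Submodule.mem_dualAnnihilator _).symm)

theorem le_orth_orth (S : Submodule F V) : S ≤ H.orth (H.orth S) := fun v hv u hu =>
  H.eq_zero_comm.1 (hu v hv)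

theorem orth_orth (S : Submodule F V) : H.orth (H.orth S) = S :=
  (Submodule.eq_of_le_of_finrank_eq (H.le_orth_orth S) (by
    have := H.finrank_orth S
    have := H.finrank_orth (H.orth S)
    omega)).symm

theorem isCompl_orth {S : Submodule F V} (h : Disjoint S (H.orth S)) : IsCompl S (H.orth S) :=
  (Submodule.isCompl_iff_disjoint _ _ (H.finrank_orth S).ge).2 h

theorem orth_le_comap {S T : Submodule F V} {x : End F V} (h : T ≤ S.comap (H.adj x)) :
    H.orth S ≤ (H.orth T).comap x := fun v hv u hu => by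
  rw [← H.adj_left]
  exact hv _ (h hu)

theorem orth_range (x : End F V) : H.orth (LinearMap.range x) = LinearMap.ker (H.adj x) := by
  ext v
  refine ⟨fun h => H.ext_right fun u => ?_, ?_⟩
  · rw [adj_right, map_zero]; exact h _ ⟨u, rfl⟩
  · rintro h _ ⟨u, rfl⟩
    rw [← adj_right, LinearMap.mem_ker.1 h, map_zero]

/-- The restriction to a nondegenerate subspace. -/
def restrict (S : Submodule F V) (h : Disjoint S (H.orth S)) : HF F S :=
  H.comap S.subtype fun u hu => Subtype.ext ((Submodule.disjoint_def.1 h) _ u.2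
    (H.mem_orth'.2 fun v hv => hu ⟨v, hv⟩))

@[simp] theorem restrict_h (S : Submodule F V) (h) (u v : S) : (H.restrict S h).h u v = H.h u v := rfl

theorem disjoint_orth_orth {S : Submodule F V} (h : Disjoint S (H.orth S)) :
    Disjoint (H.orth S) (H.orth (H.orth S)) := by
  rw [orth_orth]; exact h.symm

theorem h_prodEquiv {S : Submodule F V} (h : Disjoint S (H.orth S)) (u v : S × H.orth S) :
    H.h (S.prodEquivOfIsCompl _ (H.isCompl_orth h) u) (S.prodEquivOfIsCompl _ (H.isCompl_orth h) v) =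
      ((H.restrict S h).prod (H.restrict _ (H.disjoint_orth_orth h))).h u v := by
  simp [v.2.2 _ u.1.2, H.mem_orth'.1 u.2.2 _ v.1.2]

/-- Every linear equivalence of hermitian spaces can be corrected to an isometry, keeping
all intertwining relations that hold for a pair and its adjoint. -/
theorem exists_isometry (hF : Sec F) (H' : HF F W) (e₀ : V ≃ₗ[F] W) :
    ∃ e : V ≃ₗ[F] W, (∀ u v, H'.h (e u) (e v) = H.h u v) ∧ ∀ (x : End F V) (y : End F W),
      (∀ v, e₀ (x v) = y (e₀ v)) → (∀ v, e₀ (H.adj x v) = H'.adj y (e₀ v)) →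
        ∀ v, e (x v) = y (e v) := by
  let b : End F V := H.adjm H' e₀ ∘ₗ e₀
  have hb : ∀ u v, H.h u (b v) = H'.h (e₀ u) (e₀ v) := fun u v => H.adjm_right H' _ _ _
  obtain ⟨a, ha, hc⟩ := lang' (A := H.E) hF (b := b)
    ((End.isUnit_iff b).2 (Finite.injective_iff_bijective.1 fun v v' e => e₀.injective
      (H'.ext_right fun w => by rw [← e₀.apply_symm_apply w, ← hb, ← hb, e])))
    (H.adj_eq_iff.2 fun u v => by rw [← H.symm, hb, hb, H'.symm])
  let a' : GLV F V := a
  have ha' : H.adj a' * a' = b := ha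
  refine ⟨(LinearMap.GeneralLinearGroup.toLinearEquiv a'⁻¹).trans e₀, fun u v => ?_,
    fun x y h h' v => ?_⟩
  · change H'.h (e₀ ((a'⁻¹ : GLV F V).1 u)) (e₀ ((a'⁻¹ : GLV F V).1 v)) = _
    rw [← hb, ← ha', End.mul_apply, adj_right, ← End.mul_apply, ← End.mul_apply, Units.mul_inv,
      End.one_apply, End.one_apply]
  · change e₀ ((a'⁻¹ : GLV F V).1 (x v)) = y (e₀ ((a'⁻¹ : GLV F V).1 v))
    have h1 : Commute (a' : End F V) x := hc x (LinearMap.ext fun w => H.ext_right fun u => by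
      change H.h u (b (x w)) = H.h u (x (b w))
      rw [hb, h, ← H'.adj_left, ← h', ← hb, adj_left])
    rw [← h, ← End.mul_apply, ← End.mul_apply, h1.units_inv_left.eq]

theorem exists_isometry_of_finrank (hF : Sec F) (H' : HF F W) (h : finrank F V = finrank F W) :
    ∃ e : V ≃ₗ[F] W, ∀ u v, H'.h (e u) (e v) = H.h u v :=
  (H.exists_isometry hF H' (FiniteDimensional.nonempty_linearEquiv_of_finrank_eq h).some).imp
    fun _ h => h.1

theorem exists_isometry_of_sim (hF : Sec F) (H' : HF F W) {x : GLV F V} {y : GLV F W} (hx : x ∈ H.U)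
    (hy : y ∈ H'.U) (h : Sim (x : End F V) (y : End F W)) :
    ∃ e : V ≃ₗ[F] W, (∀ u v, H'.h (e u) (e v) = H.h u v) ∧
      ∀ v, e ((x : End F V) v) = (y : End F W) (e v) := by
  obtain ⟨e₀, h⟩ := h
  obtain ⟨e, h1, h2⟩ := H.exists_isometry hF H' e₀
  refine ⟨e, h1, h2 _ _ h fun v => ?_⟩
  rw [H.mem_U_iff_adj.1 hx, H'.mem_U_iff_adj.1 hy]
  refine ((End.isUnit_iff _).1 y.isUnit).1 ?_
  rw [← h, ← End.mul_apply, ← End.mul_apply, Units.mul_inv, Units.mul_inv, End.one_apply,
    End.one_apply]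

/-- An isometry induces an isomorphism of unitary groups. -/
def conjU (H' : HF F W) (e : V ≃ₗ[F] W) (he : ∀ u v, H'.h (e u) (e v) = H.h u v) : H.U ≃* H'.U where
  toFun g := ⟨Units.map (e.conjRingEquiv : End F V →* End F W) g.1, fun u v => by
    rw [← e.apply_symm_apply u, ← e.apply_symm_apply v, he, ← g.2]
    simp [LinearEquiv.conjRingEquiv_apply_apply, he]⟩
  invFun g := ⟨Units.map (e.symm.conjRingEquiv : End F W →* End F V) g.1, fun u v => by
    rw [← he, ← he u v, ← g.2 (e u)]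
    simp [LinearEquiv.conjRingEquiv_apply_apply]⟩
  left_inv g := Subtype.ext (Units.ext (LinearMap.ext fun v => by
    simp [LinearEquiv.conjRingEquiv_apply_apply]))
  right_inv g := Subtype.ext (Units.ext (LinearMap.ext fun v => by
    simp [LinearEquiv.conjRingEquiv_apply_apply]))
  map_mul' g g' := Subtype.ext (map_mul _ _ _)

theorem conjU_apply (H' : HF F W) (e : V ≃ₗ[F] W) (he) (g : H.U) (v : V) :
    ((H.conjU H' e he g).1 : End F W) (e v) = e ((g.1 : End F V) v) := by
  simp [conjU, LinearEquiv.conjRingEquiv_apply_apply]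

theorem cls_conjU (H' : HF F W) (e : V ≃ₗ[F] W) (he) (g : H.U) :
    cls ((H.conjU H' e he g).1 : End F W) = cls (g.1 : End F V) :=
  (cls_eq_iff.2 ⟨e, fun v => (H.conjU_apply H' e he g v).symm⟩).symm

/-- Elements of the unitary group are conjugate iff they are similar. -/
theorem isConj_iff (hF : Sec F) {x y : H.U} :
    IsConj x y ↔ cls (x.1 : End F V) = cls (y.1 : End F V) := by
  refine ⟨fun h => cls_eq_iff_isConj.2 (H.U.subtype.map_isConj h), fun h => ?_⟩
  obtain ⟨e, h1, h2⟩ := H.exists_isometry_of_sim hF H x.2 y.2 (cls_eq_iff.1 h)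
  exact _root_.isConj_iff.2 ⟨⟨LinearMap.GeneralLinearGroup.ofLinearEquiv e, h1⟩,
    mul_inv_eq_iff_eq_mul.2 (Subtype.ext (Units.ext (LinearMap.ext h2)))⟩

theorem blkHom_mem (H₁ : HF F V₁) (H₂ : HF F V₂) (e : (V₁ × V₂) ≃ₗ[F] V)
    (he : ∀ u v, H.h (e u) (e v) = (H₁.prod H₂).h u v) {x : GLV F V₁} {y : GLV F V₂} :
    blkHom e (x, y) ∈ H.U ↔ x ∈ H₁.U ∧ y ∈ H₂.U := by
  refine ⟨fun h => ⟨fun u v => ?_, fun u v => ?_⟩, fun h u v => ?_⟩
  · simpa [blkHom_apply, he] using h (e (u, 0)) (e (v, 0))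
  · simpa [blkHom_apply, he] using h (e (0, u)) (e (0, v))
  · obtain ⟨⟨u₁, u₂⟩, rfl⟩ := e.surjective u
    obtain ⟨⟨v₁, v₂⟩, rfl⟩ := e.surjective v
    rw [blkHom_apply, blkHom_apply, he, he, prod_h, prod_h, h.1, h.2]

/-- The embedding `U(V₁) × U(V₂) → U(V)` for an orthogonal decomposition. -/
def blkU (H₁ : HF F V₁) (H₂ : HF F V₂) (e : (V₁ × V₂) ≃ₗ[F] V)
    (he : ∀ u v, H.h (e u) (e v) = (H₁.prod H₂).h u v) : H₁.U × H₂.U →* H.U :=
  ((blkHom e).comp (H₁.U.subtype.prodMap H₂.U.subtype)).codRestrict _ fun g =>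
    (H.blkHom_mem H₁ H₂ e he).2 ⟨g.1.2, g.2.2⟩

@[simp] theorem blkU_val (H₁ : HF F V₁) (H₂ : HF F V₂) (e : (V₁ × V₂) ≃ₗ[F] V) (he) (g : H₁.U × H₂.U) :
    (H.blkU H₁ H₂ e he g).1 = blkHom e (g.1.1, g.2.1) := rfl

theorem blkU_injective (H₁ : HF F V₁) (H₂ : HF F V₂) (e : (V₁ × V₂) ≃ₗ[F] V) (he) :
    Function.Injective (H.blkU H₁ H₂ e he) := fun g g' h => by
  have := blkHom_injective e (congrArg Subtype.val h)
  exact Prod.ext (Subtype.ext (congrArg Prod.fst this)) (Subtype.ext (congrArg Prod.snd this))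

end HF

end Cfsg.Gun

set_option linter.all false in
theorem Cfsg.Rz.Gun_Herm_0 : True := by
  have := @_root_.Cfsg.Gun.HF.E.eq_def.{0, 0}
  have := @_root_.Cfsg.Gun.HF.E.eq_1.{0, 0}
  have := @_root_.Cfsg.Gun.HF.E.fun_cases
  have := @_root_.Cfsg.Gun.HF.orth.eq_def.{0, 0}
  have := @_root_.Cfsg.Gun.HF.orth.eq_1.{0, 0}
  have := @_root_.Cfsg.Gun.HF.orth.fun_cases
  have := @_root_.Cfsg.Gun.HF.mk.congr_simp.{0, 0}
  have := @_root_.Cfsg.Gun.HF.U.eq_def.{0, 0}
  have := @_root_.Cfsg.Gun.HF.U.eq_1.{0, 0}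
  have := @_root_.Cfsg.Gun.HF.U.fun_cases
  have := @_root_.Cfsg.Gun.HF.adjm.congr_simp.{0, 0, 0}
  have := @_root_.Cfsg.Gun.HF.adjm.eq_def.{0, 0, 0}
  have := @_root_.Cfsg.Gun.HF.adjm.eq_1.{0, 0, 0}
  have := @_root_.Cfsg.Gun.HF.adjm.fun_cases
  have := @_root_.Cfsg.Gun.HF.prod.eq_def.{0, 0, 0}
  have := @_root_.Cfsg.Gun.HF.prod.eq_1.{0, 0, 0}
  have := @_root_.Cfsg.Gun.HF.prod.fun_cases
  have := @_root_.Cfsg.Gun.HF.instRingE.eq_def.{0, 0}
  have := @_root_.Cfsg.Gun.HF.instRingE.eq_1.{0, 0}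
  have := @_root_.Cfsg.Gun.HF.instRingE.fun_cases
  have := @_root_.Cfsg.Gun.HF.toDual.congr_simp.{0, 0}
  have := @_root_.Cfsg.Gun.HF.toDual.eq_def.{0, 0}
  have := @_root_.Cfsg.Gun.HF.toDual.eq_1.{0, 0}
  have := @_root_.Cfsg.Gun.HF.toDual.fun_cases
  have := @_root_.Cfsg.Gun.HF.congr.eq_def.{0, 0, 0}
  have := @_root_.Cfsg.Gun.HF.congr.eq_1.{0, 0, 0}
  have := @_root_.Cfsg.Gun.HF.congr.fun_cases
  have := @_root_.Cfsg.Gun.HF.adj.eq_def.{0, 0}
  have := @_root_.Cfsg.Gun.HF.adj.eq_1.{0, 0}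
  have := @_root_.Cfsg.Gun.HF.adj.fun_cases
  trivial

set_option linter.all false in
theorem Cfsg.Rz.Gun_Herm_1 : True := by
  have := @_root_.Cfsg.Gun.HF.instStarRingE.congr_simp.{0, 0}
  have := @_root_.Cfsg.Gun.HF.instStarRingE.eq_def.{0, 0}
  have := @_root_.Cfsg.Gun.HF.instStarRingE.eq_1.{0, 0}
  have := @_root_.Cfsg.Gun.HF.instStarRingE.fun_cases
  have := @_root_.Cfsg.Gun.HF.conjU.congr_simp.{0, 0, 0}
  have := @_root_.Cfsg.Gun.HF.conjU.eq_def.{0, 0, 0}
  have := @_root_.Cfsg.Gun.HF.conjU.fun_cases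
  have := @_root_.Cfsg.Gun.HF.std.eq_def.{0, 0}
  have := @_root_.Cfsg.Gun.HF.std.eq_1.{0, 0}
  have := @_root_.Cfsg.Gun.HF.std.fun_cases
  have := @_root_.Cfsg.Gun.HF.blkU.congr_simp.{0, 0, 0, 0}
  have := @_root_.Cfsg.Gun.HF.blkU.eq_def.{0, 0, 0, 0}
  have := @_root_.Cfsg.Gun.HF.blkU.eq_1.{0, 0, 0, 0}
  have := @_root_.Cfsg.Gun.HF.blkU.fun_cases
  have := @_root_.Cfsg.Gun.HF.comap.congr_simp.{0, 0, 0}
  have := @_root_.Cfsg.Gun.HF.comap.eq_def.{0, 0, 0}
  have := @_root_.Cfsg.Gun.HF.comap.eq_1.{0, 0, 0}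
  have := @_root_.Cfsg.Gun.HF.comap.fun_cases
  have := @_root_.Cfsg.Gun.HF.instAlgebraE.eq_def.{0, 0}
  have := @_root_.Cfsg.Gun.HF.instAlgebraE.eq_1.{0, 0}
  have := @_root_.Cfsg.Gun.HF.instAlgebraE.fun_cases
  have := @_root_.Cfsg.Gun.HF.restrict.eq_def.{0, 0}
  have := @_root_.Cfsg.Gun.HF.restrict.eq_1.{0, 0}
  have := @_root_.Cfsg.Gun.HF.restrict.fun_cases
  trivial
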