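import Cfsg.Agent.Gun.Rz
import Cfsg.Agent.Gln.Clif

/-!
# The irreducible characters of a realization (S4537 project; port of `Gln/Irr`)

Dictionary: `Hall F ↦ Lam k Q R`, `star ↦ cj`, `adj d v ↦ der v`, `bf n ↦ bf`, `res V ↦ r.res`, `intg F ↦ LZ k Q R n` + `r.gen`,
`q ^ n - 1 ↦ tn Q n`.  `span_mon`: `hom n` is spanned by the `mX f`, products of `pX o j = pI (deg * j) rep` (`pI_eq_sum_P`, `P_eq_pc`).
-/

set_option autoImplicit false
set_option linter.unusedSectionVars false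
set_option linter.unusedVariables false
set_option linter.style.haveILetI false

namespace Cfsg.Gun

open Finset Function Gln Cfsg.Sym

universe u

variable {k : Type u} [Field k] [IsAlgClosed k] {Q : ℤ} {R N n : ℕ} [NeZero R] {G : Type u} [Group G]
  [Finite G]

/-- Colours. -/
abbrev Col (k : Type u) [Field k] (Q : ℤ) (R : ℕ) [NeZero R] : Type u :=
  Orb (frz Q : Lab k R → Lab k R)

/-- The power sums of a colour. -/
noncomputable def pc (φ : Col k Q R) (j : ℕ) : Lam k Q R := P Q (φ.deg * j) φ.rep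

/-- The dimension attached to a label. -/
noncomputable def size (a : Col k Q R → Fin N → ℕ) : ℕ := ∑ φ, φ.deg * sz (a φ)

/-- All beta-sets are injective. -/
def Good (a : Col k Q R → Fin N → ℕ) : Prop := ∀ φ, Injective (a φ)

/-- Green's character. -/
noncomputable def chi (a : Col k Q R → Fin N → ℕ) : Lam k Q R := ∏ φ, Sch (pc φ) (a φ)

/-- Monomials in the coloured power sums. -/
noncomputable def mon (μ : Multiset (Col k Q R × ℕ)) : Lam k Q R := (μ.map fun i => pc i.1 i.2).prod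

/-- The dimension of a monomial. -/
noncomputable def mdeg (μ : Multiset (Col k Q R × ℕ)) : ℕ := (μ.map fun i => i.1.deg * i.2).sum

/-- Remove (`dnl`) or add (`upl`) `j` at position `i` of colour `φ`. -/
noncomputable def dnl (a : Col k Q R → Fin N → ℕ) (φ : Col k Q R) (i : Fin N) (j : ℕ) :
    Col k Q R → Fin N → ℕ := update a φ (a φ - Pi.single i j)

@[inherit_doc dnl]
noncomputable def upl (a : Col k Q R → Fin N → ℕ) (φ : Col k Q R) (i : Fin N) (j : ℕ) :
    Col k Q R → Fin N → ℕ := update a φ (a φ + Pi.single i j)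

/-- `a` is a label of `χ`. -/
def IsLab (r : Rz k Q R n G) (χ : IrrCharacter G) (a : Col k Q R → Fin N → ℕ) : Prop :=
  Good a ∧ size a = n ∧ (r.res (chi a) = χ.1 ∨ r.res (chi a) = -χ.1)

theorem mk_rep_mul (y : fixq k Q R) (a : Lab k R) :
    (Orb.mk _ ((Orb.mk _ a : Col k Q R).rep * y.1) : Col k Q R) = Orb.mk _ (a * y.1) := by
  obtain ⟨i, j, h⟩ := Quotient.exact (Orb.mk_rep (Orb.mk _ a : Col k Q R))
  refine Quotient.sound ⟨i, j, ?_⟩
  simp only [frz_iterate] at h ⊢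
  rw [mul_zpow a, mul_zpow (α := Lab k R), h, fixq_zpow, fixq_zpow]

noncomputable instance : MulAction (fixq k Q R) (Col k Q R) where
  smul y φ := Orb.mk _ (φ.rep * y.1)
  one_smul φ := (congrArg _ (mul_one _)).trans φ.mk_rep
  mul_smul y z φ := (congrArg (Orb.mk _) (by rw [Subgroup.coe_mul, mul_comm y.1, mul_assoc φ.rep])).trans
    (mk_rep_mul y _).symm

theorem smul_mk (y : fixq k Q R) (a : Lab k R) :
    y • (Orb.mk _ a : Col k Q R) = Orb.mk _ (a * y.1) := by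
  exact mk_rep_mul y a

variable {a b : Col k Q R → Fin N → ℕ} {φ : Col k Q R} {r : Rz k Q R n G} {χ ψ : IrrCharacter G}

theorem chi_eq_zero (h : ¬ Good a) : chi a = 0 := by
  obtain ⟨φ, h⟩ := not_forall.1 h
  exact prod_eq_zero (mem_univ φ) (Sch_eq_zero h)

theorem pc_mem_hom (φ : Col k Q R) (j : ℕ) : pc φ j ∈ hom k Q R (φ.deg * j) := P_mem_hom _ _

/-- The coloured multiset with the rows `f φ`. -/
noncomputable def cm (f : Col k Q R → Multiset ℕ) : Multiset (Col k Q R × ℕ) :=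
  ∑ φ, (f φ).map (Prod.mk φ)

theorem count_cm (f : Col k Q R → Multiset ℕ) (i : Col k Q R × ℕ) :
    (cm f).count i = (f i.1).count i.2 := by
  rw [cm, Multiset.count_sum', sum_eq_single i.1 (fun φ _ h => Multiset.count_eq_zero.2 fun e => by
    obtain ⟨j, -, rfl⟩ := Multiset.mem_map.1 e
    exact h rfl) (by simp)]
  exact Multiset.count_map_eq_count' _ _ (Prod.mk_right_injective i.1) _

theorem mem_cm {f : Col k Q R → Multiset ℕ} {i : Col k Q R × ℕ} : i ∈ cm f ↔ i.2 ∈ f i.1 := by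
  rw [← Multiset.count_pos, count_cm, Multiset.count_pos]

theorem cm_injective : Injective (cm : (Col k Q R → Multiset ℕ) → _) := fun f g h =>
  funext fun φ => Multiset.ext.2 fun j => by rw [← count_cm f (φ, j), h, count_cm]

theorem exists_cm (μ : Multiset (Col k Q R × ℕ)) : ∃ f, cm f = μ := by
  induction μ using Multiset.induction_on with
  | empty => exact ⟨0, by simp [cm]⟩
  | cons i μ ih =>
    obtain ⟨f, rfl⟩ := ih
    refine ⟨Pi.single i.1 {i.2} + f, ?_⟩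
    simp only [cm, Pi.add_apply, Multiset.map_add, sum_add_distrib]
    rw [sum_eq_single i.1 (fun φ _ h => by simp [h]) (by simp)]
    simp

theorem map_cm {M : Type*} (g : Col k Q R × ℕ → M) (f : Col k Q R → Multiset ℕ) :
    (cm f).map g = ∑ φ, (f φ).map fun j => g (φ, j) :=
  (map_sum (Multiset.mapAddMonoidHom g) _ _).trans (sum_congr rfl fun _ _ => Multiset.map_map _ _ _)

theorem prod_map_cm {M : Type*} [CommMonoid M] (g : Col k Q R × ℕ → M)
    (f : Col k Q R → Multiset ℕ) :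
    ((cm f).map g).prod = ∏ φ, ((f φ).map fun j => g (φ, j)).prod := by
  rw [map_cm, Multiset.prod_sum]

theorem mon_cm (f : Col k Q R → Multiset ℕ) : mon (cm f) = ∏ φ, pm (pc φ) (f φ) := prod_map_cm _ _

theorem mdeg_cm (f : Col k Q R → Multiset ℕ) : mdeg (cm f) = ∑ φ, φ.deg * (f φ).sum := by
  rw [mdeg, map_cm, Multiset.sum_sum]
  exact sum_congr rfl fun φ _ => by
    simpa using Multiset.sum_map_mul_left (s := f φ) (a := φ.deg) (f := id)

theorem chi_eq_sum (a : Col k Q R → Fin N → ℕ) : chi a = ∑ f : ∀ φ, Nat.Partition (sz (a φ)),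
    (∏ φ, (X (f φ).parts (a φ) : ℂ) / zc (f φ).parts) • mon (cm fun φ => (f φ).parts) := by
  simp only [chi, Sch_eq_sum, mon_cm, ← prod_smul]
  exact Fintype.prod_sum _

theorem chi_eq_mul (a : Col k Q R → Fin N → ℕ) (φ : Col k Q R) (b : Fin N → ℕ) :
    chi (update a φ b) = Sch (pc φ) b * ∏ φ' ∈ univ.erase φ, Sch (pc φ') (a φ') := by
  rw [chi, ← mul_prod_erase _ _ (mem_univ φ), update_self]
  exact congrArg _ (prod_congr rfl fun φ' h => by rw [update_of_ne (ne_of_mem_erase h)])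

theorem size_eq_add (a : Col k Q R → Fin N → ℕ) (φ : Col k Q R) (b : Fin N → ℕ) :
    size (update a φ b) = φ.deg * sz b + ∑ φ' ∈ univ.erase φ, φ'.deg * sz (a φ') := by
  rw [size, ← add_sum_erase _ _ (mem_univ φ), update_self]
  exact congrArg _ (sum_congr rfl fun φ' h => by rw [update_of_ne (ne_of_mem_erase h)])

theorem deg_mul_le_size {j : ℕ} (h : j ≤ sz (a φ)) : φ.deg * j ≤ size a :=
  (Nat.mul_le_mul_left _ h).trans (single_le_sum (f := fun φ : Col k Q R => φ.deg * sz (a φ))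
    (fun _ _ => Nat.zero_le _) (mem_univ φ))

theorem chi_mem_hom (a : Col k Q R → Fin N → ℕ) : chi a ∈ hom k Q R (size a) := by
  refine prod_mem_graded one_mem_hom mul_mem_hom _ fun φ _ => ?_
  exact Sch_mem (A := fun j => hom k Q R (φ.deg * j)) one_mem_hom
    (fun i j x hx y hy => mul_add φ.deg i j ▸ mul_mem_hom _ _ x hx y hy) fun j _ _ => pc_mem_hom φ j

theorem prod_map_mem_hom {I : Type*} {g : I → Lam k Q R} {d : I → ℕ} (h : ∀ i, g i ∈ hom k Q R (d i))
    (μ : Multiset I) : (μ.map g).prod ∈ hom k Q R (μ.map d).sum := by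
  induction μ using Multiset.induction_on with
  | empty => exact one_mem_hom
  | cons i μ ih => simpa using mul_mem_hom _ _ _ (h i) _ ih

theorem mon_cons (i : Col k Q R × ℕ) (μ : Multiset (Col k Q R × ℕ)) :
    mon (i ::ₘ μ) = pc i.1 i.2 * mon μ := by
  rw [mon, Multiset.map_cons, Multiset.prod_cons, mon]

theorem mdeg_cons (i : Col k Q R × ℕ) (μ : Multiset (Col k Q R × ℕ)) :
    mdeg (i ::ₘ μ) = i.1.deg * i.2 + mdeg μ := by
  rw [mdeg, Multiset.map_cons, Multiset.sum_cons, mdeg]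

theorem mon_mem_hom (μ : Multiset (Col k Q R × ℕ)) : mon μ ∈ hom k Q R (mdeg μ) := by
  exact prod_map_mem_hom (fun i => pc_mem_hom _ _) μ

theorem chi_congr (h : ∀ φ, ms (a φ) = ms (b φ)) : chi a = chi b ∨ chi a = -chi b := by
  choose σ hσ using fun φ => ms_eq_iff.1 (h φ)
  have : chi b = ((∏ φ, Equiv.Perm.sign (σ φ) : ℤˣ) : ℤ) • chi a := by
    simp only [chi, hσ, Sch_comp, prod_smul, Units.coe_prod]
  rcases Int.units_eq_one_or (∏ φ, Equiv.Perm.sign (σ φ)) with e | e <;> simp [this, e]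

theorem size_dnl {i : Fin N} {j : ℕ} (hi : j ≤ a φ i) (h : Good (dnl a φ i j)) :
    size (dnl a φ i j) + φ.deg * j = size a := by
  have h1 := sum_eq_tri_add_sz (b := a φ - Pi.single i j) (by simpa [dnl] using h φ)
  have h2 : ∑ l, a φ l = ∑ l, (a φ - Pi.single i j : Fin N → ℕ) l + j := by
    refine (sum_congr rfl fun l _ => (Nat.sub_add_cancel (m := Pi.single (M := fun _ => ℕ) i j l)
      ?_).symm).trans (by simp [sum_add_distrib])
    by_cases e : l = i <;> simp [e, hi]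
  have h3 : sz (a φ) = sz (a φ - Pi.single i j) + j := by rw [sz]; omega
  conv_rhs => rw [← update_eq_self φ a]
  rw [dnl, size_eq_add, size_eq_add, h3]
  ring

theorem chi_mem_span_mon (a : Col k Q R → Fin N → ℕ) : chi a ∈ Submodule.span ℂ
    (mon '' {μ | (∀ i ∈ μ, 0 < i.2 ∧ i.2 ≤ sz (a i.1)) ∧ mdeg μ = size a}) := by
  rw [chi_eq_sum]
  refine sum_mem fun f _ => Submodule.smul_mem _ _ (Submodule.subset_span ⟨_, ⟨fun i hi => ?_, ?_⟩, rfl⟩)
  · exact ⟨(f _).parts_pos (mem_cm.1 hi), Nat.Partition.le_of_mem_parts (mem_cm.1 hi)⟩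
  · simp only [mdeg_cm, Nat.Partition.parts_sum, size]

/-- An `ε`-derivation dual to `pc φ j` removes `j`-hooks in colour `φ`. -/
theorem deriv_chi {S : Type*} [CommRing S] [Algebra ℂ S] (ε : Lam k Q R →+* S) (E : Lam k Q R →ₗ[ℂ] S)
    {j : ℕ} (hj : 0 < j) (γ : ℂ) (ha : Good a) (h1 : E 1 = 0)
    (hE : ∀ φ' j', 0 < j' → j' ≤ sz (a φ') → ∀ f, E (pc φ' j' * f) =
      (if φ' = φ ∧ j' = j then (j : ℂ) * γ else 0) • ε f + ε (pc φ' j') * E f) :
    E (chi a) = γ • ε (∑ i with j ≤ a φ i, chi (dnl a φ i j)) := by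
  have h2 : ∀ s : Finset (Col k Q R), φ ∉ s → E (∏ φ' ∈ s, Sch (pc φ') (a φ')) = 0 := fun s => by
    induction s using Finset.induction_on with
    | empty => simpa using h1
    | insert φ' s hs ih =>
      intro h
      rw [mem_insert, not_or] at h
      rw [prod_insert hs, deriv_Sch ε E hj 0 fun j' h0 h' f => by
        simpa [Ne.symm h.1] using hE φ' j' h0 (Nat.le_sub_of_add_le h') f, ih h.2]
      simp
  conv_lhs => rw [← update_eq_self φ a]
  rw [chi_eq_mul, deriv_Sch ε E hj γ fun j' h0 h' f => by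
    simpa using hE φ j' h0 (Nat.le_sub_of_add_le h') f, h2 _ (notMem_erase _ _), mul_zero, add_zero,
    ← map_mul, dn, sum_mul, sum_filter]
  simp only [dnl, chi_eq_mul, ite_mul, zero_mul]

variable (hP : ParZ k Q R N)
include hP

theorem deg_pos (φ : Col k Q R) : 0 < φ.deg := (per_lab hP).deg_pos φ

theorem deg_dvd_iff {c : Lab k R} : (Orb.mk _ c : Col k Q R).deg ∣ n ↔
    c ^ tn Q n = 1 := by
  exact deg_lab_dvd_iff hP

theorem rep_pow (φ : Col k Q R) (j : ℕ) : φ.rep ^ (tn Q (φ.deg * j)) = 1 := by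
  exact (deg_dvd_iff hP).1 (φ.mk_rep.symm ▸ dvd_mul_right _ _)

theorem deg_smul (y : fixq k Q R) (φ : Col k Q R) : (y • φ).deg = φ.deg := by
  have : ∀ n, (y • φ).deg ∣ n ↔ φ.deg ∣ n := fun n => by
    rw [← φ.mk_rep, smul_mk, ← (per_lab hP).iterate_eq_iff, ← (per_lab hP).iterate_eq_iff,
      frz_iterate, frz_iterate, mul_zpow φ.rep, fixq_zpow, mul_left_inj]
  exact Nat.dvd_antisymm ((this _).2 dvd_rfl) ((this _).1 dvd_rfl)

theorem P_eq_pc (h0 : 0 < n) (hn : n ≤ N) {c : Lab k R} (hc : c ^ tn Q n = 1) :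
    P Q n c = pc (Orb.mk _ c : Col k Q R) (n / (Orb.mk _ c : Col k Q R).deg) := by
  obtain ⟨i, hi⟩ := (per_lab hP).mk_eq_iff.1 (Orb.mk_rep (Orb.mk _ c : Col k Q R)).symm
  rw [pc, Nat.mul_div_cancel' ((deg_dvd_iff hP).2 hc), hi, frz_iterate, P_pow hP h0 hn hc]

theorem bf_pc {φ' : Col k Q R} {j j' : ℕ} (hj : 0 < j) (hj' : 0 < j') (h : φ.deg * j ≤ N)
    (h' : φ'.deg * j' ≤ N) :
    bf (pc φ' j') (cj (pc φ j)) = if φ' = φ ∧ j' = j then (j : ℂ) else 0 := by
  have h1 := (per_lab hP).card_filter_iterate (a := φ'.rep) (b := φ.rep) (n := φ'.deg * j')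
    (φ'.mk_rep.symm ▸ dvd_mul_right _ _)
  simp only [frz_iterate, Orb.mk_rep, Nat.mul_div_cancel_left _ (deg_pos hP _)] at h1
  rw [pc, pc, bf_P hP (mul_pos (deg_pos hP _) hj') h' (mul_pos (deg_pos hP _) hj) h
    (rep_pow hP _ _) (rep_pow hP _ _), h1]
  by_cases e : φ' = φ
  · subst e
    by_cases e' : j = j' <;> simp [e', (deg_pos hP φ').ne', eq_comm (a := j')]
  · simp [e]

theorem der_pc_mul {φ' : Col k Q R} {j j' : ℕ} (hj : 0 < j) (hj' : 0 < j') (h : φ.deg * j ≤ N)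
    (h' : φ'.deg * j' ≤ N) (f : Lam k Q R) : der (cj (pc φ j)) (pc φ' j' * f) =
      pc φ' j' * der (cj (pc φ j)) f + (if φ' = φ ∧ j' = j then (j : ℂ) else 0) • f := by
  rw [der_mul (u := pc φ' j') (P_mem_lin1 _ _), bf_pc hP hj hj' h h']

theorem der_pc_chi {j : ℕ} (hj : 0 < j) (h : φ.deg * j ≤ N) (ha : Good a) (hN : size a ≤ N) :
    der (cj (pc φ j)) (chi a) = ∑ i with j ≤ a φ i, chi (dnl a φ i j) := by
  exact (deriv_chi (RingHom.id _) _ hj 1 ha (der_one _) fun φ' j' h0 h' f => by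
    simpa [add_comm] using der_pc_mul hP hj h0 h ((deg_mul_le_size h').trans hN) f).trans
      (one_smul _ _)

theorem pc_mul_chi {j : ℕ} (hj : 0 < j) (ha : Good a) (hN : size a + φ.deg * j ≤ N) :
    pc φ j * chi a = ∑ i, chi (upl a φ i j) := by
  have h1 := deg_mul_le_size (le_refl (sz (a φ)))
  have h2 := Nat.le_mul_of_pos_left (sz (a φ)) (deg_pos hP φ)
  have h3 := Nat.le_mul_of_pos_left j (deg_pos hP φ)
  conv_lhs => rw [← update_eq_self φ a]
  simp only [upl, chi_eq_mul]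
  rw [← mul_assoc, mul_Sch _ hj (by rw [sum_eq_tri_add_sz (ha φ)]; omega), sum_mul]

theorem chi_mem_LZ (a : Col k Q R → Fin N → ℕ) : chi a ∈ LZ k Q R (size a) := by
  exact prod_mem fun φ _ => Sch_mem_subring _ fun j h => Subring.subset_closure
    ⟨φ.deg, j, φ.rep, deg_pos hP φ, deg_mul_le_size (Nat.le_sub_of_add_le h),
      by simpa using rep_pow hP φ 1, rfl⟩

theorem bf_mon {μ ν : Multiset (Col k Q R × ℕ)} (hμ : ∀ i ∈ μ, 0 < i.2) (hν : ∀ i ∈ ν, 0 < i.2)
    (h : mdeg μ ≤ N) (h' : mdeg ν ≤ N) : bf (mon μ) (cj (mon ν)) =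
      if μ = ν then (μ.map fun i => (i.2 : ℂ)).prod * ∏ i ∈ μ.toFinset, ((μ.count i).factorial : ℂ)
      else 0 := by
  have e : ∀ {μ : Multiset (Col k Q R × ℕ)}, ∀ i ∈ μ, i.1.deg * i.2 ≤ mdeg μ := fun i hi =>
    Multiset.le_sum_of_mem (Multiset.mem_map_of_mem (fun i : Col k Q R × ℕ => i.1.deg * i.2) hi)
  have e' : cj (mon ν) = (ν.map fun i => cj (pc i.1 i.2)).prod :=
    (map_multiset_prod cj _).trans (by rw [Multiset.map_map]; rfl)
  rw [e', mon]
  have := bf_monomial (s := {i : Col k Q R × ℕ | 0 < i.2 ∧ i.1.deg * i.2 ≤ N})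
    (g := fun i => pc i.1 i.2) (g' := fun i => cj (pc i.1 i.2))
    (γ := fun i => (i.2 : ℂ)) (fun i _ => P_mem_lin1 _ _) (fun i _ => cj_mem_lin1 (P_mem_lin1 _ _))
    (fun i hi j hj => by
      rw [bf_pc hP hi.1 hj.1 hi.2 hj.2]
      by_cases e : i = j
      · simp [e]
      · rw [if_neg e, if_neg fun h => e (Prod.ext h.1.symm h.2.symm)])
    (fun i hi => ⟨hμ i hi, (e i hi).trans h⟩) fun i hi => ⟨hν i hi, (e i hi).trans h'⟩
  convert this

theorem bf_mon_chi {f : Col k Q R → Multiset ℕ} (hf : ∀ φ, ∀ j ∈ f φ, 0 < j)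
    (h : mdeg (cm f) ≤ N) (hb : size b ≤ N) :
    bf (mon (cm f)) (cj (chi b)) = ∏ φ, (X (f φ) (b φ) : ℂ) := by
  have h1 : ∀ g : ∀ φ, Nat.Partition (sz (b φ)), mdeg (cm fun φ => (g φ).parts) = size b :=
    fun g => by simp only [mdeg_cm, Nat.Partition.parts_sum, size]
  have h2 := fun g : ∀ φ, Nat.Partition (sz (b φ)) => bf_mon hP (μ := cm f)
    (ν := cm fun φ => (g φ).parts) (fun i hi => hf _ _ (mem_cm.1 hi))
    (fun i hi => (g _).parts_pos (mem_cm.1 hi)) h ((h1 g).trans_le hb)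
  simp only [cm_injective.eq_iff] at h2
  simp only [chi_eq_sum b, cj_smul, map_sum, map_smul, h2, smul_eq_mul]
  by_cases e : ∀ φ, (f φ).sum = sz (b φ)
  · rw [sum_eq_single (fun φ => ⟨f φ, hf φ _, e φ⟩) (fun g _ hg => by
      rw [if_neg fun e' => hg (funext fun φ => Nat.Partition.ext (congrFun e' φ).symm), mul_zero])
      (by simp), if_pos rfl, prod_map_cm, prod_finset_product _ univ (fun φ => (f φ).toFinset)
        (by simp [mem_cm]), star_prod, ← prod_mul_distrib, ← prod_mul_distrib]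
    refine prod_congr rfl fun φ _ => ?_
    rw [star_div₀, star_intCast, star_natCast, div_mul_eq_mul_div, div_eq_iff
      (Nat.cast_ne_zero.2 (zc_ne_zero (hf φ)))]
    simp [zc, count_cm]
  · obtain ⟨φ, e⟩ := not_forall.1 e
    rw [sum_eq_zero fun g _ => by
      rw [if_neg fun e' => e ((congrArg _ (congrFun e' φ)).trans (g φ).parts_sum), mul_zero],
      prod_eq_zero (mem_univ φ) (Int.cast_eq_zero.2 (not_not.1 fun h => e (by
        rw [sz, sum_eq_of_X_ne_zero h, Nat.add_sub_cancel_left])))]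

theorem bf_chi (ha : size a ≤ N) (hb : size b ≤ N) :
    bf (chi a) (cj (chi b)) = ∏ φ, rowSum (sz (a φ)) (a φ) (b φ) := by
  simp only [rowSum, Fintype.prod_sum, chi_eq_sum a, map_sum, map_smul, LinearMap.sum_apply,
    LinearMap.smul_apply, smul_eq_mul]
  refine sum_congr rfl fun f _ => ?_
  rw [bf_mon_chi hP (fun φ _ => (f φ).parts_pos)
    (by simpa only [mdeg_cm, Nat.Partition.parts_sum, size] using ha) hb, ← prod_mul_distrib]
  exact prod_congr rfl fun φ _ => by ring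

theorem sz_le_size (φ : Col k Q R) : sz (a φ) ≤ size a :=
  (Nat.le_mul_of_pos_left _ (deg_pos hP φ)).trans (deg_mul_le_size le_rfl)

theorem bf_chi_self (ha : Good a) (hN : size a ≤ N) : bf (chi a) (cj (chi a)) = 1 := by
  rw [bf_chi hP hN hN]
  exact prod_eq_one fun φ _ => rowSum_self ((sz_le_size hP φ).trans hN) (ha φ)
    (sum_eq_tri_add_sz (ha φ))

theorem bf_chi_eq_zero (ha : size a ≤ N) (h : ∃ φ, ms (a φ) ≠ ms (b φ)) :
    bf (chi a) (cj (chi b)) = 0 := by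
  by_cases h1 : size a = size b
  · obtain ⟨φ, h⟩ := h
    rw [bf_chi hP ha (h1 ▸ ha)]
    exact prod_eq_zero (mem_univ φ) (rowSum_eq_zero ((sz_le_size hP φ).trans ha) h)
  · exact bf_eq_zero (chi_mem_hom a) (cj_mem_hom (chi_mem_hom b)) h1

theorem span_mon (hn : n ≤ N) {f : Lam k Q R} (hf : f ∈ hom k Q R n) :
    f ∈ Submodule.span ℂ (mon '' {μ : Multiset (Col k Q R × ℕ) | (∀ i ∈ μ, 0 < i.2) ∧ mdeg μ = n}) := by
  refine hom_le (fun c hc e => ?_) hf
  subst e
  refine induction_tpos (P := fun c => tsz c ≤ N → mX c ∈ Submodule.span ℂ (mon ''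
    {μ : Multiset (Col k Q R × ℕ) | (∀ i ∈ μ, 0 < i.2) ∧ mdeg μ = tsz c})) ?_ ?_ hc hn
  · exact fun _ => Submodule.subset_span ⟨0, by simp [mdeg], mX_zero.symm⟩
  · intro o j c hj hc ih hn
    rw [tsz_cons] at hn ⊢
    have h0 := mul_pos (eo_deg_pos hP o) hj
    have h1 := le_of_add_le_left hn
    rw [mX_cons, pX_eq_pI hP, pI_eq_sum_P hP h0 h1 ((deg_mu_dvd_iff hP).1
      (o.mk_rep.symm ▸ dvd_mul_right _ _)), smul_mul_assoc, sum_mul]
    refine Submodule.smul_mem _ _ (sum_mem fun a ha => ?_)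
    have h2 := (deg_dvd_iff hP).2 (mem_filter.1 ha).2
    rw [smul_mul_assoc, P_eq_pc hP h0 h1 (mem_filter.1 ha).2]
    refine Submodule.smul_mem _ _ (Submodule.mem_comap (f := LinearMap.mulLeft ℂ _).1
      (Submodule.span_le.2 ?_ (ih (le_of_add_le_right hn))))
    rintro _ ⟨ν, ⟨h3, h4⟩, rfl⟩
    refine Submodule.subset_span ⟨(_, _) ::ₘ ν, ⟨Multiset.forall_mem_cons.2
      ⟨Nat.div_pos (Nat.le_of_dvd h0 h2) (deg_pos hP _), h3⟩, ?_⟩, mon_cons _ _⟩
    rw [mdeg_cons, h4]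
    exact congrArg (· + _) (Nat.mul_div_cancel' h2)

theorem mon_mem_span {μ : Multiset (Col k Q R × ℕ)} (hμ : ∀ i ∈ μ, 0 < i.2) (hN : mdeg μ ≤ N) :
    mon μ ∈ Submodule.span ℂ (chi '' {a : Col k Q R → Fin N → ℕ | Good a ∧ size a = mdeg μ ∧
      ∀ φ, (∀ i ∈ μ, i.1 ≠ φ) → sz (a φ) = 0}) := by
  obtain ⟨f, rfl⟩ := exists_cm μ
  have hf : ∀ φ, ∀ j ∈ f φ, 0 < j := fun φ j h => hμ (φ, j) (mem_cm.2 h)
  rw [mdeg_cm] at hN ⊢
  rw [mon_cm, prod_congr rfl fun φ _ => pm_eq_sum (N := N) (pc φ) (hf φ)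
    (((Nat.le_mul_of_pos_left _ (deg_pos hP φ)).trans (single_le_sum
      (f := fun φ : Col k Q R => φ.deg * (f φ).sum) (fun _ _ => Nat.zero_le _) (mem_univ φ))).trans
        hN), prod_smul, prod_univ_sum]
  refine Submodule.smul_mem _ _ (sum_mem fun a _ => ?_)
  rw [prod_smul]
  by_cases h : ∀ φ, X (f φ) (a φ) ≠ 0
  · have h1 : ∀ φ, sz (a φ) = (f φ).sum := fun φ => by
      rw [sz, sum_eq_of_X_ne_zero (h φ), Nat.add_sub_cancel_left]
    refine Submodule.smul_mem _ _ (Submodule.subset_span ⟨a, ⟨fun φ => injective_of_X_ne_zero (h φ),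
      by simp only [size, h1], fun φ hφ => ?_⟩, rfl⟩)
    rw [h1, Multiset.eq_zero_of_forall_notMem (s := f φ) fun j hj => hφ (φ, j) (mem_cm.2 hj) rfl,
      Multiset.sum_zero]
  · obtain ⟨φ, h⟩ := not_forall.1 h
    rw [prod_eq_zero (mem_univ φ) (Int.cast_eq_zero.2 (not_not.1 h)), zero_smul]
    exact zero_mem _

theorem exists_irr (r : Rz k Q R n G) (hn : n ≤ N) (ha : Good a) (h : size a = n) :
    ∃ χ : IrrCharacter G, IsLab r χ a := by
  obtain ⟨χ, hχ⟩ := (r.gen _ (h ▸ chi_mem_LZ hP a)).exists_eq_of_ip_self_eq_one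
    (by rw [r.toRb.ip_res hP (h ▸ chi_mem_hom a), bf_chi_self hP ha (h ▸ hn)])
  exact ⟨χ, ha, h, hχ⟩

theorem span_chi (hn : n ≤ N) {f : Lam k Q R} (hf : f ∈ hom k Q R n) :
    f ∈ Submodule.span ℂ (chi '' {a : Col k Q R → Fin N → ℕ | Good a ∧ size a = n}) := by
  refine Submodule.span_le.2 ?_ (span_mon hP hn hf)
  rintro _ ⟨μ, ⟨h, rfl⟩, rfl⟩
  exact Submodule.span_mono (Set.image_mono fun a ha => And.intro ha.1 ha.2.1) (mon_mem_span hP h hn)

theorem exists_isLab (r : Rz k Q R n G) (hn : n ≤ N) (χ : IrrCharacter G) :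
    ∃ a : Col k Q R → Fin N → ℕ, IsLab r χ a := by
  obtain ⟨f, h1, h3⟩ := r.toRb.exists_res_eq hP χ.isClassFunction
  by_contra h
  have : ∀ g ∈ Submodule.span ℂ (chi '' {a : Col k Q R → Fin N → ℕ | Good a ∧ size a = n}),
      ip (r.res g) χ.1 = 0 := fun g hg => by
    induction hg using Submodule.span_induction with
    | mem _ e =>
      obtain ⟨a, ha, rfl⟩ := e
      obtain ⟨ψ, hψ⟩ := exists_irr hP r hn ha.1 ha.2
      have := IrrCharacter.ip_of_ne (χ := ψ) (ψ := χ) fun e => h ⟨a, e ▸ hψ⟩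
      rcases hψ.2.2 with e | e <;> simp [e, this, ip_neg_left]
    | zero => simp
    | add _ _ _ _ e e' => rw [map_add, ip_add_left, e, e', add_zero]
    | smul _ _ _ e => rw [map_smul, ip_smul_left, e, mul_zero]
  exact one_ne_zero (χ.ip_self.symm.trans (h3 ▸ this f (span_chi hP hn h1)))

theorem IsLab.eq_iff (hn : n ≤ N) (h : IsLab r χ a) (h' : IsLab r ψ b) :
    χ = ψ ↔ ∀ φ, ms (a φ) = ms (b φ) := by
  have ha : chi a ∈ hom k Q R n := h.2.1 ▸ chi_mem_hom a
  constructor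
  · rintro rfl
    by_contra e
    have := bf_chi_eq_zero hP (h.2.1.trans_le hn) (not_forall.1 e)
    rw [← r.toRb.ip_res hP ha] at this
    rcases h.2.2 with e | e <;> rcases h'.2.2 with e' | e' <;>
      simp [e, e', ip_neg_left, ip_neg_right, χ.ip_self] at this
  · intro e
    by_contra e'
    have h1 := IrrCharacter.ip_of_ne e'
    have h2 := bf_chi_self hP h.1 (h.2.1.trans_le hn)
    rw [← r.toRb.ip_res hP ha] at h2
    have h3 : ip (r.res (chi a)) (r.res (chi b)) = 0 := by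
      rcases h.2.2 with e | e <;> rcases h'.2.2 with e' | e' <;>
        simp [e, e', ip_neg_left, ip_neg_right, h1]
    rcases chi_congr e with e | e
    · exact one_ne_zero (h2.symm.trans (e ▸ h3))
    · rw [← neg_eq_iff_eq_neg.2 e, map_neg, ip_neg_right, h2] at h3
      simp at h3

theorem exists_irr_P (r : Rz k Q R n G) (h0 : 0 < n) (hn : n ≤ N) {c : Lab k R}
    (hc : (Orb.mk _ c : Col k Q R).deg = n) :
    ∃ (θ : IrrCharacter G) (ε : ℂ), (ε = 1 ∨ ε = -1) ∧ r.res (P Q n c) = ε • θ.1 := by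
  have hc' := (deg_dvd_iff hP).1 hc.dvd
  have h1 : P Q n c ∈ LZ k Q R n :=
    Subring.subset_closure ⟨n, 1, c, h0, by simp, hc', by simp [nexp_one]⟩
  have h2 := (per_lab hP).card_filter_iterate (a := c) (b := c) hc.dvd
  simp only [frz_iterate, hc, Nat.div_self h0, if_true] at h2
  obtain ⟨θ, h⟩ := (r.gen _ h1).exists_eq_of_ip_self_eq_one (by
    rw [r.toRb.ip_res hP (P_mem_hom _ _), bf_P hP h0 hn h0 hn hc' hc', if_pos rfl, h2, Nat.cast_one])
  exact h.elim (fun h => ⟨θ, 1, .inl rfl, by simpa using h⟩)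
    fun h => ⟨θ, -1, .inr rfl, by simpa using h⟩

theorem res_T_tw (r : Rz k Q R n G) (ω : Lab k R) (y : fixq k Q R)
    (h : y.1 = ω ^ ((R : ℤ) / (Q - 1))) (f : Lam k Q R) :
    IsTw ((dch hP y).comp r.dt) (r.res f) (r.res (T (fun x => (ω x : ℂ)) f)) := by
  intro g
  rw [r.res_T_lab hP, MonoidHom.comp_apply, dch_spec hP ω y h]

theorem IsLab.tw (hn : n ≤ N) (h : IsLab r χ a) (y : fixq k Q R)
    (h' : IsTw ((dch hP y).comp r.dt) χ.1 ψ.1) : IsLab r ψ fun φ => a (y⁻¹ • φ) := by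
  obtain ⟨ω, hω⟩ := exists_eq_zpow_div hP y
  have h1 : T (fun x => (ω x : ℂ)) (chi a) = chi fun φ => a (y⁻¹ • φ) := by
    rw [chi, chi, map_prod]
    refine Fintype.prod_equiv (MulAction.toPerm y) _ _ fun φ => ?_
    rw [MulAction.toPerm_apply, inv_smul_smul]
    refine (map_Sch (T fun x => (ω x : ℂ)).toRingHom _ _).trans (Sch_congr fun j h0 hj => ?_)
    have h1 := mul_pos (deg_pos hP φ) h0
    have h2 := (deg_mul_le_size (Nat.le_sub_of_add_le hj)).trans (h.2.1.trans_le hn)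
    have h3 : (Orb.mk _ (φ.rep * y.1) : Col k Q R) = y • φ := rfl
    refine (T_lab_P hP h1 h2 (rep_pow hP φ j) ω).trans ?_
    rw [← hω, P_eq_pc hP h1 h2 ((deg_dvd_iff hP).1 (by rw [h3, deg_smul hP]; exact dvd_mul_right _ _)),
      h3, deg_smul hP, Nat.mul_div_cancel_left _ (deg_pos hP φ)]
  have h2 := res_T_tw hP r ω y hω (chi a)
  refine ⟨fun φ => h.1 _, Eq.trans ?_ h.2.1, h.2.2.imp (fun e => funext fun g => ?_)
    fun e => funext fun g => ?_⟩
  · exact (Fintype.sum_equiv (MulAction.toPerm y) _ _ fun φ => by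
      simp only [MulAction.toPerm_apply, inv_smul_smul, deg_smul hP]).symm
  · rw [← h1, h2, e, h']
  · rw [← h1, h2, e, Pi.neg_apply, Pi.neg_apply, h', neg_mul]

end Cfsg.Gun

set_option linter.all false in
theorem Cfsg.Rz.Gun_Irr_0 : True := by
  have := @_root_.Cfsg.Gun.pc.eq_def.{0}
  have := @_root_.Cfsg.Gun.pc.fun_cases
  have := @_root_.Cfsg.Gun.chi.eq_def.{0}
  have := @_root_.Cfsg.Gun.chi.fun_cases
  have := @_root_.Cfsg.Gun.Good.eq_def.{0}
  have := @_root_.Cfsg.Gun.Good.eq_1.{0}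
  have := @_root_.Cfsg.Gun.Good.fun_cases
  have := @_root_.Cfsg.Gun.cm.eq_def.{0}
  have := @_root_.Cfsg.Gun.cm.fun_cases
  have := @_root_.Cfsg.Gun.IsLab.eq_def.{0}
  have := @_root_.Cfsg.Gun.IsLab.eq_1.{0}
  have := @_root_.Cfsg.Gun.IsLab.fun_cases
  have := @_root_.Cfsg.Gun.upl.eq_def.{0}
  have := @_root_.Cfsg.Gun.upl.fun_cases
  have := @_root_.Cfsg.Gun.dnl.eq_def.{0}
  have := @_root_.Cfsg.Gun.dnl.fun_cases
  have := @_root_.Cfsg.Gun.size.eq_def.{0}
  have := @_root_.Cfsg.Gun.size.fun_cases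
  have := @_root_.Cfsg.Gun.mon.eq_def.{0}
  have := @_root_.Cfsg.Gun.mon.fun_cases
  have := @_root_.Cfsg.Gun.instMulActionSubtypeLabMemSubgroupFixqCol.congr_simp.{0}
  have := @_root_.Cfsg.Gun.instMulActionSubtypeLabMemSubgroupFixqCol.eq_def.{0}
  have := @_root_.Cfsg.Gun.instMulActionSubtypeLabMemSubgroupFixqCol.eq_1.{0}
  have := @_root_.Cfsg.Gun.instMulActionSubtypeLabMemSubgroupFixqCol.fun_cases
  have := @_root_.Cfsg.Gun.Col.eq_def.{0}
  have := @_root_.Cfsg.Gun.Col.eq_1.{0}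
  have := @_root_.Cfsg.Gun.Col.fun_cases
  have := @_root_.Cfsg.Gun.mdeg.eq_def.{0}
  have := @_root_.Cfsg.Gun.mdeg.fun_cases
  trivial
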