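import Cfsg.Agent.Gln.Schur

/-!
# Partitions as multisets: `mm`, `ac` (S4537 project)

`mm l m = ∑_{i ∈ l} ∑_{j ∈ m} min i j` (`= ∑ l'_i m'_i`), `ac l t` = order of the centralizer of a unipotent element of type
`l` in `GL(t)`.
-/

set_option autoImplicit false
set_option linter.unusedSectionVars false
set_option linter.unusedVariables false

namespace Cfsg.Gun

open Finset Gln Sym

/-- All parts are positive. -/
def Pos (l : Multiset ℕ) : Prop := ∀ i ∈ l, 0 < i

/-- The dimension of the space of homomorphisms between nilpotent modules. -/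
def mm (l m : Multiset ℕ) : ℕ := (l.map fun i => (m.map (min i)).sum).sum

/-- The centralizer order. -/
noncomputable def ac (l : Multiset ℕ) (t : ℂ) : ℂ :=
  t ^ mm l l * ∏ i ∈ l.toFinset, ∏ j ∈ range (l.count i), (1 - t⁻¹ ^ (j + 1))

variable {l m l' : Multiset ℕ} {t : ℂ}

theorem pos_zero : Pos 0 := by
  exact fun _ h => absurd h (Multiset.notMem_zero _)

theorem pos_add : Pos (l + m) ↔ Pos l ∧ Pos m := by
  simp only [Pos, Multiset.mem_add, or_imp, forall_and]

theorem pos_singleton {j : ℕ} : Pos {j} ↔ 0 < j := by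
  simp [Pos]

theorem pos_replicate_one (n : ℕ) : Pos (Multiset.replicate n 1) := by
  exact fun i hi => (Multiset.eq_of_mem_replicate hi).ge

theorem pos_parts {n : ℕ} (μ : Nat.Partition n) : Pos μ.parts := by
  exact fun _ hi => μ.parts_pos hi

theorem Pos.exists_parts (h : Pos l) {n : ℕ} (hn : l.sum = n) : ∃ μ : Nat.Partition n, μ.parts = l := by
  exact ⟨⟨l, fun hi => h _ hi, hn⟩, rfl⟩

theorem Pos.eq_zero (h : Pos l) (h0 : l.sum = 0) : l = 0 := by
  exact Multiset.eq_zero_of_forall_notMem fun i hi =>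
    (h i hi).ne' (Multiset.sum_eq_zero_iff.1 h0 i hi)

theorem Pos.card_le (h : Pos l) : l.card ≤ l.sum := by
  simpa using Multiset.card_nsmul_le_sum (a := 1) h

theorem mm_comm (l m : Multiset ℕ) : mm l m = mm m l := by
  rw [mm, mm, Multiset.sum_map_sum_map]
  simp only [min_comm]

@[simp] theorem mm_zero_left (m : Multiset ℕ) : mm 0 m = 0 := by
  simp [mm]

@[simp] theorem mm_zero_right (m : Multiset ℕ) : mm m 0 = 0 := by
  simp [mm]

theorem mm_add_left (l l' m : Multiset ℕ) : mm (l + l') m = mm l m + mm l' m := by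
  simp [mm]

theorem mm_add_right (l m m' : Multiset ℕ) : mm l (m + m') = mm l m + mm l m' := by
  simp [mm]

theorem mm_singleton (j : ℕ) (m : Multiset ℕ) : mm {j} m = (m.map (min j)).sum := by
  simp [mm]

theorem mm_singleton_le (j : ℕ) (m : Multiset ℕ) : mm {j} m ≤ m.sum := by
  rw [mm_singleton]
  simpa using Multiset.sum_map_le_sum_map (s := m) (min j) id fun i _ => min_le_right j i

theorem mm_singleton_of_le {j : ℕ} (h : m.sum ≤ j) : mm {j} m = m.sum := by
  rw [mm_singleton, Multiset.map_congr rfl fun i hi =>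
    min_eq_right ((Multiset.single_le_sum (fun _ _ => Nat.zero_le _) i hi).trans h), Multiset.map_id']

theorem Pos.mm_one (h : Pos m) : mm {1} m = m.card := by
  rw [mm_singleton, Multiset.map_congr rfl fun i hi => min_eq_left (h i hi)]
  simp

/-- Second differences of `j ↦ mm {j} l` are the multiplicities. -/
theorem eq_of_mm (hl : Pos l) (hm : Pos m) (h : ∀ j, mm {j} l = mm {j} m) : l = m := by
  have key : ∀ (l : Multiset ℕ) j,
      mm {j + 2} l + mm {j} l + l.count (j + 1) = 2 * mm {j + 1} l := fun l j => by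
    induction l using Multiset.induction_on with
    | empty => simp
    | cons a l ih =>
      simp only [mm_singleton, Multiset.map_cons, Multiset.sum_cons, Multiset.count_cons] at ih ⊢
      split_ifs <;> omega
  ext j
  rcases j with _ | j
  · rw [Multiset.count_eq_zero.2 fun e => (hl 0 e).ne rfl,
      Multiset.count_eq_zero.2 fun e => (hm 0 e).ne rfl]
  · have h1 := key l j
    have h2 := key m j
    rw [h, h, h] at h1
    omega

theorem mm_self_mod_two (l : Multiset ℕ) : mm l l % 2 = l.sum % 2 := by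
  induction l using Multiset.induction_on with
  | empty => simp
  | cons a l ih =>
    rw [← Multiset.singleton_add, mm_add_left, mm_add_right, mm_add_right, mm_comm l {a},
      mm_singleton a {a}, Multiset.sum_add]
    simp only [Multiset.map_singleton, Multiset.sum_singleton, min_self]
    omega

@[simp] theorem ac_zero (t : ℂ) : ac 0 t = 1 := by
  simp [ac]

theorem ac_ne_zero (l : Multiset ℕ) {t : ℤ} (h : 2 ≤ |t|) : ac l t ≠ 0 := by
  have h0 : (t : ℂ) ≠ 0 := by
    rintro e
    rw [Int.cast_eq_zero.1 e] at h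
    simp at h
  refine mul_ne_zero (pow_ne_zero _ h0) (prod_ne_zero_iff.2 fun i _ => prod_ne_zero_iff.2
    fun j _ e => ?_)
  rw [sub_eq_zero, inv_pow, eq_comm, inv_eq_one, ← Int.cast_pow, Int.cast_eq_one] at e
  have h1 := congrArg abs e
  have h2 := le_self_pow₀ (a := |t|) (by omega) j.succ_ne_zero
  rw [abs_pow, abs_one] at h1
  rw [h1] at h2
  omega

theorem ac_replicate_one (n : ℕ) (h : t ≠ 0) :
    ac (Multiset.replicate n 1) t = t ^ n.choose 2 * ∏ i ∈ range n, (t ^ (i + 1) - 1) := by
  have h1 : ∏ i ∈ (Multiset.replicate n 1).toFinset, ∏ j ∈ range ((Multiset.replicate n 1).count i),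
      (1 - t⁻¹ ^ (j + 1)) = ∏ j ∈ range n, (1 - t⁻¹ ^ (j + 1)) := by
    rcases n with _ | n
    · simp
    · rw [Multiset.toFinset_replicate, if_neg n.succ_ne_zero, prod_singleton,
        Multiset.count_replicate_self]
  rw [ac, h1, show mm (Multiset.replicate n 1) (Multiset.replicate n 1) = n * n by simp [mm]]
  clear h1
  induction n with
  | zero => simp
  | succ n ih =>
    rw [prod_range_succ, prod_range_succ, Nat.choose_succ_succ, Nat.choose_one_right,
      show (n + 1) * (n + 1) = n * n + n + (n + 1) by ring, pow_add, pow_add, pow_add t n (n.choose _)]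
    have h2 : t ^ (n + 1) * t⁻¹ ^ (n + 1) = 1 := by rw [← mul_pow, mul_inv_cancel₀ h, one_pow]
    linear_combination t ^ n * (t ^ (n + 1) - 1) * ih -
      t ^ (n * n) * t ^ n * (∏ j ∈ range n, (1 - t⁻¹ ^ (j + 1))) * h2

/-- `h_n = ∑_ρ p_ρ / z_ρ` (`Sch_eq_sum` with `N = 1`, or `IsNw.left_eq`). -/
theorem nexp_eq_sum {A : Type*} [CommRing A] [Algebra ℂ A] (π : ℕ → A) (n : ℕ) :
    nexp π n = ∑ ρ : Nat.Partition n, (zc ρ.parts : ℂ)⁻¹ • pm π ρ.parts := by
  have h1 : ∀ μ : Multiset ℕ, X μ (fun _ : Fin 1 => μ.sum) = 1 := fun μ => by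
    induction μ using Multiset.induction_on with
    | empty => simp [X_zero, funext_iff]
    | cons a μ ih =>
      rw [X_cons, dn, Fintype.sum_unique, if_pos (by simp), ← ih]
      congr 1
      ext i
      simp [Subsingleton.elim i default]
  have h2 := Sch_eq_sum π fun _ : Fin 1 => n
  have h3 : ∑ _i : Fin 1, n - tri 1 = n := by simp [tri]
  generalize ∑ _i : Fin 1, n - tri 1 = m at h2 h3
  subst h3
  rw [Sch, Fintype.sum_unique] at h2
  simp only [Fin.val_eq_zero, zero_le, implies_true, if_true] at h2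
  simp only [Nat.sub_zero, Fin.prod_univ_one, Equiv.Perm.default_eq, map_one, Units.val_one,
    one_smul] at h2
  rw [h2]
  refine sum_congr rfl fun μ _ => ?_
  have := h1 μ.parts
  rw [μ.parts_sum] at this
  rw [this, Int.cast_one, one_div]

end Cfsg.Gun

set_option linter.all false in
theorem Cfsg.Rz.Gun_Mm_0 : True := by
  have := @_root_.Cfsg.Gun.mm.eq_def
  have := @_root_.Cfsg.Gun.mm.eq_1
  have := @_root_.Cfsg.Gun.mm.fun_cases
  have := @_root_.Cfsg.Gun.Pos.eq_def
  have := @_root_.Cfsg.Gun.Pos.eq_1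
  have := @_root_.Cfsg.Gun.Pos.fun_cases
  have := @_root_.Cfsg.Gun.ac.eq_def
  have := @_root_.Cfsg.Gun.ac.eq_1
  have := @_root_.Cfsg.Gun.ac.fun_cases
  trivial
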