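import Cfsg.Agent.Gln.StepA
import Cfsg.Agent.Gun.Mm
import Cfsg.Agent.Gun.PairZ

/-!
# Jordan types (S4537 project)

`jt t c` = the multiset of the sizes of the Jordan blocks of `c` at the eigenvalue `t`.  Existence (`finrank_ker_jt`) from
`exists_decomp`, `cls_pi` (`finrank ker (f^j)` on `AdjoinRoot (g^e)` is `deg f * min j e` or `0`); uniqueness `eq_of_mm`.
`ext_jt`: `induction_cyc`, or `sim_of_finrank_ker`.  `finrank_itw`: bi-additive (depends only on the classes), and for
`y = cyc g` the intertwiners are `ker (aeval x g)`.  `jt_resS`: additivity, and for `c = cyc (minpoly K y ^ j)` compute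
`finrank ker`: `minpoly F s = ∏` of the distinct `minpoly K (s^(|F|^i))` (separable).
-/

set_option autoImplicit false
set_option linter.unusedSectionVars false
set_option linter.unusedVariables false
set_option linter.style.haveILetI false

namespace Cfsg.Gun

open Module Finset Function Gln Polynomial

universe u

variable {F : Type u} [Field F] [Finite F] {V W : Type*} [AddCommGroup V] [Module F V] [Finite V]
  [AddCommGroup W] [Module F W] [Finite W] {k : Type*} [Field k] [Algebra F k] [IsAlgClosed k]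
  [Algebra.IsAlgebraic F k]

/-- The Jordan type at `t`. -/
noncomputable def jt (t : k) (c : Iso F) : Multiset ℕ :=
  Classical.epsilon fun l => Pos l ∧
    ∀ j, finrank F (LinearMap.ker (aeval c.rep (minpoly F t ^ j))) = fdeg F t * mm {j} l

/-- The cyclic class. -/
noncomputable def cy (F : Type u) [Field F] [Finite F] [Algebra F k] [Algebra.IsAlgebraic F k]
    (s : k) (j : ℕ) : Iso F :=
  haveI := finite_adjoinRoot (F := F) s j
  cls (cyc (minpoly F s ^ j))

/-- The dimension of the kernel of a polynomial in the endomorphism. -/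
noncomputable def kd (f : F[X]) (c : Iso F) : ℕ := finrank F (LinearMap.ker (aeval c.rep f))

theorem kd_cls (f : F[X]) (x : End F V) : kd f (cls x) = finrank F (LinearMap.ker (aeval x f)) :=
  ((sim_rep x).aeval f).finrank_ker

theorem kd_add (f : F[X]) (c d : Iso F) : kd f (c + d) = kd f c + kd f d := by
  conv_lhs => rw [← cls_rep c, ← cls_rep d, ← cls_prodMap, kd_cls, Gln.aeval_prodMap,
    finrank_ker_prodMap]
  rfl

theorem kd_le (f : F[X]) (c : Iso F) : kd f c ≤ c.dim :=
  (Submodule.finrank_le _).trans (finrank_fin_fun F).le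

theorem kd_zero (f : F[X]) : kd f (0 : Iso F) = 0 :=
  Nat.le_zero.1 ((kd_le f 0).trans dim_zero.le)

theorem aeval_cyc (g f p : F[X]) : aeval (cyc g) f (AdjoinRoot.mk g p) = AdjoinRoot.mk g (f * p) := by
  rw [cyc, show LinearMap.mulLeft F (AdjoinRoot.root g) = Algebra.lmul F _ (AdjoinRoot.root g) from rfl,
    aeval_algHom_apply, AdjoinRoot.aeval_eq, map_mul]
  rfl

theorem finrank_ker_cyc {g f d a b : F[X]} (hg : g.Monic) (hd : d.Monic) (h1 : d ∣ g) (h2 : d ∣ f)
    (h3 : d = a * f + b * g) : finrank F (LinearMap.ker (aeval (cyc g) f)) = d.natDegree := by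
  haveI := hg.finite_adjoinRoot
  haveI := hd.finite_adjoinRoot
  have hπ : ∀ p, AdjoinRoot.algHomOfDvd F g d h1 (AdjoinRoot.mk g p) = AdjoinRoot.mk d p := fun p => by
    rw [← AdjoinRoot.aeval_eq, ← aeval_algHom_apply, AdjoinRoot.algHomOfDvd_root, AdjoinRoot.aeval_eq]
  have e1 := LinearMap.finrank_range_add_finrank_ker (aeval (cyc g) f)
  have e2 := LinearMap.finrank_range_add_finrank_ker (AdjoinRoot.algHomOfDvd F g d h1).toLinearMap
  have e3 : LinearMap.ker (AdjoinRoot.algHomOfDvd F g d h1).toLinearMap =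
      LinearMap.range (aeval (cyc g) f) := by
    ext z
    obtain ⟨p, rfl⟩ := AdjoinRoot.mk_surjective z
    rw [LinearMap.mem_ker, AlgHom.toLinearMap_apply, hπ, AdjoinRoot.mk_eq_zero]
    refine ⟨fun ⟨r, hr⟩ => ⟨AdjoinRoot.mk g (a * r), ?_⟩, fun ⟨w, hw⟩ => ?_⟩
    · rw [aeval_cyc, AdjoinRoot.mk_eq_mk, hr, h3]
      exact ⟨-(b * r), by ring⟩
    · obtain ⟨r, rfl⟩ := AdjoinRoot.mk_surjective w
      rw [aeval_cyc, AdjoinRoot.mk_eq_mk] at hw
      exact (dvd_sub_right (h2.mul_right r)).1 (h1.trans hw)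
  rw [e3, LinearMap.range_eq_top.2 fun z => by
    obtain ⟨p, rfl⟩ := AdjoinRoot.mk_surjective z
    exact ⟨AdjoinRoot.mk g p, hπ p⟩, finrank_top, (AdjoinRoot.powerBasis' hd).finrank] at e2
  have : (AdjoinRoot.powerBasis' hd).dim = d.natDegree := rfl
  omega

theorem minpoly_monic (s : k) : (minpoly F s).Monic := minpoly.monic (Algebra.IsIntegral.isIntegral s)

theorem minpoly_irreducible (s : k) : Irreducible (minpoly F s) :=
  minpoly.irreducible (Algebra.IsIntegral.isIntegral s)

open Classical in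
theorem kd_cy {P : F[X]} (hP : Squarefree P) (s : k) (j e : ℕ) :
    kd (P ^ j) (cy F s e) = if aeval s P = 0 then fdeg F s * min j e else 0 := by
  haveI := finite_adjoinRoot (F := F) s e
  rw [cy, kd_cls]
  have hm := minpoly_monic (F := F) s
  have hi := minpoly_irreducible (F := F) s
  split_ifs with h
  · obtain ⟨r, rfl⟩ := minpoly.dvd_iff.2 h
    have hc : IsCoprime (r ^ j) (minpoly F s ^ e) :=
      ((hi.coprime_iff_not_dvd.2 fun hd => hi.not_isUnit
        (hP _ (mul_dvd_mul_left _ hd))).symm).pow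
    obtain ⟨a, b, hab⟩ := hc
    have : (minpoly F s ^ min j e).natDegree = fdeg F s * min j e := by
      rw [natDegree_pow, fdeg, mul_comm]
    rw [← this]
    rcases le_total j e with h' | h'
    · refine finrank_ker_cyc (a := a) (b := b * minpoly F s ^ j) (hm.pow _) (hm.pow _)
        (pow_dvd_pow _ (min_le_right _ _)) (mul_pow (minpoly F s) r j ▸
          (pow_dvd_pow _ (min_le_left _ _)).mul_right _) ?_
      rw [min_eq_left h']
      linear_combination (-minpoly F s ^ j) * hab
    · refine finrank_ker_cyc (a := 0) (b := 1) (hm.pow _) (hm.pow _)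
        (pow_dvd_pow _ (min_le_right _ _)) (mul_pow (minpoly F s) r j ▸
          (pow_dvd_pow _ (min_le_left _ _)).mul_right _) ?_
      rw [min_eq_right h']
      ring
  · obtain ⟨a, b, hab⟩ : IsCoprime (P ^ j) (minpoly F s ^ e) :=
      ((hi.coprime_iff_not_dvd.2 fun hd => h (minpoly.dvd_iff.1 hd)).symm).pow
    rw [finrank_ker_cyc (hm.pow _) monic_one (one_dvd _) (one_dvd _) hab.symm, natDegree_one]

theorem cls_cyc_congr {f g : F[X]} [Finite (AdjoinRoot f)] [Finite (AdjoinRoot g)] (h : f = g) :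
    cls (cyc f) = cls (cyc g) := by
  subst h; rfl

variable (k) in
theorem induction_cy {P : Iso F → Prop} (h0 : P 0) (h1 : ∀ (s : k) j c, 0 < j → P c → P (cy F s j + c))
    (c : Iso F) : P c := by
  obtain ⟨n, f, e, h, φ, hφ⟩ := exists_decomp c.rep
  have := Finite.of_equiv _ φ.toEquiv
  have : ∀ i, Finite (AdjoinRoot (f i ^ e i)) := fun i =>
    .of_surjective _ (Function.surjective_eval (β := fun i => AdjoinRoot (f i ^ e i)) i)
  rw [← cls_rep c, cls_pi _ φ hφ]
  induction (univ : Finset (Fin n)) using Finset.induction_on with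
  | empty => simpa using h0
  | insert i s hi ih =>
    obtain ⟨t, ht⟩ := IsAlgClosed.exists_aeval_eq_zero k (f i) (degree_pos_of_irreducible (h i).1).ne'
    have := h1 t (e i) _ (h i).2.2 ih
    haveI := finite_adjoinRoot (F := F) t (e i)
    rwa [sum_insert hi, cls_cyc_congr (congrArg (· ^ e i)
      (minpoly.eq_of_irreducible_of_monic (h i).1 ht (h i).2.1))]

open Classical in
theorem kd_minpoly_cy (t s : k) (j e : ℕ) : kd (minpoly F t ^ j) (cy F s e) =
    fdeg F t * mm {j} (if IsConjRoot F s t then {e} else 0) := by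
  rw [kd_cy (minpoly_irreducible t).squarefree,
    ← isConjRoot_iff_aeval_eq_zero (Algebra.IsIntegral.isIntegral t), IsConjRoot.comm]
  split_ifs with h
  · rw [mm_singleton, Multiset.map_singleton, Multiset.sum_singleton, fdeg, fdeg, h]
  · simp

theorem jt_spec (t : k) (c : Iso F) :
    Pos (jt t c) ∧ ∀ j, kd (minpoly F t ^ j) c = fdeg F t * mm {j} (jt t c) := by
  classical
  refine Classical.epsilon_spec (p := fun l => Pos l ∧
    ∀ j, kd (minpoly F t ^ j) c = fdeg F t * mm {j} l) ?_
  induction c using induction_cy (F := F) k with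
  | h0 => exact ⟨0, pos_zero, fun j => by simp [kd_zero]⟩
  | h1 s e c he ih =>
    obtain ⟨l, hl, h⟩ := ih
    refine ⟨(if IsConjRoot F s t then {e} else 0) + l, pos_add.2 ⟨?_, hl⟩, fun j => ?_⟩
    · split_ifs
      exacts [pos_singleton.2 he, pos_zero]
    · rw [kd_add, kd_minpoly_cy, h, mm_add_right, mul_add]

theorem jt_pos (t : k) (c : Iso F) : Pos (jt t c) := (jt_spec t c).1

theorem kd_jt (t : k) (c : Iso F) (j : ℕ) : kd (minpoly F t ^ j) c = fdeg F t * mm {j} (jt t c) :=
  (jt_spec t c).2 j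

theorem jt_eq_of_kd {t : k} {c : Iso F} {l : Multiset ℕ} (hl : Pos l)
    (h : ∀ j, kd (minpoly F t ^ j) c = fdeg F t * mm {j} l) : jt t c = l :=
  eq_of_mm (jt_pos t c) hl fun j =>
    mul_left_cancel₀ (fdeg_pos (F := F) t).ne' ((kd_jt t c j).symm.trans (h j))

theorem finrank_ker_jt (t : k) (x : End F V) (j : ℕ) :
    finrank F (LinearMap.ker (aeval x (minpoly F t ^ j))) = fdeg F t * mm {j} (jt t (cls x)) :=
  (kd_cls _ x).symm.trans (kd_jt t _ j)

theorem jt_eq_of_finrank {t : k} {x : End F V} {l : Multiset ℕ} (hl : Pos l)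
    (h : ∀ j, finrank F (LinearMap.ker (aeval x (minpoly F t ^ j))) = fdeg F t * mm {j} l) :
    jt t (cls x) = l :=
  jt_eq_of_kd hl fun j => (kd_cls _ x).trans (h j)

theorem fdeg_algebraMap_eq_one (s : F) : fdeg F (algebraMap F k s) = 1 := by
  rw [fdeg, minpoly.eq_X_sub_C, natDegree_X_sub_C]

theorem finrank_ker_sub_pow (s : F) (x : End F V) (j : ℕ) :
    finrank F (LinearMap.ker ((x - s • 1) ^ j)) = mm {j} (jt (algebraMap F k s) (cls x)) := by
  have := finrank_ker_jt (algebraMap F k s) x j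
  rwa [fdeg_algebraMap_eq_one, one_mul, minpoly.eq_X_sub_C, map_pow, map_sub, aeval_X, aeval_C,
    Algebra.algebraMap_eq_smul_one] at this

@[simp] theorem jt_zero (t : k) : jt t (0 : Iso F) = 0 :=
  jt_eq_of_kd pos_zero fun j => by simp [kd_zero]

theorem jt_add (t : k) (c d : Iso F) : jt t (c + d) = jt t c + jt t d :=
  jt_eq_of_kd (pos_add.2 ⟨jt_pos t c, jt_pos t d⟩) fun j => by
    rw [kd_add, kd_jt, kd_jt, mm_add_right, mul_add]

theorem jt_congr {s t : k} (h : IsConjRoot F s t) (c : Iso F) : jt s c = jt t c :=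
  jt_eq_of_kd (jt_pos t c) fun j => by rw [fdeg, isConjRoot_def.1 h, ← fdeg, ← kd_jt]

theorem jt_pow_card (t : k) (i : ℕ) (c : Iso F) : jt (t ^ Nat.card F ^ i) c = jt t c :=
  (jt_congr (isConjRoot_pow t i) c).symm

theorem jt_sum {ι : Type*} (t : k) (s : Finset ι) (c : ι → Iso F) :
    jt t (∑ i ∈ s, c i) = ∑ i ∈ s, jt t (c i) := by
  classical
  induction s using Finset.induction_on with
  | empty => simp
  | insert i s hi ih => rw [sum_insert hi, sum_insert hi, jt_add, ih]

open Classical in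
theorem jt_cy (t s : k) {j : ℕ} (hj : 0 < j) :
    jt t (cy F s j) = if IsConjRoot F s t then {j} else 0 := by
  refine jt_eq_of_kd ?_ fun i => kd_minpoly_cy t s i j
  split_ifs
  exacts [pos_singleton.2 hj, pos_zero]

theorem cp_cy (s : k) (j : ℕ) : (cy F s j).cp = minpoly F s ^ j :=
  haveI := finite_adjoinRoot (F := F) s j
  cp_cyc ((minpoly_monic s).pow j)

theorem dim_cy (s : k) (j : ℕ) : (cy F s j).dim = fdeg F s * j :=
  (cp_eq_iff.1 (cp_cy s j)).1

theorem cy_congr {s t : k} (h : IsConjRoot F s t) (j : ℕ) : cy F s j = cy F t j :=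
  haveI := finite_adjoinRoot (F := F) s j
  haveI := finite_adjoinRoot (F := F) t j
  cls_cyc_congr (congrArg (· ^ j) h)

theorem nodup_aroots_minpoly (s : k) : ((minpoly F s).aroots k).Nodup :=
  nodup_roots (PerfectField.separable_of_irreducible (minpoly_irreducible s)).map

open Classical in
theorem sum_jt (t : k) (c : Iso F) : (jt t c).sum = (ev k c).count t := by
  induction c using induction_cy (F := F) k with
  | h0 => simp
  | h1 s e c he ih =>
    rw [jt_add, ev_add, Multiset.sum_add, Multiset.count_add, ih, jt_cy t s he, ev.eq_1 k (cy F s e), cp_cy, aroots_pow,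
      Multiset.count_nsmul, isConjRoot_iff_mem_minpoly_aroots (Algebra.IsIntegral.isIntegral s)]
    split_ifs with h
    · rw [Multiset.count_eq_one_of_mem (nodup_aroots_minpoly s) h, mul_one, Multiset.sum_singleton]
    · rw [Multiset.count_eq_zero_of_notMem h, mul_zero, Multiset.sum_zero]

theorem jt_eq_zero_iff {t : k} {c : Iso F} : jt t c = 0 ↔ t ∉ ev k c := by
  classical
  rw [← Multiset.count_eq_zero, ← sum_jt]
  exact ⟨fun h => by rw [h, Multiset.sum_zero], (jt_pos t c).eq_zero⟩

theorem exists_eq_cy_add {s : k} {j : ℕ} {d : Iso F} (h : j ∈ jt s d) : ∃ d', d = cy F s j + d' := by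
  induction d using induction_cy (F := F) k with
  | h0 => simp at h
  | h1 t e c he ih =>
    rw [jt_add, Multiset.mem_add, jt_cy s t he] at h
    rcases h with h | h
    · split_ifs at h with h'
      · exact ⟨c, by rw [Multiset.mem_singleton.1 h, cy_congr h']⟩
      · simp at h
    · obtain ⟨d', rfl⟩ := ih h
      exact ⟨cy F t e + d', add_left_comm _ _ _⟩

variable (k) in
theorem ext_jt {c d : Iso F} (h : ∀ t : k, jt t c = jt t d) : c = d := by
  induction c using induction_cy (F := F) k generalizing d with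
  | h0 =>
    rw [eq_comm, ← dim_eq_zero, ← card_ev k, Multiset.card_eq_zero, Multiset.eq_zero_iff_forall_notMem]
    exact fun t => jt_eq_zero_iff.1 ((h t).symm.trans (jt_zero t))
  | h1 s e c he ih =>
    obtain ⟨d', rfl⟩ := exists_eq_cy_add (s := s) (j := e) (d := d) (by
      rw [← h, jt_add, jt_cy s s he, if_pos IsConjRoot.refl]; simp)
    rw [ih fun t => add_left_cancel (((jt_add t _ _).symm.trans (h t)).trans (jt_add t _ _))]

open Classical in
theorem jt_sum_cy (t s : k) {l : Multiset ℕ} (hl : Pos l) :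
    jt t (l.map (cy F s)).sum = if IsConjRoot F s t then l else 0 := by
  induction l using Multiset.induction_on with
  | empty => simp
  | cons a l ih =>
    rw [← Multiset.singleton_add, pos_add, pos_singleton] at hl
    rw [Multiset.map_cons, Multiset.sum_cons, jt_add, ih hl.2, jt_cy t s hl.1]
    split_ifs <;> simp

/-- Every admissible family of types occurs. -/
theorem exists_jt {f : k → Multiset ℕ} (h1 : ∀ t, Pos (f t)) (h2 : (support f).Finite)
    (h3 : ∀ t, f (t ^ Nat.card F) = f t) : ∃ c : Iso F, ∀ t, jt t c = f t := by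
  classical
  have h4 : ∀ s t, IsConjRoot F s t → f t = f s := fun s t h => by
    obtain ⟨i, rfl⟩ := isConjRoot_iff.1 h
    induction i with
    | zero => simp
    | succ i ih => rw [pow_succ, pow_mul, h3, ih (isConjRoot_pow s i)]
  let r : k → k := fun t => (Quotient.mk (IsConjRoot.setoid F k) t).out
  have hr : ∀ t, IsConjRoot F (r t) t := fun t => Quotient.mk_out (s := IsConjRoot.setoid F k) t
  have hr' : ∀ s t, IsConjRoot F s t → r s = r t := fun s t h =>
    congrArg Quotient.out (Quotient.sound (s := IsConjRoot.setoid F k) h)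
  refine ⟨∑ u ∈ h2.toFinset.image r, ((f u).map (cy F u)).sum, fun t => ?_⟩
  rw [jt_sum, sum_eq_single (r t)]
  · rw [jt_sum_cy _ _ (h1 _), if_pos (hr t), h4 _ _ (hr t)]
  · intro u hu hne
    obtain ⟨s, -, rfl⟩ := mem_image.1 hu
    rw [jt_sum_cy _ _ (h1 _), if_neg fun h => hne (hr' _ _ ((hr s).symm.trans h))]
  · intro h
    rw [jt_sum_cy _ _ (h1 _), if_pos (hr t), ← h4 _ _ (hr t)]
    by_contra h'
    exact h (mem_image_of_mem r (h2.mem_toFinset.2 h'))

theorem dim_of_unip {c : Iso F} (h : ∀ t ∈ ev k c, t = 1) : c.dim = (jt (1 : k) c).sum := by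
  classical
  rw [sum_jt, ← card_ev k, eq_comm, Multiset.count_eq_card]
  exact fun t ht => (h t ht).symm

theorem exists_unip {l : Multiset ℕ} (h : Pos l) :
    ∃ c : Iso F, (∀ t ∈ ev k c, t = 1) ∧ jt (1 : k) c = l ∧ c.dim = l.sum := by
  have h1 : ∀ t ∈ ev k (l.map (cy F (1 : k))).sum, t = 1 := fun t ht => by
    by_contra h'
    refine jt_eq_zero_iff.1 ?_ ht
    rw [jt_sum_cy _ _ h, if_neg fun e => h' ?_]
    rw [← map_one (algebraMap F k)] at e ⊢
    exact e.eq_algebraMap
  have h2 : jt (1 : k) (l.map (cy F (1 : k))).sum = l := by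
    rw [jt_sum_cy _ _ h, if_pos IsConjRoot.refl]
  exact ⟨_, h1, h2, by rw [dim_of_unip h1, h2]⟩

theorem eq_of_unip {c d : Iso F} (h : ∀ t ∈ ev k c, t = 1) (h' : ∀ t ∈ ev k d, t = 1)
    (e : jt (1 : k) c = jt (1 : k) d) : c = d := by
  refine ext_jt k fun t => ?_
  by_cases ht : t = 1
  · rw [ht, e]
  · rw [jt_eq_zero_iff.2 fun m => ht (h t m), jt_eq_zero_iff.2 fun m => ht (h' t m)]

theorem fdeg_aeval_dvd (t : k) (u : F[X]) : fdeg F (aeval t u) ∣ fdeg F t := by
  obtain ⟨σ, hσ⟩ := exists_frob (F := F) (k := k) (fdeg F t)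
  rw [← pow_eq_iff', ← hσ, ← aeval_algHom_apply σ, hσ, pow_eq_iff'.2 dvd_rfl]

theorem ker_aeval_le (x : End F V) (u : F[X]) (t : k) (j : ℕ) :
    LinearMap.ker (aeval x (minpoly F t ^ j)) ≤
      LinearMap.ker (aeval (aeval x u) (minpoly F (aeval t u) ^ j)) := by
  obtain ⟨r, hr⟩ : minpoly F t ∣ (minpoly F (aeval t u)).comp u :=
    minpoly.dvd_iff.2 (by rw [aeval_comp, minpoly.aeval])
  rw [← aeval_comp, pow_comp, hr, mul_pow, mul_comm, map_mul]
  exact LinearMap.ker_le_ker_comp _ _

theorem jt_aeval {x y : End F V} {s t : k} {u v : F[X]} (h1 : y = aeval x u) (h2 : x = aeval y v)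
    (h3 : s = aeval t u) (h4 : t = aeval s v) : jt s (cls y) = jt t (cls x) := by
  refine jt_eq_of_finrank (jt_pos t _) fun j => ?_
  rw [show fdeg F s = fdeg F t from Nat.dvd_antisymm (h3 ▸ fdeg_aeval_dvd t u) (h4 ▸ fdeg_aeval_dvd s v),
    ← finrank_ker_jt]
  have a := ker_aeval_le x u t j
  have b := ker_aeval_le y v s j
  rw [← h1, ← h3] at a
  rw [← h2, ← h4] at b
  rw [le_antisymm a b]

theorem jt_smul {s : F} (hs : s ≠ 0) (t : k) (x : End F V) :
    jt (algebraMap F k s * t) (cls (s • x)) = jt t (cls x) := by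
  refine jt_aeval (u := C s * X) (v := C s⁻¹ * X) ?_ ?_ ?_ ?_ <;>
    simp only [map_mul, aeval_C, aeval_X, ← Algebra.smul_def, smul_smul, inv_mul_cancel₀ hs, one_smul]

open Classical in
theorem jt_one (t : k) : jt t (cls (1 : End F V)) =
    if t = 1 then Multiset.replicate (finrank F V) 1 else 0 := by
  split_ifs with h
  · refine eq_of_mm (jt_pos _ _) (pos_replicate_one _) fun j => ?_
    rw [h, ← map_one (algebraMap F k), ← finrank_ker_sub_pow, mm_singleton, Multiset.map_replicate,
      Multiset.sum_replicate, one_smul, sub_self]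
    rcases j.eq_zero_or_pos with rfl | hj
    · simp [End.one_eq_id]
    · rw [zero_pow hj.ne', LinearMap.ker_zero, finrank_top, min_eq_right hj, smul_eq_mul, mul_one]
  · rw [jt_eq_zero_iff, ← one_smul F (1 : End F V), ev_smul_one, map_one]
    exact fun m => h (Multiset.eq_of_mem_replicate m)

theorem jt_inv (t : k) (g : GLV F V) :
    jt t⁻¹ (cls ((g⁻¹ : GLV F V) : End F V)) = jt t (cls (g : End F V)) := by
  by_cases ht : t = 0
  · rw [ht, inv_zero, jt_eq_zero_iff.2 ((isUnit_iff_ev k).1 g.isUnit),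
      jt_eq_zero_iff.2 ((isUnit_iff_ev k).1 g⁻¹.isUnit)]
  haveI : Finite (End F V) := Finite.of_injective _ DFunLike.coe_injective
  have h1 : t ^ (Nat.card F ^ fdeg F t - 1) = 1 := by
    have e := pow_eq_iff'.2 (dvd_refl (fdeg F t))
    rw [← Nat.sub_add_cancel (Nat.one_le_pow _ _ (Nat.card_pos (α := F))), pow_succ] at e
    exact mul_right_cancel₀ ht (e.trans (one_mul t).symm)
  obtain ⟨N, hN⟩ : ∃ N, N + 1 = orderOf g * (Nat.card F ^ fdeg F t - 1) :=
    ⟨_, Nat.sub_add_cancel (Nat.mul_pos (orderOf_pos g) (Nat.sub_pos_of_lt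
      (Nat.one_lt_pow (fdeg_pos t).ne' Finite.one_lt_card)))⟩
  have h2 : g ^ (N + 1) = 1 := by rw [hN, pow_mul, pow_orderOf_eq_one, one_pow]
  have h3 : t ^ (N + 1) = 1 := by rw [hN, mul_comm, pow_mul, h1, one_pow]
  refine jt_aeval (u := X ^ N) (v := X ^ N) ?_ ?_ ?_ ?_ <;> rw [map_pow, aeval_X]
  · rw [← Units.val_pow_eq_pow_val, eq_inv_of_mul_eq_one_left ((pow_succ g N).symm.trans h2)]
  · rw [← Units.val_pow_eq_pow_val, inv_pow,
      eq_inv_of_mul_eq_one_left ((pow_succ g N).symm.trans h2), inv_inv]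
  · rw [eq_inv_of_mul_eq_one_left ((pow_succ t N).symm.trans h3)]
  · rw [inv_pow, eq_inv_of_mul_eq_one_left ((pow_succ t N).symm.trans h3), inv_inv]

theorem finrank_eq_of_card_eq (h : Nat.card V = Nat.card W) : finrank F V = finrank F W := by
  rw [Module.natCard_eq_pow_finrank (K := F), Module.natCard_eq_pow_finrank (K := F) (V := W)] at h
  exact Nat.pow_right_injective Finite.one_lt_card h

/-- Semilinear conjugation by `x ↦ x ^ q`. -/
theorem jt_semilinear {σ σ' : F →+* F} [RingHomInvPair σ σ'] [RingHomInvPair σ' σ] {q : ℕ}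
    (hσ : ∀ a, σ a = a ^ q) (hq : ∃ i, q = ringChar F ^ i) (e : V ≃ₛₗ[σ] W) {x : End F V}
    {y : End F W} (h : ∀ v, e (x v) = y (e v)) (t : k) : jt (t ^ q) (cls y) = jt t (cls x) := by
  obtain ⟨i, rfl⟩ := hq
  haveI : Fact (ringChar F).Prime := ⟨CharP.char_is_prime F _⟩
  haveI : CharP k (ringChar F) := charP_of_injective_algebraMap (algebraMap F k).injective _
  have h1 : ∀ (p : F[X]) v, e (aeval x p v) = aeval y (p.map σ) (e v) := fun p => by
    induction p using Polynomial.induction_on with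
    | C a => intro v; simp [map_smulₛₗ]
    | add p r hp hr => intro v; simp [hp, hr]
    | monomial n a ih =>
      intro v
      rw [pow_succ, ← mul_assoc, map_mul, End.mul_apply, ih, Polynomial.map_mul (p := C a * X ^ n), map_mul,
        End.mul_apply, aeval_X, map_X, aeval_X, h]
  have h2 : (minpoly F t).map σ = minpoly F (t ^ ringChar F ^ i) := by
    refine minpoly.eq_of_irreducible_of_monic ?_ ?_ ((minpoly_monic t).map σ)
    · exact (MulEquiv.irreducible_iff (mapEquiv (RingHomInvPair.toRingEquiv σ σ'))).2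
        (minpoly_irreducible t)
    · rw [← iterateFrobenius_def, aeval_def, eval₂_map, show (algebraMap F k).comp σ =
        (iterateFrobenius k (ringChar F) i).comp (algebraMap F k) from RingHom.ext fun a => by
          simp [hσ, iterateFrobenius_def], ← hom_eval₂, ← aeval_def, minpoly.aeval, map_zero]
  refine jt_eq_of_finrank (jt_pos t _) fun j => ?_
  rw [fdeg, ← h2, natDegree_map, ← fdeg, ← finrank_ker_jt, ← Polynomial.map_pow]
  refine finrank_eq_of_card_eq (Nat.card_congr (e.toEquiv.subtypeEquiv fun v => ?_).symm)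
  rw [LinearMap.mem_ker, LinearMap.mem_ker, LinearEquiv.coe_toEquiv, ← h1, map_eq_zero_iff _ e.injective]

/-- The intertwiners. -/
def itw (x : End F V) (y : End F W) : Submodule F (W →ₗ[F] V) where
  carrier := {A | x ∘ₗ A = A ∘ₗ y}
  add_mem' h h' := by simp_all [LinearMap.comp_add, LinearMap.add_comp]
  zero_mem' := by simp
  smul_mem' c A h := by simp_all [LinearMap.comp_smul, LinearMap.smul_comp]

theorem mem_itw {x : End F V} {y : End F W} {A : W →ₗ[F] V} : A ∈ itw x y ↔ x ∘ₗ A = A ∘ₗ y :=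
  Iff.rfl

theorem finrank_itw_congr {W' : Type*} [AddCommGroup W'] [Module F W'] [Finite W'] (x : End F V)
    {y : End F W} {y' : End F W'} (h : Sim y y') : finrank F (itw x y) = finrank F (itw x y') := by
  obtain ⟨e, he⟩ := h
  rw [← (e.arrowCongr (.refl F V)).finrank_map_eq (itw x y)]
  refine congrArg (fun U : Submodule F (W' →ₗ[F] V) => finrank F U) (Submodule.ext fun A => ?_)
  rw [Submodule.mem_map_equiv, mem_itw, mem_itw, LinearMap.ext_iff, LinearMap.ext_iff,
    e.surjective.forall]
  simp [he]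

theorem finrank_itw_prodMap {W' : Type*} [AddCommGroup W'] [Module F W'] [Finite W'] (x : End F V)
    (y : End F W) (y' : End F W') :
    finrank F (itw x (y.prodMap y')) = finrank F (itw x y) + finrank F (itw x y') := by
  rw [← finrank_prod, ← (show ((itw x y).prod (itw x y')) ≃ₗ[F] itw x y × itw x y' from
    { toFun := fun A => (⟨A.1.1, A.2.1⟩, ⟨A.1.2, A.2.2⟩), map_add' := fun _ _ => rfl,
      map_smul' := fun _ _ => rfl, invFun := fun A => ⟨(A.1.1, A.2.1), A.1.2, A.2.2⟩,
      left_inv := fun _ => rfl, right_inv := fun _ => rfl }).finrank_eq,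
    ← (LinearMap.coprodEquiv F).finrank_map_eq]
  refine congrArg (fun U : Submodule F (W × W' →ₗ[F] V) => finrank F U) (Submodule.ext fun A => ?_)
  rw [Submodule.mem_map_equiv, Submodule.mem_prod, mem_itw, mem_itw, mem_itw, LinearMap.prod_ext_iff]
  simp [LinearMap.ext_iff]

theorem finrank_itw_cyc (x : End F V) {g : F[X]} (hg : g.Monic) [Finite (AdjoinRoot g)] :
    finrank F (itw x (cyc g)) = finrank F (LinearMap.ker (aeval x g)) := by
  have h1 : ∀ A ∈ itw x (cyc g), ∀ p, A (AdjoinRoot.mk g p) = aeval x p (A 1) := fun A hA p => by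
    induction p using Polynomial.induction_on with
    | C a => rw [aeval_C, algebraMap_end_apply, ← map_smul, ← Algebra.algebraMap_eq_smul_one]; rfl
    | add p r hp hr => simp [hp, hr]
    | monomial n a ih =>
      rw [pow_succ', mul_left_comm, map_mul (aeval x), End.mul_apply, ← ih, aeval_X, map_mul]
      exact (LinearMap.congr_fun hA _).symm
  let φ : itw x (cyc g) →ₗ[F] LinearMap.ker (aeval x g) :=
    (LinearMap.applyₗ 1 ∘ₗ (itw x (cyc g)).subtype).codRestrict _ fun A => by
      have := h1 A.1 A.2 g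
      rw [AdjoinRoot.mk_self, map_zero] at this
      exact this.symm
  refine (LinearEquiv.ofBijective φ ⟨(injective_iff_map_eq_zero φ).2 fun A hA => ?_, fun v => ?_⟩).finrank_eq
  · ext z
    obtain ⟨p, rfl⟩ := AdjoinRoot.mk_surjective z
    rw [h1 A.1 A.2, show A.1 1 = 0 from congrArg Subtype.val hA, map_zero]
    rfl
  · let A : AdjoinRoot g →ₗ[F] V := LinearMap.applyₗ v.1 ∘ₗ (aeval x : F[X] →ₐ[F] _).toLinearMap ∘ₗ
      AdjoinRoot.modByMonicHom hg
    have hA : ∀ p, A (AdjoinRoot.mk g p) = aeval x p v.1 := fun p => by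
      change aeval x (p %ₘ g) v.1 = _
      rw [modByMonic_eq_sub_mul_div, map_sub, mul_comm, map_mul, LinearMap.sub_apply, End.mul_apply,
        show aeval x g v.1 = 0 from v.2, map_zero, sub_zero]
    refine ⟨⟨A, LinearMap.ext fun z => ?_⟩, Subtype.ext ?_⟩
    · obtain ⟨p, rfl⟩ := AdjoinRoot.mk_surjective z
      have := aeval_cyc g X p
      rw [aeval_X] at this
      change x (A _) = A (cyc g _)
      rw [this, hA, hA, map_mul, aeval_X, End.mul_apply]
    · simpa using (hA 1).symm.trans (show _ = (φ _).1 from rfl) |>.symm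

open Classical in
theorem card_filter_conj {T : Finset k} {s : k} (h : ∀ t, IsConjRoot F s t → t ∈ T) :
    (T.filter (IsConjRoot F s)).card = fdeg F s := by
  rw [fdeg, ← IsAlgClosed.card_aroots_eq_natDegree (B := k),
    ← Multiset.toFinset_card_of_nodup (nodup_aroots_minpoly s)]
  congr 1
  ext t
  rw [mem_filter, Multiset.mem_toFinset,
    ← isConjRoot_iff_mem_minpoly_aroots (Algebra.IsIntegral.isIntegral s), and_iff_right_of_imp (h t)]

open Classical in
variable (k) in
theorem finrank_itw (x : End F V) (y : End F W) : finrank F (itw x y) =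
    ∑ t ∈ (ev k (cls x)).toFinset, mm (jt t (cls x)) (jt t (cls y)) := by
  rw [← finrank_itw_congr x (sim_rep y)]
  generalize cls y = d
  induction d using induction_cy (F := F) k with
  | h0 =>
    haveI : Subsingleton (Fin (0 : Iso F).dim → F) := by rw [dim_zero]; infer_instance
    simp [finrank_zero_of_subsingleton]
  | h1 s e c he ih =>
    haveI := finite_adjoinRoot (F := F) s e
    rw [finrank_itw_congr x (y' := (cyc (minpoly F s ^ e)).prodMap c.rep) (cls_eq_iff.1 (by
      rw [cls_rep, cls_prodMap, cls_rep, cy])), finrank_itw_prodMap, ih,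
      finrank_itw_cyc x ((minpoly_monic s).pow e), finrank_ker_jt]
    simp only [jt_add, mm_add_right, sum_add_distrib, jt_cy _ s he]
    congr 1
    rw [sum_congr rfl (g := fun t => if IsConjRoot F s t then mm {e} (jt s (cls x)) else 0) fun t _ => by
      split_ifs with h
      · rw [mm_comm, jt_congr h]
      · simp, ← sum_filter, sum_const, smul_eq_mul]
    by_cases hs : s ∈ ev k (cls x)
    · rw [card_filter_conj fun t ht => Multiset.mem_toFinset.2 (IsConjRoot.mem_ev ht hs)]
    · simp [jt_eq_zero_iff.2 hs]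

theorem kd_pow_of_separable {P : F[X]} (hP : P.Separable) (j : ℕ) (c : Iso F) :
    kd (P ^ j) c = ((P.aroots k).map fun t => mm {j} (jt t c)).sum := by
  classical
  induction c using induction_cy (F := F) k with
  | h0 => simp [kd_zero]
  | h1 s e c he ih =>
    simp only [kd_add, jt_add, mm_add_right, Multiset.sum_map_add, ih, jt_cy _ s he]
    congr 1
    rw [kd_cy hP.squarefree, ← Multiset.dedup_eq_self.2 (show (P.aroots k).Nodup from nodup_roots hP.map),
      ← Multiset.toFinset_val, ← sum_eq_multiset_sum,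
      sum_congr rfl (g := fun t => if IsConjRoot F s t then min j e else 0) fun t _ => by
        split_ifs <;> simp [mm_singleton], ← sum_filter, sum_const, smul_eq_mul]
    split_ifs with h
    · rw [card_filter_conj fun t ht => Multiset.mem_toFinset.2 (mem_aroots.2 ⟨hP.ne_zero,
        minpoly.dvd_iff.1 (ht ▸ minpoly.dvd_iff.2 h :)⟩)]
    · rw [filter_false_of_mem fun t ht (ht' : IsConjRoot F s t) => h (minpoly.dvd_iff.1 (ht'.symm ▸ minpoly.dvd_iff.2
        (mem_aroots.1 (Multiset.mem_toFinset.1 ht)).2 :)), card_empty, zero_mul]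

theorem jt_resS {K : Type u} [Field K] [Finite K] [Algebra F K] [Algebra K k] [IsScalarTower F K k]
    [Algebra.IsAlgebraic K k] (s : k) (c : Iso K) :
    jt s (resS F (1 : Kˣ) c) = ∑ i ∈ range (finrank F K), jt (s ^ Nat.card F ^ i) c := by
  refine jt_eq_of_kd (fun a ha => ?_) fun j => ?_
  · obtain ⟨i, -, h⟩ := Multiset.mem_sum.1 ha
    exact jt_pos _ _ a h
  let φ : End K (Fin c.dim → K) →ₐ[F] End F (Fin c.dim → K) :=
    { toFun := fun y => y.restrictScalars F, map_one' := rfl, map_mul' := fun _ _ => rfl,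
      map_zero' := rfl, map_add' := fun _ _ => rfl, commutes' := fun a => by ext; simp }
  have h1 := kd_pow_of_separable (k := k) ((PerfectField.separable_of_irreducible
    (minpoly_irreducible (F := F) s)).map (f := algebraMap F K)) j c
  rw [aroots_map, aroots_minpoly, Multiset.map_map, kd, ← Polynomial.map_pow, aeval_map_algebraMap] at h1
  have h2 : ∀ n, mm {j} (∑ i ∈ range n, jt (s ^ Nat.card F ^ i) c) =
      ∑ i ∈ range n, mm {j} (jt (s ^ Nat.card F ^ i) c) := fun n => by
    induction n with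
    | zero => simp
    | succ n ih => rw [sum_range_succ, sum_range_succ, mm_add_right, ih]
  rw [resS, kd_cls, Units.val_one, one_smul, show (c.rep.restrictScalars F : End F _) = φ c.rep from rfl,
    aeval_algHom_apply, show LinearMap.ker (φ (aeval c.rep (minpoly F s ^ j))) =
      (LinearMap.ker (aeval c.rep (minpoly F s ^ j))).restrictScalars F from rfl,
    ((LinearMap.ker (aeval c.rep (minpoly F s ^ j))).restrictScalarsEquiv F K _ ).restrictScalars F |>.finrank_eq,
    ← Module.finrank_mul_finrank F K, h1, h2]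
  have h3 := sum_range_mul' (fdeg F s) (finrank F K) fun i => mm {j} (jt (s ^ Nat.card F ^ i) c)
  have h4 := sum_range_mul' (finrank F K) (fdeg F s) fun i => mm {j} (jt (s ^ Nat.card F ^ i) c)
  simp only [pow_add (Nat.card F), pow_mul s, pow_eq_iff'.2 (dvd_mul_right (fdeg F s) _), sum_const,
    card_range, smul_eq_mul, ← mul_sum] at h3
  have h5 : ∀ i l, jt (s ^ Nat.card F ^ (finrank F K * l + i)) c = jt (s ^ Nat.card F ^ i) c := fun i l => by
    rw [pow_card_pow_mul_add, ← pow_mul, mul_comm, pow_mul, jt_pow_card]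
  simp only [h5, sum_const, card_range, smul_eq_mul, ← mul_sum] at h4
  rw [← h4, mul_comm (finrank F K) (fdeg F s), h3]
  rfl

end Cfsg.Gun

set_option linter.all false in
theorem Cfsg.Rz.Gun_Jt_0 : True := by
  have := @_root_.Cfsg.Gun.kd.eq_def.{0}
  have := @_root_.Cfsg.Gun.kd.fun_cases
  have := @_root_.Cfsg.Gun.itw.eq_def.{0, 0, 0}
  have := @_root_.Cfsg.Gun.itw.eq_1.{0, 0, 0}
  have := @_root_.Cfsg.Gun.itw.fun_cases
  have := @_root_.Cfsg.Gun.jt.eq_def.{0, 0}
  have := @_root_.Cfsg.Gun.jt.eq_1.{0, 0}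
  have := @_root_.Cfsg.Gun.jt.fun_cases
  have := @_root_.Cfsg.Gun.cy.eq_def.{0, 0}
  have := @_root_.Cfsg.Gun.cy.fun_cases
  trivial
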