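import Cfsg.Agent.Gln.Cent

/-!
# Lang's theorem for finite algebras with an involution of the second kind (S4537 project)

`F` is a field with a nontrivial `star`, `A` a finite `F`-algebra with a semilinear anti-involution.
Every self-adjoint unit is `star a * a` with `a` a polynomial in it.
-/

set_option autoImplicit false
set_option linter.unusedSectionVars false
set_option linter.unusedVariables false
set_option linter.style.haveILetI false

namespace Cfsg.Gun

theorem exists_idem_pow {M : Type*} [Monoid M] [Finite M] (u : M) :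
    ∃ n, 0 < n ∧ u ^ n * u ^ n = u ^ n := by
  obtain ⟨i, j, hij, h⟩ : ∃ i j : ℕ, i < j ∧ u ^ i = u ^ j := by
    obtain ⟨i, j, hne, h⟩ := Finite.exists_ne_map_eq_of_infinite fun n : ℕ => u ^ n
    rcases hne.lt_or_gt with h' | h'
    exacts [⟨i, j, h', h⟩, ⟨j, i, h', h.symm⟩]
  obtain ⟨d, rfl⟩ := Nat.exists_eq_add_of_lt hij
  have H : ∀ k, u ^ (i + k * (d + 1)) = u ^ i := fun k => by
    induction k with
    | zero => simp
    | succ k ih =>
      rw [show i + (k + 1) * (d + 1) = (i + d + 1) + k * (d + 1) by ring, pow_add, ← h, ← pow_add, ih]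
  refine ⟨(i + 1) * (d + 1), by positivity, ?_⟩
  obtain ⟨e, he⟩ : ∃ e, (i + 1) * (d + 1) = e + i := ⟨i * d + d + 1, by ring⟩
  rw [← pow_add]
  nth_rewrite 1 [he]
  rw [add_assoc, pow_add, H, ← pow_add, ← he]

section comm

variable {C : Type*} [CommRing C] [StarRing C] [Finite C] {θ : C}

theorem hilbert90 (hθ : IsUnit (star θ - θ)) {a : C} (ha : star a * a = 1) :
    ∃ c : C, IsUnit c ∧ c = a * star c := by
  obtain ⟨n, hn, he⟩ := exists_idem_pow ((1 + a) * star (1 + a))
  set e := ((1 + a) * star (1 + a)) ^ n with he'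
  have hs : star e = e := by rw [he', star_pow, star_mul, star_star]
  refine ⟨1 + a + (1 - e) * (θ + a * star θ), ?_, ?_⟩
  · by_contra h
    obtain ⟨m, hm, hc⟩ := exists_max_ideal_of_mem_nonunits h
    have hp := hm.isPrime
    by_cases hu : 1 + a ∈ m
    · have h1 : e ∈ m := m.pow_mem_of_mem (m.mul_mem_right _ hu) n hn
      have h2 : star θ - θ ∈ m := by
        have := m.sub_mem (m.sub_mem (m.mul_mem_left (star θ + 1) hu) hc)
          (m.mul_mem_right (θ + a * star θ) h1)
        convert this using 1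
        ring
      exact hm.ne_top (m.eq_top_of_isUnit_mem h2 hθ)
    · have h1 : e ∉ m := fun h1 => by
        rcases hp.mem_or_mem (hp.mem_of_pow_mem _ h1) with h2 | h2
        · exact hu h2
        · refine hu ?_
          convert m.mul_mem_left a h2 using 1
          rw [star_add, star_one, mul_add, mul_comm a (star a), ha, mul_one, add_comm]
      have h2 : 1 - e ∈ m := (hp.mem_or_mem (show e * (1 - e) ∈ m by
        rw [mul_sub, he, mul_one, sub_self]; exact m.zero_mem)).resolve_left h1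
      exact hu (by simpa using m.sub_mem hc (m.mul_mem_right (θ + a * star θ) h2))
  · simp only [star_add, star_one, star_mul', star_sub, hs, star_star]
    linear_combination (-1 - (1 - e) * θ) * ha

theorem lang_comm (hθ : IsUnit (star θ - θ)) {b : C} (hb : IsUnit b) (hs : star b = b) :
    ∃ a : C, star a * a = b := by
  let N : Cˣ →* Cˣ := ⟨⟨fun a => star a * a, by simp⟩, fun x y => by
    simp only [star_mul']; ac_rfl⟩
  let δ : Cˣ →* Cˣ := ⟨⟨fun a => a * (star a)⁻¹, by simp⟩, fun x y => by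
    simp only [star_mul', mul_inv]; ac_rfl⟩
  have h1 : N.range ≤ δ.ker := by
    rintro _ ⟨a, rfl⟩
    change star a * a * (star (star a * a))⁻¹ = 1
    rw [star_mul, star_star, mul_inv_cancel]
  have h2 : N.ker ≤ δ.range := fun a ha => by
    obtain ⟨c, hc, h⟩ := hilbert90 hθ (a := a) (congrArg Units.val ha)
    obtain ⟨c, rfl⟩ := hc
    exact ⟨c, mul_inv_eq_iff_eq_mul.2 (Units.ext h)⟩
  have h3 := N.ker.card_mul_index
  have h4 := δ.ker.card_mul_index
  rw [Subgroup.index_ker] at h3 h4
  have h5 := Subgroup.card_le_of_le h2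
  have h6 : Nat.card δ.ker ≤ Nat.card N.range := by
    refine Nat.le_of_mul_le_mul_right (c := Nat.card δ.range) ?_ Nat.card_pos
    rw [h4, ← h3, mul_comm]
    exact Nat.mul_le_mul_left _ h5
  obtain ⟨b, rfl⟩ := hb
  have : b ∈ N.range := by
    rw [Subgroup.eq_of_le_of_card_ge h1 h6]
    exact mul_inv_eq_one.2 (Units.ext hs.symm)
  obtain ⟨a, ha⟩ := this
  exact ⟨a, congrArg Units.val ha⟩

end comm

variable {F : Type*} [Field F] [StarRing F] {A : Type*} [Ring A] [Algebra F A] [StarRing A]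
  [StarModule F A] [Finite A]

variable (F) in
/-- The involution of `F` is nontrivial. -/
def Sec : Prop := ∃ θ : F, star θ ≠ θ

theorem isUnit_coe_iff {S : Type*} [SetLike S A] [SubsemiringClass S A] {s : S} {b : s} :
    IsUnit (b : A) ↔ IsUnit b := by
  refine ⟨fun h => ?_, fun h => h.map (SubsemiringClass.subtype s)⟩
  obtain ⟨n, hn, he⟩ := exists_idem_pow b
  refine (isUnit_pow_iff hn.ne').1 ((show b ^ n = 1 from Subtype.ext ?_) ▸ isUnit_one)
  have := congrArg Subtype.val he
  simp only [MulMemClass.coe_mul, SubmonoidClass.coe_pow] at this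
  exact (h.pow n).mul_left_cancel (by simpa using this)

/-- Lang's theorem for the unitary group of `A`. -/
theorem lang (hF : Sec F) {b : A} (hb : IsUnit b) (hs : star b = b) :
    ∃ a ∈ Algebra.adjoin F {b}, IsUnit a ∧ star a * a = b := by
  obtain ⟨θ, hθ⟩ := hF
  haveI : IsStarNormal b := ⟨by rw [hs]⟩
  obtain ⟨a, ha⟩ := lang_comm (C := StarAlgebra.adjoin F {b}) (θ := algebraMap F _ θ)
    (by rw [← algebraMap_star_comm, ← map_sub]; exact (Ne.isUnit (sub_ne_zero.2 hθ)).map _)
    (b := ⟨b, StarAlgebra.self_mem_adjoin_singleton F b⟩) (isUnit_coe_iff.1 hb) (Subtype.ext hs)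
  have h := congrArg Subtype.val ha
  refine ⟨a, ?_, ?_, h⟩
  · have := a.2
    rw [← StarSubalgebra.mem_toSubalgebra, StarAlgebra.adjoin_toSubalgebra] at this
    rwa [Set.star_singleton, hs, Set.union_self] at this
  · have h' : star (a : A) * a = b := h
    exact isUnit_of_mul_isUnit_right (h'.symm ▸ hb : IsUnit (star (a : A) * a))

theorem lang' (hF : Sec F) {b : A} (hb : IsUnit b) (hs : star b = b) :
    ∃ a : Aˣ, star (a : A) * a = b ∧ ∀ y, Commute b y → Commute (a : A) y := by
  obtain ⟨a, h1, ⟨a, rfl⟩, h⟩ := lang hF hb hs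
  exact ⟨a, h, fun y hy => Algebra.commute_of_mem_adjoin_singleton_of_commute h1 hy.symm |>.symm⟩

/-- A unit is unitary up to a factor commuting with everything that commutes with `star g * g`. -/
theorem exists_unitary (hF : Sec F) (g : Aˣ) :
    ∃ a : Aˣ, star ((g * a⁻¹ : Aˣ) : A) * (g * a⁻¹ : Aˣ) = 1 ∧
      (a : A) ∈ Algebra.adjoin F {star (g : A) * g} := by
  obtain ⟨a, h1, ⟨a, rfl⟩, h⟩ := lang (A := A) hF (b := star (g : A) * g) (g.isUnit.star.mul g.isUnit)
    (by rw [star_mul, star_star])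
  refine ⟨a, ?_, h1⟩
  rw [Units.val_mul, star_mul, mul_assoc, ← mul_assoc (star (g : A)), ← h, mul_assoc,
    Units.mul_inv, mul_one, ← star_mul, Units.mul_inv, star_one]

variable (A) in
/-- The unitary units. -/
def uni : Subgroup Aˣ where
  carrier := {g | star (g : A) * g = 1}
  one_mem' := by simp
  mul_mem' {a b} ha hb := by
    change star ((a * b : Aˣ) : A) * (a * b : Aˣ) = 1
    rw [Units.val_mul, star_mul, mul_assoc, ← mul_assoc (star (a : A)), ha, one_mul]
    exact hb
  inv_mem' {a} ha := by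
    change star ((a⁻¹ : Aˣ) : A) * (a⁻¹ : Aˣ) = 1
    nth_rewrite 1 [Units.inv_eq_of_mul_eq_one_left ha]
    rw [star_star, Units.mul_inv]

theorem mem_uni {g : Aˣ} : g ∈ uni A ↔ star (g : A) * g = 1 := Iff.rfl

theorem card_units_eq (hF : Sec F) :
    Nat.card Aˣ = Nat.card (uni A) * Nat.card {b : A // IsUnit b ∧ star b = b} := by
  rw [← (uni A).card_mul_index, Subgroup.index_eq_card,
    ← Nat.card_congr (QuotientGroup.quotientRightRelEquivQuotientLeftRel _)]
  congr 1
  refine Nat.card_congr (Equiv.ofBijective (Quotient.lift (fun g : Aˣ => (⟨star (g : A) * g,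
    g.isUnit.star.mul g.isUnit, by rw [star_mul, star_star]⟩ : {b : A // IsUnit b ∧ star b = b}))
    fun g g' h => Subtype.ext ?_) ⟨?_, ?_⟩)
  · have h1 : star ((g' * g⁻¹ : Aˣ) : A) * (g' * g⁻¹ : Aˣ) = 1 := QuotientGroup.rightRel_apply.1 h
    have h2 : g' = g' * g⁻¹ * g := by simp
    change star (g : A) * g = star (g' : A) * g'
    rw [h2, Units.val_mul _ g, star_mul, mul_assoc, ← mul_assoc (star ((g' * g⁻¹ : Aˣ) : A)), h1, one_mul]
  · refine fun x y => Quotient.inductionOn₂ x y fun g g' h => Quotient.sound ?_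
    have h1 : star (g : A) * g = star (g' : A) * g' := congrArg Subtype.val h
    refine QuotientGroup.rightRel_apply.2 (mem_uni.2 ?_)
    rw [Units.val_mul, star_mul, mul_assoc, ← mul_assoc (star (g' : A)), ← h1, mul_assoc,
      Units.mul_inv, mul_one, ← star_mul, Units.mul_inv, star_one]
  · rintro ⟨b, h1, h2⟩
    obtain ⟨a, h, -⟩ := lang' (F := F) hF h1 h2
    exact ⟨Quotient.mk _ a, Subtype.ext h⟩

/-- The fixed points of a semilinear involution. -/
theorem card_fixed_sq (hF : Sec F) {Y : Type*} [AddCommGroup Y] [Module F Y] [StarAddMonoid Y]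
    [StarModule F Y] (S : Submodule F Y) (hS : ∀ y ∈ S, star y ∈ S) :
    Nat.card {y : Y // y ∈ S ∧ star y = y} ^ 2 = Nat.card S := by
  obtain ⟨θ, hθ⟩ := hF
  have h0 : star θ - θ ≠ 0 := sub_ne_zero.2 hθ
  have h1 : star (star θ - θ)⁻¹ = -(star θ - θ)⁻¹ := by
    rw [star_inv₀, star_sub, star_star, ← neg_sub, inv_neg]
  rw [sq, ← Nat.card_prod]
  refine Nat.card_congr ⟨fun z => ⟨z.1.1 + θ • z.2.1, S.add_mem z.1.2.1 (S.smul_mem _ z.2.2.1)⟩,
    fun y => (⟨(star θ - θ)⁻¹ • (star θ • y.1 - θ • star y.1), S.smul_mem _ (S.sub_mem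
      (S.smul_mem _ y.2) (S.smul_mem _ (hS _ y.2))), ?_⟩, ⟨(star θ - θ)⁻¹ • (star y.1 - y.1),
      S.smul_mem _ (S.sub_mem (hS _ y.2) y.2), ?_⟩), fun z => ?_, fun y => ?_⟩
  · rw [star_smul, h1, star_sub, star_smul, star_smul, star_star, star_star, neg_smul, ← smul_neg, neg_sub]
  · rw [star_smul, h1, star_sub, star_star, neg_smul, ← smul_neg, neg_sub]
  · refine Prod.ext (Subtype.ext ?_) (Subtype.ext ?_) <;>
      simp only [star_add, star_smul, z.1.2.2, z.2.2.2] <;> rw [inv_smul_eq_iff₀ h0] <;> module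
  · refine Subtype.ext ?_
    simp only
    rw [smul_comm θ, ← smul_add, inv_smul_eq_iff₀ h0]
    module

end Cfsg.Gun

set_option linter.all false in
theorem Cfsg.Rz.Gun_Lang_0 : True := by
  have := @_root_.Cfsg.Gun.Sec.eq_def.{0}
  have := @_root_.Cfsg.Gun.Sec.eq_1.{0}
  have := @_root_.Cfsg.Gun.Sec.fun_cases
  have := @_root_.Cfsg.Gun.uni.eq_def.{0}
  have := @_root_.Cfsg.Gun.uni.eq_1.{0}
  have := @_root_.Cfsg.Gun.uni.fun_cases
  trivial
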