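import Cfsg.Agent.Gun.Step
import Cfsg.Agent.Gln.Tw

/-!
# Non-nilpotent twisted class sums in blocks of a family (S4537 project; port of `Gln/NV` and the end of `Gln/Cent`)

`iot N c` encodes the unipotent part of a type.  `isConj_of_iot`: compare types (`Rb.conj`).  `cent_le`: `Rz.cent_le_iff`,
`Emb.dt_ι`, `nrm_surjective`.
-/

set_option autoImplicit false
set_option linter.unusedSectionVars false
set_option linter.unusedVariables false
set_option linter.style.haveILetI false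

namespace Cfsg.Gun

open Finset Function Gln Subgroup

universe u

variable {k : Type u} [Field k] [IsAlgClosed k] {Q : ℤ} {R N n n₁ n₂ m c p r : ℕ} [NeZero R]
  {M : Ideal AlgInt}

/-- Unipotent type, encoded in base `N + 1`. -/
noncomputable def iot (N : ℕ) (c : Ty k Q R) : ℕ :=
  ∑ j ∈ range (N + 1), mm {j} (c (eo Q 1)) * (N + 1) ^ j

theorem iot_add (N : ℕ) (c c' : Ty k Q R) : iot N (c + c') = iot N c + iot N c' := by
  rw [iot, iot, iot, ← sum_add_distrib]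
  exact sum_congr rfl fun j _ => by rw [Pi.add_apply, mm_add_right, add_mul]

theorem mul_fixq_zpow (c : Lab k R) (y : fixq k Q R) (m : ℕ) :
    (c * y.1) ^ Q ^ m = c ^ Q ^ m * y.1 := by
  rw [mul_zpow c, fixq_zpow]

private theorem xone_mul {c : Lab k R} {y y' : fixq k Q R} {l l' : ℕ}
    (h : c * y.1 = c ^ Q ^ l) (h' : c * y'.1 = c ^ Q ^ l') :
    c * (y * y').1 = c ^ Q ^ (l' + l) := by
  rw [pow_add, zpow_mul c, ← h', mul_fixq_zpow, ← h]
  exact (mul_assoc c y.1 y'.1).symm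

variable (p) in
/-- The twists acting on the colour `φ` like a power of `q ^ e0`. -/
def Xone (φ : Col k Q R) : Subgroup (fixq k Q R) where
  carrier := {y | ∃ i, φ.rep * y.1 = φ.rep ^ Q ^ (orderOf (Q : ZMod p) * i)}
  mul_mem' := fun ⟨i, h⟩ ⟨j, h'⟩ => ⟨j + i, by rw [mul_add]; exact xone_mul h h'⟩
  one_mem' := ⟨0, by rw [mul_zero, pow_zero, zpow_one φ.rep]; exact mul_one φ.rep⟩
  inv_mem' := by
    rintro y ⟨i, h⟩
    have h1 : ∀ m : ℕ, φ.rep * (y ^ m).1 =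
        φ.rep ^ Q ^ (orderOf (Q : ZMod p) * (i * m)) := fun m => by
      induction m with
      | zero => rw [mul_zero, mul_zero, pow_zero Q, zpow_one φ.rep]; exact mul_one φ.rep
      | succ m ih => rw [pow_succ', mul_add i, mul_add, mul_one]; exact xone_mul h ih
    have h2 : y⁻¹ = y ^ (orderOf y - 1) := by
      rw [inv_eq_iff_mul_eq_one, ← pow_succ', Nat.sub_add_cancel (orderOf_pos y),
        pow_orderOf_eq_one]
    exact ⟨_, h2 ▸ h1 _⟩

variable (hP : ParZ k Q R N)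
include hP

theorem sum_one_le (c : Ty k Q R) : (c (eo Q 1)).sum ≤ tsz c := by
  rw [tsz_eq_sum hP]
  exact single_le_sum (f := fun x : Mu k R => (c (eo Q x)).sum) (fun _ _ => Nat.zero_le _) (mem_univ 1)

theorem unip_iff_sum {c : Ty k Q R} (h : TPos c) : Unip c ↔ (c (eo Q 1)).sum = tsz c := by
  refine ⟨fun h' => (h'.tsz hP).symm, fun h' o ho => (h o).eq_zero ?_⟩
  rw [tsz_eq_sum hP, ← add_sum_erase _ _ (mem_univ (1 : Mu k R)), left_eq_add, sum_eq_zero_iff] at h'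
  have := h' o.rep (mem_erase.2 ⟨fun e => ho (by rw [← e]; exact (Orb.mk_rep o).symm), mem_univ _⟩)
  rwa [eo, Orb.mk_rep] at this

theorem unip_of_iot_le {c c' : Ty k Q R} (hc : c ∈ Cls k Q R n) (hc' : c' ∈ Cls k Q R n) (hn : n ≤ N)
    (h : Unip c') (hl : iot N c' ≤ iot N c) : Unip c := by
  rw [mem_Cls hP] at hc hc'
  have h1 := sum_one_le hP c
  have h2 := h.tsz hP
  have := top_digit_le (fun j => Nat.lt_succ_of_le ((mm_singleton_le j _).trans (by omega))) hl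
  rw [mm_singleton_of_le (by omega), mm_singleton_of_le (by omega)] at this
  exact (unip_iff_sum hP hc.1).2 (by omega)

theorem eq_of_iot {c c' : Ty k Q R} (hc : c ∈ Cls k Q R n) (hc' : c' ∈ Cls k Q R n) (hn : n ≤ N)
    (h : Unip c') (hl : iot N c = iot N c') : c = c' := by
  have h' := unip_of_iot_le hP hc hc' hn h hl.ge
  rw [mem_Cls hP] at hc hc'
  have h1 := h.tsz hP
  have h2 := h'.tsz hP
  have hd := digits_eq (fun j => Nat.lt_succ_of_le ((mm_singleton_le j _).trans (by omega)))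
    (fun j => Nat.lt_succ_of_le ((mm_singleton_le j _).trans (by omega))) hl
  rw [h.eq_single hP, h'.eq_single hP, eq_of_mm (hc.1 _) (hc'.1 _) fun j => ?_]
  by_cases hj : j < N + 1
  · exact hd j hj
  · rw [mm_singleton_of_le (by omega), mm_singleton_of_le (by omega)]; omega

section
variable {G G₁ G₂ : Type u} [Group G] [Finite G] [Group G₁] [Finite G₁] [Group G₂] [Finite G₂]
  {r₁ : Rz k Q R n₁ G₁} {r₂ : Rz k Q R n₂ G₂} {r : Rz k Q R n G}
  (hP' : ParZ k (Q ^ c) R m) (hc : 0 < c) (e : Emb c m r₁)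
include hP' hc

theorem Emb.unip_iff (x : e.G₁) : Unip (r₁.ty (e.ι x)) ↔ Unip (e.r₁.ty x) := by
  refine ⟨fun h o ho => ?_, fun h o ho => ?_⟩
  · have h1 := h (eo Q o.rep) fun e' => ho (by
      rw [← (eo_eq_one hP).1 e']; exact (Orb.mk_rep o).symm)
    rw [e.ty_ι, sum_eq_zero_iff_of_nonneg fun _ _ => Multiset.zero_le _] at h1
    have := h1 0 (mem_range.2 hc)
    rwa [pow_zero, zpow_one, eo, Orb.mk_rep] at this
  · rw [← Orb.mk_rep o]
    refine (e.ty_ι x o.rep).trans (sum_eq_zero fun i _ => h _ fun e' => ho ?_)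
    rw [← Orb.mk_rep o]
    exact (eo_zpow hP o.rep i).symm.trans (congrArg _ ((eo_eq_one hP').1 e'))

theorem isConj_of_iot (hn : n₁ ≤ N) (b : Blk r₁ r₂ r) {x₁ y₁ : e.G₁} {x₂ y₂ : G₂}
    (hx : Unip (r₁.ty (e.ι x₁))) (h : iot N (r₁.ty (e.ι y₁)) = iot N (r₁.ty (e.ι x₁)))
    (h' : IsConj (stp b e (y₁, y₂)) (stp b e (x₁, x₂))) : IsConj y₁ x₁ ∧ IsConj y₂ x₂ := by
  have h1 := eq_of_iot hP (r₁.mem _) (r₁.mem _) hn hx h
  rw [← r.conj, stp_apply, stp_apply, b.ty_f, b.ty_f, h1, add_right_inj, r₂.conj] at h'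
  refine ⟨(e.r₁.conj _ _).1 ?_, h'⟩
  have h2 := congrFun h1 (eo Q 1)
  simp only [e.ty_ι, one_zpow, sum_const, card_range] at h2
  rw [((e.unip_iff hP hP' hc _).1 hx).eq_single hP',
    ((e.unip_iff hP hP' hc _).1 (h1 ▸ hx)).eq_single hP',
    nsmul_right_injective hc.ne' h2]

theorem cent_le (hN : c ≤ N) {A : Type*} [CommGroup A] (δ : fixm k Q R →* A) (b : Blk r₁ r₂ r)
    {x₁ : e.G₁} {x₂ : G₂} (h₁ : centralizer {x₁} ≤ ((δ.comp r₁.dt).comp e.ι).ker)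
    (h₂ : centralizer {x₂} ≤ (δ.comp r₂.dt).ker) :
    centralizer {stp b e (x₁, x₂)} ≤ (δ.comp r.dt).ker := by
  have h3 : (δ.comp r₁.dt).comp e.ι = (δ.comp (nrm Q c)).comp e.r₁.dt :=
    MonoidHom.ext fun x => congrArg δ (e.dt_ι hP hP' x)
  rw [h3, e.r₁.cent_le_iff hP'] at h₁
  rw [r₂.cent_le_iff hP] at h₂
  rw [r.cent_le_iff hP, stp_apply, b.ty_f]
  intro o j hj z
  refine (Multiset.mem_add.1 hj).elim (fun hj => ?_) fun hj => h₂ o j hj z
  rw [← Orb.mk_rep o, show Orb.mk (frz Q) o.rep = eo Q o.rep from rfl, e.ty_ι] at hj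
  obtain ⟨i, -, hi⟩ := Multiset.mem_sum.1 hj
  obtain ⟨w, rfl⟩ := nrm_surjective hP hc hN z
  exact h₁ _ j hi w

end

theorem mem_stabilizer_col {y : fixq k Q R} {φ : Col k Q R} :
    y ∈ MulAction.stabilizer (fixq k Q R) φ ↔ ∃ l, φ.rep * y.1 = φ.rep ^ Q ^ l := by
  rw [MulAction.mem_stabilizer_iff, eq_comm]
  conv_lhs => rw [← Orb.mk_rep φ, smul_mk, (per_lab hP).mk_eq_iff]
  simp only [frz_iterate]

theorem mem_Xone_mk {y : fixq k Q R} {c : Lab k R} : y ∈ Xone p (Orb.mk _ c : Col k Q R) ↔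
    ∃ i, c * y.1 = c ^ Q ^ (orderOf (Q : ZMod p) * i) := by
  obtain ⟨j, hj⟩ := (per_lab hP).mk_eq_iff.1 (Orb.mk_rep (Orb.mk (frz Q) c)).symm
  rw [frz_iterate] at hj
  refine exists_congr fun i => ?_
  rw [hj, ← mul_fixq_zpow, ← zpow_mul c, mul_comm (_ ^ j), zpow_mul c]
  exact (hP.zpow_injective (A := Lab k R) Lab.pow_eq_one j).eq_iff

theorem Xone_le (φ : Col k Q R) : Xone p φ ≤ MulAction.stabilizer (fixq k Q R) φ :=
  fun _ ⟨_, h⟩ => (mem_stabilizer_col hP).2 ⟨_, h⟩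

theorem Xone_smul (y : fixq k Q R) (φ : Col k Q R) : Xone p (y • φ) = Xone p φ := by
  ext w
  conv_lhs => rw [← Orb.mk_rep φ, smul_mk, mem_Xone_mk hP]
  refine exists_congr fun i => ?_
  rw [mul_fixq_zpow, mul_right_comm φ.rep]
  exact mul_left_inj y.1

theorem relIndex_Xone_le (C : Subgroup (fixq k Q R)) (φ : Col k Q R) :
    ((Xone p φ).subgroupOf C).relIndex (MulAction.stabilizer C φ) ≤
      Nat.gcd φ.deg (orderOf (Q : ZMod p)) := by
  have hd := deg_pos hP φ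
  have hg : 0 < Nat.gcd φ.deg (orderOf (Q : ZMod p)) := Nat.gcd_pos_of_pos_left _ hd
  choose l hl using fun y : MulAction.stabilizer C φ =>
    (mem_stabilizer_col hP (y := y.1.1) (φ := φ)).1 y.2
  refine (Nat.card_le_card_of_injective (β := Fin (Nat.gcd φ.deg (orderOf (Q : ZMod p))))
    (fun X => ⟨l X.out % _, Nat.mod_lt _ hg⟩) fun X X' h => ?_).trans_eq (Nat.card_fin _)
  rw [← X.out_eq', ← X'.out_eq', QuotientGroup.eq]
  obtain ⟨c, hc⟩ := Nat.modEq_iff_dvd.1 (Fin.mk.inj h)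
  generalize X.out = y at hc ⊢
  generalize X'.out = y' at hc ⊢
  have h1 := Nat.gcd_eq_gcd_ab φ.deg (orderOf (Q : ZMod p))
  set e := orderOf (Q : ZMod p)
  obtain ⟨i, hi⟩ : ∃ i : ℕ, (i : ℤ) = (Nat.gcdB φ.deg e * c) % φ.deg :=
    ⟨_, Int.toNat_of_nonneg (Int.emod_nonneg _ (by omega))⟩
  rw [Int.emod_def] at hi
  have h2 : l y + e * i ≡ l y' [MOD φ.deg] := Nat.modEq_iff_dvd.2
    ⟨Nat.gcdA φ.deg e * c + e * (Nat.gcdB φ.deg e * c / φ.deg), by
      push_cast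
      linear_combination hc + c * h1 - e * hi⟩
  have h3 := ((per_lab hP).iterate_eq_iterate_iff (a := φ.rep) (i := l y + e * i) (j := l y')).2
    (by rwa [Orb.mk_rep])
  rw [frz_iterate, frz_iterate, ← hl y', pow_add, zpow_mul φ.rep, ← hl y, mul_fixq_zpow] at h3
  refine ⟨i, ?_⟩
  change φ.rep * (y.1.1.1⁻¹ * y'.1.1.1) = _
  rw [mul_left_comm φ.rep, ← h3, mul_comm _ y.1.1.1, inv_mul_cancel_left y.1.1.1]

theorem Xone_eq (h : p ∣ tn Q 1) (φ : Col k Q R) :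
    Xone p φ = MulAction.stabilizer (fixq k Q R) φ := by
  refine le_antisymm (Xone_le hP φ) fun y hy => ?_
  have h1 : (Q : ZMod p) = 1 := by
    rw [dvd_tn_iff, pow_one, ← ZMod.intCast_zmod_eq_zero_iff_dvd, Int.cast_sub, Int.cast_one,
      sub_eq_zero] at h
    exact h
  obtain ⟨l, hl⟩ := (mem_stabilizer_col hP).1 hy
  exact ⟨l, by rwa [h1, orderOf_one, one_mul]⟩

theorem gcd_mul_ee_lt (hp : p.Prime) (hpQ : ¬ (p : ℤ) ∣ Q) (φ : Col k Q R) :
    Nat.gcd φ.deg (orderOf (Q : ZMod p)) * ee p φ < p := by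
  haveI := Fact.mk hp
  have h1 := ZMod.orderOf_dvd_card_sub_one (p := p) (a := (Q : ZMod p)) fun h =>
    hpQ ((ZMod.intCast_zmod_eq_zero_iff_dvd _ _).1 h)
  have h2 := hp.two_le
  rw [ee, orderOf_pow' _ (deg_pos hP φ).ne', Nat.gcd_comm, Nat.mul_div_cancel' (Nat.gcd_dvd_left _ _)]
  exact (Nat.le_of_dvd (by omega) h1).trans_lt (by omega)

theorem exists_twS_max (𝔉 : Fam k Q R N) (hM : IsPModular p M) (hpQ : ¬ (p : ℤ) ∣ Q)
    {μ z : fixq k Q R} (hμ : μ ^ r = 1) (hr : ¬ p ∣ r) (hz : z ∈ zpowers μ) (hn : n ≤ N)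
    {χ : IrrCharacter (𝔉.G n)} {a : Col k Q R → Fin N → ℕ} (h : IsLab (𝔉.rz n hn) χ a)
    (ha : RegLab p a) (hρ : ∀ φ, rs (ee p φ) (ms (a (μ • φ))) = rs (ee p φ) (ms (a φ)))
    (hX : ∀ φ, 0 < wtc p a φ → z ∈ Xone p φ) :
    ∃ x, TwS M (blockOf M χ.1) ((dch hP z).comp (𝔉.rz n hn).dt) r x ∧
      (∀ y, TwS M (blockOf M χ.1) ((dch hP z).comp (𝔉.rz n hn).dt) r y →
        iot N ((𝔉.rz n hn).ty y) ≤ iot N ((𝔉.rz n hn).ty x)) ∧
      dch hP μ ((𝔉.rz n hn).dt x) = 1 := by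
  have hp := hM.prime
  obtain ⟨t, ht⟩ := mem_powers_iff_mem_zpowers.2 hz
  replace ht : μ ^ t = z := ht
  have hzr : z ^ r = 1 := by rw [← ht, ← pow_mul, mul_comm, pow_mul, hμ, one_pow]
  have hpow : ∀ {G : Type u} [Group G] (δ : G →* fixm k Q R) (y : fixq k Q R) (m : ℕ),
      ((dch hP y).comp δ) ^ m = (dch hP (y ^ m)).comp δ := fun δ y m => by
    rw [map_pow]; rfl
  have hZ : ∀ {G : Type u} [Group G] (δ : G →* fixm k Q R), ((dch hP z).comp δ) ^ r = 1 :=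
    fun δ => by rw [hpow, hzr, map_one]; rfl
  induction n using Nat.strong_induction_on generalizing a with | h n ih => ?_
  by_cases h0 : ∀ φ, wtc p a φ = 0
  · obtain ⟨ψ, hψ⟩ := exists_isTw ((dch hP μ).comp (𝔉.rz n hn).dt) χ
    obtain rfl : χ = ψ := (h.eq_iff hP hn (h.tw hP hn μ hψ)).2 fun φ => by
      have h1 := hρ (μ⁻¹ • φ)
      have h2 := h0 (μ⁻¹ • φ)
      rw [wtc] at h2
      rw [smul_inv_smul] at h1
      rw [ee_smul hP hp hpQ] at h1 h2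
      exact ms_eq_of_wt_zero (ee_pos hP hp hpQ φ) (h.1 _) (h.1 _) h1 (h0 φ) h2
    obtain ⟨h1, h2⟩ := TwS.base hM (h.vanish_of_wt hP hp hpQ hn ha h0)
      (z := (dch hP z).comp (𝔉.rz n hn).dt) (by rw [hpow, hμ, map_one]; rfl) hr hψ
      (by rw [← ht, ← hpow]; exact Subgroup.npow_mem_zpowers _ _)
    obtain ⟨x, hx, hm⟩ := Set.exists_max_image _ (fun y => iot N ((𝔉.rz n hn).ty y))
      (Set.toFinite _) h1
    exact ⟨x, hx, hm, h2 x hx⟩
  obtain ⟨φ, hw⟩ := not_forall.1 h0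
  replace hw := Nat.pos_of_ne_zero hw
  obtain ⟨hφ, i, hi, hb, hw1, hoff, hrs⟩ := exists_dnl hP hp hpQ ha h.1 hw
  have hs := size_dnl hi hb
  rw [h.2.1] at hs
  have hN : φ.deg * ee p φ ≤ N := by omega
  have hpos := Nat.mul_pos (deg_pos hP φ) (ee_pos hP hp hpQ φ)
  obtain ⟨π⟩ := nonempty_piece_ee hP hp hpQ 𝔉 hφ hN
  have hn₂ : size (dnl a φ i (ee p φ)) ≤ N := by omega
  obtain ⟨b⟩ := 𝔉.exists_blk π.le hn₂ hn ((add_comm _ _).trans hs)
  obtain ⟨ψ, hψ⟩ := exists_irr hP (𝔉.rz _ hn₂) hn₂ hb rfl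
  obtain ⟨x₂, h₂, m₂, hx₂⟩ := ih _ (by omega) hn₂ hψ (ha.dnl _ _ _)
    (fun φ' => by
      have h1 := hrs (μ • φ')
      rw [ee_smul hP hp hpQ] at h1
      rw [h1, hρ, hrs])
    (fun φ' hw' => hX φ' (by
      by_cases e : φ' = φ
      · rwa [e]
      · rwa [wtc, hoff φ' e] at hw'))
  obtain ⟨u, hu, hu'⟩ := π.exists_twS hP hp hpQ hM hzr hr (hX φ hw)
  obtain ⟨x₁, h₁, m₁⟩ := Set.exists_max_image
    {y | TwS M (blockOf M π.θ.1) ((dch hP z).comp π.dt) r y}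
    (fun y => iot N ((𝔉.rz _ π.le).ty (π.e.ι y))) (Set.toFinite _) ⟨u, hu'⟩
  have hP' := π.par hP hp hpQ
  have hc := π.c_pos hP hp hpQ
  have hx₁ := unip_of_iot_le hP ((𝔉.rz _ π.le).mem _) ((𝔉.rz _ π.le).mem _) π.le
    ((π.e.unip_iff hP hP' hc u).2 hu) (m₁ u hu')
  have e1 : ((((dch hP z).comp (𝔉.rz n hn).dt).comp (stp b π.e)).comp
      (MonoidHom.inl _ _)) = (dch hP z).comp π.dt := MonoidHom.ext fun y => by
    change dch hP z ((𝔉.rz n hn).dt (b.f (π.e.ι y, 1))) = _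
    rw [b.dt_f hP, map_one, mul_one]; rfl
  have e2 : ((((dch hP z).comp (𝔉.rz n hn).dt).comp (stp b π.e)).comp
      (MonoidHom.inr _ _)) = (dch hP z).comp (𝔉.rz _ hn₂).dt := MonoidHom.ext fun y => by
    change dch hP z ((𝔉.rz n hn).dt (b.f (π.e.ι 1, y))) = _
    rw [b.dt_f hP, map_one, map_one, one_mul]; rfl
  have hcN : π.c ≤ N := by
    have := π.dim
    have := Nat.le_mul_of_pos_right π.c (π.m_pos hP hp hpQ)
    omega
  have key := TwS.step hM (π.isSec hP hp hpQ b) ⟨π.θ, rfl⟩ ⟨ψ, rfl⟩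
    (π.induces hP hp hpQ hM hn ((add_comm _ _).trans hs) b h ha hi hψ) (hZ _) hr
    (ι := fun y => iot N ((𝔉.rz n hn).ty y))
    (ι₁ := fun y => iot N ((𝔉.rz _ π.le).ty (π.e.ι y))) (ι₂ := fun y => iot N ((𝔉.rz _ hn₂).ty y))
    (fun y₁ y₂ => by rw [stp_apply, b.ty_f, iot_add])
    (fun _ _ h => by rw [((𝔉.rz n hn).conj _ _).2 h]) (x₁ := x₁) (x₂ := x₂) (e1 ▸ h₁) (e1 ▸ m₁)
    (e2 ▸ h₂) (e2 ▸ m₂) (fun _ _ => isConj_of_iot hP hP' hc π.e π.le b hx₁)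
    (cent_le hP hP' hc π.e hcN _ b (h₁.centralizer_le hM (hZ π.dt) hr)
      (h₂.centralizer_le hM (hZ _) hr))
  refine ⟨_, key.1, key.2, ?_⟩
  rw [stp_apply, b.dt_f hP, (𝔉.rz _ π.le).dt_of_unip hP hx₁, one_mul, hx₂]

end Cfsg.Gun

set_option linter.all false in
theorem Cfsg.Rz.Gun_NV_0 : True := by
  have := @_root_.Cfsg.Gun.Xone.congr_simp.{0}
  have := @_root_.Cfsg.Gun.Xone.eq_def.{0}
  have := @_root_.Cfsg.Gun.Xone.eq_1.{0}
  have := @_root_.Cfsg.Gun.Xone.fun_cases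
  have := @_root_.Cfsg.Gun.iot.eq_def.{0}
  have := @_root_.Cfsg.Gun.iot.fun_cases
  trivial
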