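import Cfsg.Agent.Gun.En

/-!
# The primitive elements `P n a` of the Ennola algebra (S4537 project; port of `Gln/Prim`, `Gln/Heis`)

`pI n x = pX (eo x) (n / deg)`; `P n a = ∑_{x ^ tn n = 1} prz (Q^n - 1) x a • pI n x`.  Note `(Q ^ n - 1).natAbs = tn Q n` by
definition.  `bf_P`: `bf_pI`, `Per.card_filter_iterate`, `sum_prz_left`, `prz_zpow` (as `Gln.adj_P_mul`, `sum_conj_eq`).
`T_lab_P`: `∏_{i<n} ω (x ^ Q ^ i) = ω (x ^ ((Q^n-1)/(Q-1)))`, write `x = y ^ (R / (Q^n - 1))`, `prz_pow_div`.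
`bf_monomial`: induction on `ν` with `bf_mul_left`, `der_mul` (as `Gln.adj_monomial`, `Gln.bf_monomial`).
-/

set_option autoImplicit false
set_option linter.unusedSectionVars false
set_option linter.unusedVariables false
set_option linter.style.haveILetI false

namespace Cfsg.Gun

open Finset Function Gln Cfsg.Sym

universe u

variable {k : Type u} [Field k] {Q : ℤ} {R N n m p : ℕ} [NeZero R]

/-- The primitive element of dimension `n` with eigenvalue `x`. -/
noncomputable def pI (Q : ℤ) (n : ℕ) (x : Mu k R) : Lam k Q R :=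
  if (eo Q x).deg ∣ n then pX (eo Q x) (n / (eo Q x).deg) else 0

/-- The primitive element of dimension `n` with label `a`. -/
noncomputable def P (Q : ℤ) (n : ℕ) (a : Lab k R) : Lam k Q R :=
  ∑ x : Mu k R with x ^ tn Q n = 1, prz (Q ^ n - 1) x a • pI Q n x

/-- The ring generated by the complete symmetric functions of total dimension `≤ n`. -/
noncomputable def LZ (k : Type u) [Field k] (Q : ℤ) (R : ℕ) [NeZero R] (n : ℕ) : Subring (Lam k Q R) :=
  Subring.closure {u | ∃ (n₀ l : ℕ) (a : Lab k R), 0 < n₀ ∧ n₀ * l ≤ n ∧ a ^ tn Q n₀ = 1 ∧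
    u = nexp (fun j => P Q (n₀ * j) a) l}

theorem pI_mem_hom (n : ℕ) (x : Mu k R) : pI Q n x ∈ hom k Q R n := by
  rw [pI]
  split_ifs with h
  · have := pX_mem_hom (eo Q x) (n / (eo Q x).deg)
    rwa [Nat.mul_div_cancel' h] at this
  · exact zero_mem _

theorem pI_mem_lin1 (n : ℕ) (x : Mu k R) : pI Q n x ∈ lin1 k Q R := by
  rw [pI]
  split_ifs
  · exact pX_mem_lin1 _ _
  · exact zero_mem _

theorem cj_pI (n : ℕ) (x : Mu k R) : cj (pI Q n x) = pI Q n x := by
  rw [pI]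
  split_ifs
  · exact cj_pX _ _
  · exact map_zero _

theorem pI_congr (n : ℕ) {x y : Mu k R} (h : eo Q x = eo Q y) : pI Q n x = pI Q n y := by
  rw [pI, pI, h]

theorem P_mem_hom (n : ℕ) (a : Lab k R) : P Q n a ∈ hom k Q R n :=
  sum_mem fun _ _ => Submodule.smul_mem _ _ (pI_mem_hom _ _)

theorem P_mem_lin1 (n : ℕ) (a : Lab k R) : P Q n a ∈ lin1 k Q R :=
  sum_mem fun _ _ => Submodule.smul_mem _ _ (pI_mem_lin1 _ _)

theorem der_monomial {I : Type*} [DecidableEq I] {g : I → Lam k Q R} {v : Lam k Q R} {i : I} {γ : ℂ}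
    {μ : Multiset I} (hg : ∀ j ∈ μ, g j ∈ lin1 k Q R)
    (h : ∀ j ∈ μ, bf (g j) v = if i = j then γ else 0) :
    der v (μ.map g).prod = (μ.count i * γ) • ((μ.erase i).map g).prod := by
  induction μ using Multiset.induction_on with
  | empty => simpa using der_one v
  | cons j μ ih =>
    rw [Multiset.map_cons, Multiset.prod_cons, der_mul (hg j (Multiset.mem_cons_self _ _)),
      h j (Multiset.mem_cons_self _ _), ih (fun j hj => hg j (Multiset.mem_cons_of_mem hj))
        fun j hj => h j (Multiset.mem_cons_of_mem hj), mul_smul_comm]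
    split_ifs with e
    · subst e
      rw [Multiset.erase_cons_head, Multiset.count_cons_self, Nat.cast_succ, add_mul, one_mul,
        add_smul, add_left_inj]
      by_cases hi : i ∈ μ
      · rw [Multiset.prod_map_erase hi]
      · simp [Multiset.count_eq_zero_of_notMem hi]
    · rw [Multiset.erase_cons_tail _ (Ne.symm e), Multiset.count_cons_of_ne e, Multiset.map_cons,
        Multiset.prod_cons, zero_smul, add_zero]

theorem prod_fact_cons {I : Type*} [DecidableEq I] (i : I) (ν : Multiset I) :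
    ∏ j ∈ (i ::ₘ ν).toFinset, (((i ::ₘ ν).count j).factorial : ℂ) =
      ((ν.count i + 1 : ℕ) : ℂ) * ∏ j ∈ ν.toFinset, ((ν.count j).factorial : ℂ) := by
  have h1 : ∏ j ∈ ν.toFinset, ((ν.count j).factorial : ℂ) =
      ∏ j ∈ (i ::ₘ ν).toFinset, ((ν.count j).factorial : ℂ) :=
    Finset.prod_subset (by rw [Multiset.toFinset_cons]; exact subset_insert _ _) fun j _ hj => by
      rw [Multiset.count_eq_zero_of_notMem (mt Multiset.mem_toFinset.2 hj)]; simp
  have hi : i ∈ (i ::ₘ ν).toFinset := by simp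
  rw [h1, ← Finset.mul_prod_erase _ _ hi, ← Finset.mul_prod_erase _ _ hi, Multiset.count_cons_self,
    Nat.factorial_succ, Nat.cast_mul, mul_assoc]
  congr 2
  exact Finset.prod_congr rfl fun j hj => by rw [Multiset.count_cons_of_ne (mem_erase.1 hj).1]

theorem bf_monomial {I : Type*} [DecidableEq I] {s : Set I} {g g' : I → Lam k Q R} {γ : I → ℂ}
    (hg : ∀ i ∈ s, g i ∈ lin1 k Q R) (hg' : ∀ i ∈ s, g' i ∈ lin1 k Q R)
    (h : ∀ i ∈ s, ∀ j ∈ s, bf (g j) (g' i) = if i = j then γ i else 0)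
    {μ ν : Multiset I} (hμ : ∀ i ∈ μ, i ∈ s) (hν : ∀ i ∈ ν, i ∈ s) :
    bf (μ.map g).prod (ν.map g').prod =
      if μ = ν then (μ.map γ).prod * ∏ i ∈ μ.toFinset, ((μ.count i).factorial : ℂ) else 0 := by
  induction ν using Multiset.induction_on generalizing μ with
  | empty =>
    split_ifs with e
    · subst e
      simp [bf_one_one]
    · obtain ⟨i, hi⟩ := Multiset.exists_mem_of_ne_zero e
      rw [← Multiset.prod_map_erase hi, bf_mul_left (hg i (hμ i hi)), Multiset.map_zero,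
        Multiset.prod_zero, der_one, map_zero]
  | cons i ν ih =>
    have hi := hν i (Multiset.mem_cons_self _ _)
    rw [Multiset.map_cons, Multiset.prod_cons, bf_comm, bf_mul_left (hg' i hi),
      der_monomial (γ := γ i) (i := i) (fun j hj => hg j (hμ j hj)) fun j hj => h i hi j (hμ j hj),
      map_smul, bf_comm, ih (fun j hj => hμ j (Multiset.mem_of_mem_erase hj))
        fun j hj => hν j (Multiset.mem_cons_of_mem hj), smul_eq_mul]
    by_cases e : μ = i ::ₘ ν
    · subst e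
      rw [Multiset.erase_cons_head, if_pos rfl, if_pos rfl, prod_fact_cons,
        Multiset.count_cons_self, Multiset.map_cons, Multiset.prod_cons]
      ring
    · rw [if_neg e]
      by_cases hi' : i ∈ μ
      · rw [if_neg, mul_zero]
        exact fun e' => e (by rw [← e', Multiset.cons_erase hi'])
      · simp [Multiset.count_eq_zero_of_notMem hi']

variable [IsAlgClosed k] (hP : ParZ k Q R N)
include hP

theorem pX_eq_pI (o : EO k Q R) (j : ℕ) : pX o j = pI Q (o.deg * j) o.rep := by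
  rw [pI, eo, Orb.mk_rep, if_pos (dvd_mul_right _ _), Nat.mul_div_cancel_left _ (eo_deg_pos hP o)]

theorem card_orbit {x : Mu k R} (h : (eo Q x).deg ∣ n) (y : Mu k R) :
    #{i ∈ range n | x ^ Q ^ i = y} = if eo Q x = eo Q y then n / (eo Q x).deg else 0 := by
  simpa only [frz_iterate] using (per_mu hP).card_filter_iterate (b := y) h

theorem prod_orbit {A : Type*} [CommMonoid A] (α : Mu k R → A) {x : Mu k R}
    (h : (eo Q x).deg ∣ n) : ∏ i ∈ range n, α (x ^ Q ^ i) =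
      ∏ y, α y ^ (if eo Q x = eo Q y then n / (eo Q x).deg else 0) := by
  rw [← prod_fiberwise (range n) fun i => x ^ Q ^ i]
  refine prod_congr rfl fun y _ => ?_
  rw [prod_congr rfl (g := fun _ => α y) fun i hi => by rw [(mem_filter.1 hi).2], prod_const,
    card_orbit hP h]

theorem T_pI (α : Mu k R → ℂ) {x : Mu k R} :
    T α (pI Q n x) = (∏ i ∈ range n, α (x ^ Q ^ i)) • pI Q n x := by
  rw [pI]
  split_ifs with h
  · rw [T_pX, prod_orbit hP α h, prod_orbit hP α (by rw [eo, Orb.mk_rep]), ← prod_pow]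
    refine congrArg (· • _) (prod_congr rfl fun y _ => ?_)
    simp only [eo, Orb.mk_rep, ← pow_mul, ite_mul, zero_mul, Nat.div_self (eo_deg_pos hP _), one_mul]
  · simp

open Classical in
theorem cut_pI (n : ℕ) (x : Mu k R) : cut p (pI Q n x) = if IsPRegular p x then pI Q n x else 0 := by
  rw [pI]
  by_cases h : (eo Q x).deg ∣ n
  · rw [if_pos h, cut_pX, isPRegular_rep_mk hP]
  · simp [h]

theorem bf_pI (hn : 0 < n) {x y : Mu k R} : bf (pI Q n x) (pI Q m y) =
    if m = n ∧ eo Q x = eo Q y ∧ (eo Q x).deg ∣ n then (n : ℂ) / (eo Q x).deg / tn Q n else 0 := by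
  rw [pI, pI]
  by_cases h : (eo Q x).deg ∣ n
  swap
  · simp [h]
  have h0 := eo_deg_pos hP (eo Q x)
  by_cases h' : (eo Q y).deg ∣ m
  · rw [if_pos h, if_pos h', bf_pX (Nat.div_pos (Nat.le_of_dvd hn h) h0), Nat.mul_div_cancel' h,
      Nat.cast_div h (Nat.cast_ne_zero.2 h0.ne')]
    refine if_congr ⟨fun e => ⟨?_, e.1, h⟩, fun e => ⟨e.2.1, by rw [e.1, e.2.1]⟩⟩ rfl rfl
    rw [← Nat.mul_div_cancel' h', ← e.2, ← e.1, Nat.mul_div_cancel' h]
  · rw [if_neg h', map_zero, if_neg]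
    rintro ⟨rfl, e, -⟩
    exact h' (e ▸ h)

theorem p1_eq_sum (h0 : 0 < n) : p1 k Q R n = ∑ x : Mu k R with x ^ tn Q n = 1, pI Q n x := by
  rw [sum_filter_of_ne (f := pI Q n) fun x _ h =>
    (deg_mu_dvd_iff hP).1 (by_contra fun h' => h (if_neg h')), p1, sum_filter]
  refine Eq.trans ?_ ((per_mu hP).sum_orb' fun o => if o.deg ∣ n then pX o (n / o.deg) else 0).symm
  exact sum_congr rfl fun o _ => by rw [smul_ite, smul_zero, Nat.cast_smul_eq_nsmul]

theorem cj_P (n : ℕ) (a : Lab k R) : cj (P Q n a) = P Q n a⁻¹ := by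
  rw [P, P, map_sum]
  exact sum_congr rfl fun x _ => by rw [cj_smul, cj_pI, star_prz hP.cast]

variable (h0 : 0 < n) (hn : n ≤ N) {a b : Lab k R}
include h0 hn

theorem P_one : P Q n (1 : Lab k R) = p1 k Q R n := by
  rw [p1_eq_sum hP h0, P]
  exact sum_congr rfl fun x hx => by
    rw [prz_one_right hP.cast (hP.dvd h0 hn) (mem_filter.1 hx).2, one_smul]

theorem P_pow (ha : a ^ tn Q n = 1) (i : ℕ) : P Q n (a ^ Q ^ i) = P Q n a := by
  have hi := hP.zpow_injective (A := Mu k R) Mu.pow_eq_one i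
  refine sum_bijective _ ⟨hi, Finite.injective_iff_surjective.1 hi⟩ (fun x => ?_) fun x hx => ?_
  · simp only [mem_filter, mem_univ, true_and, ← deg_mu_dvd_iff hP]
    rw [show Orb.mk (frz Q) (x ^ Q ^ i) = Orb.mk (frz Q) x from eo_zpow hP x i]
  · rw [prz_zpow hP.cast (hP.dvd h0 hn) (mem_filter.1 hx).2 ha, pI_congr n (eo_zpow hP x i)]

theorem T_lab_P (ha : a ^ tn Q n = 1) (ω : Lab k R) :
    T (fun x => (ω x : ℂ)) (P Q n a) = P Q n (a * ω ^ ((R : ℤ) / (Q - 1))) := by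
  have hm : (Q ^ n - 1).natAbs ∣ R := hP.dvd h0 hn
  have e2 : (R : ℤ) / (Q - 1) = (∑ i ∈ range n, Q ^ i) * (R / (Q ^ n - 1)) := by
    refine Int.ediv_eq_of_eq_mul_left (fun h => ?_) ?_
    · have := hP.two
      rw [sub_eq_zero.1 h] at this
      simp at this
    · rw [mul_right_comm, geom_sum_mul, Int.mul_ediv_cancel' (Int.natAbs_dvd.1 (by exact_mod_cast hm))]
  rw [P, P, map_sum, e2, zpow_mul ω]
  refine sum_congr rfl fun x hx => ?_
  have hx' := (mem_filter.1 hx).2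
  rw [map_smul, T_pI hP, smul_smul, prz_mul_right hP.cast hm hx' ha
    (zpow_div_pow (A := Lab k R) hm (Lab.pow_eq_one _)), prz_pow_div' hP.cast hm hx',
    MonoidHom.zpow_apply, ← map_zpow, ← prod_zpow_pow, map_prod, Units.coe_prod]

theorem pI_eq_sum_P {x : Mu k R} (hx : x ^ tn Q n = 1) : pI Q n x =
    (tn Q n : ℂ)⁻¹ • ∑ a : Lab k R with a ^ tn Q n = 1, prz (Q ^ n - 1) x⁻¹ a • P Q n a := by
  have hR := hP.cast
  have hm : (Q ^ n - 1).natAbs ∣ R := hP.dvd h0 hn
  have hx' : x⁻¹ ^ tn Q n = 1 := by rw [inv_pow, hx, inv_one]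
  have h1 : (tn Q n : ℂ) ≠ 0 := Nat.cast_ne_zero.2 (tn_pos hP.two h0).ne'
  simp only [P, smul_sum, smul_smul]
  rw [sum_comm, sum_eq_single x]
  · rw [← sum_smul, ← mul_sum, sum_congr rfl fun a ha => by
      rw [← prz_mul_left hR hm hx' hx (mem_filter.1 ha).2], inv_mul_cancel, tn,
      sum_prz_right hR hm (one_pow _), if_pos rfl, ← tn, inv_mul_cancel₀ h1, one_smul]
  · intro y hy hyx
    have hy' := (mem_filter.1 hy).2
    rw [← sum_smul, ← mul_sum, sum_congr rfl fun a ha => by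
      rw [← prz_mul_left hR hm hx' hy' (mem_filter.1 ha).2], tn,
      sum_prz_right hR hm (by rw [mul_pow, ← tn, hx', hy', one_mul]),
      if_neg fun h => hyx (inv_mul_eq_one.1 h).symm, mul_zero, zero_smul]
  · exact fun h => absurd (mem_filter.2 ⟨mem_univ x, hx⟩) h

open Classical in
omit h0 hn in
theorem cut_P_eq (a : Lab k R) : cut p (P Q n a) = ∑ x : Mu k R with x ^ tn Q n = 1,
    (if IsPRegular p x then prz (Q ^ n - 1) x a else 0) • pI Q n x := by
  rw [P, map_sum]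
  refine sum_congr rfl fun x _ => ?_
  rw [map_smul, cut_pI hP]
  split_ifs <;> simp

theorem cut_P (hp : p.Prime) (ha : a ^ tn Q n = 1) : cut p (P Q n a) =
    ((ordProj[p] (tn Q n) : ℕ) : ℂ)⁻¹ • ∑ b : Lab k R with b ^ ordProj[p] (tn Q n) = 1, P Q n (a * b) := by
  classical
  have hR := hP.cast
  have hm : (Q ^ n - 1).natAbs ∣ R := hP.dvd h0 hn
  have h1 : ((ordProj[p] (tn Q n) : ℕ) : ℂ) ≠ 0 := Nat.cast_ne_zero.2 (pow_ne_zero _ hp.ne_zero)
  rw [cut_P_eq hP]
  simp only [P, smul_sum, smul_smul]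
  rw [sum_comm]
  refine sum_congr rfl fun x hx => ?_
  have hx' := (mem_filter.1 hx).2
  rw [← sum_smul, ← mul_sum, sum_congr rfl fun b hb => prz_mul_right hR hm hx' ha (by
    obtain ⟨c, hc⟩ := Nat.ordProj_dvd (tn Q n) p
    rw [← tn, hc, pow_mul b, (mem_filter.1 hb).2, one_pow (M := Lab k R)]), ← mul_sum, tn,
    sum_prz_pPart hR hm hp hx', ← tn]
  congr 1
  split_ifs
  · rw [mul_comm (prz _ _ _), inv_mul_cancel_left₀ h1]
  · simp

theorem cut_P_pPrimePart (hp : p.Prime) (ha : a ^ tn Q n = 1) :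
    cut p (P Q n (pPrimePart p a)) = cut p (P Q n a) := by
  haveI := Fact.mk hp
  have hR := hP.cast
  have hm : (Q ^ n - 1).natAbs ∣ R := hP.dvd h0 hn
  have h1 : ∀ j : ℕ, (a ^ j) ^ tn Q n = 1 := fun j => by
    rw [← pow_mul a, mul_comm, pow_mul a, ha, one_pow (M := Lab k R)]
  obtain ⟨i, hi⟩ := exists_pPart_eq_pow (p := p) a
  obtain ⟨j, hj⟩ := exists_pPrimePart_eq_pow (p := p) a
  rw [cut_P_eq hP, cut_P_eq hP]
  refine sum_congr rfl fun x hx => ?_
  have hx' := (mem_filter.1 hx).2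
  split_ifs with h
  · conv_rhs => rw [← pPart_mul_pPrimePart (p := p) a]
    rw [prz_mul_right hR hm hx' (hi ▸ h1 i) (hj ▸ h1 j),
      prz_eq_one_of_coprime (a := pPart p a) hR hm hx' (hi ▸ h1 i)
      (by rw [orderOf_pPart]; exact (isPRegular_iff_coprime.1 h).pow_right _), one_mul]
  · rfl

theorem cut_P_of_not_dvd (hp : p.Prime) (ha : a ^ tn Q n = 1) (h : ¬ p ∣ tn Q n) :
    cut p (P Q n a) = P Q n a := by
  rw [cut_P_eq hP, P]
  refine sum_congr rfl fun x hx => ?_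
  rw [if_pos (show IsPRegular p x from
    fun h' => h (h'.trans (orderOf_dvd_of_pow_eq_one (mem_filter.1 hx).2)))]

theorem bf_P (hm : 0 < m) (hm' : m ≤ N) (ha : a ^ tn Q n = 1) (hb : b ^ tn Q m = 1) :
    bf (P Q n a) (cj (P Q m b)) =
      if m = n then (#{i ∈ range n | a ^ Q ^ i = b} : ℂ) else 0 := by
  split_ifs with e
  swap
  · exact bf_eq_zero (P_mem_hom n a) (cj_mem_hom (P_mem_hom m b)) (Ne.symm e)
  subst e
  have hR := hP.cast
  have hd : (Q ^ m - 1).natAbs ∣ R := hP.dvd h0 hn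
  have h1 : (tn Q m : ℂ) ≠ 0 := Nat.cast_ne_zero.2 (tn_pos hP.two h0).ne'
  have hb' : b⁻¹ ^ tn Q m = 1 := by rw [inv_pow b, hb]; exact inv_one (G := Lab k R)
  have ha' : ∀ i : ℕ, (a ^ Q ^ i) ^ tn Q m = 1 := fun i => zpow_pow_eq_one (A := Lab k R) ha _
  rw [cj_P hP, P.eq_1 Q m b⁻¹, map_sum, sum_congr rfl (g := fun y => (tn Q m : ℂ)⁻¹ * ∑ i ∈ range m,
    prz (Q ^ m - 1) y (a ^ Q ^ i * b⁻¹)), ← mul_sum, sum_comm, tn,
    sum_congr rfl fun i _ => sum_prz_left hR hd (by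
      rw [mul_pow _ b⁻¹, ← tn, ha', hb']; exact mul_one (1 : Lab k R)),
    ← sum_filter, sum_const, nsmul_eq_mul, ← tn, mul_left_comm, inv_mul_cancel₀ h1, mul_one]
  · congr 2
    exact filter_congr fun i _ => mul_inv_eq_one (G := Lab k R)
  intro y hy
  have hy' := (mem_filter.1 hy).2
  have hdy : (eo Q y).deg ∣ m := (deg_mu_dvd_iff hP).2 hy'
  rw [sum_congr rfl fun i _ => prz_mul_right hR hd hy' (ha' i) hb', ← sum_mul,
    sum_congr rfl fun i _ => (prz_zpow hR hd hy' ha _).symm, map_smul, smul_eq_mul, mul_comm,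
    ← mul_assoc, P, map_sum, LinearMap.sum_apply,
    ← sum_fiberwise_of_maps_to (s := range m) (t := {x : Mu k R | x ^ tn Q m = 1})
      (g := fun i => y ^ Q ^ i) fun i _ => mem_filter.2 ⟨mem_univ _, zpow_pow_eq_one hy' _⟩, mul_sum]
  refine congrArg (· * _) (sum_congr rfl fun x _ => ?_)
  rw [sum_congr rfl (g := fun _ => prz (Q ^ m - 1) x a) fun i hi => by rw [(mem_filter.1 hi).2],
    sum_const, card_orbit hP hdy, map_smul, LinearMap.smul_apply, bf_pI hP h0, nsmul_eq_mul,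
    smul_eq_mul]
  by_cases h : eo Q x = eo Q y
  · rw [h, if_pos ⟨rfl, rfl, hdy⟩, if_pos rfl,
      Nat.cast_div hdy (Nat.cast_ne_zero.2 (eo_deg_pos hP _).ne')]
    ring
  · simp [h, Ne.symm h]

omit hP h0 hn in
theorem eq_one_of_mul_zpow {G : Type*} [CommGroup G] [Finite G] (hp : p.Prime) {j : ℤ} {e : ℕ}
    (hj : Injective fun a : G => a ^ j) {a b c : G} (hc : c ^ p ^ e = 1) (ha : IsPRegular p a)
    (hb : IsPRegular p b) (h : (a * c) ^ j = b) : c = 1 := by
  haveI := Fact.mk hp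
  have h2 : c ^ j = (a ^ j)⁻¹ * b := by rw [← h, mul_zpow, inv_mul_cancel_left]
  have h3 : IsPRegular p (c ^ j) := by
    rw [h2]
    exact (isPRegular_inv_iff.2 fun h' => ha (h'.trans (orderOf_dvd_of_mem_zpowers
      (Subgroup.zpow_mem_zpowers a j)))).mul_of_commute hb (mul_comm _ _)
  rw [IsPRegular, show orderOf (c ^ j) = orderOf c from
    orderOf_injective (zpowGroupHom j) hj c] at h3
  obtain ⟨j, -, hj⟩ := (Nat.dvd_prime_pow hp).1 (orderOf_dvd_of_pow_eq_one hc)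
  rw [← orderOf_eq_one_iff, hj]
  rcases j with _ | j
  · rfl
  · exact absurd (by rw [hj]; exact dvd_pow_self p j.succ_ne_zero) h3

theorem bf_cut_P (hp : p.Prime) (hm : 0 < m) (hm' : m ≤ N) (ha : a ^ tn Q n = 1)
    (hb : b ^ tn Q m = 1) (ha' : IsPRegular p a) (hb' : IsPRegular p b) :
    bf (cut p (P Q n a)) (cj (P Q m b)) =
      if m = n then (#{i ∈ range n | a ^ Q ^ i = b} : ℂ) / (ordProj[p] (tn Q n) : ℕ) else 0 := by
  rw [cut_P hP h0 hn hp ha, map_smul, map_sum, LinearMap.smul_apply, LinearMap.sum_apply,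
    sum_congr rfl fun c hc => bf_P hP h0 hn hm hm' (by
      obtain ⟨r, hr⟩ := Nat.ordProj_dvd (tn Q n) p
      rw [mul_pow a, ha, hr, pow_mul c, (mem_filter.1 hc).2, one_pow (M := Lab k R)]
      exact mul_one (1 : Lab k R)) hb]
  split_ifs with e
  swap
  · simp
  rw [sum_eq_single 1, show a * 1 = a from mul_one a, div_eq_inv_mul, smul_eq_mul]
  · intro c hc h1
    rw [Nat.cast_eq_zero, card_eq_zero, filter_eq_empty_iff]
    intro i _ hi
    exact h1 (eq_one_of_mul_zpow (G := Lab k R) hp (hP.zpow_injective Lab.pow_eq_one i)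
      (mem_filter.1 hc).2 ha' hb' hi)
  · intro h
    refine absurd (mem_filter.2 ⟨mem_univ _, ?_⟩) h
    exact one_pow (M := Lab k R) _

end Cfsg.Gun

set_option linter.all false in
theorem Cfsg.Rz.Gun_Prim_0 : True := by
  have := @_root_.Cfsg.Gun.P.eq_def.{0}
  have := @_root_.Cfsg.Gun.P.fun_cases
  have := @_root_.Cfsg.Gun.LZ.eq_def.{0}
  have := @_root_.Cfsg.Gun.LZ.eq_1.{0}
  have := @_root_.Cfsg.Gun.LZ.fun_cases
  have := @_root_.Cfsg.Gun.pI.eq_def.{0}
  have := @_root_.Cfsg.Gun.pI.fun_cases.{0}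
  trivial
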