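import Cfsg.Agent.Gun.Ev
import Cfsg.Agent.Gun.Prim

/-!
# Realizations of the Ennola algebra on finite groups (S4537 project)

`Rb k Q R n G`: the classes of `G` are the types of size `n`.  `Rz`: all further properties of `GL_n(Q)`, `GU_n(-Q)`.
`Blk`: `G₁ × G₂ → G`; `Emb c m`: `G_m(Q ^ c) → G_{cm}(Q)`; `Fam`: the family `G_n`, `n ≤ N`.
`sum_ty`: the fibres of `ty` are the conjugacy classes, of size `|G| / acg`.
`cent_le_iff`: `→` by `cd₂`; `←` with `r` = order of the cyclic group `δ.range` (`isCyclic_fixm`), `cd₁`.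
`Emb.coe_dt`: `evm (ty (ι x)) = ∑_{i<c} (evm (ty₁ x)).map (· ^ Q ^ i)` (`count_evm`; reindex `i ↦ c - i`, the multiset `evm (ty₁ x)` is
stable under `· ^ Q ^ c`).
-/

set_option autoImplicit false
set_option linter.unusedSectionVars false
set_option linter.unusedVariables false
set_option linter.style.haveILetI false

namespace Cfsg.Gun

open Finset Function Gln Subgroup

universe u

/-- Classes are types. -/
structure Rb (k : Type u) [Field k] (Q : ℤ) (R : ℕ) [NeZero R] (n : ℕ) (G : Type u) [Group G] where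
  /-- the type -/
  ty : G → Ty k Q R
  mem : ∀ g, ty g ∈ Cls k Q R n
  surj : ∀ c ∈ Cls k Q R n, ∃ g, ty g = c
  conj : ∀ g h, ty g = ty h ↔ IsConj g h
  card : ∀ g, (Nat.card (centralizer {g}) : ℂ) = acg (ty g)

variable {k : Type u} [Field k] {Q : ℤ} {R N n p : ℕ} [NeZero R] {G : Type u} [Group G]

/-- The class function of an element of the Ennola algebra. -/
noncomputable def Rb.res (r : Rb k Q R n G) : Lam k Q R →ₗ[ℂ] (G → ℂ) :=
  LinearMap.pi fun g => vl (r.ty g)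

@[simp] theorem Rb.res_apply (r : Rb k Q R n G) (u : Lam k Q R) (g : G) :
    r.res u g = vl (r.ty g) u := rfl

/-- A full realization. -/
structure Rz (k : Type u) [Field k] (Q : ℤ) (R : ℕ) [NeZero R] (n : ℕ) (G : Type u) [Group G]
    [Finite G] extends Rb k Q R n G where
  reg : ∀ p : ℕ, p.Prime → ¬ (p : ℤ) ∣ Q → ∀ g, IsPRegular p g ↔ TReg p (ty g)
  /-- the determinant -/
  dt : G →* fixm k Q R
  dt_eq : ∀ g, (dt g : Mu k R) = (evm (ty g)).prod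
  /-- the scalars -/
  sc : fixm k Q R →* G
  sc_mem : ∀ z, sc z ∈ center G
  ty_sc : ∀ z g s, ty (sc z * g) (eo Q (z.1 * s)) = ty g (eo Q s)
  ty_one : ty 1 = Pi.single (eo Q 1) (Multiset.replicate n 1)
  cd₁ : ∀ (x g : G) (r : ℕ), 0 < r → (∀ o, ∀ j ∈ ty x o, r ∣ j) → Commute g x → ∃ z, dt g = z ^ r
  cd₂ : ∀ (x : G) o, ∀ j ∈ ty x o, ∀ z, ∃ g, Commute g x ∧ dt g = z ^ j
  gen : ∀ u ∈ LZ k Q R n, IsGeneralizedCharacter G (toRb.res u)
  wh : 0 < n → ∃ U : Subgroup G, (∀ u ∈ U, Unip (ty u)) ∧ (∃ t, Nat.card U = Q.natAbs ^ t) ∧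
    ∃ (ψ : U →* ℂˣ) (ε : ℂ), (ε = 1 ∨ ε = -1) ∧ ip (fun u : U =>
      ∏ i ∈ Ico 1 (ty u (eo Q 1)).card, (1 - (Q : ℂ) ^ i)) (fun u => ψ u) = ε

variable [Finite G]

/-- Block diagonal embeddings. -/
structure Blk {n₁ n₂ : ℕ} {G₁ G₂ : Type u} [Group G₁] [Finite G₁] [Group G₂] [Finite G₂]
    (r₁ : Rz k Q R n₁ G₁) (r₂ : Rz k Q R n₂ G₂) (r : Rz k Q R n G) where
  /-- the embedding -/
  f : G₁ × G₂ →* G
  inj : Injective f
  ty_f : ∀ x y, r.ty (f (x, y)) = r₁.ty x + r₂.ty y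
  cent : ∀ x y, (∀ o, r₁.ty x o = 0 ∨ r₂.ty y o = 0) → centralizer {f (x, y)} ≤ f.range

/-- Restriction of scalars. -/
structure Emb (c m : ℕ) (r : Rz k Q R n G) where
  /-- the small group -/
  G₁ : Type u
  [grp : Group G₁]
  [fin : Finite G₁]
  /-- its realization -/
  r₁ : Rz k (Q ^ c) R m G₁
  /-- the embedding -/
  ι : G₁ →* G
  inj : Injective ι
  ty_ι : ∀ x s, r.ty (ι x) (eo Q s) = ∑ i ∈ range c, r₁.ty x (eo (Q ^ c) (s ^ Q ^ i))
  cent : ∀ ζ : fixm k (Q ^ c) R, (eo Q ζ.1).deg = c → centralizer {ι (r₁.sc ζ)} ≤ ι.range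

attribute [instance] Emb.grp Emb.fin

/-- The family of groups. -/
structure Fam (k : Type u) [Field k] (Q : ℤ) (R : ℕ) [NeZero R] (N : ℕ) where
  /-- the groups -/
  G : ℕ → Type u
  [grp : ∀ n, Group (G n)]
  [fin : ∀ n, Finite (G n)]
  /-- the realizations -/
  rz : ∀ n, n ≤ N → Rz k Q R n (G n)
  exists_blk : ∀ {a b n} (ha hb hn), a + b = n → Nonempty (Blk (rz a ha) (rz b hb) (rz n hn))
  exists_emb : ∀ {c m n} (hn), 0 < c → 0 < m → c * m = n → Nonempty (Emb c m (rz n hn))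
  exists_blk3 : ∀ {a b n₁ n₂ n} (ha hb h₁ h₂ hn), a + b = n₁ → a + a = n₂ → a + n₁ = n →
    ∃ (e₁ : Blk (rz a ha) (rz n₁ h₁) (rz n hn)) (e₂ : Blk (rz a ha) (rz b hb) (rz n₁ h₁))
      (d : Blk (rz a ha) (rz a ha) (rz n₂ h₂)) (e : Blk (rz n₂ h₂) (rz b hb) (rz n hn)) (s : G n₂),
      (∀ x y z, e₁.f (x, e₂.f (y, z)) = e.f (d.f (x, y), z)) ∧
      (∀ x y, s * d.f (x, y) * s⁻¹ = d.f (y, x)) ∧ s ^ 2 = 1

attribute [instance] Fam.grp Fam.fin

variable [IsAlgClosed k] (hP : ParZ k Q R N) {u v : Lam k Q R}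

section Rb

variable (r : Rb k Q R n G)

theorem Rb.isClassFunction_res (u : Lam k Q R) : IsClassFunction G (r.res u) := fun g h => by
  rw [r.res_apply, r.res_apply, (r.conj g _).2 (isConj_iff.2 ⟨h, rfl⟩)]

include hP

theorem Rb.tpos (g : G) : TPos (r.ty g) := ((mem_Cls hP).1 (r.mem g)).1

theorem Rb.tsz (g : G) : tsz (r.ty g) = n := ((mem_Cls hP).1 (r.mem g)).2

theorem Rb.sum_ty [Fintype G] (φ : Ty k Q R → ℂ) :
    (Nat.card G : ℂ)⁻¹ * ∑ g, φ (r.ty g) = ∑ c ∈ Cls k Q R n, φ c / acg c := by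
  classical
  rw [← sum_fiberwise_of_maps_to (s := univ) (fun g _ => r.mem g), mul_sum]
  refine sum_congr rfl fun c hc => ?_
  obtain ⟨g, rfl⟩ := r.surj c hc
  rw [sum_congr rfl fun h hh => congrArg φ (mem_filter.1 hh).2, sum_const, nsmul_eq_mul, ← r.card,
    filter_congr (q := IsConj g) fun h _ => eq_comm.trans (r.conj g h),
    ← card_filter_isConj_mul_card_centralizer g, Nat.cast_mul]
  have h1 : (#(univ.filter (IsConj g)) : ℂ) ≠ 0 :=
    Nat.cast_ne_zero.2 (card_ne_zero.2 ⟨g, mem_filter.2 ⟨mem_univ g, IsConj.refl g⟩⟩)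
  field_simp

theorem Rb.ip_res (hu : u ∈ hom k Q R n) (v : Lam k Q R) :
    ip (r.res u) (r.res v) = bf u (cj v) := by
  haveI := Fintype.ofFinite G
  rw [ip_def, ← sum_vl_mul_vl hP hu, ← r.sum_ty hP fun c => vl c u * vl c (cj v)]
  simp only [r.res_apply, vl_cj hP (r.tpos hP _), starRingEnd_apply]

theorem Rb.res_comp (u : Lam k Q R) : r.res (comp n u) = r.res u := funext fun g => by
  rw [r.res_apply, r.res_apply, ← vl_comp hP (r.tpos hP g) u, r.tsz hP]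

theorem Rb.res_eq_zero {m : ℕ} (hu : u ∈ hom k Q R m) (e : m ≠ n) : r.res u = 0 :=
  funext fun g => vl_eq_zero hP (r.tpos hP g) hu ((r.tsz hP g).trans_ne e.symm)

theorem Rb.res_cj (u : Lam k Q R) (g : G) : r.res (cj u) g = star (r.res u g) :=
  vl_cj hP (r.tpos hP g) u

theorem Rb.eq_of_res_eq (hu : u ∈ hom k Q R n) (hv : v ∈ hom k Q R n) (h : r.res u = r.res v) :
    u = v :=
  eq_of_vl hP hu hv fun c hc => by
    obtain ⟨g, rfl⟩ := r.surj c hc
    exact congrFun h g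

theorem Rb.exists_res_eq {θ : G → ℂ} (h : IsClassFunction G θ) :
    ∃ u ∈ hom k Q R n, r.res u = θ := by
  classical
  obtain ⟨u, hu, e⟩ := exists_vl_eq hP n fun c => if h : ∃ g, r.ty g = c then θ h.choose else 0
  refine ⟨u, hu, funext fun g => ?_⟩
  have h1 : ∃ g', r.ty g' = r.ty g := ⟨g, rfl⟩
  obtain ⟨x, hx⟩ := isConj_iff.1 ((r.conj _ _).1 h1.choose_spec)
  rw [r.res_apply, e _ (r.mem g), dif_pos h1, ← h _ x, hx]

theorem Rb.res_Hh : r.res (Hh k Q R n) = 1 :=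
  funext fun g => vl_Hh hP (r.mem g)

end Rb

include hP

section Rz

variable (r : Rz k Q R n G)

theorem ty_sc_aux {z : fixm k Q R} {c c' : Ty k Q R} {l : Multiset ℕ}
    (h : ∀ s, c (eo Q (z.1 * s)) = c' (eo Q s)) (h' : c' = Pi.single (eo Q 1) l) :
    c = Pi.single (eo Q z.1) l := funext fun o => by
  have := h (z.1⁻¹ * o.rep)
  rw [mul_inv_cancel_left, eo, Orb.mk_rep] at this
  rw [this, h', Pi.single_apply, Pi.single_apply]
  refine if_congr ?_ rfl rfl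
  rw [eo_eq_one hP, inv_mul_eq_one, eq_comm, ← mk_eq_mk_fixm hP, Orb.mk_rep]

theorem Rz.res_cut (hp : p.Prime) (hpQ : ¬ (p : ℤ) ∣ Q) (u : Lam k Q R) :
    r.res (cut p u) = pRegularPart p (r.res u) := funext fun g => by
  rw [Rb.res_apply, vl_cut hP p (r.tpos hP g), pRegularPart, r.reg p hp hpQ]
  congr

theorem Rz.res_T_lab (ω : Lab k R) (u : Lam k Q R) (g : G) :
    r.res (T (fun x => (ω x : ℂ)) u) g = r.res u g * ω (r.dt g).1 := by
  rw [Rb.res_apply, vl_T hP _ (r.tpos hP g), mul_comm, r.dt_eq]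
  exact congrArg _ (map_multiset_prod ((Units.coeHom ℂ).comp ω) _).symm

theorem Rz.ty_sc_one (z : fixm k Q R) :
    r.ty (r.sc z) = Pi.single (eo Q z.1) (Multiset.replicate n 1) :=
  ty_sc_aux hP (fun s => by simpa using r.ty_sc z 1 s) r.ty_one

theorem Rz.sc_injective (h0 : 0 < n) : Injective r.sc := fun z z' h => by
  have := congrFun ((r.ty_sc_one hP z).symm.trans ((congrArg r.ty h).trans (r.ty_sc_one hP z'))) (eo Q z.1)
  by_contra hne
  rw [Pi.single_eq_same, Pi.single_eq_of_ne fun e => hne (Subtype.ext ((mk_eq_mk_fixm hP).1 e))] at this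
  simpa [h0.ne'] using congrArg Multiset.card this

theorem Rz.dt_sc (z : fixm k Q R) : r.dt (r.sc z) = z ^ n := Subtype.ext (by
  rw [r.dt_eq, r.ty_sc_one hP, evm_single, deg_mk_fixm hP, (mk_eq_mk_fixm hP).1 (Orb.mk_rep _)]
  simp [Multiset.nsmul_singleton])

theorem Rz.dt_surjective (h0 : 0 < n) : Surjective r.dt := fun z => by
  obtain ⟨g, -, h⟩ := r.cd₂ 1 (eo Q 1) 1 (by simp [r.ty_one, Multiset.mem_replicate, h0.ne']) z
  exact ⟨g, h.trans (pow_one z)⟩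

theorem Rz.dt_of_unip {g : G} (h : Unip (r.ty g)) : r.dt g = 1 :=
  Subtype.ext ((r.dt_eq g).trans (h.prod_evm hP))

include r in
theorem Rz.card_eq : Nat.card G = Q.natAbs ^ n.choose 2 * ∏ i ∈ range n, tn Q (i + 1) := by
  have := r.card 1
  rw [r.ty_one, acg_single_one hP, Nat.cast_inj, show centralizer {(1 : G)} = ⊤ from
    eq_top_iff.2 fun g _ => mem_centralizer_singleton_iff.2 (by simp), card_top] at this
  exact this

theorem Rz.cent_le_iff {A : Type*} [CommGroup A] (δ : fixm k Q R →* A) (x : G) :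
    centralizer {x} ≤ (δ.comp r.dt).ker ↔ ∀ o, ∀ j ∈ r.ty x o, ∀ z, δ z ^ j = 1 := by
  refine ⟨fun h o j hj z => ?_, fun h g hg => ?_⟩
  · obtain ⟨g, h1, h2⟩ := r.cd₂ x o j hj z
    rw [← map_pow, ← h2]
    exact h (mem_centralizer_singleton_iff.2 h1)
  · obtain ⟨z₀, hz₀⟩ := (isCyclic_fixm (k := k) (Q := Q) (R := R)).exists_monoid_generator
    obtain ⟨z, hz⟩ := r.cd₁ x g _ (δ.isOfFinOrder (isOfFinOrder_of_finite z₀)).orderOf_pos
      (fun o j hj => orderOf_dvd_of_pow_eq_one (h o j hj z₀)) (mem_centralizer_singleton_iff.1 hg)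
    obtain ⟨i, rfl⟩ := hz₀ z
    rw [MonoidHom.mem_ker, MonoidHom.comp_apply, hz, ← pow_mul, mul_comm, pow_mul, map_pow, map_pow,
      pow_orderOf_eq_one, one_pow]

/-- Values of `P n a` at scalar multiples of unipotent elements. -/
theorem Rz.res_P (h0 : 0 < n) (hn : n ≤ N) {a : Lab k R} (ha : a ^ tn Q n = 1) (z : fixm k Q R)
    {g : G} (hg : Unip (r.ty g)) : r.res (P Q n a) (r.sc z * g) =
      prz (Q ^ n - 1) z.1 a * ∏ i ∈ Ico 1 (r.ty g (eo Q 1)).card, (1 - (Q : ℂ) ^ i) := by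
  have h1 : r.ty (r.sc z * g) = Pi.single (eo Q z.1) (r.ty g (eo Q 1)) :=
    ty_sc_aux hP (r.ty_sc z g) (hg.eq_single hP)
  have h2 := (hg.tsz hP).symm.trans (r.tsz hP g)
  rw [Rb.res_apply, h1, P, map_sum, sum_eq_single z.1]
  · rw [map_smul, pI, deg_mk_fixm hP, if_pos (one_dvd n), Nat.div_one,
      vl_single_pX hP (r.tpos hP g _) h0, if_pos ⟨rfl, h2.symm⟩, deg_mk_fixm hP, pow_one, smul_eq_mul]
  · intro x hx hne
    have h3 := (deg_mu_dvd_iff hP).2 (mem_filter.1 hx).2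
    rw [map_smul, pI, if_pos h3, vl_single_pX hP (r.tpos hP g _)
      (Nat.div_pos (Nat.le_of_dvd h0 h3) (eo_deg_pos hP _)),
      if_neg fun h => hne ((mk_eq_mk_fixm hP).1 h.1), smul_zero]
  · intro h
    exact (h (mem_filter.2 ⟨mem_univ _, (deg_mu_dvd_iff hP).1 (deg_mk_fixm hP z ▸ one_dvd n)⟩)).elim

end Rz

theorem Blk.dt_f {n₁ n₂ : ℕ} {G₁ G₂ : Type u} [Group G₁] [Finite G₁] [Group G₂] [Finite G₂]
    {r₁ : Rz k Q R n₁ G₁} {r₂ : Rz k Q R n₂ G₂} {r : Rz k Q R n G} (e : Blk r₁ r₂ r) (x : G₁)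
    (y : G₂) : r.dt (e.f (x, y)) = r₁.dt x * r₂.dt y := Subtype.ext (by
  rw [r.dt_eq, e.ty_f, evm_add, Multiset.prod_add, ← r₁.dt_eq, ← r₂.dt_eq, Subgroup.coe_mul])

theorem Emb.dt_ι {c m : ℕ} {r : Rz k Q R n G} (e : Emb c m r) (hP' : ParZ k (Q ^ c) R m)
    (x : e.G₁) : r.dt (e.ι x) = nrm Q c (e.r₁.dt x) := by
  refine Subtype.ext ?_
  have h1 := prod_evm hP (r.ty (e.ι x)) id
  have h2 := prod_evm hP' (e.r₁.ty x) id
  rw [Multiset.map_id] at h1 h2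
  rw [r.dt_eq, h1, ← show _ ^ Q = _ from (nrm Q c (e.r₁.dt x)).2, coe_nrm, ← prod_range_reflect,
    ← prod_zpow, e.r₁.dt_eq, h2]
  simp only [e.ty_ι, id, Multiset.sum_sum, ← prod_pow_eq_pow_sum]
  rw [prod_comm]
  refine prod_congr rfl fun i hi => ?_
  obtain ⟨l, rfl⟩ := Nat.exists_eq_add_of_lt (mem_range.1 hi)
  rw [← zpow_mul, ← pow_succ, show i + l + 1 - 1 - i + 1 = l + 1 by omega, ← prod_zpow,
    ← (Finite.injective_iff_bijective.1 (hP.zpow_injective Mu.pow_eq_one (l + 1))).prod_comp]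
  refine prod_congr rfl fun t _ => ?_
  have := eo_zpow hP' t 1
  rw [pow_one] at this
  rw [← zpow_mul, ← pow_add, show l + 1 + i = i + l + 1 by omega, this, ← zpow_natCast, ← zpow_natCast,
    ← zpow_mul, ← zpow_mul, mul_comm]

end Cfsg.Gun

set_option linter.all false in
theorem Cfsg.Rz.Gun_Rz_0 : True := by
  have := @_root_.Cfsg.Gun.Fam.mk.congr_simp.{0}
  have := @_root_.Cfsg.Gun.Fam.congr_simp.{0}
  have := @_root_.Cfsg.Gun.Rz.congr_simp.{0}
  have := @_root_.Cfsg.Gun.Rb.res.eq_def.{0}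
  have := @_root_.Cfsg.Gun.Rb.res.eq_1.{0}
  have := @_root_.Cfsg.Gun.Rb.res.fun_cases
  have := @_root_.Cfsg.Gun.Rz.mk.congr_simp.{0}
  have := @_root_.Cfsg.Gun.Blk.mk.congr_simp.{0}
  have := @_root_.Cfsg.Gun.Emb.mk.congr_simp.{0}
  have := @_root_.Cfsg.Gun.Rb.mk.congr_simp.{0}
  have := @_root_.Cfsg.Gun.Fam.rz.congr_simp.{0}
  have := @_root_.Cfsg.Gun.Rb.congr_simp.{0}
  trivial
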