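import Cfsg.Agent.Gun.Gen
import Cfsg.Agent.Gun.Cd
import Cfsg.Agent.Gln.GG

/-!
# The realization on `GL_n(K)` (S4537 project)

`rbGL`: `Gun/UV` (`stab_card`, `inMu_of_par`, `ParZ.par`, `exists_tyF`, `eq_of_tyF`), `card_cent_GL`.  `Kˣ ≃ fixm k Q R` (`unitsEquiv`).
`gen`: `gen_of_weil`; `hW` is the permutation character of `G n × G m` on `Hom` (`finrank_itw_eq`); `hE` from `isGen_res_esy`
(`map_evm_tyF`, `lfn_mv`).  `wh`: `exists_whittaker` with `θ = Gln.P K n 1` (`adj_P_eq_zero`, `res_P_one`); on unipotent `u` only `x = 1`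
contributes (`pI_mem_supp`) and `Gln.pI K n 1 (cls u) = gv {n} (jt 1 ..) |K|` (`gv_spec`, `gv_single`).
-/

set_option autoImplicit false
set_option linter.unusedSectionVars false
set_option linter.unusedVariables false
set_option linter.style.haveILetI false

namespace Cfsg.Gun

open Module Finset Function Gln Subgroup

universe u

variable {F : Type u} [Field F] [Finite F] {V : Type*} [AddCommGroup V] [Module F V] [Finite V]
  {k : Type u} [Field k] [Algebra F k] [IsAlgClosed k] [Algebra.IsAlgebraic F k] {Q : ℤ}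
  {R N n : ℕ} [NeZero R] {G : Type u} [Group G] [Finite G]

/-- The realization comes from the linear representation `ρ`. -/
structure IsLin (r : Rz k Q R n G) (ρ : G →* GLV F V) : Prop where
  ty : ∀ g, r.ty g = tyF k Q R (cls (ρ g : End F V))
  sc : ∀ z, ∃ c : Fˣ, algebraMap F k c = mv z.1 ∧ ρ (r.sc z) = scal V c
  dt : ∀ g, mv (r.dt g).1 = algebraMap F k (dt (ρ g) : Fˣ)

/-- The elementary symmetric functions of the lifted eigenvalues, on any space. -/
theorem isGen_esymm (hP : ParZ k Q R N) {N' : ℕ} (hP' : Par (Nat.card F) R N') (hV : finrank F V ≤ N')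
    (ρ : G →* GLV F V) (h : ∀ g, Stab k Q (cls (ρ g : End F V))) (ω : Lab k R) (j : ℕ) :
    IsGeneralizedCharacter G fun g =>
      ((evm (tyF k Q R (cls (ρ g : End F V)))).map fun x => (ω x : ℂ)).esymm j := by
  let e := (finBasis F V).equivFun
  have := (isGen_res_esy hP' hV ω j).comp
    ((Units.map (e.conjRingEquiv : End F V →* End F _)).comp ρ)
  convert this using 1
  funext g
  refine Eq.trans ?_ (congrArg (esy F ω j) (cls_eq_iff.2 (sim_conj e (ρ g : End F V))))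
  rw [esy, ← map_evm_tyF hP (h g) (inMu_of_par hP' hV _), Multiset.map_map]
  simp

/-- The elements of `F` of exponent `tn Q 1` are the fixed roots of unity. -/
theorem exists_fixm_hom (hP : ParZ k Q R N) (h : tn Q 1 ∣ Nat.card F - 1) :
    ∃ e : fixm k Q R →* Fˣ, (∀ z, algebraMap F k (e z) = mv z.1) ∧
      ∀ c : Fˣ, c ^ tn Q 1 = 1 → ∃ z, e z = c := by
  have hi : ∀ {c d : Fˣ}, algebraMap F k c = algebraMap F k d → c = d := fun e =>
    Units.ext ((algebraMap F k).injective e)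
  have : ∀ z : fixm k Q R, ∃ c : Fˣ, algebraMap F k c = mv z.1 := fun z => by
    obtain ⟨l, hl⟩ := h
    obtain ⟨c, hc⟩ := minpoly.natDegree_eq_one_iff.1 (Nat.dvd_one.1
      ((pow_eq_one_iff_fdeg_dvd (F := F) (x := z.1)).1 (by
        rw [pow_one, hl, pow_mul, mem_fixm.1 z.2, one_pow])))
    exact ⟨Units.mk0 c fun e => mv_ne_zero _ (hc.symm.trans (by simp [e])), hc⟩
  choose e he using this
  refine ⟨.mk' e fun z w => hi (by simp [he]), he, fun c hc => ?_⟩
  have h1 : algebraMap F k c ^ tn Q 1 = 1 := by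
    rw [← map_pow, ← Units.val_pow_eq_pow_val, hc, Units.val_one, map_one]
  obtain ⟨l, hl⟩ := hP.dvd_one
  obtain ⟨x, hx⟩ := exists_mv_eq (R := R) (t := algebraMap F k c) (by rw [hl, pow_mul, h1, one_pow])
  exact ⟨⟨x, mem_fixm.2 (mv_injective (by rw [mv_pow, hx, h1, mv_one]))⟩, hi ((he _).trans hx)⟩

theorem exists_iso_of_mem (hP : ParZ k Q R N) (hQ : ∃ i, (Nat.card F : ℤ) = Q ^ i) {τ : Ty k Q R}
    (h : τ ∈ Cls k Q R n) : ∃ c : Iso F, c.dim = n ∧ (0 : k) ∉ ev k c ∧ Stab k Q c ∧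
      tyF k Q R c = τ := by
  obtain ⟨c, h1, h2, rfl⟩ := exists_tyF hP hQ ((mem_Cls hP).1 h).1
  exact ⟨c, (tsz_tyF hP h1 h2).symm.trans ((mem_Cls hP).1 h).2, fun e => by
    simpa [NeZero.ne R] using h2 0 e, h1, rfl⟩

/-- The realization attached to a linear group. -/
theorem exists_rz_of_lin (hP : ParZ k Q R N) (hQ : ∃ i, (Nat.card F : ℤ) = Q ^ i)
    (b : Rb k Q R n G) (ρ : G →* GLV F V) (hb : ∀ g, b.ty g = tyF k Q R (cls (ρ g : End F V)))
    (hV : finrank F V = n) (hρ : Injective ρ) (hs : ∀ g, Stab k Q (cls (ρ g : End F V)))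
    (hm : ∀ g, InMu k R (cls (ρ g : End F V)))
    (hsc : ∀ c : Fˣ, c ^ tn Q 1 = 1 → scal V c ∈ ρ.range)
    (cd₁ : ∀ (x g : G) (r : ℕ), 0 < r → (∀ t : k, ∀ j ∈ jt t (cls (ρ x : End F V)), r ∣ j) →
      Commute g x → ∃ c : Fˣ, c ^ tn Q 1 = 1 ∧ dt (ρ g) = c ^ r)
    (cd₂ : ∀ (x : G) o, ∀ j ∈ b.ty x o, ∀ c : Fˣ, c ^ tn Q 1 = 1 →
      ∃ g, Commute g x ∧ dt (ρ g) = c ^ j)
    (gen : ∀ u ∈ LZ k Q R n, IsGeneralizedCharacter G (b.res u))
    (wh : 0 < n → ∃ U : Subgroup G, (∀ u ∈ U, IsNilpotent ((ρ u : End F V) - 1)) ∧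
      (∃ t, Nat.card U = Q.natAbs ^ t) ∧ ∃ (ψ : U →* ℂˣ) (ε : ℂ), (ε = 1 ∨ ε = -1) ∧
        ip (fun u : U => ∏ i ∈ Ico 1 (finrank F (LinearMap.ker ((ρ u : End F V) - 1))),
          (1 - (Q : ℂ) ^ i)) (fun u => ψ u) = ε) :
    ∃ r : Rz k Q R n G, IsLin r ρ := by
  obtain ⟨e, he, he'⟩ := exists_fixm_hom (F := F) hP (by
    obtain ⟨i, hi⟩ := hQ
    rw [← Int.natCast_dvd_natCast, tn, Int.natAbs_dvd, Nat.cast_sub Nat.card_pos, hi, pow_one]
    exact sub_one_dvd_pow_sub_one Q i)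
  have he1 : ∀ z, e z ^ tn Q 1 = 1 := fun z => by
    rw [← map_pow, show z ^ tn Q 1 = 1 from Subtype.ext (mem_fixm.1 z.2), map_one]
  have hd : ∀ g, mv (evm (b.ty g)).prod = algebraMap F k (dt (ρ g) : Fˣ) := fun g => by
    rw [hb, mv_prod_evm hP (hs g) (hm g), dt_val]
  let d : G →* fixm k Q R := .mk' (fun g => ⟨_, prod_evm_mem hP (b.ty g)⟩) fun g h =>
    Subtype.ext (mv_injective (by simp [hd]))
  have hd' : ∀ g z j, dt (ρ g) = e z ^ j → d g = z ^ j := fun g z j h =>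
    Subtype.ext (mv_injective ((hd g).trans (by simp [h, he])))
  let s : fixm k Q R →* G := (MonoidHom.ofInjective hρ).symm.toMonoidHom.comp
    (((scal V).comp e).codRestrict ρ.range fun z => hsc _ (he1 z))
  have hs' : ∀ z, ρ (s z) = scal V (e z) := fun z => MonoidHom.apply_ofInjective_symm hρ _
  refine ⟨⟨b, fun p hp hpQ g => ?_, d, fun _ => rfl, s, fun z => mem_center_iff.2 fun g => hρ ?_,
    fun z g t => ?_, ?_, fun x g r hr h hg => ?_, fun x o j hj z => ?_, gen, fun h0 => ?_⟩,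
    hb, fun z => ⟨e z, he z, hs' z⟩, hd⟩
  · rw [hb, ← isPRegular_iff_tyF hP hp (fun h => hpQ ?_) (hs g) (hm g), IsPRegular, IsPRegular,
      orderOf_injective ρ hρ]
    obtain ⟨i, hi⟩ := hQ
    have := Fact.mk hp
    have h1 := addOrderOf_dvd_natCard (1 : F)
    rw [addOrderOf_eq_prime (p := p) (by simpa using h) one_ne_zero, ← Int.natCast_dvd_natCast,
      hi] at h1
    exact (Nat.prime_iff_prime_int.1 hp).dvd_of_dvd_pow h1
  · rw [map_mul, map_mul, hs', mem_center_iff.1 (scal_mem_center _)]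
  · rw [hb, hb, tyF_eo hP (hs _), tyF_eo hP (hs _), mv_mul, ← he, map_mul, hs']
    exact jt_smul (e z).ne_zero _ (ρ g : End F V)
  · rw [hb, map_one, Units.val_one, tyF_one hP, hV]
  · obtain ⟨c, hc, h1⟩ := cd₁ x g r hr (fun t j hj => by
      obtain ⟨s, rfl⟩ := exists_mv_eq (hm x t (not_not.1 fun h0 =>
        Multiset.notMem_zero j (jt_eq_zero_iff.2 h0 ▸ hj)))
      exact h (eo Q s) j (by rwa [hb, tyF_eo hP (hs x)])) hg
    obtain ⟨z, rfl⟩ := he' c hc
    exact ⟨z, hd' g z r h1⟩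
  · obtain ⟨g, hg, h1⟩ := cd₂ x o j hj _ (he1 z)
    exact ⟨g, hg, hd' g z j h1⟩
  · obtain ⟨U, h1, h2, ψ, ε, h3, h4⟩ := wh h0
    refine ⟨U, fun u hu => ?_, h2, ψ, ε, h3, ?_⟩
    · rw [hb, unip_tyF_iff hP (hm u) (hs u)]
      exact h1 u hu
    · simpa only [hb, card_tyF_one hP] using h4

section Hom

variable {W : Type*} [AddCommGroup W] [Module F W] [Finite W]

/-- The action `A ↦ g A h⁻¹`. -/
def homAct : GLV F V × GLV F W →* End F (W →ₗ[F] V) where
  toFun x := LinearMap.llcomp F W V V (x.1 : End F V) ∘ₗ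
    LinearMap.lcomp F V ((x.2⁻¹ : GLV F W) : End F W)
  map_one' := by ext; simp
  map_mul' x y := by ext; simp

theorem homAct_apply (x : GLV F V × GLV F W) (A : W →ₗ[F] V) :
    homAct x A = (x.1 : End F V) ∘ₗ A ∘ₗ ((x.2⁻¹ : GLV F W) : End F W) := rfl

theorem ker_homAct (x : GLV F V × GLV F W) :
    LinearMap.ker (homAct x - 1) = itw (x.1 : End F V) (x.2 : End F W) := by
  ext A
  rw [LinearMap.mem_ker, LinearMap.sub_apply, sub_eq_zero, homAct_apply, mem_itw]
  refine ⟨fun h => LinearMap.ext fun w => ?_, fun h => LinearMap.ext fun w => ?_⟩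
  · simpa [← Module.End.mul_apply] using LinearMap.congr_fun h ((x.2 : End F W) w)
  · simpa [← Module.End.mul_apply] using LinearMap.congr_fun h (((x.2⁻¹ : GLV F W) : End F W) w)

theorem isGen_pow_ker {G : Type*} [Group G] [Finite G] (ρ : G →* End F V) :
    IsGeneralizedCharacter G fun g => (Nat.card F : ℂ) ^ finrank F (LinearMap.ker (ρ g - 1)) := by
  letI := MulAction.compHom V ρ
  convert (permChar_isCharacter (G := G) V).isGen using 1
  funext g
  rw [permChar_apply, ← Nat.cast_pow, ← Module.natCard_eq_pow_finrank]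
  exact congrArg _ (Nat.card_congr (Equiv.subtypeEquivRight fun v => sub_eq_zero))

end Hom

theorem P_one_unip (hP : Par (Nat.card F) R N) (h0 : 0 < n) (hn : n ≤ N)
    (hV : finrank F V = n) {x : End F V} (hx : IsNilpotent (x - 1)) :
    Gln.P F n (1 : Lab k R) (cls x) =
      ∏ i ∈ Ico 1 (finrank F (LinearMap.ker (x - 1))), (1 - (Nat.card F : ℂ) ^ i) := by
  have h1 := isNilpotent_sub_iff (k := k) x 1
  rw [one_smul, map_one] at h1
  have h2 := h1.1 hx
  have h3 : (jt (1 : k) (cls x)).sum = n := by rw [← dim_of_unip h2, dim_cls, hV]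
  rw [Gln.P, Hall.sum_apply, Finset.sum_eq_single 1, Hall.smul_apply, mv_one]
  · rw [pr_one_left (cast_ne_zero_of_par k hP) (hP.dvd h0 hn) (one_pow (M := Lab k R) _), one_mul,
      finrank_ker_unip (k := k), ← single_K (jt_pos _ _) (by rintro e; simp [e] at h3; omega), h3,
      gv_spec _ h2, pm, Multiset.map_singleton, Multiset.prod_singleton]
  · intro y _ hy
    rw [Hall.smul_apply]
    refine mul_eq_zero_of_right _ (by_contra fun h => hy (mv_injective ?_))
    obtain ⟨t, ht⟩ := Multiset.card_pos_iff_exists_mem.1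
      (show 0 < (ev k (cls x)).card by rwa [card_ev, dim_cls, hV])
    have := pI_mem_supp n (mv y) _ h t ht
    rw [h2 t ht] at this
    rw [mv_one]
    exact isConjRoot_one.1 (IsConjRoot.symm this)
  · simp

variable (hP : ParZ k Q R N) (hQ : Q = Nat.card F)
include hP hQ

/-- The classes of `GL_n`. -/
noncomputable def rbGL (n : ℕ) (hn : n ≤ N) : Rb k Q R n (GLV F (Fin n → F)) where
  ty g := tyF k Q R (cls (g : End F (Fin n → F)))
  mem g := (mem_Cls hP).2 ⟨tpos_tyF _, (tsz_tyF hP (hQ ▸ stab_card _)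
    (inMu_of_par (hQ ▸ hP).par (by simpa) g)).trans (by simp)⟩
  surj τ h := by
    obtain ⟨c, h1, h2, -, rfl⟩ := exists_iso_of_mem (F := F) hP ⟨1, by simp [hQ]⟩ h
    obtain ⟨x, rfl⟩ := exists_cls (V := Fin n → F) c (by simp [h1])
    obtain ⟨g, rfl⟩ := (isUnit_iff_ev k).2 h2
    exact ⟨g, rfl⟩
  conj g h := ⟨fun e => cls_eq_iff_isConj.1 (eq_of_tyF hP (hQ ▸ stab_card _)
    (inMu_of_par (hQ ▸ hP).par (by simpa) g) (hQ ▸ stab_card _)
    (inMu_of_par (hQ ▸ hP).par (by simpa) h) e), fun e => by rw [cls_eq_iff_isConj.2 e]⟩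
  card g := card_cent_GL hP hQ g (inMu_of_par (hQ ▸ hP).par (by simpa) g)

theorem exists_rzGL (hn : n ≤ N) :
    ∃ r : Rz k Q R n (GLV F (Fin n → F)), IsLin r (MonoidHom.id _) := by
  have hP' : Par (Nat.card F) R N := (hQ ▸ hP).par
  have hs : ∀ c : Iso F, Stab k Q c := fun c => hQ ▸ stab_card c
  have h1 : ∀ c : Fˣ, c ^ tn Q 1 = 1 := fun c => by
    rw [hQ, tn_natCast _ Nat.card_pos, pow_one, ← Nat.card_units, pow_card_eq_one']
  refine exists_rz_of_lin hP ⟨1, by simp [hQ]⟩ (rbGL hP hQ n hn) _ (fun _ => rfl) (by simp)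
    injective_id (fun _ => hs _) (fun g => inMu_of_par hP' (by simpa) g) (fun c _ => ⟨_, rfl⟩)
    (fun x g r hr h hg => (exists_dt_eq_pow k hr h hg).imp fun c hc => ⟨h1 c, hc⟩)
    (fun x o j hj c _ => exists_comm_dt k x hj c) (fun u hu => gen_of_weil hP (rbGL hP hQ)
      (fun n m hn hm => ?_) (fun n hn ω j => isGen_esymm hP hP' (by simpa) (MonoidHom.id _)
        (fun _ => hs _) ω j) hn hu) fun h0 => ?_
  · convert isGen_pow_ker (homAct (F := F) (V := Fin n → F) (W := Fin m → F)) using 2 with x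
    rw [ker_homAct, finrank_itw_eq hP (hs _) (inMu_of_par hP' (by simpa) _) (hs _),
      ← Int.cast_natCast, ← hQ]
    rfl
  · obtain ⟨U, h2, ⟨t, h3⟩, ψ, h4⟩ := exists_whittaker h0 (θ := Gln.P F n (1 : Lab k R))
      fun i hi hi' a ha => adj_P_eq_zero hP' hn (one_pow (M := Lab k R) _) hi hi' ha
    rw [res_P_one hP' h0 hn (by simp) (one_pow (M := Lab k R) _), mul_comm] at h4
    refine ⟨U, h2, ⟨t, by rw [h3, hQ, Int.natAbs_natCast]⟩, ψ, (-1) ^ (n - 1),
      neg_one_pow_eq_or _ _, Eq.trans ?_ (mul_left_cancel₀ (prod_ne_zero_iff.2 fun i hi =>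
        card_pow_sub_one_ne (mem_Ico.1 hi).1) h4).symm⟩
    congr 1
    funext u
    rw [hQ, Int.cast_natCast]
    exact (P_one_unip hP' h0 hn (by simp) (h2 u u.2)).symm

end Cfsg.Gun

set_option linter.all false in
theorem Cfsg.Rz.Gun_RzGL_0 : True := by
  have := @_root_.Cfsg.Gun.IsLin.congr_simp.{0, 0}
  have := @_root_.Cfsg.Gun.IsLin.mk.congr_simp.{0, 0}
  have := @_root_.Cfsg.Gun.homAct.eq_def.{0, 0, 0}
  have := @_root_.Cfsg.Gun.homAct.eq_1.{0, 0, 0}
  have := @_root_.Cfsg.Gun.homAct.fun_cases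
  have := @_root_.Cfsg.Gun.rbGL.congr_simp.{0}
  have := @_root_.Cfsg.Gun.rbGL.eq_def.{0}
  have := @_root_.Cfsg.Gun.rbGL.eq_1.{0}
  have := @_root_.Cfsg.Gun.rbGL.fun_cases
  trivial
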