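import Cfsg.Agent.Gun.Hyp

/-!
# A Whittaker model for the Green function of the Coxeter torus of `U_m` (S4537 project)

`fW q l = ∏_{1 ≤ i < l} (1 - (-q)^i)`.  For a nondegenerate hermitian space of dimension `m ≥ 1` there are a
`q`-group `S` of isometries and a linear character `ψ` of `S` with `⟨u ↦ fW q (dim ker (u - 1)), ψ⟩_S = ± 1`.
Induction `m → m + 2` on `F × W × F`, summing over the Heisenberg group.
-/

set_option autoImplicit false
set_option linter.unusedSectionVars false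
set_option linter.unusedVariables false
set_option linter.style.haveILetI false

namespace Cfsg.Gun

open Module Finset
open scoped ComplexConjugate

/-- The Green function of the Coxeter torus at `T = -q`, as a function of the number of Jordan blocks. -/
noncomputable def fW (q l : ℕ) : ℂ := ∏ i ∈ Ico 1 l, (1 - (-(q : ℂ)) ^ i)

theorem fW_succ (q : ℕ) {l : ℕ} (hl : 1 ≤ l) : fW q (l + 1) = fW q l * (1 - (-(q : ℂ)) ^ l) :=
  Finset.prod_Ico_succ_top hl _

theorem fW_rec (q : ℕ) {l : ℕ} (hl : 1 ≤ l) :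
    fW q (l + 2) + ((q : ℂ) - 1) * fW q (l + 1) - q * fW q l = -(q : ℂ) ^ (2 * l + 1) * fW q l := by
  rw [fW_succ q (l := l + 1) (by omega), fW_succ q hl]
  have : (q : ℂ) ^ (2 * l) = (-(q : ℂ)) ^ l * (-(q : ℂ)) ^ l := by
    rw [← pow_add, ← two_mul, Even.neg_pow (even_two_mul l)]
  rw [pow_succ, pow_succ, this]
  ring

variable {F : Type*} [Field F] [Finite F] {q : ℕ} {V : Type*} [AddCommGroup V] [Module F V]
  {W : Type*} [AddCommGroup W] [Module F W]

/-- A group of isometries of `q`-power order fixing a nonzero vector. -/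
structure WGrp (q : ℕ) (h : V → V → F) (S : Subgroup (End F V)ˣ) (e : V) : Prop where
  iso : ∀ g ∈ S, ∀ u v, h (g.1 u) (g.1 v) = h u v
  card : ∃ t, Nat.card S = q ^ t
  fix : ∀ g ∈ S, g.1 e = e

/-- There is a Whittaker model with multiplicity `ε`. -/
def Whit (q : ℕ) (h : V → V → F) (ε : ℂ) : Prop :=
  ∃ (S : Subgroup (End F V)ˣ) (e : V), e ≠ 0 ∧ WGrp q h S e ∧ ∃ ψ : S →* ℂˣ,
    ip (fun g : S => fW q (finrank F (LinearMap.ker (g.1.1 - 1)))) (fun g => (ψ g : ℂ)) = ε

theorem Whit.congr [Finite V] [Finite W] {h : V → V → F} {h' : W → W → F} (E : W ≃ₗ[F] V)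
    (hE : ∀ x y, h (E x) (E y) = h' x y) {ε : ℂ} (H : Whit q h' ε) : Whit q h ε := by
  obtain ⟨S, e, he, ⟨h1, ⟨t, h2⟩, h3⟩, ψ, h4⟩ := H
  haveI : Finite (End F W) := Finite.of_injective _ DFunLike.coe_injective
  haveI : Finite (End F V) := Finite.of_injective _ DFunLike.coe_injective
  let c : (End F W)ˣ ≃* (End F V)ˣ := Units.mapEquiv E.conjRingEquiv.toMulEquiv
  have hc : ∀ g x, (c g).1 (E x) = E (g.1 x) := fun g x => by simp [c]
  let d : S ≃* S.map c.toMonoidHom := S.equivMapOfInjective _ c.injective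
  refine ⟨S.map c.toMonoidHom, E e, by simpa using he, ⟨?_, ⟨t, ?_⟩, ?_⟩,
    ψ.comp d.symm.toMonoidHom, ?_⟩
  · rintro _ ⟨g, hg, rfl⟩ u v
    obtain ⟨u, rfl⟩ := E.surjective u
    obtain ⟨v, rfl⟩ := E.surjective v
    rw [MulEquiv.coe_toMonoidHom, hc, hc, hE, hE, h1 g hg]
  · rw [← h2, Nat.card_congr d.toEquiv]
  · rintro _ ⟨g, hg, rfl⟩
    rw [MulEquiv.coe_toMonoidHom, hc, h3 g hg]
  · rw [← h4, ← ip_comp_of_surjective d.toMonoidHom d.surjective]
    congr 1
    · ext g
      simp only [Function.comp_apply]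
      congr 1
      have : LinearMap.ker ((d.toMonoidHom g).1.1 - 1) =
          (LinearMap.ker (g.1.1 - 1)).map (E : W →ₗ[F] V) := by
        ext x
        obtain ⟨x, rfl⟩ := E.surjective x
        rw [Submodule.mem_map_equiv, E.symm_apply_apply, LinearMap.mem_ker, LinearMap.mem_ker,
          LinearMap.sub_apply, LinearMap.sub_apply, sub_eq_zero, sub_eq_zero]
        change (c g.1).1 (E x) = E x ↔ g.1.1 x = x
        rw [hc, E.injective.eq_iff]
      rw [this, LinearEquiv.finrank_map_eq]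
    · ext g
      exact congrArg (fun x => ((ψ x : ℂˣ) : ℂ)) (d.symm_apply_apply g)

section Model

variable {h : W → W → F} (H : IsHerm q h)

/-- The isometries of `F × W × F` fixing `(1, 0, 0)`. -/
def uu (s : End F W) (w : W) (z : F) : End F (F × W × F) where
  toFun x := (x.1 - h (s x.2.1) w + x.2.2 * z, s x.2.1 + x.2.2 • w, x.2.2)
  map_add' x y := by
    simp only [Prod.fst_add, Prod.snd_add, map_add, H.add_left, Prod.mk_add_mk, add_smul,
      Prod.mk.injEq, and_true]
    constructor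
    · ring
    · abel
  map_smul' a x := by
    simp only [Prod.smul_fst, Prod.smul_snd, map_smul, H.smul_left, Prod.smul_mk, smul_eq_mul,
      RingHom.id_apply, Prod.mk.injEq, and_true, smul_add, mul_smul]
    ring

theorem uu_apply (s : End F W) (w : W) (z : F) (x : F × W × F) :
    uu H s w z x = (x.1 - h (s x.2.1) w + x.2.2 * z, s x.2.1 + x.2.2 • w, x.2.2) := rfl

theorem uu_one (hF : Nat.card F = q ^ 2) : uu H 1 0 0 = 1 := by
  refine LinearMap.ext fun x => ?_
  simp [uu_apply, H.zero_right hF]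

theorem uu_mul (hF : Nat.card F = q ^ 2) {s : End F W} (hs : ∀ u v, h (s u) (s v) = h u v)
    (s' : End F W) (w w' : W) (z z' : F) :
    uu H s w z * uu H s' w' z' = uu H (s * s') (s w' + w) (z + z' - h (s w') w) := by
  refine LinearMap.ext fun x => ?_
  simp only [Module.End.mul_apply, uu_apply, map_add, map_smul, H.add_left, H.smul_left,
    H.add_right hF, hs, smul_add, Prod.mk.injEq, and_true]
  constructor
  · ring
  · abel

theorem uu_iso (hF : Nat.card F = q ^ 2) {s : End F W} (hs : ∀ u v, h (s u) (s v) = h u v)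
    {w : W} {z : F} (hz : z + z ^ q = -h w w) (x y : F × W × F) :
    hypF q h (uu H s w z x) (uu H s w z y) = hypF q h x y := by
  simp only [hypF, uu_apply, H.add_left, H.smul_left, H.add_right hF, H.smul_right hF, hs,
    add_pow_q hF, sub_pow_q hF, mul_pow, ← H.symm]
  linear_combination x.2.2 * y.2.2 ^ q * hz

theorem uu_inj {s s' : End F W} {w w' : W} {z z' : F} (e : uu H s w z = uu H s' w' z') :
    s = s' ∧ w = w' ∧ z = z' := by
  have h1 := LinearMap.congr_fun e (0, 0, 1)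
  simp only [uu_apply, map_zero, H.zero_left, sub_zero, one_mul, zero_add, one_smul,
    Prod.mk.injEq, and_true] at h1
  refine ⟨LinearMap.ext fun x => ?_, h1.2, h1.1⟩
  simpa [uu_apply] using congrArg (fun y => y.2.1) (LinearMap.congr_fun e (0, x, 0))

/-- The fixed space of `uu` is a line plus this space. -/
def fixA (s : End F W) (w : W) (z : F) : Submodule F (W × F) :=
  LinearMap.ker ((s - 1).coprod (LinearMap.toSpanSingleton F W w)) ⊓
    LinearMap.ker ((-(H.lin w ∘ₗ s)).coprod (LinearMap.toSpanSingleton F F z))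

theorem mem_fixA {s : End F W} {w : W} {z : F} {x : W × F} :
    x ∈ fixA H s w z ↔ s x.1 - x.1 + x.2 • w = 0 ∧ -h (s x.1) w + x.2 * z = 0 := by
  simp [fixA]

theorem finrank_ker_uu [Finite W] (s : End F W) (w : W) (z : F) :
    finrank F (LinearMap.ker (uu H s w z - 1)) = finrank F (fixA H s w z) + 1 := by
  have : LinearMap.ker (uu H s w z - 1) = (⊤ : Submodule F F).prod (fixA H s w z) := by
    ext x
    rw [LinearMap.mem_ker, LinearMap.sub_apply, sub_eq_zero, Submodule.mem_prod, mem_fixA,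
      uu_apply, Module.End.one_apply, Prod.ext_iff, Prod.ext_iff]
    simp only [Submodule.mem_top, true_and, and_true]
    rw [and_comm]
    refine and_congr ⟨fun e => ?_, fun e => ?_⟩ ⟨fun e => ?_, fun e => ?_⟩
    · rw [sub_add_eq_add_sub, e, sub_self]
    · rw [← sub_eq_zero, ← e]; abel
    · linear_combination e
    · linear_combination e
  rw [this, ← LinearMap.range_id, ← (fixA H s w z).range_subtype, ← LinearMap.range_prodMap,
    LinearMap.finrank_range_of_inj, finrank_prod, finrank_self, add_comm, Submodule.range_subtype]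
  exact Function.Injective.prodMap Function.injective_id Subtype.val_injective

variable [Finite W] (hF : Nat.card F = q ^ 2) (hnd : ∀ u, (∀ v, h u v = 0) → u = 0)
  {s : End F W} (hs : ∀ u v, h (s u) (s v) = h u v)
include hF hs

include H in
theorem fixed_perp {k : W} (hk : s k = k) (y : W) : h k (s y - y) = 0 := by
  rw [H.sub_right hF]
  conv_lhs => rw [← hs k y, hk]
  exact sub_self _

theorem finrank_fixA_of_ne (y : W) {z : F} (hz : z ≠ -h (s y) (s y - y)) :
    finrank F (fixA H s (s y - y) z) = finrank F (LinearMap.ker (s - 1)) := by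
  have : fixA H s (s y - y) z =
      LinearMap.range (LinearMap.inl F W F ∘ₗ (LinearMap.ker (s - 1)).subtype) := by
    ext x
    rw [mem_fixA]
    constructor
    · rintro ⟨h1, h2⟩
      have h3 : s (x.1 + x.2 • y) = x.1 + x.2 • y := by
        rw [← sub_eq_zero, ← h1, map_add, map_smul, smul_sub]; abel
      have h4 := fixed_perp H hF hs h3 y
      rw [← h3, map_add, map_smul, H.add_left, H.smul_left] at h4
      have h5 : x.2 * (z + h (s y) (s y - y)) = 0 := by linear_combination h2 + h4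
      have h6 : x.2 = 0 := (mul_eq_zero.1 h5).resolve_right fun e => hz (by linear_combination e)
      rw [h6, zero_smul, add_zero] at h1
      exact ⟨⟨x.1, h1⟩, Prod.ext rfl h6.symm⟩
    · rintro ⟨k, rfl⟩
      have hk : s k = k := sub_eq_zero.1 k.2
      simp [hk, fixed_perp H hF hs hk]
  rw [this, LinearMap.finrank_range_of_inj]
  exact LinearMap.inl_injective.comp Subtype.val_injective

theorem finrank_fixA_of_eq (y : W) :
    finrank F (fixA H s (s y - y) (-h (s y) (s y - y))) =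
      finrank F (LinearMap.ker (s - 1)) + 1 := by
  let g : LinearMap.ker (s - 1) × F →ₗ[F] W × F :=
    ((LinearMap.ker (s - 1)).subtype.coprod (LinearMap.toSpanSingleton F W (-y))).prod
      (LinearMap.snd F _ F)
  have hg : ∀ x, g x = (x.1.1 - x.2 • y, x.2) := fun x => by simp [g, sub_eq_add_neg]
  have : fixA H s (s y - y) (-h (s y) (s y - y)) = LinearMap.range g := by
    ext x
    rw [mem_fixA]
    constructor
    · rintro ⟨h1, -⟩
      have h3 : s (x.1 + x.2 • y) = x.1 + x.2 • y := by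
        rw [← sub_eq_zero, ← h1, map_add, map_smul, smul_sub]; abel
      exact ⟨(⟨x.1 + x.2 • y, sub_eq_zero.2 h3⟩, x.2), by simp [hg]⟩
    · rintro ⟨⟨k, b⟩, rfl⟩
      have hk : s k = k := sub_eq_zero.1 k.2
      simp only [hg, map_sub, map_smul, hk, H.sub_left _ (b • s y), H.smul_left,
        fixed_perp H hF hs hk, smul_sub]
      constructor
      · abel
      · ring
  rw [this, LinearMap.finrank_range_of_inj, finrank_prod, finrank_self]
  rintro ⟨k, b⟩ ⟨k', b'⟩ e
  rw [hg, hg, Prod.mk.injEq] at e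
  obtain ⟨e, rfl⟩ := e
  exact Prod.ext (Subtype.ext (sub_left_injective e)) rfl

include hnd in
theorem finrank_fixA_of_notMem {w : W} (hw : w ∉ LinearMap.range (s - 1)) (z : F) :
    finrank F (fixA H s w z) + 1 = finrank F (LinearMap.ker (s - 1)) := by
  let l : LinearMap.ker (s - 1) →ₗ[F] F := H.lin w ∘ₗ (LinearMap.ker (s - 1)).subtype
  have h1 : LinearMap.range l = ⊤ := by
    obtain ⟨k, hk, hk'⟩ := H.exists_fixed_of_notMem_range hF hnd hs hw
    refine eq_top_iff.2 fun c _ => ⟨(c / h k w) • ⟨k, sub_eq_zero.2 hk⟩, ?_⟩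
    rw [map_smul, smul_eq_mul]
    exact div_mul_cancel₀ _ hk'
  have h2 := l.finrank_range_add_finrank_ker
  rw [h1, finrank_top, finrank_self] at h2
  have : fixA H s w z = LinearMap.range
      (LinearMap.inl F W F ∘ₗ (LinearMap.ker (s - 1)).subtype ∘ₗ (LinearMap.ker l).subtype) := by
    ext x
    rw [mem_fixA]
    constructor
    · rintro ⟨h3, h4⟩
      have h6 : x.2 = 0 := by
        by_contra h0
        refine hw ⟨-(x.2⁻¹ • x.1), ?_⟩
        rw [map_neg, map_smul, LinearMap.sub_apply, Module.End.one_apply,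
          eq_neg_of_add_eq_zero_left h3, smul_neg, neg_neg, smul_smul, inv_mul_cancel₀ h0, one_smul]
      rw [h6, zero_smul, add_zero] at h3
      rw [h6, zero_mul, add_zero, neg_eq_zero, sub_eq_zero.1 h3] at h4
      exact ⟨⟨⟨x.1, h3⟩, h4⟩, Prod.ext rfl h6.symm⟩
    · rintro ⟨k, rfl⟩
      have hk : s k = k := sub_eq_zero.1 k.1.2
      have hk' : h k w = 0 := k.2
      simp [hk, hk']
  rw [this, LinearMap.finrank_range_of_inj, ← h2, add_comm]
  exact LinearMap.inl_injective.comp (Subtype.val_injective.comp Subtype.val_injective)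

include hnd in
/-- The sum over the centre of the Heisenberg group. -/
theorem sum_uu [Fintype F] [DecidableEq F] (φ : ℕ → ℂ) (w : W)
    [Decidable (w ∈ LinearMap.range (s - 1))] :
    ∑ z ∈ univ.filter (fun z : F => z + z ^ q = -h w w),
        φ (finrank F (LinearMap.ker (uu H s w z - 1))) =
      q * φ (finrank F (LinearMap.ker (s - 1))) + if w ∈ LinearMap.range (s - 1) then
        φ (finrank F (LinearMap.ker (s - 1)) + 2) +
          ((q : ℂ) - 1) * φ (finrank F (LinearMap.ker (s - 1)) + 1) -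
          q * φ (finrank F (LinearMap.ker (s - 1))) else 0 := by
  have hc : #(univ.filter fun z : F => z + z ^ q = -h w w) = q := by
    rw [← Fintype.card_subtype, ← Nat.card_eq_fintype_card]
    exact card_trace_eq hF (by rw [neg_pow_q hF, H.self_pow])
  split_ifs with hw
  · obtain ⟨y, rfl⟩ := hw
    have hy : (s - 1) y = s y - y := rfl
    rw [hy] at hc ⊢
    have h0 : -h (s y) (s y - y) ∈
        univ.filter fun z : F => z + z ^ q = -h (s y - y) (s y - y) := by
      rw [mem_filter, neg_pow_q hF, ← H.symm]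
      simp only [H.sub_left, H.sub_right hF, hs, mem_univ, true_and]
      ring
    rw [← Finset.add_sum_erase _ _ h0, finrank_ker_uu, finrank_fixA_of_eq H hF hs,
      Finset.sum_congr rfl fun z hz => by
        rw [finrank_ker_uu, finrank_fixA_of_ne H hF hs y (ne_of_mem_erase hz)],
      Finset.sum_const, card_erase_of_mem h0, hc, nsmul_eq_mul,
      Nat.cast_sub (one_lt_q hF).le, Nat.cast_one]
    ring
  · rw [Finset.sum_congr rfl fun z hz => by
      rw [finrank_ker_uu, finrank_fixA_of_notMem H hF hnd hs hw], Finset.sum_const, hc, nsmul_eq_mul,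
      add_zero]

end Model

section Step

variable {h : W → W → F} (H : IsHerm q h) (hF : Nat.card F = q ^ 2) {S₀ : Subgroup (End F W)ˣ}
  (hS : ∀ g ∈ S₀, ∀ u v, h (g.1 u) (g.1 v) = h u v)

include H hF in
theorem uu_con {s : End F W} (hs : ∀ u v, h (s u) (s v) = h u v) {w w' : W} {z z' : F}
    (hz : z + z ^ q = -h w w) (hz' : z' + z' ^ q = -h w' w') :
    z + z' - h (s w') w + (z + z' - h (s w') w) ^ q = -h (s w' + w) (s w' + w) := by
  simp only [add_pow_q hF, sub_pow_q hF, ← H.symm, H.add_left, H.add_right hF, hs]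
  linear_combination hz + hz'

/-- `S₀` extended by the Heisenberg group. -/
def extS : Subgroup (End F (F × W × F))ˣ where
  carrier := {g | ∃ s ∈ S₀, ∃ w z, z + z ^ q = -h w w ∧ g.1 = uu H s.1 w z}
  mul_mem' := by
    rintro g g' ⟨s, hs, w, z, hz, hg⟩ ⟨s', hs', w', z', hz', hg'⟩
    exact ⟨s * s', mul_mem hs hs', _, _, uu_con H hF (hS s hs) hz hz', by
      rw [Units.val_mul, hg, hg', uu_mul H hF (hS s hs), Units.val_mul]⟩
  one_mem' := ⟨1, one_mem _, 0, 0, by rw [zero_pow_q hF, H.zero_left, add_zero, neg_zero],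
    (uu_one H hF).symm⟩
  inv_mem' := by
    rintro g ⟨s, hs, w, z, hz, hg⟩
    refine ⟨s⁻¹, inv_mem hs, -(s⁻¹.1 w), z ^ q, ?_, Units.inv_eq_of_mul_eq_one_right ?_⟩
    · rw [pow_q_pow_q hF, H.neg_left, H.neg_right hF, neg_neg, hS _ (inv_mem hs), add_comm, hz]
    · have : s.1 (s⁻¹.1 w) = w := by rw [← Module.End.mul_apply, Units.mul_inv, Module.End.one_apply]
      rw [hg, uu_mul H hF (hS s hs), map_neg, this, Units.mul_inv, neg_add_cancel, H.neg_left, hz,
        sub_self, uu_one H hF]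

variable [Finite W] (hnd : ∀ u, (∀ v, h u v = 0) → u = 0)
include hnd

theorem exists_ext [Fintype F] [DecidableEq F] [Fintype W] [Fintype S₀] (ht : ∃ t, Nat.card S₀ = q ^ t)
    (χ : S₀ → W → F → ℂˣ) (hχ : ∀ s s' w w' z z',
      χ (s * s') (s.1.1 w' + w) (z + z' - h (s.1.1 w') w) = χ s w z * χ s' w' z') :
    WGrp q (hypF q h) (extS H hF hS) (1, 0, 0) ∧ ∃ ψ : extS H hF hS →* ℂˣ, ∀ φ : ℕ → ℂ,
      ip (fun g : extS H hF hS => φ (finrank F (LinearMap.ker (g.1.1 - 1)))) (fun g => (ψ g : ℂ)) =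
        ((Nat.card S₀ : ℂ) * Nat.card W * q)⁻¹ * ∑ s : S₀, ∑ w : W,
          ∑ z ∈ univ.filter (fun z : F => z + z ^ q = -h w w),
            φ (finrank F (LinearMap.ker (uu H s.1.1 w z - 1))) * conj (χ s w z : ℂ) := by
  classical
  let P := Σ p : S₀ × W, {z : F // z + z ^ q = -h p.2 p.2}
  let Φ : P → extS H hF hS := fun p =>
    ⟨((H.hypF hF).isUnit_of_iso hF (H.hypF_nondeg hF hnd)
      (uu_iso H hF (hS _ p.1.1.2) p.2.2)).unit, p.1.1.1, p.1.1.2, p.1.2, p.2.1, p.2.2, rfl⟩
  have hΦ : ∀ p, (Φ p).1.1 = uu H p.1.1.1.1 p.1.2 p.2.1 := fun _ => rfl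
  have hb : Function.Bijective Φ := by
    constructor
    · rintro ⟨⟨s, w⟩, z, hz⟩ ⟨⟨s', w'⟩, z', hz'⟩ e
      obtain ⟨e1, rfl, rfl⟩ := uu_inj H (((hΦ _).symm.trans (congrArg (·.1.1) e)).trans (hΦ _))
      obtain rfl : s = s' := Subtype.ext (Units.ext e1)
      rfl
    · rintro ⟨g, s, hs, w, z, hz, hg⟩
      exact ⟨⟨(⟨s, hs⟩, w), z, hz⟩, Subtype.ext (Units.ext hg.symm)⟩
  have hc : Nat.card (extS H hF hS) = Nat.card S₀ * Nat.card W * q := by
    rw [← Nat.card_congr (Equiv.ofBijective Φ hb), Nat.card_sigma, Finset.sum_congr rfl fun p _ =>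
      card_trace_eq hF (by rw [neg_pow_q hF, H.self_pow]), Finset.sum_const, card_univ,
      ← Nat.card_eq_fintype_card, Nat.card_prod, smul_eq_mul]
  refine ⟨⟨?_, ?_, ?_⟩, ?_⟩
  · rintro g ⟨s, hs, w, z, hz, hg⟩
    rw [hg]
    exact uu_iso H hF (hS s hs) hz
  · obtain ⟨t, ht⟩ := ht
    refine ⟨t + 2 * finrank F W + 1, ?_⟩
    rw [hc, ht, Module.natCard_eq_pow_finrank (K := F), hF, ← pow_mul, ← pow_add, pow_succ]
  · rintro g ⟨s, hs, w, z, hz, hg⟩
    simp [hg, uu_apply, H.zero_left]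
  let e := Equiv.ofBijective Φ hb
  let χ' : P → ℂˣ := fun p => χ p.1.1 p.1.2 p.2.1
  refine ⟨MonoidHom.mk' (fun g => χ' (e.symm g)) fun g g' => ?_, fun φ => ?_⟩
  · obtain ⟨⟨⟨s, w⟩, z, hz⟩, rfl⟩ := e.surjective g
    obtain ⟨⟨⟨s', w'⟩, z', hz'⟩, rfl⟩ := e.surjective g'
    have : e ⟨(s, w), z, hz⟩ * e ⟨(s', w'), z', hz'⟩ =
        e ⟨(s * s', s.1.1 w' + w), _, uu_con H hF (hS _ s.2) hz hz'⟩ :=
      Subtype.ext (Units.ext (uu_mul H hF (hS _ s.2) _ _ _ _ _))
    rw [this]
    simp only [Equiv.symm_apply_apply]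
    exact hχ s s' w w' z z'
  · haveI := Fintype.ofEquiv P e
    rw [ip_def, hc, ← Equiv.sum_comp e, Fintype.sum_sigma, Fintype.sum_prod_type]
    push_cast
    congr 1
    refine Finset.sum_congr rfl fun s _ => Finset.sum_congr rfl fun w _ => ?_
    rw [Finset.sum_subtype (p := fun z : F => z + z ^ q = -h w w) (F := inferInstance) _
      (fun z => by rw [mem_filter]; simp)]
    refine Finset.sum_congr rfl fun z _ => ?_
    simp only [MonoidHom.mk'_apply, Equiv.symm_apply_apply]
    rfl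

end Step

/-- An additive character as a function with values in `ℂˣ`. -/
noncomputable def acU (ψ : AddChar F ℂ) (x : F) : ℂˣ := (ψ.val_isUnit x).unit

@[simp] theorem acU_val (ψ : AddChar F ℂ) (x : F) : (acU ψ x : ℂ) = ψ x := rfl

theorem acU_add (ψ : AddChar F ℂ) (x y : F) : acU ψ (x + y) = acU ψ x * acU ψ y :=
  Units.ext (ψ.map_add_eq_mul x y)

theorem Whit.step [Finite W] {h : W → W → F} (H : IsHerm q h) (hF : Nat.card F = q ^ 2)
    (hnd : ∀ u, (∀ v, h u v = 0) → u = 0) {ε : ℂ} (hW : Whit q h ε) : Whit q (hypF q h) (-ε) := by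
  classical
  obtain ⟨S₀, e, he, ⟨h1, h2, h3⟩, ψ₀, h4⟩ := hW
  haveI : Finite (End F W) := Finite.of_injective _ DFunLike.coe_injective
  haveI := Fintype.ofFinite F
  haveI := Fintype.ofFinite W
  haveI := Fintype.ofFinite S₀
  obtain ⟨ψ, hψ⟩ := (AddChar.exists_apply_ne_zero (a := (1 : F))).2 one_ne_zero
  have hfix : ∀ (s : S₀) w, h (s.1.1 w) e = h w e := fun s w => by
    conv_lhs => rw [← h3 _ s.2, h1 _ s.2]
  obtain ⟨hG, ψ', h5⟩ := exists_ext H hF h1 hnd h2 (fun s w z => acU ψ (-h w e) * ψ₀ s) (by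
    intro s s' w w' z z'
    rw [H.add_left, hfix, neg_add, acU_add, map_mul]
    ac_rfl)
  refine ⟨_, _, by simp, hG, ψ', ?_⟩
  have hsum : ∑ w, ψ (h w e) = 0 := by
    refine AddChar.sum_eq_zero_of_ne_one (ψ := ψ.compAddMonoidHom (H.lin e).toAddMonoidHom)
      fun e' => hψ ?_
    obtain ⟨u, hu⟩ := H.exists_eq_left hF hnd he 1
    simpa [hu] using DFunLike.congr_fun e' u
  have hq : (q : ℂ) ≠ 0 := Nat.cast_ne_zero.2 (by have := one_lt_q hF; omega)
  have hc : (Nat.card W : ℂ) ≠ 0 := Nat.cast_ne_zero.2 Nat.card_pos.ne'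
  rw [h5, ← h4, ip_def, ← mul_neg, mul_assoc (Nat.card S₀ : ℂ), mul_inv, mul_assoc,
    ← Finset.sum_neg_distrib, Finset.mul_sum]
  congr 1
  refine Finset.sum_congr rfl fun s _ => ?_
  set l := finrank F (LinearMap.ker (s.1.1 - 1)) with hl
  have hl1 : 1 ≤ l := by
    rw [hl, Nat.one_le_iff_ne_zero, Ne, Submodule.finrank_eq_zero]
    intro e'
    have : e ∈ LinearMap.ker (s.1.1 - 1) := sub_eq_zero.2 (h3 _ s.2)
    rw [e'] at this
    exact he this
  have hr : (#(univ.filter fun w => w ∈ LinearMap.range (s.1.1 - 1)) : ℂ) * q ^ (2 * l) =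
      Nat.card W := by
    rw [← Fintype.card_subtype, ← Nat.card_eq_fintype_card,
      Module.natCard_eq_pow_finrank (K := F) (V := LinearMap.range (s.1.1 - 1)),
      Module.natCard_eq_pow_finrank (K := F) (V := W), ← (s.1.1 - 1).finrank_range_add_finrank_ker,
      hF, pow_add, pow_mul]
    push_cast
    rfl
  have h6 : ∀ w, ∑ z ∈ univ.filter (fun z : F => z + z ^ q = -h w w),
      fW q (finrank F (LinearMap.ker (uu H s.1.1 w z - 1))) * conj ((acU ψ (-h w e) * ψ₀ s : ℂˣ) : ℂ) =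
      (q * fW q l * ψ (h w e) + if w ∈ LinearMap.range (s.1.1 - 1) then
        -(q : ℂ) ^ (2 * l + 1) * fW q l else 0) * conj (ψ₀ s : ℂ) := by
    intro w
    rw [← Finset.sum_mul, sum_uu H hF hnd (h1 _ s.2), ← hl, fW_rec q hl1, Units.val_mul, map_mul,
      acU_val, ← AddChar.map_neg_eq_conj, neg_neg, ← mul_assoc]
    congr 1
    split_ifs with hw
    · obtain ⟨y, rfl⟩ := hw
      have : h ((s.1.1 - 1) y) e = 0 := by
        rw [LinearMap.sub_apply, H.sub_left, hfix, Module.End.one_apply, sub_self]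
      rw [this, AddChar.map_zero_eq_one, mul_one, mul_one]
    · rw [add_zero, add_zero]
  rw [Finset.sum_congr rfl fun w _ => h6 w, ← Finset.sum_mul, Finset.sum_add_distrib,
    ← Finset.mul_sum, hsum, ← Finset.sum_filter, Finset.sum_const, nsmul_eq_mul, ← hr]
  rw [← hr] at hc
  have := left_ne_zero_of_mul hc
  field_simp
  ring

theorem whit_one [Finite V] {h : V → V → F} (hV : finrank F V = 1) : Whit q h 1 := by
  haveI : Nontrivial V := Module.nontrivial_of_finrank_pos (R := F) (by omega)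
  obtain ⟨e, he⟩ := exists_ne (0 : V)
  refine ⟨⊥, e, he, ⟨?_, ⟨0, by simp⟩, ?_⟩, 1, ?_⟩
  · intro g hg u v
    rw [Subgroup.mem_bot.1 hg]; rfl
  · intro g hg
    rw [Subgroup.mem_bot.1 hg]; rfl
  · rw [ip_def, Fintype.sum_unique, show (default : (⊥ : Subgroup (End F V)ˣ)) = 1 from
      Subsingleton.elim _ _]
    have : LinearMap.ker ((1 : (⊥ : Subgroup (End F V)ˣ)).1.1 - 1) = ⊤ := by
      rw [LinearMap.ker_eq_top]; exact sub_self _
    rw [this, finrank_top, hV]
    simp [fW]

theorem whit_two [Finite W] {h : W → W → F} (H : IsHerm q h) (hF : Nat.card F = q ^ 2)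
    (hW : finrank F W = 0) : Whit q (hypF q h) 1 := by
  classical
  haveI : Subsingleton W := Module.finrank_zero_iff.1 hW
  haveI := Fintype.ofFinite F
  haveI : Unique W := uniqueOfSubsingleton 0
  obtain ⟨d, hd0, hd⟩ := exists_pow_q_eq_neg hF
  obtain ⟨ψ, hψ⟩ := (AddChar.exists_apply_ne_zero (a := d)).2 hd0
  have hnd : ∀ u, (∀ v, h u v = 0) → u = 0 := fun _ _ => Subsingleton.elim _ _
  have h0 : ∀ u v, h u v = 0 := fun u v => by rw [Subsingleton.elim u 0, H.zero_left]
  obtain ⟨hG, ψ', h5⟩ := exists_ext H hF (S₀ := ⊥) (fun g _ u v => by rw [h0, h0]) hnd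
    ⟨0, by simp⟩ (fun s w z => acU ψ (-z)) (by
      intro s s' w w' z z'
      rw [h0, sub_zero, neg_add, acU_add])
  refine ⟨_, _, by simp, hG, ψ', ?_⟩
  rw [h5, Fintype.sum_unique, Fintype.sum_unique]
  set s : End F W := (default : (⊥ : Subgroup (End F W)ˣ)).1.1
  have hs : ∀ u v, h (s u) (s v) = h u v := fun u v => by rw [h0, h0]
  have hk : finrank F (LinearMap.ker (s - 1)) = 0 := Module.finrank_zero_of_subsingleton
  have hw : (default : W) = s 0 - 0 := Subsingleton.elim _ _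
  have hz : (0 : F) ∈ univ.filter (fun z : F => z + z ^ q = -h default default) := by
    simp [h0, zero_pow_q hF]
  have hsum : ∑ z ∈ univ.filter (fun z : F => z + z ^ q = -h default default), ψ z = 0 := by
    rw [← sum_fixed_addChar hF (ψ.mulShift d) ⟨1, one_pow _, by simpa using hψ⟩ one_ne_zero
      (one_pow _)]
    symm
    refine Finset.sum_bij (fun b _ => d * b) ?_ ?_ ?_ ?_
    · intro b hb
      rw [mem_filter] at hb ⊢
      rw [mul_pow, hd, hb.2, h0]
      simp
    · intro b _ b' _ e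
      exact mul_left_cancel₀ hd0 e
    · intro z hz
      rw [mem_filter, h0, neg_zero] at hz
      refine ⟨z / d, ?_, mul_div_cancel₀ _ hd0⟩
      rw [mem_filter, div_pow, hd, eq_neg_of_add_eq_zero_right hz.2, neg_div_neg_eq]
      simp
    · intro b _
      simp
  rw [← Finset.add_sum_erase _ _ hz] at hsum ⊢
  rw [Finset.sum_congr rfl (g := fun z => ψ z) fun z hz' => by
    rw [finrank_ker_uu, hw, finrank_fixA_of_ne H hF hs 0
      (by rw [h0, neg_zero]; exact ne_of_mem_erase hz'), hk, acU_val, ← AddChar.map_neg_eq_conj,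
      neg_neg]
    simp [fW]]
  have h2 := finrank_fixA_of_eq H hF hs 0
  rw [h0, neg_zero, ← hw] at h2
  rw [finrank_ker_uu, h2, hk, eq_neg_of_add_eq_zero_right hsum]
  have hq : (q : ℂ) ≠ 0 := Nat.cast_ne_zero.2 (by have := one_lt_q hF; omega)
  simp [fW, hq]

universe v in
theorem whit (hF : Nat.card F = q ^ 2) (m : ℕ) : ∀ (V : Type v) [AddCommGroup V] [Module F V]
    [Finite V] (h : V → V → F), IsHerm q h → (∀ u, (∀ v, h u v = 0) → u = 0) →
    finrank F V = m + 1 → Whit q h ((-1) ^ (m / 2)) := by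
  induction m using Nat.strong_induction_on with
  | _ m ih =>
  intro V _ _ _ h H hnd hV
  rcases m with _ | m
  · simpa using whit_one hV
  obtain ⟨W, E, h1, h2, h3⟩ := H.exists_equiv_hypF hF hnd (by omega)
  refine Whit.congr E h3 ?_
  rcases m with _ | m
  · simpa using whit_two (H.comp W.subtype) hF (by omega)
  · have := (ih m (by omega) W _ (H.comp W.subtype) h2 (by omega)).step (H.comp W.subtype) hF h2
    rwa [show (m + 1 + 1) / 2 = m / 2 + 1 by omega, pow_succ, mul_neg_one]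

theorem isNilpotent_sub_one_of_pow (hF : Nat.card F = q ^ 2) {x : End F V} {t : ℕ}
    (hx : x ^ q ^ t = 1) : IsNilpotent (x - 1) := by
  haveI := Fintype.ofFinite F
  obtain ⟨p, hp, k, hpp, hk⟩ := FiniteField.card' F
  haveI : Fact p.Prime := ⟨hpp⟩
  rw [← Nat.card_eq_fintype_card, hF] at hk
  have : q ∣ p ^ (k : ℕ) := hk ▸ dvd_pow_self q two_ne_zero
  obtain ⟨j, -, rfl⟩ := (Nat.dvd_prime_pow hpp).1 this
  rcases subsingleton_or_nontrivial V with _ | _
  · exact ⟨0, Subsingleton.elim _ _⟩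
  haveI : CharP (End F V) p := charP_of_injective_algebraMap (algebraMap F _).injective p
  exact ⟨p ^ (j * t), by
    rw [sub_pow_char_pow_of_commute _ _ (Commute.one_right x), one_pow, pow_mul, hx, sub_self]⟩

/-- **Whittaker model** for the Green function of the Coxeter torus of a unitary group. -/
theorem exists_whittakerU (hF : Nat.card F = q ^ 2) [Finite V] {h : V → V → F} (H : IsHerm q h)
    (hnd : ∀ u, (∀ v, h u v = 0) → u = 0) (hV : 0 < finrank F V) :
    ∃ S : Subgroup (End F V)ˣ, (∀ g ∈ S, ∀ u v, h (g.1 u) (g.1 v) = h u v) ∧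
      (∀ g ∈ S, IsNilpotent (g.1 - 1)) ∧ (∃ t, Nat.card S = q ^ t) ∧ ∃ ψ : S →* ℂˣ,
        ip (fun g : S => fW q (finrank F (LinearMap.ker (g.1.1 - 1)))) (fun g => (ψ g : ℂ)) =
          (-1) ^ ((finrank F V - 1) / 2) := by
  obtain ⟨S, e, -, ⟨h1, ⟨t, h2⟩, -⟩, h3⟩ := whit hF (finrank F V - 1) V h H hnd (by omega)
  refine ⟨S, h1, fun g hg => isNilpotent_sub_one_of_pow hF (t := t) ?_, ⟨t, h2⟩, h3⟩
  have := pow_card_eq_one' (x := (⟨g, hg⟩ : S))
  rw [h2] at this
  exact congrArg (·.1.1) this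

end Cfsg.Gun

set_option linter.all false in
theorem Cfsg.Rz.Gun_Whit_0 : True := by
  have := @_root_.Cfsg.Gun.WGrp.mk.congr_simp.{0, 0}
  have := @_root_.Cfsg.Gun.acU.eq_def.{0}
  have := @_root_.Cfsg.Gun.acU.eq_1.{0}
  have := @_root_.Cfsg.Gun.acU.fun_cases
  have := @_root_.Cfsg.Gun.extS.congr_simp.{0, 0}
  have := @_root_.Cfsg.Gun.extS.eq_def.{0, 0}
  have := @_root_.Cfsg.Gun.extS.eq_1.{0, 0}
  have := @_root_.Cfsg.Gun.extS.fun_cases
  have := @_root_.Cfsg.Gun.Whit.eq_def.{0, 0}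
  have := @_root_.Cfsg.Gun.Whit.eq_1.{0, 0}
  have := @_root_.Cfsg.Gun.Whit.fun_cases
  have := @_root_.Cfsg.Gun.fixA.congr_simp.{0, 0}
  have := @_root_.Cfsg.Gun.fixA.eq_def.{0, 0}
  have := @_root_.Cfsg.Gun.fixA.fun_cases
  have := @_root_.Cfsg.Gun.uu.eq_def.{0, 0}
  have := @_root_.Cfsg.Gun.uu.eq_1.{0, 0}
  have := @_root_.Cfsg.Gun.uu.fun_cases
  have := @_root_.Cfsg.Gun.fW.eq_def
  have := @_root_.Cfsg.Gun.fW.fun_cases
  trivial
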