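import Cfsg.Agent.Gun.Cd
import Cfsg.Agent.Gun.UEx
import Cfsg.Agent.Gun.Whit

/-!
# Pieces of the realization on `GU_n(q)` (S4537 project)

Determinants on centralizers (`HF.cd₁`, `HF.cd₂`), the Weil character on `Hom(W, V)` (`HF.weil_hdg`) and the Whittaker
model (`HF.exists_wh`).
-/

set_option autoImplicit false
set_option linter.unusedSectionVars false
set_option linter.unusedVariables false
set_option linter.style.haveILetI false

namespace Cfsg.Gun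

open Module Finset Function Gln Subgroup

universe u

variable {F : Type u} [Field F] [StarRing F] [Finite F] {V : Type*} [AddCommGroup V] [Module F V]
  [Finite V] (k : Type u) [Field k] [Algebra F k] [IsAlgClosed k] [Algebra.IsAlgebraic F k]
  {Q : ℤ} {R N : ℕ} [NeZero R] (hF : Sec F)
include hF

theorem HF.cd₁ (H : HF F V) {x g : H.U} {r : ℕ} (hr : 0 < r)
    (h : ∀ t : k, ∀ j ∈ jt t (cls (x.1 : End F V)), r ∣ j) (hg : Commute g x) :
    ∃ c : Fˣ, c ^ (fq F + 1) = 1 ∧ dt g.1 = c ^ r := by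
  obtain ⟨b, h1, h2⟩ := H.exists_det_eq' hF.card_eq hF.star_eq_pow g
  obtain ⟨w, hw⟩ := exists_dt_eq_pow k hr h (h1 x.1 (hg.symm.map H.U.subtype)).symm
  refine ⟨w / w ^ fq F, ?_, ?_⟩
  · have : (w ^ fq F) ^ fq F = w := Units.ext (pow_q_pow_q hF.card_eq (w : F))
    rw [div_pow, pow_succ (w ^ fq F), this, pow_succ, mul_comm, div_self']
  · rw [div_pow, ← pow_mul, mul_comm, pow_mul, ← hw, eq_div_iff_mul_eq', h2]

variable {k} in
theorem isConjRoot_zpow_neg_iff {s t : k} : IsConjRoot F (s ^ (-(fq F : ℤ))) (t ^ (-(fq F : ℤ))) ↔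
    IsConjRoot F s t := by
  have h1 : ∀ {s t : k}, IsConjRoot F s t → IsConjRoot F (s ^ (-(fq F : ℤ))) (t ^ (-(fq F : ℤ))) :=
    fun h => by
      obtain ⟨i, rfl⟩ := isConjRoot_iff.1 h
      exact isConjRoot_iff.2 ⟨i, by
        rw [← zpow_natCast, ← zpow_natCast, ← zpow_mul, ← zpow_mul, mul_comm]⟩
  have h2 : ∀ s : k, IsConjRoot F s ((s ^ (-(fq F : ℤ))) ^ (-(fq F : ℤ))) := fun s =>
    isConjRoot_iff.2 ⟨1, by
      rw [← zpow_mul, neg_mul_neg, pow_one, hF.card_eq, ← zpow_natCast, Nat.cast_pow, sq]⟩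
  exact ⟨fun h => ((h2 s).trans (h1 h)).trans (h2 t).symm, h1⟩

variable {k} in
theorem isConjRoot_zpow_comm {s t : k} : IsConjRoot F s (t ^ (-(fq F : ℤ))) ↔
    IsConjRoot F (s ^ (-(fq F : ℤ))) t := by
  rw [← isConjRoot_zpow_neg_iff hF]
  have h2 : IsConjRoot F t ((t ^ (-(fq F : ℤ))) ^ (-(fq F : ℤ))) :=
    isConjRoot_iff.2 ⟨1, by
      rw [← zpow_mul, neg_mul_neg, pow_one, hF.card_eq, ← zpow_natCast, Nat.cast_pow, sq]⟩
  exact ⟨fun h => h.trans h2.symm, fun h => h.trans h2⟩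

variable {k} in
/-- A self-dual class has a self-dual summand with a single block at each eigenvalue. -/
theorem exists_stab_add {c : Iso F} (hc : Stab k (-(fq F : ℤ)) c) {t : k} {j : ℕ} (h : j ∈ jt t c) :
    ∃ c₁ c₂, c = c₁ + c₂ ∧ Stab k (-(fq F : ℤ)) c₁ ∧ Stab k (-(fq F : ℤ)) c₂ ∧ j ∈ jt t c₁ ∧
      ∀ s : k, (jt s c₁).card ≤ 1 := by
  classical
  have hj := jt_pos t c j h
  obtain ⟨c₁, c₂, h1, h2⟩ : ∃ c₁ c₂, c = c₁ + c₂ ∧ ∀ s : k, jt s c₁ =
      if IsConjRoot F t s ∨ IsConjRoot F (t ^ (-(fq F : ℤ))) s then {j} else 0 := by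
    obtain ⟨d, hd⟩ := exists_eq_cy_add h
    by_cases e : IsConjRoot F t (t ^ (-(fq F : ℤ)))
    · exact ⟨_, d, hd, fun s => (jt_cy s t hj).trans
        (if_congr ⟨Or.inl, fun h => h.elim id e.trans⟩ rfl rfl)⟩
    · rw [← hc t, hd, jt_add, jt_cy _ _ hj, if_neg e, zero_add] at h
      obtain ⟨d', rfl⟩ := exists_eq_cy_add h
      refine ⟨_, d', hd.trans (add_assoc _ _ _).symm, fun s => ?_⟩
      rw [jt_add, jt_cy _ _ hj, jt_cy _ _ hj]
      by_cases e1 : IsConjRoot F t s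
      · rw [if_pos e1, if_neg fun e2 => e (e1.trans e2.symm), if_pos (Or.inl e1), add_zero]
      · simp only [e1, if_false, zero_add, false_or]
  have h3 : Stab k (-(fq F : ℤ)) c₁ := fun s => by
    rw [h2, h2, isConjRoot_zpow_neg_iff hF, isConjRoot_zpow_comm hF]
    exact if_congr or_comm rfl rfl
  refine ⟨c₁, c₂, h1, h3, fun s => ?_, ?_, fun s => ?_⟩
  · have := hc s
    rwa [h1, jt_add, jt_add, h3 s, add_right_inj] at this
  · rw [h2, if_pos (Or.inl IsConjRoot.refl)]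
    exact Multiset.mem_singleton_self j
  · rw [h2]
    split_ifs <;> simp

theorem HF.cd₂ (H : HF F V) (x : H.U) {t : k} {j : ℕ} (h : j ∈ jt t (cls (x.1 : End F V))) {c : Fˣ}
    (hc : c ^ (fq F + 1) = 1) : ∃ g : H.U, Commute g x ∧ dt g.1 = c ^ j := by
  obtain ⟨c₁, c₂, h1, h2, h3, h4, h5⟩ :=
    exists_stab_add hF (H.stab' hF.card_eq hF.star_eq_pow x.2) h
  have h0 : (0 : k) ∉ ev k (c₁ + c₂) := h1 ▸ (isUnit_iff_ev k).1 x.1.isUnit
  rw [ev_add, Multiset.mem_add, not_or] at h0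
  obtain ⟨x₁, hx₁, e₁⟩ := (HF.std F (Fin c₁.dim)).exists_mem' hF.card_eq hF.star_eq_pow
    (finrank_fin_fun F).symm h0.1 h2
  obtain ⟨x₂, hx₂, e₂⟩ := (HF.std F (Fin c₂.dim)).exists_mem' hF.card_eq hF.star_eq_pow
    (finrank_fin_fun F).symm h0.2 h3
  obtain ⟨e, he⟩ := ((HF.std F (Fin c₁.dim)).prod (HF.std F (Fin c₂.dim))).exists_isometry_of_finrank
    hF H (by rw [finrank_prod, finrank_fin_fun, finrank_fin_fun, ← dim_add, ← h1, dim_cls])
  obtain ⟨y, rfl⟩ := _root_.isConj_iff.1 ((H.isConj_iff hF (x := H.blkU _ _ e he (⟨x₁, hx₁⟩, ⟨x₂, hx₂⟩))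
    (y := x)).2 (by rw [HF.blkU_val, cls_blkHom, e₁, e₂, h1]))
  obtain ⟨w, -, hw⟩ := exists_eq_mul_star (A := F) hF (g := c) (show star (c : F) * c = 1 by
    rw [hF.star_eq_pow, ← pow_succ, ← Units.val_pow_eq_pow_val, hc, Units.val_one])
  obtain ⟨b, hb, hb'⟩ := exists_comm_dt k x₁ (e₁ ▸ h4) w
  obtain ⟨g, hg, hg'⟩ := (HF.std F (Fin c₁.dim)).exists_of_comm' hF.card_eq hF.star_eq_pow ⟨x₁, hx₁⟩
    (comm_of_card_le_one k fun s => (congrArg (fun c => (jt s c).card) e₁).trans_le (h5 s)) hb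
  refine ⟨y * H.blkU _ _ e he (g, 1) * y⁻¹, ?_, ?_⟩
  · exact ((hg.prod (Commute.one_left _)).map (H.blkU _ _ e he)).map (MulAut.conj y)
  · have h6 : w = c * w ^ fq F := Units.ext (by rw [hw, hF.star_eq_pow]; rfl)
    rw [Subgroup.coe_mul, Subgroup.coe_mul, Subgroup.coe_inv, map_mul, map_mul, map_inv,
      mul_inv_cancel_comm, HF.blkU_val, dt_blkHom, Subgroup.coe_one, map_one, mul_one]
    rw [hb', ← pow_mul, mul_comm j, pow_mul] at hg'
    rw [← mul_left_inj ((w ^ fq F) ^ j), hg', ← mul_pow, ← h6]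

/-- The Weil character on `Hom(W, V)`. -/
theorem HF.weil_itw (H : HF F V) (m : ℕ) : IsGeneralizedCharacter (H.U × (HF.std F (Fin m)).U) fun x =>
    (-(fq F : ℂ)) ^ finrank F (itw (x.1.1 : End F V) (x.2.1 : End F (Fin m → F))) := by
  have h1 : ∀ A B : (Fin m → F) →ₗ[F] V, LinearMap.trace F _ ((HF.std F (Fin m)).adjm H B ∘ₗ A) =
      ∑ i, H.h (B (Pi.single i 1)) (A (Pi.single i 1)) := fun A B => by
    rw [LinearMap.trace_eq_matrix_trace F (Pi.basisFun F (Fin m)), Matrix.trace]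
    refine sum_congr rfl fun i _ => ?_
    rw [← (HF.std F (Fin m)).adjm_right H, HF.std_h]
    simp [LinearMap.toMatrix_apply, Pi.single_apply, apply_ite star]
  haveI : Finite ((Fin m → F) →ₗ[F] V) := finite_hom
  let ρ : H.U × (HF.std F (Fin m)).U →* End F ((Fin m → F) →ₗ[F] V) :=
    Representation.linHom ((Units.coeHom _).comp ((Subgroup.subtype _).comp (MonoidHom.snd _ _)))
      ((Units.coeHom _).comp ((Subgroup.subtype _).comp (MonoidHom.fst _ _)))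
  have hρ : ∀ g A, ρ g A = (g.1.1 : End F V) ∘ₗ A ∘ₗ ((g.2.1⁻¹ : GLV F _) : End F _) := fun _ _ => rfl
  have h2 := Gun.isCharacter_weil hF.card_eq (V := (Fin m → F) →ₗ[F] V)
    (h := fun A B => ∑ i, H.h (B (Pi.single i 1)) (A (Pi.single i 1)))
    ⟨fun _ _ _ => by simp [sum_add_distrib], fun _ _ _ => by simp [mul_sum],
      fun _ _ => by simp [← hF.star_eq_pow, H.symm]⟩
    (fun A hA => LinearMap.pi_ext' fun i => LinearMap.ext_ring (H.nondeg _ fun v => by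
      have := hA (LinearMap.smulRight (LinearMap.proj i) v)
      rw [← H.eq_zero_comm]
      simpa [Pi.single_apply, apply_ite, ite_apply] using this)) ρ fun g A B => by
      have h3 : (HF.std F (Fin m)).adjm H (ρ g B) ∘ₗ ρ g A = (g.2.1 : End F _) *
          ((HF.std F (Fin m)).adjm H B ∘ₗ A) * ((g.2.1⁻¹ : GLV F _) : End F _) :=
        LinearMap.ext fun v => HF.ext_right (HF.std F (Fin m)) fun w => by
          rw [LinearMap.comp_apply, HF.adjm_right, hρ, hρ, ← (inv_mem g.2.2) w]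
          simp only [LinearMap.comp_apply, End.mul_apply]
          rw [g.1.2, ← (HF.std F (Fin m)).adjm_right H]
          exact congrArg _ (LinearMap.congr_fun g.2.1.inv_mul _).symm
      rw [← h1, ← h1, h3, LinearMap.trace_mul_cycle, Units.inv_mul, one_mul]
  convert h2.isGen.zsmul ((-1) ^ finrank F ((Fin m → F) →ₗ[F] V)) using 2 with g
  have h3 : LinearMap.ker (ρ g - 1) = itw (g.1.1 : End F V) (g.2.1 : End F (Fin m → F)) := by
    ext A
    rw [LinearMap.mem_ker, LinearMap.sub_apply, sub_eq_zero, hρ, End.one_apply, mem_itw]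
    refine ⟨fun e => ?_, fun e => ?_⟩
    · conv_rhs => rw [← e, LinearMap.comp_assoc, LinearMap.comp_assoc, ← End.mul_eq_comp, Units.inv_mul]
      rfl
    · rw [← LinearMap.comp_assoc, e, LinearMap.comp_assoc, ← End.mul_eq_comp, Units.mul_inv]
      rfl
  rw [Pi.smul_apply, smul_eq_mul, h3, ← mul_assoc]
  push_cast
  rw [← mul_pow, neg_mul_neg, one_mul, one_pow, one_mul]

variable {k} (hP : ParZ k Q R (2 * N)) (hQ : Q = -(fq F : ℤ))
include hP hQ

theorem HF.inMu (hV : finrank F V ≤ N) (g : GLV F V) : InMu k R (cls (g : End F V)) :=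
  inMu_of_par (hF.card_eq ▸ (hQ ▸ hP).par_sq) hV g

theorem HF.weil_hdg (H : HF F V) (hV : finrank F V ≤ N) (m : ℕ) :
    IsGeneralizedCharacter (H.U × (HF.std F (Fin m)).U) fun x =>
      (Q : ℂ) ^ hdg (tyF k Q R (cls (x.1.1 : End F V))) (tyF k Q R (cls (x.2.1 : End F (Fin m → F)))) := by
  convert H.weil_itw hF m using 3 with x
  · rw [hQ]; push_cast; rfl
  · exact (finrank_itw_eq hP (hQ ▸ H.stab' hF.card_eq hF.star_eq_pow x.1.2) (HF.inMu hF hP hQ hV _)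
      (hQ ▸ HF.stab' _ hF.card_eq hF.star_eq_pow x.2.2)).symm

theorem HF.exists_wh (H : HF F V) (hV : finrank F V ≤ N) (h0 : 0 < finrank F V) :
    ∃ U : Subgroup H.U, (∀ u ∈ U, Unip (tyF k Q R (cls (u.1 : End F V)))) ∧
      (∃ t, Nat.card U = Q.natAbs ^ t) ∧ ∃ (ψ : U →* ℂˣ) (ε : ℂ), (ε = 1 ∨ ε = -1) ∧ ip (fun u : U =>
        ∏ i ∈ Ico 1 (tyF k Q R (cls (u.1.1 : End F V)) (eo Q 1)).card, (1 - (Q : ℂ) ^ i))
          (fun u => ψ u) = ε := by
  obtain ⟨S, h1, h2, ⟨t, h3⟩, ψ, h4⟩ := exists_whittakerU hF.card_eq (H.isHerm hF)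
    (fun u hu => H.nondeg u fun v => H.eq_zero_comm.1 (hu v)) h0
  have h5 : S ≤ H.U := fun g hg u v => h1 g hg v u
  let e := Subgroup.subgroupOfEquivOfLe h5
  refine ⟨S.subgroupOf H.U, fun u hu => (unip_tyF_iff hP (HF.inMu hF hP hQ hV _)
    (hQ ▸ H.stab' hF.card_eq hF.star_eq_pow u.2)).2 (h2 _ hu), ⟨t, ?_⟩, ψ.comp e.toMonoidHom, _,
    neg_one_pow_eq_or ℂ ((finrank F V - 1) / 2), ?_⟩
  · rw [Nat.card_congr e.toEquiv, h3, hQ, Int.natAbs_neg, Int.natAbs_natCast]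
  · rw [← h4, ← ip_comp_of_surjective e.toMonoidHom e.surjective]
    congr 1
    funext u
    rw [card_tyF_one hP, hQ]
    push_cast
    rfl

end Cfsg.Gun
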