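import Cfsg.Agent.Gun.Aut
import Cfsg.Agent.Gun.Fld

/-!
# The recursion for centralizer orders in unitary groups (S4537 project)
-/

set_option autoImplicit false
set_option linter.unusedSectionVars false
set_option linter.unusedVariables false
set_option linter.style.haveILetI false

namespace Cfsg.Gun

open Module Finset Function Gln Polynomial Subgroup

universe u

variable {F : Type u} [Field F] [StarRing F] [Finite F] {V W : Type*} [AddCommGroup V] [Module F V]
  [Finite V] [AddCommGroup W] [Module F W] [Finite W] (H : HF F V)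

theorem HF.card_cent_congr (hF : Sec F) (H' : HF F W) {g : H.U} {g' : H'.U}
    (h : cls (g.1 : End F V) = cls (g'.1 : End F W)) :
    Nat.card (centralizer {g}) = Nat.card (centralizer {g'}) := by
  obtain ⟨e, h1, h2⟩ := H.exists_isometry_of_sim hF H' g.2 g'.2 (cls_eq_iff.1 h)
  have : H.conjU H' e h1 g = g' := Subtype.ext (Units.ext (LinearMap.ext fun w => by
    obtain ⟨v, rfl⟩ := e.surjective w
    rw [HF.conjU_apply, h2]))
  subst this
  refine Nat.card_congr ((H.conjU H' e h1).toEquiv.subtypeEquiv fun a => ?_)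
  rw [mem_centralizer_singleton_iff, mem_centralizer_singleton_iff, MulEquiv.toEquiv_eq_coe,
    MulEquiv.coe_toEquiv, ← map_mul, ← map_mul, (H.conjU H' e h1).apply_eq_iff_eq]

theorem HF.mem_cent {g u : H.U} : u ∈ centralizer {g} ↔ u.1 ∈ CG (g.1 : End F V) := by
  rw [CG_coe, mem_centralizer_singleton_iff, mem_centralizer_singleton_iff, Subtype.ext_iff]
  rfl

section gauss

variable {A : Type*} [CommRing A] [Algebra F A] [Finite A] [StarRing A] [StarModule F A]
  {ρ : A →ₐ[F] End F V} (hρ : ∀ a, H.adj (ρ a) = ρ (star a))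
include hρ

theorem HF.card_iso (hF : Sec F) {I : Submodule F A} (hI : ∀ a ∈ I, star a ∈ I) {n : ℕ}
    (hn : ∀ a ∈ I, a ≠ 0 → finrank F (LinearMap.ker (ρ a)) = n) :
    (Nat.card {a // a ∈ I ∧ star a = a} : ℂ) * Nat.card {v // ∀ a ∈ I, H.h v (ρ a v) = 0} =
      (-(fq F : ℂ)) ^ (finrank F V + finrank F V) +
        (Nat.card {a // a ∈ I ∧ star a = a} - 1) * (-(fq F : ℂ)) ^ (finrank F V + n) := by
  classical
  haveI := Fintype.ofFinite V
  haveI := Fintype.ofFinite A
  obtain ⟨ψ, b, hb, hψ⟩ := hF.exists_addChar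
  set T : Finset A := {a | a ∈ I ∧ star a = a} with hT
  have h0 : (0 : A) ∈ T := by simp [hT]
  have h1 : ∀ v, ∑ a ∈ T, ψ (H.h v (ρ a v)) = if ∀ a ∈ I, H.h v (ρ a v) = 0 then (#T : ℂ) else 0 := by
    intro v
    split_ifs with h
    · rw [sum_congr rfl fun a ha => by rw [h a (mem_filter.1 ha).2.1, AddChar.map_zero_eq_one]]
      simp
    obtain ⟨a₀, h2, h3, h4⟩ : ∃ a ∈ I, star a = a ∧ H.h v (ρ a v) ≠ 0 := by
      by_contra! h'
      refine h fun a ha => ?_
      obtain ⟨θ, hθ⟩ := hF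
      have e₁ := h' (a + star a) (I.add_mem ha (hI a ha)) (by rw [star_add, star_star, add_comm])
      have e₂ := h' (θ • a + star θ • star a) (I.add_mem (I.smul_mem _ ha) (I.smul_mem _ (hI a ha)))
        (by rw [star_add, star_smul, star_smul, star_star, star_star, add_comm])
      simp only [map_add, map_smul, LinearMap.add_apply, LinearMap.smul_apply, smul_eq_mul] at e₁ e₂
      exact mul_left_cancel₀ (sub_ne_zero.2 hθ) (by linear_combination star θ * e₁ - e₂)
    have h5 : star (H.h v (ρ a₀ v)) = H.h v (ρ a₀ v) := by rw [H.symm, ← H.adj_right, hρ, h3]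
    let a₁ := (b / H.h v (ρ a₀ v)) • a₀
    have h6 : star a₁ = a₁ := by rw [star_smul, star_div₀, hb, h5, h3]
    have h7 : H.h v (ρ a₁ v) = b := by
      rw [map_smul, LinearMap.smul_apply, map_smul, smul_eq_mul, div_mul_cancel₀ _ h4]
    have h8 : ∑ a ∈ T, ψ (H.h v (ρ a v)) = ∑ a ∈ T, ψ (H.h v (ρ (a₁ + a) v)) :=
      (sum_equiv (Equiv.addLeft a₁) (fun a => by
        simp only [hT, mem_filter, mem_univ, true_and, Equiv.coe_addLeft, star_add, h6, add_right_inj,
          I.add_mem_iff_right (show a₁ ∈ I from I.smul_mem _ h2)]) fun _ _ => rfl).symm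
    simp only [map_add, LinearMap.add_apply, AddChar.map_add_eq_mul, h7, ← mul_sum] at h8
    exact mul_left_cancel₀ (sub_ne_zero.2 hψ) (by linear_combination -h8)
  have h2 := sum_comm (s := univ) (t := T) (f := fun v a => ψ (H.h v (ρ a v)))
  rw [sum_congr rfl fun v _ => h1 v, sum_congr rfl fun a ha => H.gauss hF ψ ⟨b, hb, hψ⟩
    ((hρ a).trans (congrArg ρ (mem_filter.1 ha).2.2)), ← add_sum_erase _ _ h0,
    sum_congr (s₁ := T.erase 0) rfl fun a ha => by
      rw [hn a (mem_filter.1 (mem_of_mem_erase ha)).2.1 (ne_of_mem_erase ha)],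
    map_zero, LinearMap.ker_zero, finrank_top, sum_const, card_erase_of_mem h0, ← sum_filter, sum_const,
    nsmul_eq_mul, nsmul_eq_mul, Nat.cast_pred (card_pos.2 ⟨0, h0⟩)] at h2
  rw [Nat.card_eq_fintype_card, Nat.card_eq_fintype_card, Fintype.card_subtype, Fintype.card_subtype,
    mul_comm, ← h2]

end gauss

variable {p : F[X]} (g : H.U) (hx : aeval (g.1 : End F V) p = 0)

theorem HF.exists_adj_act (a : AdjoinRoot p) : ∃ a', H.adj (act _ hx a) = act _ hx a' := by
  obtain ⟨r, rfl⟩ := AdjoinRoot.mk_surjective a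
  rw [act_mk]
  induction r using Polynomial.induction_on with
  | C c => exact ⟨algebraMap F _ (star c), by
      rw [aeval_C, AlgHom.commutes, Algebra.algebraMap_eq_smul_one, Algebra.algebraMap_eq_smul_one,
        H.adj_smul, H.adj_one]⟩
  | add r s hr hs =>
    obtain ⟨a, ha⟩ := hr
    obtain ⟨b, hb⟩ := hs
    exact ⟨a + b, by rw [map_add, H.adj_add, ha, hb, map_add]⟩
  | monomial n c ih =>
    obtain ⟨a, ha⟩ := ih
    refine ⟨AdjoinRoot.root p ^ (orderOf g.1 - 1) * a, ?_⟩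
    rw [pow_succ, ← mul_assoc, map_mul, H.adj_mul, ha, aeval_X, map_mul, map_pow, act_root,
      H.mem_U_iff_adj.1 g.2, ← Units.val_pow_eq_pow_val, inv_eq_of_mul_eq_one_right
        ((mul_pow_sub_one (orderOf_pos g.1).ne' _).trans (pow_orderOf_eq_one _))]

theorem HF.exists_star (hi : Injective (act (g.1 : End F V) hx)) :
    ∃ (_ : StarRing (AdjoinRoot p)) (_ : StarModule F (AdjoinRoot p)),
      ∀ a, H.adj (act _ hx a) = act _ hx (star a) := by
  choose τ hτ using H.exists_adj_act g hx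
  letI : StarRing (AdjoinRoot p) :=
    { star := τ
      star_involutive := fun a => hi (by rw [← hτ, ← hτ, H.adj_adj])
      star_mul := fun a b => hi (by
        change act _ hx (τ _) = act _ hx (τ b * τ a)
        rw [← hτ, map_mul, map_mul, ← hτ, ← hτ, H.adj_mul])
      star_add := fun a b => hi (by
        change act _ hx (τ _) = act _ hx (τ a + τ b)
        rw [← hτ, map_add, map_add, ← hτ, ← hτ, H.adj_add]) }
  exact ⟨this, ⟨fun c a => hi (by
    change act _ hx (τ _) = act _ hx (star c • τ a)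
    rw [← hτ, map_smul, map_smul, ← hτ, H.adj_smul])⟩, hτ⟩

variable [Finite (AdjoinRoot p)]

theorem HF.exists_splitU {v : V} (hv : ∀ a, (∀ b, H.h (evv hx v a) (evv hx v b) = 0) → a = 0) :
    ∃ (S : Submodule F V) (H' : HF F S) (g' : H'.U) (φ : (AdjoinRoot p × S) ≃ₗ[F] V),
      (∀ u, φ u = evv hx v u.1 + u.2) ∧
      (∀ u, φ ((cyc p).prodMap (g'.1 : End F S) u) = (g.1 : End F V) (φ u)) ∧
      (∀ u w, H.h (φ u) (φ w) = ((H.comap _ hv).prod H').h u w) ∧
      ∀ w, w ∈ S ↔ ∀ a, H.h (evv hx v a) w = 0 := by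
  have hi : Injective (evv hx v) := (injective_iff_map_eq_zero _).2 fun a ha =>
    hv a fun b => by simp [ha]
  have hd : Disjoint (LinearMap.range (evv hx v)) (H.orth (LinearMap.range (evv hx v))) :=
    Submodule.disjoint_def.2 (by
      rintro _ ⟨a, rfl⟩ h
      rw [hv a fun b => H.mem_orth'.1 h _ ⟨b, rfl⟩, map_zero])
  have hS : H.orth (LinearMap.range (evv hx v)) ≤
      (H.orth (LinearMap.range (evv hx v))).comap (g.1 : End F V) := H.orth_le_comap (by
    rintro _ ⟨a, rfl⟩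
    obtain ⟨b, hb⟩ := H.exists_adj_act g hx (AdjoinRoot.root p)
    rw [act_root] at hb
    exact ⟨b * a, by rw [evv_mul, hb]⟩)
  obtain ⟨φ, h1, h2⟩ := exists_split_of_isCompl hx hi hS (H.isCompl_orth hd)
  obtain ⟨z, hz⟩ := (H.restrict _ (H.disjoint_orth_orth hd)).isUnit_of_isometry
    (x := Inv.sub ⟨_, hS⟩) fun u w => g.2 u w
  refine ⟨_, H.restrict _ (H.disjoint_orth_orth hd), ⟨z, fun u w => ?_⟩, φ, h1, hz ▸ h2,
    fun u w => ?_, fun w => ⟨fun h a => h _ ⟨a, rfl⟩, ?_⟩⟩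
  · rw [hz]; exact g.2 u w
  · simp [h1, w.2.2 _ ⟨u.1, rfl⟩, H.mem_orth'.1 u.2.2 _ ⟨w.1, rfl⟩]
  · rintro h _ ⟨a, rfl⟩
    exact h a

theorem HF.exists_cyc_mem {v : V} (hv : ∀ a, (∀ b, H.h (evv hx v a) (evv hx v b) = 0) → a = 0) :
    ∃ z ∈ (H.comap _ hv).U, (z : End F (AdjoinRoot p)) = cyc p := by
  have h : ∀ a b, (H.comap _ hv).h (cyc p a) (cyc p b) = (H.comap _ hv).h a b := fun a b => by
    rw [HF.comap_h, evv_cyc, evv_cyc]; exact g.2 _ _
  obtain ⟨z, hz⟩ := HF.isUnit_of_isometry _ h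
  exact ⟨z, fun a b => by rw [hz, h], hz⟩

theorem HF.apply_evv {u : H.U} (hu : u ∈ centralizer {g}) (v : V) (a : AdjoinRoot p) :
    (u.1 : End F V) (evv hx v a) = evv hx ((u.1 : End F V) v) a :=
  congrArg (· v) (commute_act hx (H.mem_cent.1 hu) a)

theorem HF.card_fix {v : V} (hv : ∀ a, (∀ b, H.h (evv hx v a) (evv hx v b) = 0) → a = 0)
    {S : Submodule F V} {H' : HF F S} {g' : H'.U} {φ : (AdjoinRoot p × S) ≃ₗ[F] V}
    (h1 : ∀ u, φ u = evv hx v u.1 + u.2)
    (h2 : ∀ u, φ ((cyc p).prodMap (g'.1 : End F S) u) = (g.1 : End F V) (φ u))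
    (h3 : ∀ u w, H.h (φ u) (φ w) = ((H.comap _ hv).prod H').h u w)
    (h4 : ∀ w, w ∈ S ↔ ∀ a, H.h (evv hx v a) w = 0) :
    Nat.card {u : centralizer {g} // (u.1.1 : End F V) v = v} = Nat.card (centralizer {g'}) := by
  have h5 : ∀ w : S, φ (0, w) = w := fun w => by simp [h1]
  symm
  refine Nat.card_congr (Equiv.ofBijective (fun z => ⟨⟨H.blkU _ H' φ h3 (1, z.1), H.mem_cent.2
    (blkHom_mem_CG φ h2 (one_mem _) (H'.mem_cent.1 z.2))⟩, ?_⟩) ⟨fun z z' e => Subtype.ext
      (congrArg Prod.snd (H.blkU_injective _ H' φ h3 (congrArg (·.1.1) e))), fun u => ?_⟩)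
  · have := blkHom_apply φ 1 z.1.1 1 0
    simpa [h1, evv_one] using this
  · have h6 : ∀ a, (u.1.1.1 : End F V) (evv hx v a) = evv hx v a := fun a => by
      rw [H.apply_evv g hx u.1.2, u.2]
    have h7 : ∀ w ∈ S, (u.1.1.1 : End F V) w ∈ S := fun w hw => (h4 _).2 fun a => by
      rw [← h6, u.1.1.2, (h4 _).1 hw]
    have h8 : ∀ a b, H'.h ((u.1.1.1 : End F V).restrict h7 a) ((u.1.1.1 : End F V).restrict h7 b) =
        H'.h a b := fun a b => by
      have e₁ := h3 (0, a) (0, b)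
      have e₂ := h3 (0, (u.1.1.1 : End F V).restrict h7 a) (0, (u.1.1.1 : End F V).restrict h7 b)
      simp only [h5, HF.prod_h, map_zero, zero_add] at e₁ e₂
      rw [← e₁, ← e₂]
      exact u.1.1.2 _ _
    obtain ⟨z, hz⟩ := H'.isUnit_of_isometry h8
    refine ⟨⟨⟨z, fun a b => by rw [hz, h8]⟩, H'.mem_cent.2 (LinearMap.ext fun w => Subtype.ext ?_)⟩,
      Subtype.ext (Subtype.ext (Subtype.ext (Units.ext (LinearMap.ext fun w => ?_))))⟩
    · have h9 : ∀ w : S, ((g'.1 : End F S) w : V) = (g.1 : End F V) w := fun w => by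
        simpa [h5] using h2 (0, w)
      change ((z.1 : End F S) _ : V) = ((g'.1 : End F S) (z.1 w) : V)
      rw [h9, hz, LinearMap.restrict_coe_apply, LinearMap.restrict_coe_apply, h9]
      exact congrArg (· (w : V)) (H.mem_cent.1 u.1.2)
    · obtain ⟨⟨a, w⟩, rfl⟩ := φ.surjective w
      refine (blkHom_apply φ 1 z a w).trans ?_
      rw [h1, h1, map_add, h6, hz]
      rfl

theorem HF.card_orbit [StarRing (AdjoinRoot p)] [StarModule F (AdjoinRoot p)] (hF : Sec F)
    (hρ : ∀ a, H.adj (act _ hx a) = act _ hx (star a)) {X : Set V}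
    (hX : ∀ v ∈ X, ∀ a, (∀ b, H.h (evv hx v a) (evv hx v b) = 0) → a = 0)
    (hX' : ∀ v ∈ X, ∀ u ∈ centralizer {g}, ∀ a : (AdjoinRoot p)ˣ, (u.1 : End F V) (evv hx v a) ∈ X)
    {v : V} (hv : v ∈ X) : ∃ (S : Submodule F V) (H' : HF F S) (g' : H'.U),
      cls (g.1 : End F V) = cls (cyc p) + cls (g'.1 : End F S) ∧
      Nat.card (centralizer {g}) * Nat.card {a : AdjoinRoot p // IsUnit a ∧ star a = a} =
        X.ncard * Nat.card (centralizer {g'}) := by
  obtain ⟨S, H', g', φ, h1, h2, h3, h4⟩ := H.exists_splitU g hx (hX v hv)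
  have hc : cls (g.1 : End F V) = cls (cyc p) + cls (g'.1 : End F S) := by
    rw [← cls_prodMap, eq_comm, cls_eq_iff]; exact ⟨φ, h2⟩
  refine ⟨S, H', g', hc, ?_⟩
  let r : (AdjoinRoot p)ˣ →* GLV F V := Units.map (act _ hx : AdjoinRoot p →* End F V)
  have hr : ∀ u ∈ centralizer {g}, ∀ a, Commute u.1 (r a) := fun u hu a =>
    Units.ext (commute_act hx (H.mem_cent.1 hu) a)
  let Φ : centralizer {g} × (AdjoinRoot p)ˣ →* GLV F V :=
    (H.U.subtype.comp (centralizer {g}).subtype).noncommCoprod r fun u a => hr u.1 u.2 a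
  letI := MulAction.compHom V Φ
  have hs : ∀ (z : centralizer {g} × (AdjoinRoot p)ˣ) (w : V),
      z • w = (z.1.1.1 : End F V) (evv hx w z.2) := fun _ _ => rfl
  have hh : ∀ (w : V) a b, H.h (evv hx w a) (evv hx w b) = H.h w (evv hx w (star a * b)) := fun w a b => by
    rw [evv_mul, ← hρ, H.adj_right]; rfl
  have hu : ∀ a : uni (AdjoinRoot p), r a ∈ H.U := fun a => H.mem_U_iff_mul.2 (by
    change H.adj (act _ hx a.1) * act _ hx a.1 = 1
    rw [hρ, ← map_mul, a.2, map_one])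
  let r' : uni (AdjoinRoot p) → centralizer {g} := fun a => ⟨⟨r a, hu a⟩, H.mem_cent.2
    (commute_act hx rfl a.1).symm⟩
  have e₁ : MulAction.orbit (centralizer {g} × (AdjoinRoot p)ˣ) v = X := by
    refine Set.ext fun w => ⟨?_, fun hw => ?_⟩
    · rintro ⟨z, rfl⟩
      exact hX' v hv _ z.1.2 z.2
    obtain ⟨S', H'', g'', φ', k1, k2, k3, k4⟩ := H.exists_splitU g hx (hX w hw)
    obtain ⟨z, hz, hz'⟩ := H.exists_cyc_mem g hx (hX v hv)
    obtain ⟨y, hy, hy'⟩ := H.exists_cyc_mem g hx (hX w hw)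
    obtain ⟨ε, l1, l2⟩ := HF.exists_isometry_of_sim _ hF _ hz hy (by rw [hz', hy']; exact Sim.refl _)
    obtain ⟨δ, m1, m2⟩ := HF.exists_isometry_of_sim _ hF _ g'.2 g''.2 (cls_eq_iff.1 (add_left_cancel
      (hc.symm.trans (by rw [← cls_prodMap, eq_comm, cls_eq_iff]; exact ⟨φ', k2⟩))))
    rw [hz', hy'] at l2
    have l3 : ∀ a, ε a = a * ε 1 := fun a => by
      obtain ⟨t, rfl⟩ := AdjoinRoot.mk_surjective a
      have := itw_aeval (φ := ε.toLinearMap) l2 t 1
      rwa [aeval_cyc', aeval_cyc', mul_one] at this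
    obtain ⟨a, ha⟩ : IsUnit (ε 1) :=
      IsUnit.of_mul_eq_one_right (ε.symm 1) (by rw [← l3, ε.apply_symm_apply])
    let u := (φ.symm.trans (ε.prodCongr δ)).trans φ'
    have hu : ∀ b, u (φ b) = φ' (ε b.1, δ b.2) := fun b => by simp [u]
    refine ⟨(⟨⟨LinearMap.GeneralLinearGroup.ofLinearEquiv u, fun b c => ?_⟩,
      H.mem_cent.2 (LinearMap.ext fun b => ?_)⟩, a⁻¹), (hs _ _).trans ?_⟩
    · obtain ⟨b, rfl⟩ := φ.surjective b
      obtain ⟨c, rfl⟩ := φ.surjective c
      change H.h (u _) (u _) = _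
      rw [hu, hu, k3, h3, HF.prod_h, HF.prod_h, l1, m1]
    · obtain ⟨b, rfl⟩ := φ.surjective b
      change u ((g.1 : End F V) _) = (g.1 : End F V) (u _)
      rw [← h2, hu, hu, ← k2]
      exact congrArg φ' (Prod.ext (l2 _) (m2 _))
    · change u (evv hx v (a⁻¹ : (AdjoinRoot p)ˣ)) = w
      rw [← add_zero (evv hx v _), ← S.coe_zero, ← h1 (_, 0), hu, l3, ← ha, Units.inv_mul, map_zero, k1,
        evv_one, S'.coe_zero, add_zero]
  have e₂ : Nat.card (MulAction.stabilizer (centralizer {g} × (AdjoinRoot p)ˣ) v) =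
      Nat.card (uni (AdjoinRoot p)) * Nat.card (centralizer {g'}) := by
    rw [← H.card_fix g hx (hX v hv) h1 h2 h3 h4, ← Nat.card_prod]
    have key : ∀ z : MulAction.stabilizer (centralizer {g} × (AdjoinRoot p)ˣ) v,
        z.1.2 ∈ uni (AdjoinRoot p) := fun z => sub_eq_zero.1 (hX v hv _ fun b => by
      have h5 : ∀ c, (z.1.1.1.1 : End F V) (evv hx v (c * z.1.2)) = evv hx v c := fun c => by
        rw [evv_mul, ← End.mul_apply, commute_act hx (H.mem_cent.1 z.1.1.2), End.mul_apply, ← hs, z.2]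
        rfl
      rw [map_sub, map_sub, LinearMap.sub_apply, ← h5 1, ← h5 b, z.1.1.1.2, h5, hh, hh, star_mul, star_star,
        one_mul, sub_eq_zero]
      congr 2
      ring)
    refine Nat.card_congr ⟨fun z => (⟨z.1.2, key z⟩, ⟨z.1.1 * r' ⟨z.1.2, key z⟩, z.2⟩),
      fun y => ⟨(y.2.1 * (r' y.1)⁻¹, y.1.1), ?_⟩, fun z => Subtype.ext (Prod.ext (mul_inv_cancel_right _ _) rfl),
      fun y => Prod.ext rfl (Subtype.ext (inv_mul_cancel_right _ _))⟩
    exact (congrArg (fun u : centralizer {g} => (u.1.1 : End F V) v) (inv_mul_cancel_right y.2.1 (r' y.1))).trans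
      y.2.2
  have e₃ := (MulAction.stabilizer (centralizer {g} × (AdjoinRoot p)ˣ) v).card_mul_index
  rw [MulAction.index_stabilizer, e₁, e₂, Nat.card_prod, card_units_eq hF] at e₃
  refine Nat.eq_of_mul_eq_mul_left (Nat.card_pos (α := uni (AdjoinRoot p))) ?_
  linear_combination -e₃

theorem card_fixed_eq (hF : Sec F) {Y : Type*} [AddCommGroup Y] [Module F Y] [StarAddMonoid Y]
    [StarModule F Y] [Finite Y] (S : Submodule F Y) (hS : ∀ y ∈ S, star y ∈ S) :
    Nat.card {y : Y // y ∈ S ∧ star y = y} = fq F ^ finrank F S :=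
  Nat.pow_left_injective two_ne_zero (by
    simp only
    rw [card_fixed_sq hF S hS, Module.natCard_eq_pow_finrank (K := F), hF.card_eq, ← pow_mul, ← pow_mul,
      mul_comm])

theorem HF.card_step (hF : Sec F) {f : F[X]} (hf : Irreducible f) (hm : f.Monic) {e : ℕ}
    [Finite (AdjoinRoot (f ^ (e + 1)))] (hx : aeval (g.1 : End F V) (f ^ (e + 1)) = 0)
    (h0 : aeval (g.1 : End F V) (f ^ e) ≠ 0) : ∃ (S : Submodule F V) (H' : HF F S) (g' : H'.U),
      cls (g.1 : End F V) = cls (cyc (f ^ (e + 1))) + cls (g'.1 : End F S) ∧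
      (Nat.card (centralizer {g}) : ℂ) * ((fq F : ℂ) ^ f.natDegree) ^ (e + 1) =
        ((-(fq F : ℂ)) ^ (finrank F V + finrank F V) - (-(fq F : ℂ)) ^ (finrank F V +
          finrank F (LinearMap.ker (aeval (g.1 : End F V) (f ^ e))))) * Nat.card (centralizer {g'}) := by
  have hi : Injective (act _ hx) := (injective_iff_map_eq_zero _).2 fun a ha => by
    by_contra h
    obtain ⟨b, hb⟩ := loc_exists_mul hf h
    exact h0 (by rw [← act_mk hx, ← hb, map_mul, ha, mul_zero])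
  obtain ⟨_, _, hρ⟩ := H.exists_star g hx hi
  have hk : ∀ j ≤ e + 1, finrank F (LinearMap.ker (aeval (cyc (f ^ (e + 1))) (f ^ j))) =
      f.natDegree * j := fun j hj => by
    rw [finrank_ker_cyc (a := 1) (b := 0) (hm.pow _) (hm.pow j) (pow_dvd_pow f hj) dvd_rfl (by simp),
      natDegree_pow, mul_comm]
  set I := LinearMap.ker (aeval (cyc (f ^ (e + 1))) (f ^ 1)) with hI
  have hI' : ∀ a, a ∈ I ↔ AdjoinRoot.mk _ f * a = 0 := fun a => by
    rw [hI, LinearMap.mem_ker, aeval_cyc', pow_one]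
  have hJ : ∀ a, a ∈ LinearMap.ker (aeval (cyc (f ^ (e + 1))) (f ^ e)) ↔ ¬ IsUnit a := fun a => by
    rw [LinearMap.mem_ker, aeval_cyc', loc_isUnit_iff hf, not_not]
  have h1 : ∀ a ∈ I, star a ∈ I := fun a ha => by
    obtain ⟨b, rfl⟩ := loc_exists_eq hf ((hI' a).1 ha)
    have : AdjoinRoot.mk _ (f ^ e) * star (AdjoinRoot.mk (f ^ (e + 1)) f) = 0 :=
      not_not.1 (mt (loc_isUnit_iff hf).2 (mt isUnit_star.1 (mt (loc_isUnit_iff hf).1 (not_not.2 (by
        rw [← map_mul, ← pow_succ, AdjoinRoot.mk_self])))))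
    rw [hI', ← star_eq_zero, star_mul', star_star, mul_comm, mul_assoc, this, mul_zero]
  have h2 := H.card_iso hρ hF h1 (n := finrank F (LinearMap.ker (aeval (g.1 : End F V) (f ^ e))))
    fun a ha ha' => congrArg (fun S : Submodule F V => finrank F S) (le_antisymm (fun w hw => by
      obtain ⟨b, hb⟩ := loc_exists_mul hf ha'
      rw [LinearMap.mem_ker, ← act_mk hx, ← hb, map_mul, End.mul_apply, LinearMap.mem_ker.1 hw, map_zero])
      fun w hw => by
        obtain ⟨b, rfl⟩ := loc_exists_eq hf ((hI' a).1 ha)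
        rw [LinearMap.mem_ker, map_mul, End.mul_apply, act_mk, LinearMap.mem_ker.1 hw, map_zero])
  rw [card_fixed_eq hF I h1, hk 1 (by omega), mul_one] at h2
  have hd : 1 < fq F ^ f.natDegree := Nat.one_lt_pow hf.natDegree_pos.ne' hF.one_lt
  obtain ⟨v, hv⟩ : ∃ v, ¬ ∀ a ∈ I, H.h v (act _ hx a v) = 0 := by
    obtain ⟨a, b, hab⟩ := (Finite.one_lt_card_iff_nontrivial (α := {a // a ∈ I ∧ star a = a})).1
      (by rwa [card_fixed_eq hF I h1, hk 1 (by omega), mul_one])
    by_contra! h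
    refine hab (Subtype.ext (hi (LinearMap.ext fun w => H.ext_right fun u => sub_eq_zero.1 ?_)))
    have := eq_zero_of_self hF (B := H.h.compl₂ (act _ hx (a.1 - b.1))) fun v =>
      h v _ (I.sub_mem a.2.1 b.2.1)
    simpa using congrArg (· u w) this
  obtain ⟨S, H', g', h3, h4⟩ := H.card_orbit g hx hF hρ
    (X := {v | ¬ ∀ a ∈ I, H.h v (act _ hx a v) = 0}) (fun w hw a ha => by
      by_contra h
      refine hw fun c hc => ?_
      obtain ⟨b, hb⟩ := loc_exists_mul hf h
      obtain ⟨b', rfl⟩ := loc_exists_eq hf ((hI' c).1 hc)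
      rw [← hb, ← mul_assoc, map_mul, End.mul_apply, ← H.adj_left, hρ, H.eq_zero_comm]
      exact ha _)
    (fun w hw u hu a h => hw fun c hc => by
      have := h (c * (star a * a)⁻¹.1) ((hI' _).2 (by rw [← mul_assoc, (hI' c).1 hc, zero_mul]))
      rw [← End.mul_apply, ← commute_act hx (H.mem_cent.1 hu), End.mul_apply, u.2, ← evv_mul,
        evv_apply hx w a, ← H.adj_right, hρ, ← evv_mul] at this
      rwa [show star a.1 * (c * (star a * a)⁻¹.1 * a) = c * ((star a * a)⁻¹.1 * (star a * a).1) by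
        rw [Units.val_mul, Units.coe_star]; ring, Units.inv_mul, mul_one] at this) hv
  refine ⟨S, H', g', h3, ?_⟩
  have h5 : Nat.card {a : AdjoinRoot (f ^ (e + 1)) // IsUnit a ∧ star a = a} +
      (fq F ^ f.natDegree) ^ e = (fq F ^ f.natDegree) ^ (e + 1) := by
    classical
    rw [← pow_mul, ← pow_mul, ← hk e (by omega), ← hk (e + 1) le_rfl, ← card_fixed_eq hF _ fun a ha =>
      (hJ _).2 (mt isUnit_star.1 ((hJ a).1 ha)), ← card_fixed_eq hF _ fun a ha => by
        rw [LinearMap.mem_ker, aeval_cyc', AdjoinRoot.mk_self, zero_mul], ← Nat.card_sum]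
    simp only [hJ, LinearMap.mem_ker, aeval_cyc', AdjoinRoot.mk_self, zero_mul, true_and]
    rw [Nat.card_sum]
    refine (Set.ncard_union_eq (s := {a | IsUnit a ∧ star a = a}) (t := {a | ¬ IsUnit a ∧ star a = a})
      (Set.disjoint_left.2 fun a h h' => h'.1 h.1)).symm.trans (congrArg Set.ncard (Set.ext fun a => ?_))
    change _ ∨ _ ↔ star a = a
    simp only [Set.mem_setOf_eq]
    tauto
  have h6 : {v | ¬ ∀ a ∈ I, H.h v (act _ hx a v) = 0}.ncard +
      Nat.card {v // ∀ a ∈ I, H.h v (act _ hx a v) = 0} = fq F ^ (finrank F V + finrank F V) := by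
    rw [← two_mul, pow_mul, ← hF.card_eq, ← Module.natCard_eq_pow_finrank, add_comm]
    exact Set.ncard_add_ncard_compl {v | ∀ a ∈ I, H.h v (act _ hx a v) = 0}
  have h4' := congrArg (Nat.cast : ℕ → ℂ) h4
  have h5' := congrArg (Nat.cast : ℕ → ℂ) h5
  have h6' := congrArg (Nat.cast : ℕ → ℂ) h6
  push_cast at h2 h4' h5' h6'
  rw [← Even.neg_pow (Even.add_self _)] at h6'
  refine mul_left_cancel₀ (sub_ne_zero.2 (show (fq F : ℂ) ^ f.natDegree ≠ 1 by exact_mod_cast hd.ne')) ?_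
  linear_combination (fq F : ℂ) ^ f.natDegree * h4' - (fq F : ℂ) ^ f.natDegree * Nat.card (centralizer {g}) * h5' +
    (fq F : ℂ) ^ f.natDegree * Nat.card (centralizer {g'}) * h6' - Nat.card (centralizer {g'}) * h2

end Cfsg.Gun
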