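import Cfsg.Agent.Gun.Aut
import Cfsg.Agent.Gun.UCnt
import Cfsg.Agent.Gun.UEx

/-!
# Conjugacy classes of unitary groups (S4537 project; owner helper8)
-/

set_option autoImplicit false
set_option linter.unusedSectionVars false
set_option linter.unusedVariables false
set_option linter.style.haveILetI false

namespace Cfsg.Gun

open Module Finset Function Gln Subgroup

universe u

variable {F : Type u} [Field F] [StarRing F] [Finite F] {V : Type*} [AddCommGroup V] [Module F V]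
  [Finite V] {k : Type u} [Field k] [Algebra F k] [IsAlgClosed k] [Algebra.IsAlgebraic F k] {Q : ℤ}
  {q R N : ℕ} [NeZero R] (H : HF F V) (hF : Nat.card F = q ^ 2) (hs : ∀ a : F, star a = a ^ q)

universe v in
theorem HF.card_cent_primary (hF : Sec F) {s : k} (n : ℕ) : ∀ (V : Type v) [AddCommGroup V] [Module F V]
    [Finite V] (H : HF F V) (g : H.U), finrank F V = n →
      (∀ t ∈ ev k (cls (g.1 : End F V)), IsConjRoot F s t) → (Nat.card (centralizer {g}) : ℂ) =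
        (-1) ^ n * ac (jt s (cls (g.1 : End F V))) ((-(fq F : ℂ)) ^ fdeg F s) := by
  induction n using Nat.strong_induction_on with
  | _ n ih =>
  intro V _ _ _ H g hn h
  rcases n.eq_zero_or_pos with rfl | h0
  · haveI := Module.finrank_zero_iff.1 hn
    rw [cls_of_subsingleton, jt_zero, ac_zero, Nat.card_unique]
    simp
  obtain ⟨e, h1, h2⟩ := exists_max_jt h (by rw [dim_cls]; omega)
  haveI := finite_adjoinRoot (F := F) s (e + 1)
  have h3 := dim_primary h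
  have h4 := mm_singleton_add_count h2
  have h5 := finrank_ker_jt s (g.1 : End F V) e
  have hd := fdeg_pos (F := F) s
  rw [dim_cls] at h3
  obtain ⟨S, H', g', h6, h7⟩ := H.card_step g hF (minpoly_irreducible s) (minpoly_monic s)
    (aeval_primary h h2) fun e' => by
      rw [e', LinearMap.ker_zero, finrank_top, h3, Nat.mul_right_inj hd.ne'] at h5
      have := Multiset.count_pos.2 h1
      omega
  change _ = cy F s (e + 1) + _ at h6
  have h8 : ∀ t ∈ ev k (cls (g'.1 : End F S)), IsConjRoot F s t := fun t ht =>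
    h t (by rw [h6, ev_add]; simp [ht])
  have h9 := dim_primary h8
  rw [dim_cls] at h9
  rw [h5, h3, h6, jt_cy_add] at h7
  rw [h6, jt_cy_add] at h2 h3 h4 ⊢
  rw [Multiset.sum_cons] at h3 h4 h7
  rw [Multiset.count_cons_self] at h4
  rw [ih _ (by rw [← hn, h3, h9]; exact Nat.mul_lt_mul_of_pos_left (by omega) hd) S H' g' rfl h8, h9,
    ← mul_add, ← mul_add, pow_mul, pow_mul] at h7
  rw [ac_cons fun i hi => h2 i (Multiset.mem_cons_of_mem hi), ← hn, h3]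
  have hq : (fq F : ℂ) ≠ 0 := Nat.cast_ne_zero.2 (by have := hF.one_lt; omega)
  refine mul_right_cancel₀ (pow_ne_zero (e + 1) (pow_ne_zero (fdeg F s) hq)) (h7.trans ?_)
  have hq' : (fq F : ℂ) ^ fdeg F s = (-1) ^ fdeg F s * (-(fq F : ℂ)) ^ fdeg F s := by
    rw [← mul_pow]; simp
  have hq'' : (-(fq F : ℂ)) ^ fdeg F s ≠ 0 := pow_ne_zero _ (neg_ne_zero.2 hq)
  have h10 : ((-1 : ℂ) ^ fdeg F s) ^ (e + 1) * ((-1) ^ fdeg F s) ^ (e + 1) = 1 := by
    rw [← mul_pow, ← mul_pow]; simp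
  rw [hq', pow_mul, pow_mul, mul_pow, pow_add ((-1 : ℂ) ^ fdeg F s)]
  generalize (-(fq F : ℂ)) ^ fdeg F s = t at *
  generalize jt s (cls (g'.1 : End F S)) = l at *
  obtain ⟨a, ha⟩ : ∃ a, a = t ^ (l.count (e + 1) + 1) := ⟨_, rfl⟩
  have ha' : a * a⁻¹ = 1 := mul_inv_cancel₀ (ha ▸ pow_ne_zero _ hq'')
  have h11 : t ^ (e + 1 + 2 * l.sum) * t ^ (e + 1) = t ^ (e + 1 + l.sum + mm {e} ((e + 1) ::ₘ l)) * a := by
    rw [ha, ← pow_add, ← pow_add]; congr 1; omega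
  have h12 : t ^ (e + 1 + l.sum + (e + 1 + l.sum)) = t ^ (e + 1 + l.sum + mm {e} ((e + 1) ::ₘ l)) * a := by
    rw [ha, ← pow_add]; congr 1; omega
  rw [inv_pow, ← ha, h12]
  generalize t ^ (e + 1 + l.sum + mm {e} ((e + 1) ::ₘ l)) = b at *
  generalize ((-1 : ℂ) ^ fdeg F s) ^ (e + 1) = ε at *
  linear_combination (-((-1 : ℂ) ^ fdeg F s) ^ l.sum * ac l t) * (ε * ε * (1 - a⁻¹) * h11 +
    b * a * (1 - a⁻¹) * h10 - b * ha')

theorem zpow_mem_oSet (hP : ParZ k Q R N) {i : ℕ} (hQ : (Nat.card F : ℤ) = Q ^ (i + 1)) {s : Mu k R}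
    {t : k} : t ^ Q ∈ oSet Q s ↔ t ∈ oSet Q s := by
  have h : ∀ j, ∀ t ∈ oSet Q s, t ^ Q ^ j ∈ oSet Q s := by
    rintro j _ ⟨y, hy, rfl⟩
    rw [← mv_zpow', mv_mem_oSet, eo_zpow hP]
    exact hy
  refine ⟨fun ht => conjCl_oSet hP ⟨_, hQ⟩ s _ (h i _ ht) _ ?_, fun ht => by simpa using h 1 t ht⟩
  rw [← zpow_mul, ← pow_succ', ← hQ, zpow_natCast]
  simpa using (isConjRoot_pow (F := F) t 1).symm

theorem Stab.left (hP : ParZ k Q R N) {i : ℕ} (hQ : (Nat.card F : ℤ) = Q ^ (i + 1)) {s : Mu k R}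
    {c d : Iso F} (h : Stab k Q (c + d)) (h₁ : ∀ t ∈ ev k c, t ∈ oSet Q s)
    (h₂ : ∀ t ∈ ev k d, t ∉ oSet Q s) : Stab k Q c ∧ Stab k Q d := by
  have key : ∀ t : k, jt (t ^ Q) c = jt t c ∧ jt (t ^ Q) d = jt t d := fun t => by
    have e := h t
    rw [jt_add, jt_add] at e
    by_cases ht : t ∈ oSet Q s
    · have e₁ := jt_eq_zero_iff.2 fun h => h₂ t h ht
      have e₂ := jt_eq_zero_iff.2 fun h => h₂ _ h ((zpow_mem_oSet hP hQ).2 ht)
      rw [e₁, e₂] at e ⊢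
      exact ⟨add_right_cancel e, rfl⟩
    · have e₁ := jt_eq_zero_iff.2 fun h => ht (h₁ t h)
      have e₂ := jt_eq_zero_iff.2 fun h => ht ((zpow_mem_oSet hP hQ).1 (h₁ _ h))
      rw [e₁, e₂] at e ⊢
      exact ⟨rfl, add_left_cancel e⟩
  exact ⟨fun t => (key t).1, fun t => (key t).2⟩

theorem isConjRoot_zpow_iff (hP : ParZ k Q R N) (hQ : (Nat.card F : ℤ) = Q ^ 2) (s : Mu k R) (i : ℕ) :
    IsConjRoot F (mv s) (mv s ^ Q ^ i) ↔ ∃ j, i ≡ 2 * j [MOD (eo Q s).deg] := by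
  rw [isConjRoot_iff]
  refine exists_congr fun j => ?_
  rw [← (per_mu hP).iterate_eq_iterate_iff, frz_iterate, frz_iterate, ← zpow_natCast, Nat.cast_pow, hQ,
    ← pow_mul, ← mv_zpow', ← mv_zpow', mv_injective.eq_iff]

theorem HF.card_cent_prod {V₁ V₂ : Type*} [AddCommGroup V₁] [Module F V₁] [Finite V₁] [AddCommGroup V₂]
    [Module F V₂] [Finite V₂] (hF : Sec F) {H₁ : HF F V₁} {H₂ : HF F V₂} (g : H.U) (g₁ : H₁.U) (g₂ : H₂.U)
    (h : cls (g.1 : End F V) = cls (g₁.1 : End F V₁) + cls (g₂.1 : End F V₂))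
    (h' : ∀ t ∈ ev k (cls (g₁.1 : End F V₁)), t ∉ ev k (cls (g₂.1 : End F V₂))) :
    Nat.card (centralizer {g}) = Nat.card (centralizer {g₁}) * Nat.card (centralizer {g₂}) := by
  let ι := (H₁.prod H₂).blkU H₁ H₂ (LinearEquiv.refl F _) fun _ _ => rfl
  have hφ : ∀ u, LinearEquiv.refl F _ ((g₁.1 : End F V₁).prodMap (g₂.1 : End F V₂) u) =
      ((ι (g₁, g₂)).1 : End F _) (LinearEquiv.refl F _ u) := fun u => (blkHom_apply _ _ _ u.1 u.2).symm
  rw [H.card_cent_congr hF _ (g' := ι (g₁, g₂)) (h.trans (cls_blkHom _ _ _).symm), ← Nat.card_prod]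
  refine (Nat.card_congr (Equiv.ofBijective (fun z => ⟨ι (z.1.1, z.2.1), (HF.mem_cent _).2
    (blkHom_mem_CG _ hφ (H₁.mem_cent.1 z.1.2) (H₂.mem_cent.1 z.2.2))⟩) ⟨fun z z' e => ?_, fun u => ?_⟩)).symm
  · have := HF.blkU_injective _ _ _ _ _ (congrArg Subtype.val e)
    exact Prod.ext (Subtype.ext (congrArg Prod.fst this)) (Subtype.ext (congrArg Prod.snd this))
  · obtain ⟨a, ha, b, hb, e⟩ := exists_blkHom_eq _ hφ h' ((HF.mem_cent _).1 u.2)
    obtain ⟨h₁, h₂⟩ := (HF.blkHom_mem _ H₁ H₂ _ fun _ _ => rfl).1 (e ▸ u.1.2)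
    exact ⟨(⟨⟨a, h₁⟩, H₁.mem_cent.2 ha⟩, ⟨⟨b, h₂⟩, H₂.mem_cent.2 hb⟩), Subtype.ext (Subtype.ext e)⟩

include hF hs

theorem sec_of_pow : Sec F := sec_of_pow' hF hs

/-- Self-duality: `H.toDual` takes `g` to `(g⁻¹).dualMap` (`jt_semilinear`, `sim_dualMap`, `jt_inv`). -/
theorem HF.stab {g : GLV F V} (hg : g ∈ H.U) : Stab k (-(q : ℤ)) (cls (g : End F V)) :=
  H.stab' hF hs hg

theorem HF.exists_mem {c : Iso F} (hc : c.dim = finrank F V) (h0 : (0 : k) ∉ ev k c)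
    (h : Stab k (-(q : ℤ)) c) : ∃ g ∈ H.U, cls (g : End F V) = c :=
  H.exists_mem' hF hs hc h0 h

theorem HF.card_cent_oSet (hP : ParZ k (-q) R N) (g : H.U) {s : Mu k R}
    (h : ∀ t ∈ ev k (cls (g.1 : End F V)), t ∈ oSet (-q) s) :
    (Nat.card (centralizer {g}) : ℂ) = acg (tyF k (-q) R (cls (g.1 : End F V))) := by
  have hQ : (Nat.card F : ℤ) = (-q) ^ 2 := by rw [hF]; simp
  have hF' := sec_of_pow hF hs
  have hst := H.stab (k := k) hF hs g.2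
  have hq := fq_eq_of_pow hF hs
  have h1 : (-(q : ℤ)).sign = -1 := by
    rw [Int.sign_neg, Int.sign_natCast_of_ne_zero (by have := hF'.one_lt; omega)]
  rw [tyF_eq_single h, acg_single, tyF_eo hP hst, h1]
  push_cast
  rcases Nat.even_or_odd' (eo (-q) s).deg with ⟨d, hd | hd⟩
  swap
  · have h2 : fdeg F (mv s) = (eo (-q) s).deg := Nat.dvd_antisymm
      ((fdeg_dvd_iff hP hQ s _).2 (dvd_mul_left _ _)) (Nat.Coprime.dvd_of_dvd_mul_left
        (by rw [hd]; simp) ((fdeg_dvd_iff hP hQ s _).1 dvd_rfl))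
    have h3 : ∀ t ∈ ev k (cls (g.1 : End F V)), IsConjRoot F (mv s) t := fun t ht => by
      obtain ⟨y, hy, rfl⟩ := h t ht
      obtain ⟨i, rfl⟩ := (mk_mu_eq_iff hP).1 hy.symm
      rw [mv_zpow', isConjRoot_zpow_iff hP hQ]
      exact ⟨i * (d + 1), ((Nat.modEq_iff_dvd' (by nlinarith)).2 ⟨i, by
        rw [hd]; exact Nat.sub_eq_of_eq_add (by ring)⟩)⟩
    rw [HF.card_cent_primary hF' _ V H g rfl h3, ← dim_cls (g.1 : End F V), dim_primary h3, h2, hq]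
  have h2 : fdeg F (mv s) = d := Nat.dvd_antisymm ((fdeg_dvd_iff hP hQ s _).2 (hd ▸ dvd_rfl))
    (Nat.dvd_of_mul_dvd_mul_left two_pos (hd ▸ (fdeg_dvd_iff hP hQ s _).1 dvd_rfl))
  have h3 : ∀ i, IsConjRoot F (mv s) (mv s ^ (-(q : ℤ)) ^ i) ↔ i % 2 = 0 := fun i => by
    rw [isConjRoot_zpow_iff hP hQ, hd]
    exact ⟨fun ⟨j, hj⟩ => by simpa [Nat.ModEq] using hj.of_mul_right d,
      fun hi => ⟨i / 2, by rw [show 2 * (i / 2) = i by omega]⟩⟩
  have h4 : ∀ t ∈ oSet (-q) s, (IsConjRoot F (mv s) (t ^ (-(q : ℤ))) ↔ ¬ IsConjRoot F (mv s) t) := by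
    rintro _ ⟨y, hy, rfl⟩
    obtain ⟨i, rfl⟩ := (mk_mu_eq_iff hP).1 hy.symm
    rw [mv_zpow', ← zpow_mul, ← pow_succ, h3, h3]
    omega
  have h5 : ∀ t, IsConjRoot F (mv s) t → t ∈ oSet (-q) s :=
    conjCl_oSet hP ⟨_, hQ⟩ s _ (mv_mem_oSet.2 rfl)
  obtain ⟨c, c', e, h6, h7⟩ := exists_add_eq (conjCl_cj (F := F) (mv s)) (cls (g.1 : End F V))
  obtain ⟨x, hx⟩ := (isUnit_rep_iff (k := k) (c := c)).2 fun h0 =>
    (isUnit_iff_ev (k := k)).1 g.1.isUnit (by rw [e, ev_add]; simp [h0])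
  have hx' : cls (x : End F (Fin c.dim → F)) = c := by rw [hx, cls_rep]
  obtain ⟨ι, i1, i2, i3⟩ := exists_hypU (k := k) (W := Fin c.dim → F) hF' (HF.std F (Fin (2 * c.dim)))
    (by simp)
  have h8 : ∀ t : k, jt (t ^ (-(q : ℤ))) c = jt t c' := fun t => by
    by_cases ht : IsConjRoot F (mv s) t
    · rw [jt_eq_zero_iff.2 fun h => h7 t h ht,
        jt_eq_zero_iff.2 fun h => (h4 t (h5 t ht)).1 (h6 _ h) ht]
    by_cases ht' : t ∈ oSet (-q) s
    · have := hst t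
      rwa [e, jt_add, jt_add, jt_eq_zero_iff.2 fun h => ht (h6 t h),
        jt_eq_zero_iff.2 fun h => h7 _ h ((h4 t ht').2 ht), add_zero, zero_add] at this
    · rw [jt_eq_zero_iff.2 fun h => ht' ((zpow_mem_oSet hP hQ).1 (h5 _ (h6 _ h))),
        jt_eq_zero_iff.2 fun h' => ht' (h t (by rw [e, ev_add]; simp [h']))]
  rw [H.card_cent_congr hF' _ (g' := ι x) (ext_jt k fun t => by rw [i2, hx', hq, h8, e, jt_add]),
    le_antisymm (i3 x fun t ht ht' => by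
      rw [hx'] at ht ht'
      exact (h4 t (h5 t (h6 t ht))).1 (h6 _ (hq ▸ ht')) (h6 t ht)) (by
      rintro _ ⟨y, hy, rfl⟩
      rw [mem_centralizer_singleton_iff, ← map_mul, ← map_mul, mem_centralizer_singleton_iff.1 hy]),
    card_map_of_injective i1, Gun.card_cent_primary (s := mv s) x (hx'.symm ▸ h6), hx', e, jt_add,
    jt_eq_zero_iff.2 fun h => h7 _ h IsConjRoot.refl, add_zero, h2, hd, hF, mul_assoc, pow_mul, pow_mul]
  simp [← pow_mul]

theorem HF.card_cent (hP : ParZ k Q R N) (hQ : Q = -q) (g : H.U)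
    (hg : InMu k R (cls (g.1 : End F V))) :
    (Nat.card (centralizer {g}) : ℂ) = acg (tyF k Q R (cls (g.1 : End F V))) := by
  subst hQ
  have hQ : (Nat.card F : ℤ) = (-q) ^ (1 + 1) := by rw [hF]; simp [sq]
  have hF' := sec_of_pow hF hs
  have key : ∀ n (c : Iso F) (g : (HF.std F (Fin n)).U), cls (g.1 : End F (Fin n → F)) = c →
      InMu k R c → (Nat.card (centralizer {g}) : ℂ) = acg (tyF k (-q) R c) := by
    intro n
    induction n using Nat.strong_induction_on with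
    | _ n ih =>
    intro c g hc h
    have hn : c.dim = n := by rw [← hc]; simp
    by_cases h0 : c.dim = 0
    · exact hc ▸ HF.card_cent_oSet _ hF hs hP g (s := 1) (by rw [hc, dim_eq_zero.1 h0]; simp)
    obtain ⟨s, c₁, c₂, rfl, -, h1, h₁, h₂⟩ := exists_split_oSet hP ⟨_, hQ⟩ h h0
    obtain ⟨s₁, s₂⟩ := Stab.left hP hQ (hc ▸ HF.stab _ hF hs g.2) h₁ h₂
    have h3 : (0 : k) ∉ ev k (c₁ + c₂) := hc ▸ (isUnit_iff_ev (k := k)).1 g.1.isUnit
    rw [ev_add, Multiset.mem_add, not_or] at h3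
    obtain ⟨g₁, m₁, e₁⟩ := (HF.std F (Fin c₁.dim)).exists_mem hF hs (by simp) h3.1 s₁
    obtain ⟨g₂, m₂, e₂⟩ := (HF.std F (Fin c₂.dim)).exists_mem hF hs (by simp) h3.2 s₂
    rw [HF.card_cent_prod (k := k) _ hF' g ⟨g₁, m₁⟩ ⟨g₂, m₂⟩ (by rw [hc, e₁, e₂])
      (by rw [e₁, e₂]; exact fun t h h' => h₂ t h' (h₁ t h)), Nat.cast_mul,
      ih _ (hn ▸ h1) c₂ ⟨g₂, m₂⟩ e₂ h.right, HF.card_cent_oSet _ hF hs hP ⟨g₁, m₁⟩ (e₁.symm ▸ h₁), e₁,
      acg_tyF_add h₁ h₂]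
  obtain ⟨g', m, e⟩ := (HF.std F (Fin (finrank F V))).exists_mem hF hs (by simp)
    ((isUnit_iff_ev (k := k)).1 g.1.isUnit) (H.stab hF hs g.2)
  rw [H.card_cent_congr hF' _ (g' := ⟨g', m⟩) e.symm, key _ _ ⟨g', m⟩ e hg]

/-- Hilbert 90 in the commutative `*`-algebra `F[g]`: `g = b * (b^*)⁻¹`, and `det b^* = (det b) ^ q`. -/
theorem HF.exists_det_eq (g : H.U) : ∃ b : GLV F V,
    (∀ x : GLV F V, Commute x g → Commute x b) ∧ dt g.1 * dt b ^ q = dt b :=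
  H.exists_det_eq' hF hs g

/-- For `b` in a commutative centralizer, `b * (b^*)⁻¹` is unitary. -/
theorem HF.exists_of_comm (x : H.U)
    (hx : ∀ a b : End F V, Commute a x.1 → Commute b x.1 → Commute a b)
    {b : GLV F V} (hb : Commute b x) : ∃ g : H.U, Commute g x ∧ dt g.1 * dt b ^ q = dt b :=
  H.exists_of_comm' hF hs x hx hb

end Cfsg.Gun
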