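import Cfsg.Agent.Gun.RzGL
import Cfsg.Agent.Gun.UCls
import Cfsg.Agent.Gun.UEx
import Cfsg.Agent.Gun.Fld
import Cfsg.Agent.Gun.Whit
import Cfsg.Agent.Gun.RzUA

/-!
# The realization on `GU_n(q)` (S4537 project)

`rbU`: `Gun/UV`, `Gun/UCls` (`ParZ.par_sq`).  `gen`: `gen_of_weil`; `hW` from `isCharacter_weil` for the action `A ↦ g A h⁻¹` on
`Hom(W, V)` with the form `tr (adjm A ∘ B)` (or on matrices `Fin n × Fin m → F` with the standard form), `finrank_itw_eq`;
`hE` = `isGen_esymm`.  `cd₁`: `HF.exists_det_eq`, `exists_dt_eq_pow`.  `cd₂`: realise `Pi.single o {j}` and the rest on standard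
spaces, `blkU`, `isConj_iff`; `comm_of_card_le_one`, `exists_comm_dt`, `HF.exists_of_comm`, and every `z` with `z ^ (q+1) = 1` is
`w ^ (1 - q)`.  `wh`: `exists_whittakerU`, `card_tyF_one`, `unip_tyF_iff`.
-/

set_option autoImplicit false
set_option linter.unusedSectionVars false
set_option linter.unusedVariables false
set_option linter.style.haveILetI false

namespace Cfsg.Gun

open Module Finset Function Gln Subgroup

universe u

variable {F : Type u} [Field F] [StarRing F] [Finite F] {k : Type u} [Field k] [Algebra F k]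
  [IsAlgClosed k] [Algebra.IsAlgebraic F k] {Q : ℤ} {R N n : ℕ} [NeZero R]

variable (F) in
/-- The general unitary group. -/
abbrev GU (n : ℕ) : Type u := (HF.std F (Fin n)).U

variable (hF : Sec F) (hP : ParZ k Q R (2 * N)) (hQ : Q = -(fq F : ℤ))
include hF hP hQ

theorem parU : Par (Nat.card F) R N := by
  subst hQ
  exact hF.card_eq ▸ hP.par_sq

omit hP in
theorem stabU {V : Type*} [AddCommGroup V] [Module F V] [Finite V] {H : HF F V} (g : H.U) :
    Stab k Q (cls (g.1 : End F V)) := hQ ▸ H.stab' hF.card_eq hF.star_eq_pow g.2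

omit hP in
theorem card_eq_sqU : (Nat.card F : ℤ) = Q ^ 2 := by rw [hQ, hF.card_eq, neg_sq, Nat.cast_pow]

omit hF hP in
theorem tn_oneU : tn Q 1 = fq F + 1 := by
  rw [hQ, tn, pow_one]
  omega

/-- The classes of `GU_n`. -/
noncomputable def rbU (n : ℕ) (hn : n ≤ N) : Rb k Q R n (GU F n) where
  ty g := tyF k Q R (cls (g.1 : End F (Fin n → F)))
  mem g := (mem_Cls hP).2 ⟨tpos_tyF _, (tsz_tyF hP (stabU hF hQ g)
    (inMu_of_par (parU hF hP hQ) (by simpa) g.1)).trans (by simp)⟩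
  surj τ h := by
    obtain ⟨c, h1, h2, h3, rfl⟩ := exists_iso_of_mem (F := F) hP ⟨2, card_eq_sqU hF hQ⟩ h
    obtain ⟨g, hg, rfl⟩ := (HF.std F (Fin n)).exists_mem' hF.card_eq hF.star_eq_pow
      (by simp [h1]) h2 (hQ ▸ h3)
    exact ⟨⟨g, hg⟩, rfl⟩
  conj g h := ⟨fun e => (HF.isConj_iff _ hF).2 (eq_of_tyF hP (stabU hF hQ g)
    (inMu_of_par (parU hF hP hQ) (by simpa) g.1) (stabU hF hQ h)
    (inMu_of_par (parU hF hP hQ) (by simpa) h.1) e), fun e => by rw [(HF.isConj_iff _ hF).1 e]⟩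
  card g := HF.card_cent _ hF.card_eq hF.star_eq_pow hP hQ g
    (inMu_of_par (parU hF hP hQ) (by simpa) g.1)

theorem exists_rzU (hn : n ≤ N) : ∃ r : Rz k Q R n (GU F n), IsLin r (Subgroup.subtype _) := by
  have hP' := parU hF hP hQ
  refine exists_rz_of_lin hP ⟨2, card_eq_sqU hF hQ⟩ (rbU hF hP hQ n hn) _ (fun _ => rfl) (by simp)
    Subtype.val_injective (stabU hF hQ) (fun g => inMu_of_par hP' (by simpa) g.1)
    (fun c hc => ⟨⟨_, HF.scal_mem _ ?_⟩, rfl⟩) (fun x g r hr h hg => ?_) (fun x o j hj c hc => ?_)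
    (fun u hu => gen_of_weil (hP.mono (by omega)) (rbU hF hP hQ) (fun n m hn hm => ?_)
      (fun n hn ω j => isGen_esymm hP hP' (by simpa) (Subgroup.subtype _) (stabU hF hQ) ω j) hn hu)
    fun h0 => ?_
  · rw [tn_oneU hQ] at hc
    rw [hF.star_eq_pow, ← pow_succ, ← Units.val_pow_eq_pow_val, hc, Units.val_one]
  · exact tn_oneU hQ ▸ HF.cd₁ k hF _ hr h hg
  · exact HF.cd₂ k hF _ x hj (tn_oneU hQ ▸ hc)
  · exact HF.weil_hdg hF hP hQ _ (by simpa) m
  · obtain ⟨U, h1, h2, ψ, ε, h3, h4⟩ := (HF.std F (Fin n)).exists_wh hF hP hQ (by simpa) (by simpa)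
    refine ⟨U, fun u hu => (unip_tyF_iff hP (inMu_of_par hP' (by simpa) u.1) (stabU hF hQ u)).1
      (h1 u hu), h2, ψ, ε, h3, ?_⟩
    simp only [card_tyF_one hP] at h4
    exact h4

end Cfsg.Gun

set_option linter.all false in
theorem Cfsg.Rz.Gun_RzU_0 : True := by
  have := @_root_.Cfsg.Gun.GU.eq_def.{0}
  have := @_root_.Cfsg.Gun.GU.eq_1.{0}
  have := @_root_.Cfsg.Gun.GU.fun_cases
  have := @_root_.Cfsg.Gun.rbU.congr_simp.{0}
  have := @_root_.Cfsg.Gun.rbU.eq_def.{0}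
  have := @_root_.Cfsg.Gun.rbU.eq_1.{0}
  have := @_root_.Cfsg.Gun.rbU.fun_cases
  trivial
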