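import Cfsg.Agent.Gun.Rz
import Cfsg.Agent.Gln.BlkProd

/-!
# Sections at `p`-elements in the Ennola algebra (S4537 project; replaces `Gln/StepA`)

`ζ` a `p`-element of `Mu` whose orbit under `Q` has length `c`.  `y ↦ ζ * y` induces an injection of the `p`-regular orbits for
`Q ^ c` into the orbits for `Q`, multiplying the length by `c`; `tau` is the corresponding substitution.
`Emb.ty_sc_mul`: `ty_ι`, `ty_sc`: the term `i` is `ty₁ x (eo (ζ ^ (Q ^ i - 1) * y ^ Q ^ i))`, zero unless `i = 0` (`reg`).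
`ip_secFun`: for `u = mX (f₁ + f₂)` (`f₁` on `p`-singular, `f₂` on `p`-regular colours) both sides are
`bf (tau (mX f₁)) (cj θ) * ip (res (mX f₂)) ψ` (`vl_add_mX`, `Emb.res_tau`, `EE_mX`, `ip` of a product function).
-/

set_option autoImplicit false
set_option linter.unusedSectionVars false
set_option linter.unusedVariables false
set_option linter.style.haveILetI false

namespace Cfsg.Gun

open Finset Function Gln Subgroup MvPolynomial

universe u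

variable {k : Type u} [Field k] {Q : ℤ} {R N n m c p : ℕ} [NeZero R]

open Classical in
/-- The substitution attached to `ζ`. -/
noncomputable def tau (p c : ℕ) (ζ : Mu k R) : Lam k Q R →ₐ[ℂ] Lam k (Q ^ c) R :=
  aeval fun i => if h : ∃ y, IsPRegular p y ∧ eo Q (ζ * y) = i.1 then
    (X (eo (Q ^ c) h.choose, i.2) : Lam k (Q ^ c) R) else 0

/-- The generalized decomposition map. -/
noncomputable def EE (p c : ℕ) (ζ : Mu k R) (θ : Lam k (Q ^ c) R) : Lam k Q R →ₗ[ℂ] Lam k Q R :=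
  (cut p).toLinearMap ∘ₗ dcf fun i => bf (tau p c ζ (X i)) θ

variable {ζ : Mu k R}

theorem EE_one (θ : Lam k (Q ^ c) R) : EE p c ζ θ (1 : Lam k Q R) = 0 := by
  rw [EE, LinearMap.comp_apply, dcf_one, map_zero]

theorem EE_mul (θ : Lam k (Q ^ c) R) {u : Lam k Q R} (hu : u ∈ lin1 k Q R) (v : Lam k Q R) :
    EE p c ζ θ (u * v) = bf (tau p c ζ u) θ • cut p v + cut p u * EE p c ζ θ v := by
  have := dcf_lin1 (bf.flip θ ∘ₗ (tau p c ζ).toLinearMap) hu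
  change dcf (fun i => bf (tau p c ζ (X i)) θ) u = C (bf (tau p c ζ u) θ) at this
  change cut p (dcf _ (u * v)) = _ + _ * cut p (dcf _ v)
  rw [dcf_mul, this, map_add, map_mul, add_comm, C_mul', map_smul]

theorem tau_pX_eq_zero {o : EO k Q R} (h : ∀ y, IsPRegular p y → eo Q (ζ * y) ≠ o) (j : ℕ) :
    tau p c ζ (pX o j) = 0 := by
  cases j with
  | zero => exact map_zero _
  | succ j => rw [pX_succ, tau, aeval_X, dif_neg fun ⟨y, hy, e⟩ => h y hy e]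

variable [IsAlgClosed k] (hP : ParZ k Q R N) (hP' : ParZ k (Q ^ c) R m) (hp : p.Prime)
  (hζ : IsPElt p ζ) (hd : (eo Q ζ).deg = c)
include hP hP' hp hζ hd

omit hP' hd hP in
theorem eq_of_zpow_eq {y t : Mu k R} (hy : IsPRegular p y) (ht : IsPRegular p t) {j : ℤ}
    (h : (ζ * y) ^ j = ζ * t) : ζ ^ j = ζ ∧ y ^ j = t := by
  haveI := Fact.mk hp
  obtain ⟨s, hs⟩ := isPElt_iff_pow_eq_one.1 hζ
  rw [mul_zpow] at h
  have h1 := congrArg (pPart p) h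
  rw [pPart_mul_eq (Commute.all _ _) (isPElt_iff_pow_eq_one.2 ⟨s, zpow_pow_eq_one hs j⟩) (hy.zpow j),
    pPart_mul_eq (Commute.all _ _) hζ ht] at h1
  exact ⟨h1, mul_left_cancel ((congrArg (· * _) h1).symm.trans h)⟩

omit hP' hp hζ in
theorem zpow_eq_iff_dvd {i : ℕ} : ζ ^ Q ^ i = ζ ↔ c ∣ i := by
  rw [zpow_pow_eq_iff, ← deg_mu_dvd_iff hP, ← hd]

omit hP' in
theorem dvd_of_zpow_eq {y t : Mu k R} (hy : IsPRegular p y) (ht : IsPRegular p t) {i : ℕ}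
    (h : (ζ * y) ^ Q ^ i = ζ * t) : c ∣ i ∧ y ^ Q ^ i = t :=
  (eq_of_zpow_eq hp hζ hy ht h).imp_left (zpow_eq_iff_dvd hP hd).1

omit hP' hp hζ in
theorem mul_zpow_pow (y : Mu k R) (l : ℕ) : (ζ * y) ^ Q ^ (c * l) = ζ * y ^ (Q ^ c) ^ l := by
  rw [mul_zpow, (zpow_eq_iff_dvd hP hd).2 (dvd_mul_right _ _), pow_mul]

omit hP' hd in
theorem not_reg_mul (h1 : ζ ≠ 1) {y : Mu k R} (hy : IsPRegular p y) :
    ¬ IsPRegular p (eo Q (ζ * y)).rep := fun h => by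
  haveI := Fact.mk hp
  have := pPart_eq_one_iff.2 ((isPRegular_rep_mk hP _).1 h)
  exact h1 ((pPart_mul_eq (Commute.all _ _) hζ hy).symm.trans this)

theorem eo_mul_eq_iff {y y' : Mu k R} (hy : IsPRegular p y) (hy' : IsPRegular p y') :
    eo Q (ζ * y) = eo Q (ζ * y') ↔ eo (Q ^ c) y = eo (Q ^ c) y' := by
  rw [eo, eo, eo, eo, mk_mu_eq_iff hP, mk_mu_eq_iff hP']
  refine ⟨fun ⟨i, hi⟩ => ?_, fun ⟨l, hl⟩ => ⟨c * l, by rw [mul_zpow_pow hP hd, hl]⟩⟩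
  obtain ⟨⟨l, rfl⟩, h⟩ := dvd_of_zpow_eq hP hp hζ hd hy hy' hi.symm
  exact ⟨l, by rw [← h, pow_mul]⟩

theorem deg_eo_mul {y : Mu k R} (hy : IsPRegular p y) :
    (eo Q (ζ * y)).deg = c * (eo (Q ^ c) y).deg := by
  refine Nat.dvd_antisymm ?_ ?_
  · rw [deg_mu_dvd_iff hP, ← zpow_pow_eq_iff, mul_zpow_pow hP hd,
      (zpow_pow_eq_iff y).2 ((deg_mu_dvd_iff hP').1 dvd_rfl)]
  · obtain ⟨⟨l, hl⟩, h⟩ := dvd_of_zpow_eq hP hp hζ hd hy hy
      ((zpow_pow_eq_iff _).2 ((deg_mu_dvd_iff hP).1 dvd_rfl))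
    rw [hl, pow_mul, zpow_pow_eq_iff, ← deg_mu_dvd_iff hP'] at h
    exact hl ▸ mul_dvd_mul_left _ h

theorem tau_pX {y : Mu k R} (hy : IsPRegular p y) (j : ℕ) :
    tau p c ζ (pX (eo Q (ζ * y)) j) = pX (eo (Q ^ c) y) j := by
  cases j with
  | zero => exact map_zero _
  | succ j =>
    have h : ∃ y', IsPRegular p y' ∧ eo Q (ζ * y') = eo Q (ζ * y) := ⟨y, hy, rfl⟩
    rw [pX_succ, tau, aeval_X, dif_pos h, pX_succ,
      (eo_mul_eq_iff hP hP' hp hζ hd h.choose_spec.1 hy).1 h.choose_spec.2]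

theorem cut_tau (u : Lam k Q R) : cut p (tau p c ζ u) = tau p c ζ u := by
  refine AlgHom.congr_fun (algHom_ext_pX (φ := (cut p).comp (tau p c ζ)) fun o j _ => ?_) u
  by_cases h : ∃ y, IsPRegular p y ∧ eo Q (ζ * y) = o
  · obtain ⟨y, hy, rfl⟩ := h
    rw [AlgHom.comp_apply, tau_pX hP hP' hp hζ hd hy, cut_pX, if_pos ((isPRegular_rep_mk hP' y).2 hy)]
  · rw [AlgHom.comp_apply, tau_pX_eq_zero fun y hy e => h ⟨y, hy, e⟩, map_zero]

theorem tau_pX_mem (o : EO k Q R) (j : ℕ) : tau p c ζ (pX o j) ∈ lin1 k (Q ^ c) R := by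
  by_cases h : ∃ y, IsPRegular p y ∧ eo Q (ζ * y) = o
  · obtain ⟨y, hy, rfl⟩ := h
    rw [tau_pX hP hP' hp hζ hd hy]
    exact pX_mem_lin1 _ _
  · rw [tau_pX_eq_zero fun y hy e => h ⟨y, hy, e⟩]
    exact zero_mem _

theorem tau_mX {f : Ty k Q R} (hf : TPos f) :
    (tau p c ζ (mX f) = 0 ∧ ∃ o, f o ≠ 0 ∧ ∀ y, IsPRegular p y → eo Q (ζ * y) ≠ o) ∨
    ∃ g, TPos g ∧ TReg p g ∧ tau p c ζ (mX f) = mX g ∧ tsz f = c * tsz g ∧
      (∀ y, IsPRegular p y → f (eo Q (ζ * y)) = g (eo (Q ^ c) y)) ∧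
      ∀ o, (∀ y, IsPRegular p y → eo Q (ζ * y) ≠ o) → f o = 0 := by
  refine induction_tpos (P := fun f => (tau p c ζ (mX f) = 0 ∧ ∃ o, f o ≠ 0 ∧
      ∀ y, IsPRegular p y → eo Q (ζ * y) ≠ o) ∨
    ∃ g, TPos g ∧ TReg p g ∧ tau p c ζ (mX f) = mX g ∧ tsz f = c * tsz g ∧
      (∀ y, IsPRegular p y → f (eo Q (ζ * y)) = g (eo (Q ^ c) y)) ∧
      ∀ o, (∀ y, IsPRegular p y → eo Q (ζ * y) ≠ o) → f o = 0)
    (.inr ⟨0, tpos_zero, fun _ h => absurd rfl h, by simp, by simp, fun _ _ => rfl, fun _ _ => rfl⟩)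
    (fun o j f hj hf ih => ?_) hf
  rw [mX_cons, map_mul]
  by_cases h : ∃ y, IsPRegular p y ∧ eo Q (ζ * y) = o
  swap
  · exact .inl ⟨by rw [tau_pX_eq_zero fun y hy e => h ⟨y, hy, e⟩, zero_mul], o, by simp,
      fun y hy e => h ⟨y, hy, e⟩⟩
  obtain ⟨y, hy, rfl⟩ := h
  rcases ih with ⟨h1, o, h2, h3⟩ | ⟨g, h1, h2, h3, h4, h5, h6⟩
  · exact .inl ⟨by rw [h1, mul_zero], o, by simp [h2], h3⟩
  refine .inr ⟨Pi.single (eo (Q ^ c) y) {j} + g, tpos_cons hj h1, fun o ho => ?_, ?_, ?_,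
    fun y' hy' => ?_, fun o ho => ?_⟩
  · by_cases e : o = eo (Q ^ c) y
    · exact e ▸ (isPRegular_rep_mk hP' y).2 hy
    · exact h2 o (by simpa [e] using ho)
  · rw [tau_pX hP hP' hp hζ hd hy, h3, mX_cons]
  · rw [tsz_cons, tsz_cons, h4, deg_eo_mul hP hP' hp hζ hd hy]; ring
  · simp only [Pi.add_apply, Pi.single_apply, h5 y' hy', eo_mul_eq_iff hP hP' hp hζ hd hy' hy]
  · rw [Pi.add_apply, h6 o ho, Pi.single_eq_of_ne' (ho y hy), add_zero]

theorem tau_mem_hom {u : Lam k Q R} (h : u ∈ hom k Q R n) :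
    tau p c ζ u ∈ hom k (Q ^ c) R (n / c) ∧ (¬ c ∣ n → tau p c ζ u = 0) := by
  have hc : 0 < c := hd ▸ eo_deg_pos hP _
  refine Submodule.span_induction (p := fun u _ => tau p c ζ u ∈ hom k (Q ^ c) R (n / c) ∧
    (¬ c ∣ n → tau p c ζ u = 0)) ?_ (by simp) (fun u v _ _ h h' => ⟨?_, fun e => ?_⟩)
    (fun a u _ h => ⟨?_, fun e => ?_⟩) h
  · rintro _ ⟨f, ⟨hf, rfl⟩, rfl⟩
    rcases tau_mX hP hP' hp hζ hd hf with ⟨h1, -⟩ | ⟨g, h1, -, h3, h4, -⟩
    · simp [h1]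
    · rw [h3, h4, Nat.mul_div_cancel_left _ hc]
      exact ⟨mX_mem_hom h1, fun e => absurd (dvd_mul_right _ _) e⟩
  · rw [map_add]; exact add_mem h.1 h'.1
  · rw [map_add, h.2 e, h'.2 e, add_zero]
  · rw [map_smul]; exact Submodule.smul_mem _ _ h.1
  · rw [map_smul, h.2 e, smul_zero]

theorem tau_pI {y : Mu k R} (hy : IsPRegular p y) (l : ℕ) :
    tau p c ζ (pI Q (c * l) (ζ * y)) = pI (Q ^ c) l y := by
  have hc : 0 < c := hd ▸ eo_deg_pos hP _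
  rw [pI, pI, deg_eo_mul hP hP' hp hζ hd hy, Nat.mul_div_mul_left _ _ hc]
  simp only [Nat.mul_dvd_mul_iff_left hc]
  split_ifs
  · exact tau_pX hP hP' hp hζ hd hy _
  · exact map_zero _

theorem tau_P (hm : 0 < m) (hN : c * m ≤ N) {a : Lab k R} (ha : a ^ tn Q (c * m) = 1)
    (ha' : IsPRegular p a) : tau p c ζ (P Q (c * m) a) =
      ∑ i ∈ range c, cut p (P (Q ^ c) m (a ^ Q ^ i)) := by
  classical
  haveI := Fact.mk hp
  have hc : 0 < c := hd ▸ eo_deg_pos hP _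
  have hR := hP.cast
  have hm' : (Q ^ (c * m) - 1).natAbs ∣ R := hP.dvd (Nat.mul_pos hc hm) hN
  have hZ : ζ ^ tn Q (c * m) = 1 := (deg_mu_dvd_iff hP).1 (hd.dvd.mul_right m)
  have hi := hP.zpow_injective (A := Mu k R) Mu.pow_eq_one
  simp only [cut_P_eq hP', tn_pow, ← pow_mul, ite_smul, zero_smul, ← sum_filter]
  rw [← sum_product', P, map_sum]
  refine (sum_of_injOn (fun x : ℕ × Mu k R => (ζ * x.2) ^ Q ^ x.1) ?_ (fun x hx => ?_)
    (fun x hx hx' => ?_) fun x hx => ?_).symm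
  · have key : ∀ {i i' : ℕ} {y y' : Mu k R}, i ≤ i' → i' < c → IsPRegular p y →
        IsPRegular p y' → (ζ * y) ^ Q ^ i = (ζ * y') ^ Q ^ i' → i = i' ∧ y = y' := by
      intro i i' y y' h hi' hy hy' e
      obtain ⟨l, rfl⟩ := Nat.exists_eq_add_of_le h
      rw [add_comm, pow_add, zpow_mul] at e
      obtain ⟨h2, h3⟩ := dvd_of_zpow_eq hP hp hζ hd hy' hy (hi i e).symm
      obtain rfl := Nat.eq_zero_of_dvd_of_lt h2 (by omega)
      exact ⟨rfl, by simpa using h3.symm⟩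
    intro x hx x' hx' e
    simp only [coe_product, coe_range, coe_filter, Set.mem_prod, Set.mem_Iio, Set.mem_ofPred_eq]
      at hx hx'
    rcases le_total x.1 x'.1 with h | h
    · exact Prod.ext_iff.2 (key h hx'.1 hx.2.2 hx'.2.2 e)
    · exact (Prod.ext_iff.2 (key h hx.1 hx'.2.2 hx.2.2 e.symm)).symm
  · simp only [coe_product, coe_range, coe_filter, Set.mem_prod, Set.mem_Iio, Set.mem_ofPred_eq,
      mem_filter, mem_univ, true_and] at hx ⊢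
    exact zpow_pow_eq_one (by rw [mul_pow, hZ, hx.2.1, one_mul]) _
  · rw [map_smul, pI, if_pos ((deg_mu_dvd_iff hP).2 (mem_filter.1 hx).2),
      tau_pX_eq_zero fun y hy e => hx' ?_, smul_zero]
    obtain ⟨i, h⟩ := (mk_mu_eq_iff hP).1 e
    rw [← Nat.div_add_mod i c, pow_add, zpow_mul, mul_zpow_pow hP hd] at h
    have hy' := hy.zpow ((Q ^ c) ^ (i / c))
    generalize y ^ (Q ^ c) ^ (i / c) = y' at h hy'
    have h1 := (zpow_pow_eq_iff x).2 (mem_filter.1 hx).2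
    rw [h, zpow_comm] at h1
    have h2 := (dvd_of_zpow_eq hP hp hζ hd hy' hy' (hi _ h1)).2
    refine ⟨(i % c, y'), ?_, h.symm⟩
    simpa [(zpow_pow_eq_iff y').1 h2, Nat.mod_lt _ hc] using hy'
  · simp only [mem_product, mem_filter, mem_univ, true_and] at hx
    have h1 : (a ^ Q ^ x.1) ^ tn Q (c * m) = 1 := zpow_pow_eq_one (A := Lab k R) ha _
    obtain ⟨s, hs⟩ := hζ
    rw [map_smul, pI_congr _ (eo_zpow hP _ _), tau_pI hP hP' hp ⟨s, hs⟩ hd hx.2.2,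
      prz_zpow hR hm' (by rw [mul_pow, ← tn, hZ, hx.2.1, one_mul]) ha,
      prz_mul_left hR hm' hZ hx.2.1 h1, prz_eq_one_of_coprime hR hm' hZ h1
        (hs ▸ (isPRegular_iff_coprime.1 (ha'.zpow _)).symm.pow_left s), one_mul]

theorem bf_tau_P (hm : 0 < m) (hN : c * m ≤ N) (h0 : 0 < n) (hn : n ≤ N) {a b : Lab k R}
    (ha : a ^ tn Q (c * m) = 1) (hb : b ^ tn Q n = 1) (ha' : IsPRegular p a) (hb' : IsPRegular p b) :
    bf (tau p c ζ (P Q n b)) (cj (P (Q ^ c) m a)) = if n = c * m then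
      (#{i ∈ range n | b ^ Q ^ i = a} : ℂ) / (ordProj[p] (tn Q n) : ℕ) else 0 := by
  classical
  have hc : 0 < c := hd ▸ eo_deg_pos hP _
  split_ifs with h
  swap
  · have h1 := tau_mem_hom hP hP' hp hζ hd (P_mem_hom n b)
    by_cases h2 : c ∣ n
    · exact bf_eq_zero h1.1 (cj_mem_hom (P_mem_hom m a)) fun e =>
        h (by rw [← e, Nat.mul_div_cancel' h2])
    · rw [h1.2 h2, map_zero, LinearMap.zero_apply]
  subst h
  rw [tau_P hP hP' hp hζ hd hm hN hb hb', map_sum, LinearMap.sum_apply, card_filter, sum_range_mul',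
    Nat.cast_sum, sum_div]
  refine sum_congr rfl fun i _ => ?_
  rw [bf_cut_P hP' hm le_rfl hp hm le_rfl (by rw [tn_pow]; exact zpow_pow_eq_one (A := Lab k R) hb _)
    (by rwa [tn_pow]) (hb'.zpow _) ha', if_pos rfl, tn_pow, card_filter]
  congr 2
  refine sum_congr rfl fun j _ => ?_
  rw [← zpow_mul b, ← pow_mul, ← pow_add, add_comm]

theorem EE_mX (h1 : ζ ≠ 1) {θ : Lam k (Q ^ c) R} (hθ : θ ∈ lin1 k (Q ^ c) R) {f₁ f₂ : Ty k Q R}
    (h₁ : TPos f₁) (h₂ : TPos f₂) (hf₁ : ∀ o, IsPRegular p o.rep → f₁ o = 0) (hf₂ : TReg p f₂) :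
    EE p c ζ θ (mX (f₁ + f₂)) = bf (tau p c ζ (mX f₁)) θ • mX f₂ := by
  have h2 : ∀ {o}, IsPRegular p o.rep → ∀ j, tau p c ζ (pX o j) = 0 := fun ho =>
    tau_pX_eq_zero fun y hy e => not_reg_mul hP hp hζ h1 hy (e ▸ ho)
  have h3 : ∀ w, EE p c ζ θ (mX f₂ * w) = mX f₂ * EE p c ζ θ w := fun w =>
    induction_tpos (P := fun f => TReg p f → EE p c ζ θ (mX f * w) = mX f * EE p c ζ θ w)
      (fun _ => by simp) (fun o j f hj hf ih h => by
        have ho := h o (by simp)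
        rw [mX_cons, mul_assoc, EE_mul θ (pX_mem_lin1 o j), h2 ho, cut_pX, if_pos ho,
          ih fun o' h' => h o' (by simp [h']), map_zero, LinearMap.zero_apply, zero_smul, zero_add,
          mul_assoc]) h₂ hf₂
  rw [add_comm, mX_add, h3, ← mul_one (mX f₂), ← mul_smul_comm, mul_one]
  congr 1
  have h4 : ∀ {o j} {f : Ty k Q R}, (∀ o', IsPRegular p o'.rep → (Pi.single o {j} + f : Ty k Q R) o' = 0) →
      cut p (pX o j) = 0 ∧ ∀ o', IsPRegular p o'.rep → f o' = 0 := fun {o j f} h =>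
    ⟨by rw [cut_pX, if_neg fun ho => by simpa using h o ho], fun o' ho' =>
      (add_eq_zero.1 (h o' ho')).2⟩
  refine induction_tpos (P := fun f => (∀ o, IsPRegular p o.rep → f o = 0) →
    EE p c ζ θ (mX f) = bf (tau p c ζ (mX f)) θ • 1)
    (fun _ => by rw [mX_zero, EE_one, map_one, bf_one_lin1 hθ, zero_smul])
    (fun o j f hj hf _ h => ?_) h₁ hf₁
  rw [mX_cons, EE_mul θ (pX_mem_lin1 o j), (h4 h).1, zero_mul, add_zero, map_mul]
  refine induction_tpos (P := fun f => (∀ o, IsPRegular p o.rep → f o = 0) →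
    bf (tau p c ζ (pX o j)) θ • cut p (mX f) = bf (tau p c ζ (pX o j) * tau p c ζ (mX f)) θ • 1)
    (fun _ => by simp) (fun o' j' f _ _ _ h => ?_) hf (h4 h).2
  rw [mX_cons, map_mul, (h4 h).1, zero_mul, smul_zero, map_mul (tau p c ζ),
    bf_mul_left (tau_pX_mem hP hP' hp hζ hd o j), der,
    show (fun i => bf (X i) (tau p c ζ (pX o j))) = fun i => bf.flip (tau p c ζ (pX o j)) (X i) from rfl,
    dcf_lin1 _ hθ, C_eq_smul_one, map_smul, bf_mul_left (tau_pX_mem hP hP' hp hζ hd o' j'), der_one,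
    map_zero, smul_zero, zero_smul]

end Cfsg.Gun

namespace Cfsg.Gun

open Finset Function Gln Subgroup

universe u

variable {k : Type u} [Field k] [IsAlgClosed k] {Q : ℤ} {R N n n₁ n₂ m c p : ℕ} [NeZero R]
  {G G₁ G₂ : Type u} [Group G] [Finite G] [Group G₁] [Finite G₁] [Group G₂] [Finite G₂]
  {r₁ : Rz k Q R n₁ G₁} {r₂ : Rz k Q R n₂ G₂} {r : Rz k Q R n G}

/-- The embedding of the centralizer of a `p`-element. -/
def stp (b : Blk r₁ r₂ r) (e : Emb c m r₁) : e.G₁ × G₂ →* G :=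
  b.f.comp (e.ι.prodMap (MonoidHom.id G₂))

theorem stp_apply (b : Blk r₁ r₂ r) (e : Emb c m r₁) (x : e.G₁) (y : G₂) :
    stp b e (x, y) = b.f (e.ι x, y) := rfl

variable (hP : ParZ k Q R N) (hP' : ParZ k (Q ^ c) R m) (e : Emb c m r₁) {ζ : fixm k (Q ^ c) R}
  (hd : (eo Q ζ.1).deg = c)
include hP hP' hd

theorem Emb.ty_sc : r₁.ty (e.ι (e.r₁.sc ζ)) = Pi.single (eo Q ζ.1) (Multiset.replicate m 1) := by
  funext o
  obtain ⟨s, rfl⟩ : ∃ s, eo Q s = o := ⟨_, Orb.mk_rep o⟩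
  rw [e.ty_ι, e.r₁.ty_sc_one hP']
  simp only [Pi.single_apply, eo, mk_eq_mk_fixm hP']
  rw [← sum_filter, sum_const]
  split_ifs with h
  · have h' : (eo Q s).deg = c := (congrArg Orb.deg h).trans hd
    rw [card_orbit hP h'.dvd, if_pos h, h', Nat.div_self (hd ▸ eo_deg_pos hP _), one_smul]
  · rw [filter_false_of_mem fun i _ e' => h (by rw [← e']; exact (eo_zpow hP s i).symm), card_empty,
      zero_smul]

theorem Emb.centralizer_eq : centralizer {e.ι (e.r₁.sc ζ)} = e.ι.range := by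
  refine le_antisymm (e.cent ζ hd) ?_
  rintro _ ⟨x, rfl⟩
  rw [mem_centralizer_singleton_iff, ← map_mul, ← map_mul, mem_center_iff.1 (e.r₁.sc_mem ζ)]

theorem range_stp (b : Blk r₁ r₂ r) (h1 : ζ ≠ 1) :
    (stp b e).range = centralizer {stp b e (e.r₁.sc ζ, 1)} := by
  refine le_antisymm ?_ fun g hg => ?_
  · rintro _ ⟨⟨x, y⟩, rfl⟩
    rw [mem_centralizer_singleton_iff, ← map_mul, ← map_mul, Prod.mk_mul_mk, Prod.mk_mul_mk,
      mem_center_iff.1 (e.r₁.sc_mem ζ), mul_one, one_mul]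
  · obtain ⟨⟨x, y⟩, rfl⟩ := b.cent (e.ι (e.r₁.sc ζ)) 1 (fun o => by
      rw [e.ty_sc hP hP' hd, r₂.ty_one]
      by_cases h : o = eo Q 1
      · exact .inl (Pi.single_eq_of_ne (fun e' => h1 (Subtype.ext
          ((eo_eq_one hP).1 (e'.symm.trans h)))) _)
      · exact .inr (Pi.single_eq_of_ne h _)) hg
    rw [mem_centralizer_singleton_iff, stp_apply, ← map_mul, ← map_mul] at hg
    obtain ⟨x, rfl⟩ := e.cent ζ hd (mem_centralizer_singleton_iff.2 (congrArg Prod.fst (b.inj hg)))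
    exact ⟨(x, y), rfl⟩

variable (hp : p.Prime) (hpQ : ¬ (p : ℤ) ∣ Q) (hζ : IsPElt p ζ)
include hp hpQ hζ

omit hP hd hζ in
theorem Emb.reg_of_ne {x : e.G₁} (hx : IsPRegular p x) {s : Mu k R}
    (h : e.r₁.ty (e.r₁.sc ζ * x) (eo (Q ^ c) s) ≠ 0) : ∃ y, IsPRegular p y ∧ s = ζ.1 * y := by
  rw [← mul_inv_cancel_left ζ.1 s, e.r₁.ty_sc] at h
  exact ⟨_, (isPRegular_rep_mk hP' _).1 ((e.r₁.reg p hp (fun h' =>
    hpQ ((Nat.prime_iff_prime_int.1 hp).dvd_of_dvd_pow h')) x).1 hx _ h), (mul_inv_cancel_left _ _).symm⟩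

theorem Emb.ty_sc_mul {x : e.G₁} (hx : IsPRegular p x) {y : Mu k R} (hy : IsPRegular p y) :
    r₁.ty (e.ι (e.r₁.sc ζ * x)) (eo Q (ζ.1 * y)) = e.r₁.ty x (eo (Q ^ c) y) := by
  rw [e.ty_ι, sum_eq_single_of_mem 0 (mem_range.2 (hd ▸ eo_deg_pos hP _)) fun i hi h0 => ?_, pow_zero,
    zpow_one, e.r₁.ty_sc]
  by_contra h
  obtain ⟨t, ht, h⟩ := e.reg_of_ne hP' hp hpQ hx h
  exact h0 (Nat.eq_zero_of_dvd_of_lt (dvd_of_zpow_eq hP hp (isPElt_coe_iff.2 hζ) hd hy ht h).1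
    (mem_range.1 hi))

theorem Emb.ty_sc_mul_eq_zero {x : e.G₁} (hx : IsPRegular p x) {o : EO k Q R}
    (h : ∀ y, IsPRegular p y → eo Q (ζ.1 * y) ≠ o) : r₁.ty (e.ι (e.r₁.sc ζ * x)) o = 0 := by
  obtain ⟨s, rfl⟩ : ∃ s, eo Q s = o := ⟨_, Orb.mk_rep o⟩
  rw [e.ty_ι]
  refine sum_eq_zero fun i _ => by_contra fun h' => ?_
  obtain ⟨t, ht, h'⟩ := e.reg_of_ne hP' hp hpQ hx h'
  exact h t ht (h' ▸ eo_zpow hP s i)

theorem Emb.res_tau {x : e.G₁} (hx : IsPRegular p x) (u : Lam k Q R) :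
    r₁.res u (e.ι (e.r₁.sc ζ * x)) = e.r₁.res (tau p c ζ.1 u) x := by
  classical
  have hζ' := isPElt_coe_iff.2 hζ
  refine LinearMap.congr_fun (ext_mX (L := vl _) (L' := vl _ ∘ₗ (tau p c ζ.1).toLinearMap)
    fun f hf => ?_) u
  change _ = vl _ (tau p c ζ.1 (mX f))
  rcases tau_mX hP hP' hp hζ' hd hf with ⟨h1, o, h2, h3⟩ | ⟨g, h1, h2, h3, -, h5, h6⟩
  · rw [h1, map_zero, vl_mX_eq_zero hP (r₁.tpos hP _) hf (o := o)]
    rw [e.ty_sc_mul_eq_zero hP hP' hd hp hpQ hζ hx h3]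
    obtain ⟨j, hj⟩ := Multiset.exists_mem_of_ne_zero h2
    exact ((hf o j hj).trans_le (Multiset.le_sum_of_mem hj)).ne'
  have hx' := (e.r₁.reg p hp (fun h' =>
    hpQ ((Nat.prime_iff_prime_int.1 hp).dvd_of_dvd_pow h')) x).1 hx
  rw [h3, vl_mX _ hf, vl_mX _ h1, ← prod_filter_of_ne (s := univ) (p := fun o : EO k (Q ^ c) R =>
    IsPRegular p o.rep) fun o _ h => by_contra fun ho => h (by
      rw [not_not.1 (mt (h2 o) ho), not_not.1 (mt (hx' o) ho), gv_zero (two_le_deg hP' o)])]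
  refine (prod_of_injOn (fun o => eo Q (ζ.1 * o.rep)) (fun o ho o' ho' h => ?_) (fun _ _ => by simp)
    (fun o _ ho => ?_) fun o ho => ?_).symm
  · simpa only [eo, Orb.mk_rep] using (eo_mul_eq_iff hP hP' hp hζ' hd (mem_filter.1 ho).2
      (mem_filter.1 ho').2).1 h
  · have : ∀ y, IsPRegular p y → eo Q (ζ.1 * y) ≠ o := fun y hy h => by
      have h' := (isPRegular_rep_mk hP' y).2 hy
      exact ho ⟨eo (Q ^ c) y, mem_coe.2 (mem_filter.2 ⟨mem_univ _, h'⟩),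
        ((eo_mul_eq_iff hP hP' hp hζ' hd h' hy).2 (Orb.mk_rep _)).trans h⟩
    rw [h6 o this, e.ty_sc_mul_eq_zero hP hP' hd hp hpQ hζ hx this, gv_zero (two_le_deg hP o)]
  · have ho' := (mem_filter.1 ho).2
    rw [h5 _ ho', e.ty_sc_mul hP hP' hd hp hpQ hζ hx ho', deg_eo_mul hP hP' hp hζ' hd ho', pow_mul,
      eo, Orb.mk_rep]

theorem ip_secFun (b : Blk r₁ r₂ r) (h1 : ζ ≠ 1) (u : Lam k Q R) {θ : Lam k (Q ^ c) R}
    (hθ : θ ∈ lin1 k (Q ^ c) R) (hθ' : θ ∈ hom k (Q ^ c) R m) (ψ : G₂ → ℂ) :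
    ip (pRegularPart p (secFun (stp b e) (stp b e (e.r₁.sc ζ, 1)) (r.res u)))
      (fun x => e.r₁.res θ x.1 * ψ x.2) = ip (r₂.res (EE p c ζ.1 (cj θ) u)) ψ := by
  classical
  haveI := Fact.mk hp
  have hζ' := isPElt_coe_iff.2 hζ
  have h1' : ζ.1 ≠ 1 := fun h => h1 (Subtype.ext h)
  have hpQ' : ¬ (p : ℤ) ∣ Q ^ c := fun h' => hpQ ((Nat.prime_iff_prime_int.1 hp).dvd_of_dvd_pow h')
  induction u using induction_mX with
  | h0 => simp
  | h2 u v hu hv => simp only [map_add, secFun_add, pRegularPart_add, ip_add_left, hu, hv]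
  | h3 a u hu => simp only [map_smul, secFun_smul, pRegularPart_smul, ip_smul_left, hu]
  | h1 f hf =>
  let f₁ : Ty k Q R := fun o => if IsPRegular p o.rep then 0 else f o
  let f₂ : Ty k Q R := fun o => if IsPRegular p o.rep then f o else 0
  have h2 : f = f₁ + f₂ := funext fun o => by by_cases h : IsPRegular p o.rep <;> simp [f₁, f₂, h]
  obtain ⟨h₁, h₂⟩ := tpos_add.1 (h2 ▸ hf)
  have hf₁ : ∀ o, IsPRegular p o.rep → f₁ o = 0 := fun o h => if_pos h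
  have hf₂ : TReg p f₂ := fun o h => by_contra fun h' => h (if_neg h')
  have h3 : pRegularPart p (secFun (stp b e) (stp b e (e.r₁.sc ζ, 1)) (r.res (mX f))) =
      fun x => e.r₁.res (tau p c ζ.1 (mX f₁)) x.1 * r₂.res (mX f₂) x.2 := funext fun ⟨x, y⟩ => by
    have h4 : ∀ {x : e.G₁} {y : G₂},
        IsPRegular p (x, y) ↔ IsPRegular p x ∧ IsPRegular p y := by
      simp [IsPRegular, Prod.orderOf, hp.dvd_lcm]
    by_cases hx : IsPRegular p x
    swap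
    · rw [pRegularPart_of_not_reg fun h => hx (h4.1 h).1, ← cut_tau hP hP' hp hζ' hd,
        e.r₁.res_cut hP' hp hpQ', pRegularPart_of_not_reg hx, zero_mul]
    by_cases hy : IsPRegular p y
    swap
    · rw [pRegularPart_of_not_reg fun h => hy (h4.1 h).2, show mX f₂ = cut p (mX f₂) by
        rw [cut_eq_Dg, Dg_mX _ h₂, if_pos hf₂, one_smul], r₂.res_cut hP hp hpQ,
        pRegularPart_of_not_reg hy, mul_zero]
    rw [pRegularPart_of_reg (h4.2 ⟨hx, hy⟩), secFun_apply, ← map_mul, Prod.mk_mul_mk, one_mul,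
      stp_apply, Rb.res_apply, b.ty_f, ← e.res_tau hP hP' hd hp hpQ hζ hx, h2]
    exact vl_add_mX hP {o | ¬ IsPRegular p o.rep} (fun o ho =>
      e.ty_sc_mul_eq_zero hP hP' hd hp hpQ hζ hx fun t ht e' =>
        not_reg_mul hP hp hζ' h1' ht (e' ▸ not_not.1 ho))
      (fun o ho => not_not.1 (mt ((r₂.reg p hp hpQ y).1 hy o) ho))
      (fun o ho => hf₁ o (not_not.1 ho)) (fun o ho => if_neg ho) h₁ h₂
  rw [h3, h2, EE_mX hP hP' hp hζ' hd h1' (cj_mem_lin1 hθ) h₁ h₂ hf₁ hf₂, map_smul, ip_smul_left,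
    bf_comm, ← bf_comp (cj_mem_hom hθ'), bf_comm, ← e.r₁.ip_res hP' (comp_mem _ _),
    e.r₁.res_comp hP']
  letI := Fintype.ofFinite e.G₁
  letI := Fintype.ofFinite G₂
  rw [ip_def, ip_def, ip_def, Fintype.sum_prod_type, Nat.card_prod, Nat.cast_mul, mul_inv,
    mul_mul_mul_comm, sum_mul_sum]
  exact congrArg _ (sum_congr rfl fun x _ => sum_congr rfl fun y _ => by rw [map_mul]; ring)

end Cfsg.Gun

set_option linter.all false in
theorem Cfsg.Rz.Gun_Sec_0 : True := by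
  have := @_root_.Cfsg.Gun.tau.eq_def.{0}
  have := @_root_.Cfsg.Gun.tau.eq_1.{0}
  have := @_root_.Cfsg.Gun.tau.fun_cases
  have := @_root_.Cfsg.Gun.EE.eq_def.{0}
  have := @_root_.Cfsg.Gun.EE.eq_1.{0}
  have := @_root_.Cfsg.Gun.EE.fun_cases
  have := @_root_.Cfsg.Gun.stp.eq_def.{0}
  have := @_root_.Cfsg.Gun.stp.eq_1.{0}
  have := @_root_.Cfsg.Gun.stp.fun_cases
  trivial
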