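import Cfsg.Agent.Gun.Sec
import Cfsg.Agent.Gun.Cut
import Cfsg.Agent.Gln.Step

/-!
# One step of Brauer induction in a family (S4537 project; port of `Gln/Step`)

A `Piece 𝔉 p φ j` is `ζ` of order `M = (tn Q (d j))_p` (`d = deg φ`), `c` = length of its orbit, `m = d j / c`, an embedding
`e : Emb c m` and the character `θ = ± P (Q ^ c) m φ.rep` of `e.G₁`.  Dictionary: `stepHom e ↦ stp b π.e`, `rsHom F ↦ π.e.ι`,
`scal ↦ π.e.r₁.sc`, `finrank F K ↦ c`, `Piece.Q ↦ Piece.D`.  `θ_sc`, `degree`: `Rz.res_P`, `prz_eq_one_of_coprime`;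
`card_factorization`: `Rz.card_eq`; `isTw`: `Emb.dt_ι`, `dch_nrm`, `res_T_tw`, `T_lab_P`, `P_pow`; `exists_twS`: `wh`, `Rz.res_P`
(the multiplicity of `ψ` in `θ` is a natural number equal to `± 1`).
-/

set_option autoImplicit false
set_option linter.unusedSectionVars false
set_option linter.unusedVariables false
set_option linter.style.haveILetI false

namespace Cfsg.Gun

open Finset Function Gln Subgroup

universe u

variable {k : Type u} [Field k] [IsAlgClosed k] {Q : ℤ} {R N n n₂ p j : ℕ} [NeZero R]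
  {M : Ideal AlgInt} {𝔉 : Fam k Q R N} {G G₂ : Type u} [Group G] [Finite G] [Group G₂] [Finite G₂]
  {r : Rz k Q R n G} {r₂ : Rz k Q R n₂ G₂}

variable (𝔉 p) in
/-- The data of a block with central defect group. -/
structure Piece (φ : Col k Q R) (j : ℕ) where
  /-- the degree of the extension -/
  c : ℕ
  /-- the dimension -/
  m : ℕ
  le : φ.deg * j ≤ N
  /-- the embedding -/
  e : Emb c m (𝔉.rz (φ.deg * j) le)
  /-- the generator -/
  ζ : fixm k (Q ^ c) R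
  /-- the character -/
  θ : IrrCharacter e.G₁
  /-- the sign -/
  ε : ℂ
  reg : IsReg p φ
  pos : 0 < j
  deg : (eo Q ζ.1).deg = c
  ord : orderOf ζ = ordProj[p] (tn Q (φ.deg * j))
  ne_one : ζ ≠ 1
  dim : c * m = φ.deg * j
  sign : ε = 1 ∨ ε = -1
  res_eq : e.r₁.res (P (Q ^ c) m φ.rep) = ε • θ.1

variable {φ : Col k Q R} {a b : Col k Q R → Fin N → ℕ}

/-- The defect group. -/
abbrev Piece.D (π : Piece p 𝔉 φ j) : Subgroup π.e.G₁ := zpowers (π.e.r₁.sc π.ζ)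

/-- The determinant on the small group. -/
noncomputable abbrev Piece.dt (π : Piece p 𝔉 φ j) : π.e.G₁ →* fixm k Q R := (𝔉.rz _ π.le).dt.comp π.e.ι

theorem Piece.isPElt (π : Piece p 𝔉 φ j) : IsPElt p π.ζ := ⟨_, π.ord⟩

private theorem mul_pow_eq_zpow_pow {A : Type*} [CommGroup A] {a y : A} {t : ℤ} (h : a * y = a ^ t)
    (hy : y ^ t = y) (n : ℕ) : a * y ^ n = a ^ t ^ n := by
  induction n with
  | zero => simp
  | succ n ih =>
    rw [pow_succ t, zpow_mul, ← ih, mul_zpow, ← h, ← zpow_natCast y n, ← zpow_mul, mul_comm (n : ℤ),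
      zpow_mul, hy, zpow_natCast, pow_succ', mul_assoc]

theorem Piece.ε_ne_zero (π : Piece p 𝔉 φ j) : π.ε ≠ 0 := by
  rcases π.sign with h | h <;> simp [h]

theorem Rz.unip_one (r : Rz k Q R n G) : Unip (r.ty 1) := fun o ho => by
  rw [r.ty_one, Pi.single_eq_of_ne ho]

variable (hP : ParZ k Q R N) (hp : p.Prime) (hpQ : ¬ (p : ℤ) ∣ Q)
include hP hp hpQ

theorem Piece.c_dvd_iff (π : Piece p 𝔉 φ j) (n : ℕ) : π.c ∣ n ↔ π.ζ ^ tn Q n = 1 := by
  rw [Subtype.ext_iff, Subgroup.coe_pow, Subgroup.coe_one, ← deg_mu_dvd_iff hP, π.deg]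

theorem nonempty_piece (𝔉 : Fam k Q R N) (hφ : IsReg p φ) (hj : 0 < j) (hN : φ.deg * j ≤ N)
    (h1 : p ∣ tn Q (φ.deg * j))
    (h2 : ∀ i, ordProj[p] (tn Q (φ.deg * j)) ∣ tn Q (φ.deg * i) → j ∣ i) :
    Nonempty (Piece p 𝔉 φ j) := by
  have hdj := Nat.mul_pos (deg_pos hP φ) hj
  obtain ⟨x, hx⟩ := Mu.exists_orderOf_eq hP.cast ((Nat.ordProj_dvd _ p).trans (hP.dvd hdj hN))
  obtain ⟨c, hcx⟩ : ∃ c, (eo Q x).deg = c := ⟨_, rfl⟩
  have hc : ∀ i, c ∣ i ↔ ordProj[p] (tn Q (φ.deg * j)) ∣ tn Q i := fun i => by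
    rw [← hx, orderOf_dvd_iff_pow_eq_one, ← deg_mu_dvd_iff hP, hcx]
  obtain ⟨m, hm⟩ := (hc _).2 (Nat.ordProj_dvd _ p)
  have hc0 : 0 < c := hcx ▸ eo_deg_pos hP _
  have hm0 : 0 < m := Nat.pos_of_mul_pos_left (hm ▸ hdj)
  have hP' := hP.pow hc0 hm0 (hm ▸ hN)
  have hdeg : ∀ n, (Orb.mk _ φ.rep : Col k (Q ^ c) R).deg ∣ n ↔ m ∣ n := fun n => by
    rw [deg_dvd_iff hP', tn_pow, ← deg_dvd_iff hP, Orb.mk_rep]
    constructor
    · rintro ⟨l, hl⟩
      obtain ⟨l', rfl⟩ := h2 l ((hc _).1 ⟨n, hl.symm⟩)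
      rw [← mul_assoc, hm, mul_assoc] at hl
      exact ⟨l', Nat.eq_of_mul_eq_mul_left hc0 hl⟩
    · rintro ⟨l, rfl⟩
      exact ⟨j * l, by rw [← mul_assoc, ← hm, mul_assoc]⟩
  obtain ⟨e⟩ := 𝔉.exists_emb hN hc0 hm0 hm.symm
  obtain ⟨θ, ε, hε, hθ⟩ := exists_irr_P hP' e.r₁ hm0 le_rfl
    (Nat.dvd_antisymm ((hdeg m).2 dvd_rfl) ((hdeg _).1 dvd_rfl))
  let ζ : fixm k (Q ^ c) R := ⟨x, mem_fixm.2 (by
    rw [tn_pow, ← deg_mu_dvd_iff hP, hcx, mul_one])⟩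
  have hζ : orderOf ζ = orderOf x := (orderOf_coe ζ).symm
  refine ⟨⟨c, m, hN, e, ζ, θ, ε, hφ, hj, hcx, hζ.trans hx, fun h => ?_, hm.symm, hε, hθ⟩⟩
  rw [h, orderOf_one, hx] at hζ
  exact (Nat.one_lt_pow (hp.factorization_pos_of_dvd (tn_pos hP.two hdj).ne' h1).ne' hp.one_lt).ne hζ

theorem nonempty_piece_ee (𝔉 : Fam k Q R N) (hφ : IsReg p φ) (hN : φ.deg * ee p φ ≤ N) :
    Nonempty (Piece p 𝔉 φ (ee p φ)) := by
  have h1 := (ee_dvd_iff hP hp hpQ φ _).1 dvd_rfl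
  have hj := ee_pos hP hp hpQ φ
  refine nonempty_piece hP hp hpQ 𝔉 hφ hj hN h1 fun i hi => (ee_dvd_iff hP hp hpQ φ _).2 ?_
  exact (dvd_pow_self p (hp.factorization_pos_of_dvd
    (tn_pos hP.two (Nat.mul_pos (deg_pos hP φ) hj)).ne' h1).ne').trans hi

/-- Removing one hook at a colour of positive weight. -/
theorem exists_dnl (h : RegLab p a) (ha : Good a) (hw : 0 < wtc p a φ) : IsReg p φ ∧
    ∃ i, ee p φ ≤ a φ i ∧ Good (dnl a φ i (ee p φ)) ∧ wtc p (dnl a φ i (ee p φ)) φ + 1 = wtc p a φ ∧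
      (∀ φ', φ' ≠ φ → dnl a φ i (ee p φ) φ' = a φ') ∧
      ∀ φ', rs (ee p φ') (ms (dnl a φ i (ee p φ) φ')) = rs (ee p φ') (ms (a φ')) := by
  have he := ee_pos hP hp hpQ φ
  obtain ⟨i, hi, hi'⟩ := exists_sub_single_of_wt he (ha φ) hw
  have h1 : dnl a φ i (ee p φ) φ = a φ - Pi.single i (ee p φ) := update_self ..
  have h2 : ∀ φ', φ' ≠ φ → dnl a φ i (ee p φ) φ' = a φ' := fun φ' h => update_of_ne h ..
  refine ⟨by_contra fun hφ => hw.ne' (h.wtc_eq_zero hP hp hpQ ha hφ), i, hi, fun φ' => ?_, ?_, h2,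
    fun φ' => ?_⟩
  · by_cases e : φ' = φ
    · rw [e, h1]; exact hi'
    · rw [h2 _ e]; exact ha _
  · have := wt_sub_single (j := 1) he (i := i) (a := a φ) (by rwa [mul_one]) (by rwa [mul_one])
    rwa [mul_one, ← h1] at this
  · by_cases e : φ' = φ
    · rw [e, h1]; exact rs_sub_single dvd_rfl hi
    · rw [h2 _ e]

variable (π : Piece p 𝔉 φ j)

theorem Piece.m_pos : 0 < π.m := by
  exact Nat.pos_of_mul_pos_left (π.dim ▸ Nat.mul_pos (deg_pos hP φ) π.pos)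

theorem Piece.c_pos : 0 < π.c := by
  exact Nat.pos_of_mul_pos_right (π.dim ▸ Nat.mul_pos (deg_pos hP φ) π.pos)

theorem Piece.par : ParZ k (Q ^ π.c) R π.m := by
  exact hP.pow (π.c_pos hP hp hpQ) (π.m_pos hP hp hpQ) (π.dim ▸ π.le)

theorem Piece.rep_pow : φ.rep ^ tn (Q ^ π.c) π.m = 1 := by
  rw [tn_pow, π.dim]
  exact Gun.rep_pow hP φ j

theorem Piece.not_dvd : ¬ (p : ℤ) ∣ Q ^ π.c := by
  exact fun h => hpQ ((Nat.prime_iff_prime_int.1 hp).dvd_of_dvd_pow h)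

theorem Piece.isSec (b : Blk (𝔉.rz _ π.le) r₂ r) :
    IsSec p (stp b π.e) (stp b π.e (π.e.r₁.sc π.ζ, 1)) := by
  haveI := Fact.mk hp
  exact ⟨b.inj.comp (π.e.inj.prodMap injective_id),
    π.isPElt.map ((stp b π.e).comp ((MonoidHom.inl _ _).comp π.e.r₁.sc)),
    range_stp hP (π.par hP hp hpQ) π.e π.deg b π.ne_one⟩

theorem Piece.c_dvd : ∃ t, π.c ∣ orderOf (Q : ZMod p) * p ^ t := by
  refine ⟨(tn Q (φ.deg * j)).factorization p, (π.c_dvd_iff hP hp hpQ _).2 ?_⟩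
  rw [← orderOf_dvd_iff_pow_eq_one, π.ord, dvd_tn_iff]
  generalize (tn Q (φ.deg * j)).factorization p = t
  have h1 : (p : ℤ) ∣ Q ^ orderOf (Q : ZMod p) - 1 := by
    rw [← ZMod.intCast_zmod_eq_zero_iff_dvd]
    push_cast
    rw [pow_orderOf_eq_one, sub_self]
  have h2 := dvd_sub_pow_of_dvd_sub h1 t
  rw [one_pow] at h2
  rw [pow_mul, Nat.cast_pow]
  exact (pow_dvd_pow _ t.le_succ).trans h2

theorem Piece.card_D : Nat.card π.D = ordProj[p] (tn Q (φ.deg * j)) := by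
  rw [Nat.card_zpowers,
    orderOf_injective _ (π.e.r₁.sc_injective (π.par hP hp hpQ) (π.m_pos hP hp hpQ)), π.ord]

theorem Piece.EE_chi (ha : RegLab p a) (ha' : Good a) (hs : size a ≤ N) :
    EE p π.c π.ζ.1 (cj (P (Q ^ π.c) π.m φ.rep)) (chi a) =
      ((ordProj[p] (tn Q (φ.deg * j)) : ℕ) : ℂ)⁻¹ •
        cut p (∑ i with j ≤ a φ i, chi (dnl a φ i j)) := by
  classical
  have hP' := π.par hP hp hpQ
  have hm := π.m_pos hP hp hpQ
  refine deriv_chi (cut p).toRingHom _ π.pos _ ha' (EE_one _) fun φ' j' h0 hj' f => ?_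
  have hn := Nat.mul_pos (deg_pos hP φ') h0
  have hn' : φ'.deg * j' ≤ N := (deg_mul_le_size hj').trans hs
  rw [pc, EE_mul _ (P_mem_lin1 _ _), bf_tau_P hP hP' hp (isPElt_coe_iff.2 π.isPElt) π.deg hm
    (π.dim ▸ π.le) hn hn' (π.dim ▸ Gun.rep_pow hP φ j) (Gun.rep_pow hP φ' j') π.reg
      (by_contra fun h => by have := ha φ' h; omega), π.dim]
  congr 2
  have := (per_lab hP).card_filter_iterate (a := φ'.rep) (b := φ.rep) (n := φ'.deg * j')
    (by rw [Orb.mk_rep]; exact dvd_mul_right _ _)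
  simp only [frz_iterate, Orb.mk_rep] at this
  rw [this]
  by_cases e : φ' = φ
  · subst e
    simp only [(mul_right_injective₀ (deg_pos hP φ').ne').eq_iff, true_and, if_true,
      Nat.mul_div_cancel_left _ (deg_pos hP φ')]
    split_ifs with e'
    · rw [e', div_eq_mul_inv]
    · rfl
  · simp [e]

theorem Piece.induces (hM : IsPModular p M) (hn : n ≤ N) (hd : φ.deg * j + n₂ = n)
    (b : Blk (𝔉.rz _ π.le) r₂ r) {χ : IrrCharacter G} {ψ : IrrCharacter G₂}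
    (h : IsLab r χ a) (ha : RegLab p a) {i : Fin N} (hi : j ≤ a φ i) (h' : IsLab r₂ ψ (dnl a φ i j)) :
    Induces M (stp b π.e) (prodBlock (blockOf M π.θ.1) (blockOf M ψ.1)) (blockOf M χ.1) := by
  classical
  haveI := Fact.mk hp
  have hV₂ : n₂ ≤ N := by omega
  have hl : ∀ i', j ≤ a φ i' → Good (dnl a φ i' j) →
      ∃ ψ' : IrrCharacter G₂, IsLab r₂ ψ' (dnl a φ i' j) := fun i' hi' hg =>
    exists_irr hP r₂ hV₂ hg (by have := size_dnl hi' hg; have := h.2.1; omega)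
  obtain ⟨ψ', hψ', hne⟩ := exists_ip_pRegularPart_ne_zero hM
    (linearIndependent_basic hP hp hpQ hV₂ r₂)
    (Θ := r₂.res (∑ i with j ≤ a φ i, chi (dnl a φ i j))) (ψ := ψ) (by
      rw [map_sum]
      refine sum_mem fun i' hi' => ?_
      by_cases hg : Good (dnl a φ i' j)
      · obtain ⟨ψ', hψ'⟩ := hl i' (mem_filter.1 hi').2 hg
        have : ψ'.1 ∈ Submodule.span ℂ (Set.range fun χ : basic N p r₂ => χ.1.1) :=
          Submodule.subset_span ⟨⟨ψ', _, hψ', ha.dnl _ _ _⟩, rfl⟩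
        rcases hψ'.2.2 with h1 | h1 <;> rw [h1]
        · exact this
        · exact neg_mem this
      · rw [chi_eq_zero hg, map_zero]; exact zero_mem _) (by
      rw [map_sum, ip_sum_left, Finset.sum_eq_single_of_mem i (mem_filter.2 ⟨mem_univ _, hi⟩)]
      · rcases h'.2.2 with h1 | h1 <;> simp [h1, ip_neg_left, ψ.ip_self]
      · intro i' hi' hne
        by_cases hg : Good (dnl a φ i' j)
        · obtain ⟨ψ', hψ'⟩ := hl i' (mem_filter.1 hi').2 hg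
          have : ψ' ≠ ψ := fun e' => hne (by
            have := (hψ'.eq_iff hP hV₂ h').1 e' φ
            rw [dnl, dnl, update_self, update_self] at this
            exact eq_of_ms_sub_single (h.1 φ) π.pos (mem_filter.1 hi').2 hi this)
          rcases hψ'.2.2 with h1 | h1 <;> simp [h1, ip_neg_left, IrrCharacter.ip_of_ne this]
        · rw [chi_eq_zero hg, map_zero, ip_zero_left])
  have key := ip_secFun hP (π.par hP hp hpQ) π.e π.deg hp hpQ π.isPElt b π.ne_one (chi a)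
    (P_mem_lin1 π.m φ.rep) (P_mem_hom π.m φ.rep) ψ'.1
  rw [π.EE_chi hP hp hpQ ha h.1 (h.2.1 ▸ hn), map_smul, r₂.res_cut hP hp hpQ, ip_smul_left,
    π.res_eq] at key
  have hne' := mul_ne_zero (inv_ne_zero (Nat.cast_ne_zero.2
    (Nat.ordProj_pos (tn Q (φ.deg * j)) p).ne')) hne
  rw [← key] at hne'
  rw [(isPBlock_blockOf ψ).eq_blockOf hM hψ', ← blockOf_prod hM]
  refine induces_of_ip_ne_zero hM (π.isSec hP hp hpQ b) fun h0 => hne' ?_
  have h1 : (fun x : π.e.G₁ × G₂ => (π.ε • π.θ.1) x.1 * ψ'.1 x.2) = π.ε • (π.θ.prod ψ').1 :=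
    funext fun x => mul_assoc _ _ _
  rw [h1, ip_smul_right]
  refine mul_eq_zero_of_right _ ?_
  rcases h.2.2 with h2 | h2 <;> rw [h2]
  · exact h0
  · rw [← neg_eq_zero, ← ip_neg_left, ← h0]
    congr 1
    funext x
    simp only [pRegularPart_apply, Pi.neg_apply, secFun_apply]
    split_ifs <;> simp

/-- Values of `θ` at elements of `D` times unipotent elements. -/
theorem Piece.apply_sc_mul (i : ℕ) {u : π.e.G₁} (hu : Unip (π.e.r₁.ty u)) :
    π.ε * π.θ (π.e.r₁.sc π.ζ ^ i * u) =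
      ∏ l ∈ Ico 1 (π.e.r₁.ty u (eo (Q ^ π.c) 1)).card, (1 - ((Q ^ π.c : ℤ) : ℂ) ^ l) := by
  haveI := Fact.mk hp
  have hP' := π.par hP hp hpQ
  have hm := π.m_pos hP hp hpQ
  have h := π.e.r₁.res_P hP' hm le_rfl (π.rep_pow hP hp hpQ) (π.ζ ^ i) hu
  rwa [π.res_eq, map_pow, prz_eq_one_of_coprime hP.cast (hP'.dvd hm le_rfl)
    ((deg_mu_dvd_iff hP').1 (deg_mk_fixm hP' _ ▸ one_dvd _)) (π.rep_pow hP hp hpQ) ?_, one_mul] at h
  obtain ⟨t, ht⟩ := π.isPElt.pow i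
  rw [orderOf_coe, ht]
  exact Nat.Coprime.pow_left _ ((Nat.Prime.coprime_iff_not_dvd hp).2 π.reg)

theorem Piece.θ_sc (z : π.e.G₁) (hz : z ∈ π.D) : π.θ z = π.θ 1 := by
  haveI := Fact.mk hp
  obtain ⟨i, rfl⟩ := (Submonoid.mem_powers_iff _ _).1 (mem_powers_iff_mem_zpowers.2 hz)
  have h := (π.apply_sc_mul hP hp hpQ i π.e.r₁.unip_one).trans
    (π.apply_sc_mul hP hp hpQ 0 π.e.r₁.unip_one).symm
  rw [pow_zero, mul_one, mul_one] at h
  exact mul_left_cancel₀ π.ε_ne_zero h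

theorem Piece.degree : charDegree π.θ.1 = ∏ i ∈ Ico 1 π.m, tn (Q ^ π.c) i := by
  have h := π.apply_sc_mul hP hp hpQ 0 π.e.r₁.unip_one
  rw [pow_zero, mul_one, π.e.r₁.ty_one, Pi.single_eq_same, Multiset.card_replicate,
    π.θ.apply_one] at h
  have h1 : ∏ i ∈ Ico 1 π.m, tn (Q ^ π.c) i = (∏ l ∈ Ico 1 π.m, (1 - (Q ^ π.c) ^ l)).natAbs := by
    rw [← Int.natAbsHom_apply, map_prod]
    exact prod_congr rfl fun i _ => by rw [tn, Int.natAbsHom_apply, ← Int.natAbs_neg, neg_sub]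
  rw [h1]
  rcases π.sign with e | e <;> rw [e] at h
  · rw [show ∏ l ∈ Ico 1 π.m, (1 - (Q ^ π.c) ^ l) = charDegree π.θ.1 by
      rw [one_mul] at h; exact_mod_cast h.symm, Int.natAbs_natCast]
  · rw [show ∏ l ∈ Ico 1 π.m, (1 - (Q ^ π.c) ^ l) = -charDegree π.θ.1 by
      rw [neg_one_mul] at h; exact_mod_cast h.symm, Int.natAbs_neg, Int.natAbs_natCast]

theorem Piece.card_factorization : (charDegree π.θ.1).factorization p +
    (Nat.card π.D).factorization p = (Nat.card π.e.G₁).factorization p := by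
  have hm := π.m_pos hP hp hpQ
  have hP' := π.par hP hp hpQ
  have h1 : Nat.card π.e.G₁ = (Q ^ π.c).natAbs ^ π.m.choose 2 *
      (charDegree π.θ.1 * tn (Q ^ π.c) π.m) := by
    rw [π.e.r₁.card_eq hP', π.degree hP hp hpQ, ← Finset.prod_Ico_succ_top hm,
      Finset.prod_Ico_eq_prod_range]
    simp only [add_comm 1, Nat.add_sub_cancel]
  have h0 := (tn_pos hP'.two hm).ne'
  have h2 : ¬ p ∣ (Q ^ π.c).natAbs := fun h => π.not_dvd hP hp hpQ (Int.natCast_dvd.2 h)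
  rw [h1, Nat.factorization_mul (pow_ne_zero _ (ne_zero_of_not_dvd h2))
    (mul_ne_zero π.θ.charDegree_pos.ne' h0), Nat.factorization_mul π.θ.charDegree_pos.ne' h0,
    π.card_D hP hp hpQ, Finsupp.add_apply, Finsupp.add_apply, Nat.factorization_pow,
    Nat.factorization_pow, Finsupp.smul_apply, Finsupp.smul_apply, hp.factorization_self,
    Nat.factorization_eq_zero_of_not_dvd h2, tn_pow, π.dim]
  simp

theorem Piece.isDefectGroup (hM : IsPModular p M) :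
    IsDefectGroup p M (blockOf M π.θ.1) π.D := by
  haveI := Fact.mk hp
  have hc : π.D ≤ center _ := zpowers_le.2 (π.e.r₁.sc_mem _)
  haveI : π.D.Normal := ⟨fun z hz g => by
    rw [mem_center_iff.1 (hc hz) g, mul_inv_cancel_right]; exact hz⟩
  refine ((isPBlock_blockOf _).isDefectGroup_iff_exists_char hM
    (IsPGroup.of_card (π.card_D hP hp hpQ)) fun g _ z hz => (mem_center_iff.1 (hc hz) g).symm).2
    ⟨π.θ, hM.mem_blockOf_self _, π.θ_sc hP hp hpQ, π.card_factorization hP hp hpQ⟩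

theorem Piece.isTw {y : fixq k Q R} {s : ℕ} (hy : y ^ s = 1) (hs : ¬ p ∣ s)
    (h : ∃ i, φ.rep * y.1 = φ.rep ^ Q ^ (orderOf (Q : ZMod p) * i)) :
    IsTw ((dch hP y).comp π.dt) π.θ.1 π.θ.1 := by
  have hP' := π.par hP hp hpQ
  have hm := π.m_pos hP hp hpQ
  let y' : fixq k (Q ^ π.c) R := ⟨y.1, fixq_zpow y π.c⟩
  obtain ⟨ω, hω⟩ := exists_eq_zpow_div hP' y'
  have h1 := res_T_tw hP' π.e.r₁ ω y' hω (P (Q ^ π.c) π.m φ.rep)
  have h2 : ∃ l, φ.rep * y.1 = φ.rep ^ (Q ^ π.c) ^ l := by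
    obtain ⟨i, hi⟩ := h
    obtain ⟨t, l, hl⟩ := π.c_dvd hP hp hpQ
    obtain ⟨s', hs'⟩ := exists_pow_eq_self_of_coprime (x := y) (n := p ^ t)
      (Nat.Coprime.pow_left t ((Nat.Prime.coprime_iff_not_dvd hp).2
        fun h => hs (h.trans (orderOf_dvd_of_pow_eq_one hy))))
    have h3 : ∀ n, φ.rep * y.1 ^ n = φ.rep ^ Q ^ (orderOf (Q : ZMod p) * i * n) := fun n => by
      rw [pow_mul Q]
      exact mul_pow_eq_zpow_pow (A := Lab k R) hi (fixq_zpow y _) n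
    refine ⟨l * i * s', ?_⟩
    rw [← pow_mul, ← mul_assoc, ← mul_assoc, ← hl, mul_right_comm _ _ i, mul_assoc, ← h3,
      pow_mul y.1]
    exact congrArg (fun z : fixq k Q R => φ.rep * z.1) hs'.symm
  obtain ⟨l, hl⟩ := h2
  rw [T_lab_P hP' hm le_rfl (π.rep_pow hP hp hpQ), ← hω, hl,
    P_pow hP' hm le_rfl (π.rep_pow hP hp hpQ), π.res_eq] at h1
  intro g
  have h4 := h1 g
  rw [Pi.smul_apply, smul_eq_mul, mul_assoc] at h4
  refine (mul_left_cancel₀ π.ε_ne_zero h4).trans ?_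
  rw [MonoidHom.comp_apply, MonoidHom.comp_apply, MonoidHom.comp_apply, π.e.dt_ι hP hP',
    dch_nrm hP (π.c_pos hP hp hpQ) ((Nat.le_mul_of_pos_right _ hm).trans (π.dim ▸ π.le)) hP' y y' rfl]

theorem Piece.exists_twS (hM : IsPModular p M) {y : fixq k Q R} {s : ℕ} (hy : y ^ s = 1)
    (hs : ¬ p ∣ s) (h : ∃ i, φ.rep * y.1 = φ.rep ^ Q ^ (orderOf (Q : ZMod p) * i)) :
    ∃ u : π.e.G₁, Unip (π.e.r₁.ty u) ∧ TwS M (blockOf M π.θ.1) ((dch hP y).comp π.dt) s u := by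
  haveI := Fact.mk hp
  have hP' := π.par hP hp hpQ
  obtain ⟨U, hU, ⟨t, ht⟩, ψ, ε, hε, hψ⟩ := π.e.r₁.wh (π.m_pos hP hp hpQ)
  obtain ⟨u, hu, h'⟩ := TwS.cusp hM (MonoidHom.ext fun g => DFunLike.congr_fun
    ((map_pow (dch hP) y s).symm.trans (by rw [hy, map_one])) (π.dt g)) hs
    (π.isTw hP hp hpQ hy hs h) (U := U)
    (fun h => π.not_dvd hP hp hpQ (Int.natCast_dvd.2 (hp.dvd_of_dvd_pow (ht ▸ h))))
    (fun u hu => by
      rw [MonoidHom.mem_ker, MonoidHom.comp_apply, MonoidHom.comp_apply, π.e.dt_ι hP hP',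
        π.e.r₁.dt_of_unip hP' (hU u hu), map_one, map_one]) ψ (by
      have h1 : (fun u : U => ∏ l ∈ Ico 1 (π.e.r₁.ty u (eo (Q ^ π.c) 1)).card,
          (1 - ((Q ^ π.c : ℤ) : ℂ) ^ l)) = π.ε • (π.θ.1 ∘ U.subtype) := funext fun u => by
        rw [← π.apply_sc_mul hP hp hpQ 0 (hU u u.2), pow_zero, one_mul]
        rfl
      obtain ⟨l, hl⟩ := (π.θ.isCharacter.comp U.subtype).exists_ip_eq_nat (isCharacter_linear ψ)
      rw [h1, ip_smul_left, hl] at hψ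
      rw [hl]
      have h2 : (l : ℂ) ^ 2 = 1 := by
        have := congrArg (· ^ 2) hψ
        rcases π.sign with e | e <;> rcases hε with e' | e' <;> simpa [e, e'] using this
      exact_mod_cast (pow_eq_one_iff.1 (show l ^ 2 = 1 by exact_mod_cast h2)).resolve_right two_ne_zero)
    (Z := π.D) (zpowers_le.2 (π.e.r₁.sc_mem _)) (π.card_factorization hP hp hpQ).ge
  exact ⟨u, hU u hu, h'⟩

omit π in
theorem sameBlock_of_sameCls (hM : IsPModular p M) (hn : n ≤ N) {χ ψ : IrrCharacter (𝔉.G n)}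
    (h : IsLab (𝔉.rz n hn) χ a) (h' : IsLab (𝔉.rz n hn) ψ b) (ha : RegLab p a)
    (hb : RegLab p b) (e : SameCls p a b) : blockOf M χ.1 = blockOf M ψ.1 := by
  induction n using Nat.strong_induction_on generalizing a b with
  | _ n ih =>
  haveI := Fact.mk hp
  have e' := (ha.sameCls_iff hP hp hpQ hb h.1 h'.1).1 e
  have hw : ∀ φ, wtc p a φ = wtc p b φ := fun φ =>
    wt_eq_of_sum_eq (ee_pos hP hp hpQ φ) (e' φ).2 (by
      rw [sum_eq_of_sz h.1, sum_eq_of_sz h'.1, (e' φ).1])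
  by_cases h0 : ∀ φ, wtc p a φ = 0
  · rw [(h.eq_iff hP hn h').2 fun φ => ms_eq_of_wt_zero (ee_pos hP hp hpQ φ) (h.1 φ)
      (h'.1 φ) (e' φ).2 (h0 φ) ((hw φ).symm.trans (h0 φ))]
  obtain ⟨φ, hφ⟩ := not_forall.1 h0
  obtain ⟨hr, i, hi, hg, w1, o1, r1⟩ := exists_dnl hP hp hpQ ha h.1 (Nat.pos_of_ne_zero hφ)
  obtain ⟨-, i', hi', hg', w2, o2, r2⟩ :=
    exists_dnl hP hp hpQ hb h'.1 (hw φ ▸ Nat.pos_of_ne_zero hφ)
  have s1 := size_dnl hi hg
  have s2 := size_dnl hi' hg'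
  rw [h.2.1] at s1
  rw [h'.2.1] at s2
  have hpos := Nat.mul_pos (deg_pos hP φ) (ee_pos hP hp hpQ φ)
  generalize hn' : size (dnl a φ i (ee p φ)) = n' at s1
  have hV' : n' ≤ N := by omega
  have hd : φ.deg * ee p φ + n' = n := by omega
  obtain ⟨π⟩ := nonempty_piece_ee hP hp hpQ 𝔉 hr (by omega)
  obtain ⟨ε⟩ := 𝔉.exists_blk π.le hV' hn hd
  obtain ⟨χ', hχ'⟩ := exists_irr hP (𝔉.rz n' hV') hV' hg hn'
  obtain ⟨ψ', hψ'⟩ := exists_irr hP (𝔉.rz n' hV') hV' hg' (by omega)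
  have h1 := π.induces hP hp hpQ hM hn hd ε h ha hi hχ'
  have h2 := π.induces hP hp hpQ hM hn hd ε h' hb hi' hψ'
  rw [ih n' (by omega) hV' hχ' hψ' (ha.dnl _ _ _) (hb.dnl _ _ _)
    (((ha.dnl _ _ _).sameCls_iff hP hp hpQ (hb.dnl _ _ _) hg hg').2 fun φ' => ?_)] at h1
  · exact h1.unique hM h2
  have r3 := (r1 φ').trans ((e' φ').2.trans (r2 φ').symm)
  refine ⟨?_, r3⟩
  by_cases e'' : φ' = φ
  · subst e''
    rw [sz, sz, sum_eq_of_wt_eq (ee_pos hP hp hpQ φ') (hg φ') (hg' φ') r3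
      (Nat.add_right_cancel (w1.trans ((hw φ').trans w2.symm)))]
  · rw [o1 _ e'', o2 _ e'', (e' φ').1]

end Cfsg.Gun

set_option linter.all false in
theorem Cfsg.Rz.Gun_Step_0 : True := by
  have := @_root_.Cfsg.Gun.Piece.dt.eq_def.{0}
  have := @_root_.Cfsg.Gun.Piece.dt.eq_1.{0}
  have := @_root_.Cfsg.Gun.Piece.dt.fun_cases
  have := @_root_.Cfsg.Gun.Piece.D.eq_def.{0}
  have := @_root_.Cfsg.Gun.Piece.D.eq_1.{0}
  have := @_root_.Cfsg.Gun.Piece.D.fun_cases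
  have := @_root_.Cfsg.Gun.Piece.mk.congr_simp.{0}
  trivial
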