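import Cfsg.Agent.Gun.AutA
import Cfsg.Agent.Gun.Fld

/-!
# Trace forms and hyperbolic forms (S4537 project)

`exists_trU`: `U(W, K) ≤ U(V, F)` via the trace form.  `exists_hypU`: `GL(W) ≤ U(W ⊕ W†)`.
-/

set_option autoImplicit false
set_option linter.unusedSectionVars false
set_option linter.unusedVariables false
set_option linter.style.haveILetI false

namespace Cfsg.Gun

open Module Function Gln Subgroup

universe u

variable {F : Type u} [Field F] [StarRing F] [Finite F] {K : Type u} [Field K] [Finite K] [Algebra F K]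
  {V W : Type*} [AddCommGroup V] [Module F V] [Finite V] [AddCommGroup W] [Module F W] [Finite W]
  {k : Type*} [Field k] [Algebra F k] [IsAlgClosed k] [Algebra.IsAlgebraic F k]

theorem centralizer_le_range_comp {A B C : Type*} [Group A] [Group B] [Group C] (f : A →* B)
    (e : B ≃* C) {a : A} (h : centralizer {f a} ≤ f.range) :
    centralizer {(e.toMonoidHom.comp f) a} ≤ (e.toMonoidHom.comp f).range := fun g hg => by
  obtain ⟨g, rfl⟩ := e.surjective g
  rw [mem_centralizer_singleton_iff] at hg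
  obtain ⟨x, rfl⟩ := h (mem_centralizer_singleton_iff.2 (e.injective (by simpa using hg)))
  exact ⟨x, rfl⟩

section tr

variable [StarRing K] [Module K W] [IsScalarTower F K W]
  (hst : ∀ a : F, star (algebraMap F K a) = algebraMap F K (star a))
include hst

theorem star_trace (a : K) : star (Algebra.trace F K a) = Algebra.trace F K (star a) := by
  rw [Algebra.trace_eq_of_equiv_equiv starRingAut starRingAut (RingHom.ext fun a => (hst a).symm) a]
  exact starRingAut.apply_symm_apply _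

omit hst in
theorem eq_of_trace_mul {a b : K} (h : ∀ c : K, Algebra.trace F K (c * a) = Algebra.trace F K (c * b)) :
    a = b := by
  by_contra h'
  refine Algebra.trace_ne_zero F K (LinearMap.ext fun c => ?_)
  have := h (c / (a - b))
  rwa [← sub_eq_zero, ← map_sub, ← mul_sub, div_mul_cancel₀ _ (sub_ne_zero.2 h')] at this

/-- The trace of a hermitian form. -/
noncomputable def HF.tr (H : HF K W) : HF F W where
  h := LinearMap.mk₂'ₛₗ (starRingEnd F) (RingHom.id F) (fun u v => Algebra.trace F K (H.h u v))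
    (fun _ _ _ => by simp)
    (fun c u v => by
      rw [← algebraMap_smul K c u, LinearMap.map_smulₛₗ, LinearMap.smul_apply, starRingEnd_apply,
        starRingEnd_apply, hst, algebraMap_smul, map_smul])
    (fun _ _ _ => by simp)
    (fun c u v => by rw [← algebraMap_smul K c v, map_smul, algebraMap_smul, map_smul]; rfl)
  symm u v := (star_trace hst _).trans (congrArg _ (H.symm u v))
  nondeg u h := H.nondeg u fun v => eq_of_trace_mul (F := F) fun c => by
    simpa using h (c • v)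

theorem HF.tr_h (H : HF K W) (u v : W) : (H.tr hst).h u v = Algebra.trace F K (H.h u v) := rfl

theorem HF.rsHom_mem (H : HF K W) {g : GLV K W} : rsHom F g ∈ (H.tr hst).U ↔ g ∈ H.U :=
  ⟨fun h u v => eq_of_trace_mul (F := F) fun c => by simpa [HF.tr_h] using h u (c • v),
    fun h u v => congrArg (Algebra.trace F K) (h u v)⟩

/-- `U(W, K) ≤ U(V, F)`. -/
theorem exists_trU (hF : Sec F) (H₁ : HF K W) (H : HF F V) (hd : finrank F W = finrank F V) :
    ∃ ι : H₁.U →* H.U, Injective ι ∧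
      (∀ x, cls ((ι x).1 : End F V) = resS F (1 : Kˣ) (cls (x.1 : End K W))) ∧
      ∀ (ζ : Kˣ) (x : H₁.U), x.1 = scal W ζ → Algebra.adjoin F {(ζ : K)} = ⊤ →
        centralizer {ι x} ≤ ι.range := by
  obtain ⟨e, he⟩ := (H₁.tr hst).exists_isometry_of_finrank hF H hd
  let f : H₁.U →* (H₁.tr hst).U :=
    ((rsHom F).comp H₁.U.subtype).codRestrict _ fun x => (H₁.rsHom_mem hst).2 x.2
  refine ⟨((H₁.tr hst).conjU H e he).toMonoidHom.comp f, ((H₁.tr hst).conjU H e he).injective.comp
    fun x y h => Subtype.ext (rsHom_injective (F := F) (congrArg Subtype.val h)), fun x => ?_,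
    fun ζ x hx hζ => centralizer_le_range_comp _ _ fun g hg => ?_⟩
  · rw [resS_cls, Units.val_one, one_smul]
    exact (H₁.tr hst).cls_conjU H e he _
  · have h1 : g.1 * rsHom F x.1 = rsHom F x.1 * g.1 :=
      congrArg Subtype.val (mem_centralizer_singleton_iff.1 hg)
    obtain ⟨y, hy⟩ := (centralizer_rsHom_scal (V₁ := W) hζ).le
      (mem_centralizer_singleton_iff.2 (hx ▸ h1))
    exact ⟨⟨y, (H₁.rsHom_mem hst).1 (hy ▸ g.2)⟩, Subtype.ext hy⟩

end tr

section hyp

variable (H₀ : HF F W)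

/-- The contragredient. -/
noncomputable def HF.cg : GLV F W →* GLV F W where
  toFun g := ⟨H₀.adj (g⁻¹ : GLV F W), H₀.adj g, by rw [← H₀.adj_mul, Units.mul_inv, H₀.adj_one],
    by rw [← H₀.adj_mul, Units.inv_mul, H₀.adj_one]⟩
  map_one' := Units.ext (by simpa using H₀.adj_one)
  map_mul' a b := Units.ext (by simpa using H₀.adj_mul _ _)

theorem HF.cg_val (g : GLV F W) : (H₀.cg g : End F W) = H₀.adj (g⁻¹ : GLV F W) := rfl

/-- The hyperbolic form. -/
def HF.hyp : HF F (W × W) where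
  h := (H₀.h.comp (LinearMap.fst F W W)).compl₂ (LinearMap.snd F W W) +
    (H₀.h.comp (LinearMap.snd F W W)).compl₂ (LinearMap.fst F W W)
  symm u v := by simp [H₀.symm, add_comm]
  nondeg u h := Prod.ext (H₀.nondeg _ fun v => by simpa using h (0, v))
    (H₀.nondeg _ fun v => by simpa using h (v, 0))

theorem HF.hyp_h (u v : W × W) : H₀.hyp.h u v = H₀.h u.1 v.2 + H₀.h u.2 v.1 := rfl

theorem HF.blkHom_mem_hyp (H : HF F V) (e : (W × W) ≃ₗ[F] V)
    (he : ∀ u v, H.h (e u) (e v) = H₀.hyp.h u v) {x y : GLV F W} :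
    blkHom e (x, y) ∈ H.U ↔ y = H₀.cg x := by
  refine ⟨fun h => Units.ext (LinearMap.ext fun v => H₀.ext_right fun u => ?_), ?_⟩
  · have := h (e ((x⁻¹ : GLV F W).1 u, 0)) (e (0, v))
    rw [blkHom_apply, blkHom_apply, he, he, HF.hyp_h, HF.hyp_h, ← End.mul_apply, Units.mul_inv] at this
    simpa [HF.cg_val, H₀.adj_right] using this
  · rintro rfl u v
    obtain ⟨⟨u₁, u₂⟩, rfl⟩ := e.surjective u
    obtain ⟨⟨v₁, v₂⟩, rfl⟩ := e.surjective v
    rw [blkHom_apply, blkHom_apply, he, he, HF.hyp_h, HF.hyp_h, HF.cg_val, H₀.adj_right, H₀.adj_left,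
      ← End.mul_apply, ← End.mul_apply, Units.inv_mul, End.one_apply, End.one_apply]

theorem HF.jt_adj' (hF : Sec F) (x : End F W) (t : k) :
    jt (t ^ fq F) (cls (H₀.adj x)) = jt t (cls x) := by
  rw [cls_eq_iff.2 (sim_dualMap x)]
  exact jt_semilinear (σ := starRingEnd F) hF.star_eq_pow hF.exists_pow H₀.toDual.symm (fun φ =>
    H₀.ext_left fun v => by rw [H₀.h_toDual_symm, H₀.adj_left, H₀.h_toDual_symm]; rfl) t

theorem HF.jt_cg (hF : Sec F) (g : GLV F W) (t : k) :
    jt t (cls (H₀.cg g : End F W)) = jt (t ^ (-(fq F : ℤ))) (cls (g : End F W)) := by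
  rw [← jt_pow_card t 1, pow_one, hF.card_eq, sq, pow_mul, HF.cg_val, H₀.jt_adj' hF, zpow_neg,
    zpow_natCast, ← jt_inv (t ^ fq F)⁻¹ g, inv_inv]

/-- `GL(W) ≤ U(W ⊕ W†)`. -/
theorem exists_hypU (hF : Sec F) (H : HF F V) (hd : 2 * finrank F W = finrank F V) :
    ∃ ι : GLV F W →* H.U, Injective ι ∧
      (∀ x (t : k), jt t (cls ((ι x).1 : End F V)) =
        jt t (cls (x : End F W)) + jt (t ^ (-(fq F : ℤ))) (cls (x : End F W))) ∧
      ∀ x : GLV F W, (∀ t ∈ ev k (cls (x : End F W)), t ^ (-(fq F : ℤ)) ∉ ev k (cls (x : End F W))) →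
        centralizer {ι x} ≤ (centralizer {x}).map ι := by
  let H₀ := (HF.std F (Fin (finrank F W))).congr (Module.finBasis F W).equivFun
  obtain ⟨e, he⟩ := H₀.hyp.exists_isometry_of_finrank hF H (by rw [finrank_prod, ← hd, two_mul])
  refine ⟨((blkHom e).comp ((MonoidHom.id _).prod H₀.cg)).codRestrict _ fun x =>
    (H₀.blkHom_mem_hyp H e he).2 rfl, fun x y h =>
      congrArg Prod.fst (blkHom_injective e (congrArg Subtype.val h)), fun x t => ?_,
    fun x hx g hg => ?_⟩
  · rw [← H₀.jt_cg hF, ← jt_add, ← cls_blkHom e]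
    rfl
  · obtain ⟨g₁, h₁, g₂, -, h⟩ := exists_blkHom_eq (k := k) e (x₁ := x) (x₂ := H₀.cg x)
      (x := blkHom e (x, H₀.cg x)) (fun u => (blkHom_apply e x (H₀.cg x) u.1 u.2).symm)
      (fun t ht => by
        rw [← jt_eq_zero_iff, H₀.jt_cg hF, jt_eq_zero_iff]
        exact hx t ht) (g := g.1)
      (congrArg (fun g : H.U => (g.1 : End F V)) (mem_centralizer_singleton_iff.1 hg))
    obtain rfl := (H₀.blkHom_mem_hyp H e he).1 (h ▸ g.2)
    exact ⟨g₁, mem_centralizer_singleton_iff.2 (Units.ext h₁), Subtype.ext h⟩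

end hyp

end Cfsg.Gun

set_option linter.all false in
theorem Cfsg.Rz.Gun_Tr_0 : True := by
  have := @_root_.Cfsg.Gun.HF.cg.eq_def.{0, 0}
  have := @_root_.Cfsg.Gun.HF.cg.eq_1.{0, 0}
  have := @_root_.Cfsg.Gun.HF.cg.fun_cases
  have := @_root_.Cfsg.Gun.HF.tr.eq_def.{0, 0}
  have := @_root_.Cfsg.Gun.HF.tr.eq_1.{0, 0}
  have := @_root_.Cfsg.Gun.HF.tr.fun_cases
  have := @_root_.Cfsg.Gun.HF.hyp.eq_def.{0, 0}
  have := @_root_.Cfsg.Gun.HF.hyp.eq_1.{0, 0}
  have := @_root_.Cfsg.Gun.HF.hyp.fun_cases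
  trivial
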